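import Mathlib
import Cfsg.Agent.Lib.ClassicalLinear.Generation

/-!
`SL_n(q)`, `n ≥ 3`, is generated by three conjugate regular unipotent elements: with `u` the upper
Jordan block, `w = g u g⁻¹ = u T` for a transvection `T` and `v` a lower conjugate of `u`.
-/

set_option autoImplicit false

namespace CfsgLib.InvCentralizers.RegularGen

open Matrix

section rankOne

variable {ι : Type} [Fintype ι] [DecidableEq ι] {R : Type*} [CommRing R]

theorem bracket_rankOne (x φ y ψ : ι → R) (hx : φ ⬝ᵥ x = 0) (hy : ψ ⬝ᵥ y = 0) (hxy : φ ⬝ᵥ y = 0) :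
    (1 + vecMulVec y ψ) * (1 + vecMulVec x φ) * (1 - vecMulVec y ψ) * (1 - vecMulVec x φ) =
      1 + (ψ ⬝ᵥ x) • vecMulVec y φ := by
  set N := vecMulVec x φ with hN
  set M := vecMulVec y ψ with hM
  have h1 : N * N = 0 := by rw [hN, vecMulVec_mul_vecMulVec, hx]; ext; simp [vecMulVec]
  have h2 : M * M = 0 := by rw [hM, vecMulVec_mul_vecMulVec, hy]; ext; simp [vecMulVec]
  have h3 : N * M = 0 := by rw [hN, hM, vecMulVec_mul_vecMulVec, hxy]; ext; simp [vecMulVec]
  have h4 : M * N = (ψ ⬝ᵥ x) • vecMulVec y φ := by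
    rw [hN, hM, vecMulVec_mul_vecMulVec]; ext; simp [vecMulVec]; ring
  rw [← h4]
  have e1 : ∀ A : Matrix ι ι R, M * (M * A) = 0 := fun A => by
    rw [← Matrix.mul_assoc, h2, Matrix.zero_mul]
  have e2 : ∀ A : Matrix ι ι R, N * (N * A) = 0 := fun A => by
    rw [← Matrix.mul_assoc, h1, Matrix.zero_mul]
  have e3 : ∀ A : Matrix ι ι R, N * (M * A) = 0 := fun A => by
    rw [← Matrix.mul_assoc, h3, Matrix.zero_mul]
  noncomm_ring [h1, h2, h3, e1, e2, e3]

/-- The set of matrices coming from a subgroup of the special linear group. -/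
def matSet (H : Subgroup (SpecialLinearGroup ι R)) : Set (Matrix ι ι R) :=
  (fun g : SpecialLinearGroup ι R => (g : Matrix ι ι R)) '' (H : Set (SpecialLinearGroup ι R))

variable {H : Subgroup (SpecialLinearGroup ι R)}

theorem mul_mem_matSet {A B : Matrix ι ι R} (hA : A ∈ matSet H) (hB : B ∈ matSet H) :
    A * B ∈ matSet H := by
  obtain ⟨a, ha, rfl⟩ := hA
  obtain ⟨b, hb, rfl⟩ := hB
  exact ⟨a * b, H.mul_mem ha hb, rfl⟩

theorem left_inv_mem_matSet {A B : Matrix ι ι R} (hA : A ∈ matSet H) (hBA : B * A = 1) :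
    B ∈ matSet H := by
  obtain ⟨a, ha, rfl⟩ := hA
  refine ⟨a⁻¹, H.inv_mem ha, ?_⟩
  refine (left_inv_eq_right_inv hBA ?_).symm
  change ((a * a⁻¹ : SpecialLinearGroup ι R) : Matrix ι ι R) = 1
  rw [mul_inv_cancel]; rfl

theorem conj_mem_matSet {A : Matrix ι ι R} (hA : A ∈ matSet H) {g : SpecialLinearGroup ι R}
    (hg : g ∈ H) : (g : Matrix ι ι R) * A * ((g⁻¹ : SpecialLinearGroup ι R) : Matrix ι ι R) ∈
      matSet H :=
  mul_mem_matSet (mul_mem_matSet hA' hA) hgi
where
  hA' : (g : Matrix ι ι R) ∈ matSet H := ⟨g, hg, rfl⟩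
  hgi : ((g⁻¹ : SpecialLinearGroup ι R) : Matrix ι ι R) ∈ matSet H := ⟨g⁻¹, H.inv_mem hg, rfl⟩

theorem conj_rankOne (g : SpecialLinearGroup ι R) (x φ : ι → R) :
    (g : Matrix ι ι R) * (1 + vecMulVec x φ) * ((g⁻¹ : SpecialLinearGroup ι R) : Matrix ι ι R) =
      1 + vecMulVec ((g : Matrix ι ι R) *ᵥ x) (φ ᵥ* ((g⁻¹ : SpecialLinearGroup ι R) : Matrix ι ι R))
    := by
  rw [Matrix.mul_add, Matrix.mul_one, Matrix.add_mul, mul_vecMulVec, vecMulVec_mul]
  congr 1
  change ((g * g⁻¹ : SpecialLinearGroup ι R) : Matrix ι ι R) = 1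
  rw [mul_inv_cancel]; rfl

end rankOne

variable {F : Type*} [Field F] {n : ℕ}

theorem vecMulVec_single (i j : Fin n) (a : F) :
    vecMulVec (Pi.single i a) (Pi.single j (1 : F)) = Matrix.single i j a := by
  ext k l
  simp only [vecMulVec_apply, Pi.single_apply, Matrix.single_apply]
  split_ifs <;> simp_all

/-- The upper Jordan block with eigenvalue one. -/
def U (n : ℕ) (F : Type*) [Field F] : Matrix (Fin n) (Fin n) F :=
  Matrix.of fun i j => if (i : ℕ) = j ∨ (i : ℕ) + 1 = j then 1 else 0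

/-- The inverse of `U`. -/
def Ui (n : ℕ) (F : Type*) [Field F] : Matrix (Fin n) (Fin n) F :=
  Matrix.of fun i j => if (i : ℕ) ≤ j then (-1) ^ ((j : ℕ) - i) else 0

theorem U_apply (i j : Fin n) :
    U n F i j = if (i : ℕ) = j ∨ (i : ℕ) + 1 = j then 1 else 0 := rfl

theorem U_mul_apply (A : Matrix (Fin n) (Fin n) F) (i k : Fin n) :
    (U n F * A) i k = A i k + if h : (i : ℕ) + 1 < n then A ⟨i + 1, h⟩ k else 0 := by
  have key : ∀ j : Fin n, U n F i j * A j k =
      (if i = j then A j k else 0) + (if (i : ℕ) + 1 = j then A j k else 0) := by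
    intro j
    rw [U_apply]
    rcases eq_or_ne i j with rfl | h
    · simp
    · have h' : (i : ℕ) ≠ j := fun e => h (Fin.ext e)
      simp [h, h', ite_mul]
  rw [Matrix.mul_apply, Finset.sum_congr rfl fun j _ => key j, Finset.sum_add_distrib]
  simp only [Finset.sum_ite_eq, Finset.mem_univ, if_true]
  congr 1
  split_ifs with h
  · rw [Finset.sum_eq_single (⟨i + 1, h⟩ : Fin n)]
    · simp
    · intro j _ hj
      rw [if_neg]
      exact fun e => hj (Fin.ext e.symm)
    · simp
  · refine Finset.sum_eq_zero fun j _ => if_neg ?_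
    have := j.isLt
    omega

theorem U_mul_Ui : U n F * Ui n F = 1 := by
  ext i k
  rw [U_mul_apply]
  have := k.isLt
  simp only [Ui, Matrix.of_apply, Matrix.one_apply, Fin.ext_iff]
  rcases lt_trichotomy (i : ℕ) k with h | h | h
  · rw [dif_pos (by omega), if_pos h.le, if_pos (by omega), if_neg (by omega)]
    have e : (k : ℕ) - i = ((k : ℕ) - (i + 1)) + 1 := by omega
    rw [e, pow_succ]; ring
  · rw [if_pos h.le, if_pos h]
    have e : (k : ℕ) - i = 0 := by omega
    split_ifs with h' h''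
    · omega
    · simp [e]
    · simp [e]
  · rw [if_neg (by omega), if_neg (by omega)]
    split_ifs with h' h''
    all_goals first | omega | simp

theorem U_pow_apply : ∀ (j : ℕ) (i k : Fin n),
    ((k : ℕ) < i ∨ (i : ℕ) + j < k → (U n F ^ j) i k = 0) ∧
    ((i : ℕ) + j = k → (U n F ^ j) i k = 1) := by
  intro j
  induction j with
  | zero =>
    intro i k
    simp only [pow_zero, Matrix.one_apply, Fin.ext_iff]
    exact ⟨fun h => if_neg (by omega), fun h => if_pos (by omega)⟩
  | succ j ih =>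
    intro i k
    rw [pow_succ', U_mul_apply]
    refine ⟨fun h => ?_, fun h => ?_⟩
    · rw [(ih i k).1 (by omega), zero_add]
      split_ifs with h'
      · exact (ih ⟨i + 1, h'⟩ k).1 (by simp only; omega)
      · rfl
    · have := k.isLt
      rw [(ih i k).1 (by omega), zero_add, dif_pos (by omega)]
      exact (ih ⟨i + 1, by omega⟩ k).2 (by simp only; omega)

theorem N_pow_apply : ∀ (j : ℕ) (i k : Fin n),
    ((U n F - 1) ^ j) i k = if (i : ℕ) + j = k then 1 else 0 := by
  intro j
  induction j with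
  | zero => intro i k; simp [Matrix.one_apply, Fin.ext_iff]
  | succ j ih =>
    intro i k
    rw [pow_succ', sub_mul, one_mul, Matrix.sub_apply, U_mul_apply, add_sub_cancel_left]
    split_ifs with h h' h'
    · rw [ih, if_pos]; simp only; omega
    · rw [ih, if_neg]; simp only; omega
    · have := k.isLt; omega
    · rfl

theorem U_sub_one_nilpotent : IsNilpotent (U n F - 1) := by
  refine ⟨n, ?_⟩
  ext i k
  have := k.isLt
  rw [N_pow_apply, if_neg (by omega), Matrix.zero_apply]

theorem det_U : (U n F).det = 1 := by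
  rw [Matrix.det_of_isUpperTriangular]
  · refine Finset.prod_eq_one fun i _ => ?_
    simp [U_apply]
  · intro i j h
    have h' : (j : ℕ) < i := h
    rw [U_apply, if_neg (by omega)]

/-- The monomial matrix sending `e_j` to `c j e_{rev j}`. -/
def mono (c : Fin n → F) : Matrix (Fin n) (Fin n) F :=
  Fin.revPerm.permMatrix F * Matrix.diagonal c

theorem mono_apply (c : Fin n → F) (i j : Fin n) :
    mono c i j = if j = i.rev then c j else 0 := by
  rw [mono, Matrix.mul_diagonal]
  by_cases h : j = i.rev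
  · simp [h, Equiv.Perm.permMatrix, PEquiv.toMatrix_apply]
  · simp [h, Ne.symm h, Equiv.Perm.permMatrix, PEquiv.toMatrix_apply]

/-- The conjugate of `A` by `mono c`. -/
def conjMono (c : Fin n → F) (A : Matrix (Fin n) (Fin n) F) : Matrix (Fin n) (Fin n) F :=
  Matrix.of fun i j => c i.rev * A i.rev j.rev * (c j.rev)⁻¹

theorem conjMono_mul (c : Fin n → F) (hc : ∀ i, c i ≠ 0) (A : Matrix (Fin n) (Fin n) F) :
    conjMono c A * mono c = mono c * A := by
  ext i k
  rw [Matrix.mul_apply, Matrix.mul_apply, Finset.sum_eq_single k.rev, Finset.sum_eq_single i.rev]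
  · simp [conjMono, mono_apply, mul_assoc, hc]
  · intro j _ hj; simp [mono_apply, hj]
  · simp
  · intro j _ hj
    rw [mono_apply, if_neg, mul_zero]
    exact fun h => hj (by rw [h, Fin.rev_rev])
  · simp

theorem generated (n : ℕ) (hn : 3 ≤ n) [Fintype F] :
    ∃ u g h : SpecialLinearGroup (Fin n) F,
      (IsNilpotent ((u : Matrix (Fin n) (Fin n) F) - 1) ∧
        ((u : Matrix (Fin n) (Fin n) F) - 1) ^ (n - 1) ≠ 0) ∧
      Subgroup.closure ({u, g * u * g⁻¹, h * u * h⁻¹} : Set (SpecialLinearGroup (Fin n) F)) = ⊤ := by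
  classical
  obtain ⟨θu, hθ⟩ := IsCyclic.exists_generator (α := Fˣ)
  set θ : F := (θu : F) with hθdef
  have hθ0 : θ ≠ 0 := θu.ne_zero
  set i0 : Fin n := ⟨0, by omega⟩ with hi0
  set i1 : Fin n := ⟨1, by omega⟩ with hi1
  set z1 : Fin n := ⟨n - 2, by omega⟩ with hz1
  set z0 : Fin n := ⟨n - 1, by omega⟩ with hz0
  set s : F := ((Equiv.Perm.sign (Fin.revPerm (n := n)) : ℤ) : F) with hs
  have hs2 : s * s = 1 := by
    rcases Int.units_eq_one_or (Equiv.Perm.sign (Fin.revPerm (n := n))) with h | h <;> simp [hs, h]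
  have hs0 : s ≠ 0 := fun h => by simp [h] at hs2
  set c : Fin n → F := fun i => if i = i0 then s * θ⁻¹ else if i = z1 then θ else 1 with hc
  have hc0 : ∀ i, c i ≠ 0 := by
    intro i; simp only [hc]; split_ifs <;> simp [hθ0, hs0]
  have hdetg : (mono c).det = 1 := by
    rw [mono, det_mul, det_permutation, det_diagonal]
    have hne : z1 ≠ i0 := fun h => by simp [hz1, hi0, Fin.ext_iff] at h; omega
    rw [← Finset.mul_prod_erase _ _ (Finset.mem_univ i0),
      ← Finset.mul_prod_erase _ _ (Finset.mem_erase.2 ⟨hne, Finset.mem_univ z1⟩),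
      Finset.prod_eq_one (fun x hx => by
        simp only [Finset.mem_erase] at hx
        simp [hc, hx.1, hx.2.1]), mul_one]
    simp only [hc, if_true, if_neg hne, ← hs]
    field_simp
    linear_combination hs2
  let u : SpecialLinearGroup (Fin n) F := ⟨U n F, det_U⟩
  let g : SpecialLinearGroup (Fin n) F := ⟨mono c, hdetg⟩
  set v : SpecialLinearGroup (Fin n) F := g * u * g⁻¹ with hv
  have hvmat : ∀ j : ℕ, ((v ^ j : SpecialLinearGroup (Fin n) F) : Matrix (Fin n) (Fin n) F) =
      conjMono c (U n F ^ j) := by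
    intro j
    have h1 : conjMono c (U n F ^ j) * mono c =
        ((g * u ^ j : SpecialLinearGroup (Fin n) F) : Matrix (Fin n) (Fin n) F) := by
      rw [conjMono_mul c hc0]
      change _ = mono c * ((u ^ j : SpecialLinearGroup (Fin n) F) : Matrix (Fin n) (Fin n) F)
      exact congrArg (mono c * ·) (Matrix.SpecialLinearGroup.coe_pow u j).symm
    have h2 : ((v ^ j : SpecialLinearGroup (Fin n) F) : Matrix (Fin n) (Fin n) F) * mono c =
        ((g * u ^ j : SpecialLinearGroup (Fin n) F) : Matrix (Fin n) (Fin n) F) := by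
      change ((v ^ j * g : SpecialLinearGroup (Fin n) F) : Matrix (Fin n) (Fin n) F) = _
      rw [hv, conj_pow, inv_mul_cancel_right]
    have hu : IsUnit (mono c) := (Matrix.isUnit_iff_isUnit_det _).2 (by simp [hdetg])
    exact hu.mul_right_cancel (h2.trans h1.symm)
  have hvinv : ((v⁻¹ : SpecialLinearGroup (Fin n) F) : Matrix (Fin n) (Fin n) F) =
      conjMono c (Ui n F) := by
    have hu1 : ((u⁻¹ : SpecialLinearGroup (Fin n) F) : Matrix (Fin n) (Fin n) F) = Ui n F := by
      refine left_inv_eq_right_inv ?_ U_mul_Ui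
      change ((u⁻¹ * u : SpecialLinearGroup (Fin n) F) : Matrix (Fin n) (Fin n) F) = 1
      rw [inv_mul_cancel]; rfl
    have h1 : conjMono c (Ui n F) * mono c =
        ((g * u⁻¹ : SpecialLinearGroup (Fin n) F) : Matrix (Fin n) (Fin n) F) := by
      rw [conjMono_mul c hc0]
      change _ = mono c * ((u⁻¹ : SpecialLinearGroup (Fin n) F) : Matrix (Fin n) (Fin n) F)
      rw [hu1]
    have h2 : ((v⁻¹ : SpecialLinearGroup (Fin n) F) : Matrix (Fin n) (Fin n) F) * mono c =
        ((g * u⁻¹ : SpecialLinearGroup (Fin n) F) : Matrix (Fin n) (Fin n) F) := by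
      change ((v⁻¹ * g : SpecialLinearGroup (Fin n) F) : Matrix (Fin n) (Fin n) F) = _
      congr 1
      simp [hv, mul_assoc]
      rfl
    have hu : IsUnit (mono c) := (Matrix.isUnit_iff_isUnit_det _).2 (by simp [hdetg])
    exact hu.mul_right_cancel (h2.trans h1.symm)
  set φ : Fin n → F := Pi.single z0 1 with hφ
  set ψ : Fin n → F := φ ᵥ* ((v⁻¹ : SpecialLinearGroup (Fin n) F) : Matrix (Fin n) (Fin n) F)
    with hψ
  set β : F := ψ i0 with hβ
  have hβ0 : β ≠ 0 := by
    rw [hβ, hψ, hφ, Matrix.single_one_vecMul, Matrix.row_apply, hvinv]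
    have e1 : (z0.rev : ℕ) = 0 := by simp [hz0, Fin.val_rev]; omega
    simp only [conjMono, Matrix.of_apply, Ui, if_pos (show (z0.rev : ℕ) ≤ i0.rev by omega)]
    simp [hc0]
  set lam : F := β⁻¹ with hlam
  have hi20 : i1 ≠ z0 := fun h => by simp [hi1, hz0, Fin.ext_iff] at h; omega
  let t : SpecialLinearGroup (Fin n) F :=
    SpecialLinearGroup.transvection hi20 (-lam)
  set K := Subgroup.closure
    ({u, t * u * t⁻¹, g * u * g⁻¹} : Set (SpecialLinearGroup (Fin n) F)) with hK
  refine ⟨u, t, g, ⟨U_sub_one_nilpotent, ?_⟩, ?_⟩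
  · intro h
    have := congrFun (congrFun h i0) z0
    simp [N_pow_apply, u, hi0, hz0] at this
  have huK : u ∈ K := Subgroup.subset_closure (by simp)
  have hvK : v ∈ K := Subgroup.subset_closure (by simp [hv])
  have hφU : φ ᵥ* U n F = φ := by
    funext j
    rw [hφ, Matrix.single_one_vecMul, Matrix.row_apply, U_apply, Pi.single_apply]
    have := j.isLt
    by_cases h : j = z0
    · simp [h]
    · rw [if_neg h, if_neg]
      rw [Fin.ext_iff] at h
      simp only [hz0] at h ⊢
      omega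
  have hTmem : (1 + vecMulVec (Pi.single i0 lam) φ : Matrix (Fin n) (Fin n) F) ∈ matSet K := by
    refine ⟨u⁻¹ * (t * u * t⁻¹), K.mul_mem (K.inv_mem huK) (Subgroup.subset_closure (by simp)), ?_⟩
    have key : U n F * (1 + vecMulVec (Pi.single i0 lam) φ) * Matrix.transvection i1 z0 (-lam) =
        Matrix.transvection i1 z0 (-lam) * U n F := by
      have e : ∀ a : F, (Matrix.transvection i1 z0 a) = 1 + vecMulVec (Pi.single i1 a) φ := by
        intro a
        rw [hφ, Matrix.transvection, vecMulVec_single]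
      have hu0 : U n F *ᵥ Pi.single i0 lam = Pi.single i0 lam := by
        funext i
        rw [Matrix.mulVec_single, Pi.single_apply]
        simp [U_apply, hi0, Fin.ext_iff]
      have hu1 : U n F *ᵥ Pi.single i1 (-lam) =
          Pi.single i1 (-lam) + Pi.single i0 (-lam) := by
        funext i
        rw [Matrix.mulVec_single, Pi.add_apply, Pi.single_apply, Pi.single_apply]
        simp only [U_apply, hi0, hi1, Fin.ext_iff]
        by_cases h : (i : ℕ) = 0 <;> by_cases h' : (i : ℕ) = 1 <;>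
          simp [U_apply, h, h']
        all_goals omega
      have hzero : φ ⬝ᵥ Pi.single i1 (-lam) = 0 := by
        simp [hφ, hi20.symm]
      rw [e, Matrix.mul_add (U n F), Matrix.mul_one (U n F), mul_vecMulVec (U n F), hu0,
        Matrix.mul_add, Matrix.mul_one, Matrix.add_mul, mul_vecMulVec, hu1,
        vecMulVec_mul_vecMulVec, hzero, Matrix.add_mul, Matrix.one_mul, vecMulVec_mul, hφU]
      ext i j
      simp [vecMulVec, Pi.single_apply]
      split_ifs <;> ring
    have hT : ((u⁻¹ * (t * u * t⁻¹) : SpecialLinearGroup (Fin n) F) : Matrix (Fin n) (Fin n) F) =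
        ((u⁻¹ * (t * u * t⁻¹) : SpecialLinearGroup (Fin n) F) : Matrix (Fin n) (Fin n) F) := rfl
    have hu : IsUnit ((t : SpecialLinearGroup (Fin n) F) : Matrix (Fin n) (Fin n) F) :=
      (Matrix.isUnit_iff_isUnit_det _).2 (by rw [t.2]; exact isUnit_one)
    have huu : IsUnit (U n F) := (Matrix.isUnit_iff_isUnit_det _).2 (by simp [det_U])
    refine huu.mul_left_cancel (hu.mul_right_cancel ?_)
    refine Eq.trans ?_ key.symm
    change ((u * (u⁻¹ * (t * u * t⁻¹)) * t : SpecialLinearGroup (Fin n) F) :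
      Matrix (Fin n) (Fin n) F) = ((t * u : SpecialLinearGroup (Fin n) F) : Matrix _ _ F)
    congr 1
    simp [mul_assoc]
    rfl
  let L : Set (Fin n → F) := {x | x z0 = 0 ∧ (1 + vecMulVec x φ) ∈ matSet K}
  have hφdot : ∀ x : Fin n → F, φ ⬝ᵥ x = x z0 := fun x => by simp [hφ]
  have hadd : ∀ x ∈ L, ∀ y ∈ L, x + y ∈ L := by
    intro x hx y hy
    refine ⟨by simp [hx.1, hy.1], ?_⟩
    have := mul_mem_matSet hx.2 hy.2
    convert this using 1
    rw [Matrix.mul_add, Matrix.mul_one, Matrix.add_mul, Matrix.one_mul, vecMulVec_mul_vecMulVec,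
      hφdot, hy.1]
    ext i j
    simp [vecMulVec]; ring
  have hneg : ∀ x ∈ L, -x ∈ L := by
    intro x hx
    refine ⟨by simp [hx.1], left_inv_mem_matSet hx.2 ?_⟩
    rw [Matrix.mul_add, Matrix.mul_one, Matrix.add_mul, Matrix.one_mul, vecMulVec_mul_vecMulVec,
      hφdot, hx.1]
    ext i j
    simp [vecMulVec]
  have hzero : (0 : Fin n → F) ∈ L := by
    refine ⟨rfl, ?_⟩
    refine ⟨1, K.one_mem, ?_⟩
    ext i j; simp [vecMulVec]
  have hUL : ∀ x ∈ L, U n F *ᵥ x ∈ L := by
    intro x hx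
    have h0 : (U n F *ᵥ x) z0 = 0 := by
      rw [← hφdot (U n F *ᵥ x), dotProduct_mulVec, hφU, hφdot, hx.1]
    refine ⟨h0, ?_⟩
    have := conj_mem_matSet hx.2 huK
    rw [conj_rankOne] at this
    convert this using 3
    have h1 : φ ᵥ* (U n F * ((u⁻¹ : SpecialLinearGroup (Fin n) F) : Matrix (Fin n) (Fin n) F)) =
        φ := by
      change φ ᵥ* ((u * u⁻¹ : SpecialLinearGroup (Fin n) F) : Matrix (Fin n) (Fin n) F) = φ
      rw [mul_inv_cancel]; simp
    rwa [← vecMul_vecMul, hφU, eq_comm] at h1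
  have hT0 : Pi.single i0 lam ∈ L := by
    refine ⟨?_, hTmem⟩
    rw [Pi.single_apply, if_neg]
    simp [hi0, hz0, Fin.ext_iff]; omega
  have hVL : ∀ x ∈ L, ((v : Matrix (Fin n) (Fin n) F) *ᵥ x) z0 = 0 →
      (v : Matrix (Fin n) (Fin n) F) *ᵥ x ∈ L := by
    intro x hx h0
    refine ⟨h0, ?_⟩
    have hY := conj_mem_matSet hx.2 hvK
    rw [conj_rankOne, ← hψ] at hY
    have hψy : ψ ⬝ᵥ ((v : Matrix (Fin n) (Fin n) F) *ᵥ x) = 0 := by
      rw [hψ, ← dotProduct_mulVec, mulVec_mulVec]
      change φ ⬝ᵥ (((v⁻¹ * v : SpecialLinearGroup (Fin n) F) : Matrix (Fin n) (Fin n) F) *ᵥ x) = 0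
      rw [inv_mul_cancel]
      change φ ⬝ᵥ ((1 : Matrix (Fin n) (Fin n) F) *ᵥ x) = 0
      rw [one_mulVec, hφdot, hx.1]
    have hbr := bracket_rankOne (Pi.single i0 lam) φ ((v : Matrix (Fin n) (Fin n) F) *ᵥ x) ψ
      (by rw [hφdot]; exact hT0.1) hψy (by rw [hφdot]; exact h0)
    have hone : ψ ⬝ᵥ Pi.single i0 lam = 1 := by
      rw [dotProduct_single, ← hβ, hlam, mul_inv_cancel₀ hβ0]
    rw [hone, one_smul] at hbr
    rw [← hbr]
    have hinv : ∀ (y χ : Fin n → F), χ ⬝ᵥ y = 0 → (1 + vecMulVec y χ) ∈ matSet K →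
        (1 - vecMulVec y χ) ∈ matSet K := by
      intro y χ hy hm
      refine left_inv_mem_matSet hm ?_
      rw [Matrix.mul_add, Matrix.mul_one, Matrix.sub_mul, Matrix.one_mul, vecMulVec_mul_vecMulVec,
        hy]
      ext i j; simp [vecMulVec]
    exact mul_mem_matSet (mul_mem_matSet (mul_mem_matSet hY hTmem) (hinv _ _ hψy hY))
      (hinv _ _ (by rw [hφdot]; exact hT0.1) hTmem)
  have hv_apply : ∀ i k : Fin n, (v : Matrix (Fin n) (Fin n) F) i k =
      c i.rev * U n F i.rev k.rev * (c k.rev)⁻¹ := by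
    intro i k
    have := hvmat 1
    rw [pow_one, pow_one] at this
    rw [this]; rfl
  have hvcol : ∀ (k : Fin n) (h : (k : ℕ) + 1 < n) (a : F),
      (v : Matrix (Fin n) (Fin n) F) *ᵥ Pi.single k a =
        Pi.single k a + Pi.single ⟨k + 1, h⟩
          (a * (c (Fin.rev ⟨k + 1, h⟩) * (c k.rev)⁻¹)) := by
    intro k h a
    funext i
    rw [Matrix.mulVec_single, Pi.add_apply, Pi.single_apply, Pi.single_apply]
    simp only [Pi.smul_apply, Matrix.col_apply, hv_apply]
    rw [U_apply]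
    have := i.isLt
    by_cases hik : i = k
    · subst hik
      have : i ≠ ⟨i + 1, h⟩ := fun e => by simp [Fin.ext_iff] at e
      simp [this, hc0, MulOpposite.smul_eq_mul_unop]
    · by_cases hik1 : i = ⟨k + 1, h⟩
      · subst hik1
        have : ((Fin.rev ⟨k + 1, h⟩ : Fin n) : ℕ) + 1 = (k.rev : ℕ) := by
          simp [Fin.val_rev]; omega
        rw [if_pos (Or.inr this)]
        simp [hik, MulOpposite.smul_eq_mul_unop]; ring
      · have h1 : ¬ ((i.rev : ℕ) = k.rev ∨ (i.rev : ℕ) + 1 = k.rev) := by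
          simp [Fin.val_rev, Fin.ext_iff] at hik hik1 ⊢
          omega
        rw [if_neg h1]
        simp [hik, hik1, MulOpposite.smul_eq_mul_unop]
  have hVsingle : ∀ (k : Fin n) (h : (k : ℕ) + 2 < n) (a : F), Pi.single k a ∈ L →
      Pi.single (⟨k + 1, by omega⟩ : Fin n)
        (a * (c (Fin.rev (⟨k + 1, by omega⟩ : Fin n)) * (c k.rev)⁻¹)) ∈ L := by
    intro k h a hka
    have h0 : ((v : Matrix (Fin n) (Fin n) F) *ᵥ Pi.single k a) z0 = 0 := by
      rw [hvcol k (by omega), Pi.add_apply, Pi.single_apply, Pi.single_apply, if_neg, if_neg,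
        add_zero] <;> simp [hz0, Fin.ext_iff] <;> omega
    have := hVL _ hka h0
    rw [hvcol k (by omega)] at this
    simpa using hadd _ this _ (hneg _ hka)
  have hi01 : (⟨(i0 : ℕ) + 1, by simp [hi0]; omega⟩ : Fin n) = i1 := rfl
  have hcθ : c (Fin.rev i1) * (c i0.rev)⁻¹ = θ := by
    have e1 : Fin.rev i1 = z1 := by simp [hi1, hz1, Fin.ext_iff, Fin.val_rev]
    have e2 : i0.rev = z0 := by simp [hi0, hz0, Fin.ext_iff, Fin.val_rev]
    rw [e1, e2]
    simp only [hc]
    have n1 : z0 ≠ i0 := fun e => by simp [hz0, hi0, Fin.ext_iff] at e; omega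
    have n2 : z0 ≠ z1 := fun e => by simp [hz0, hz1, Fin.ext_iff] at e; omega
    have n3 : z1 ≠ i0 := fun e => by simp [hz1, hi0, Fin.ext_iff] at e; omega
    simp [n1, n2, n3]
  have hθstep : ∀ a : F, Pi.single i0 a ∈ L → Pi.single i0 (a * θ) ∈ L := by
    intro a ha
    have h1 := hVsingle i0 (by simp [hi0]; omega) a ha
    rw [hi01, hcθ] at h1
    have h2 := hadd _ (hUL _ h1) _ (hneg _ h1)
    convert h2 using 1
    funext i
    rw [Pi.add_apply, Matrix.mulVec_single]
    simp only [Pi.smul_apply, Pi.neg_apply, Pi.single_apply, Matrix.col_apply, U_apply, hi0, hi1,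
      Fin.ext_iff, MulOpposite.smul_eq_mul_unop, MulOpposite.unop_op]
    by_cases h : (i : ℕ) = 0 <;> by_cases h' : (i : ℕ) = 1 <;> simp [h, h']
  have hall0 : ∀ a : F, Pi.single i0 a ∈ L := by
    have hpow : ∀ k : ℕ, Pi.single i0 (lam * θ ^ k) ∈ L := by
      intro k
      induction k with
      | zero => simpa using hT0
      | succ k ih => rw [pow_succ, ← mul_assoc]; exact hθstep _ ih
    intro a
    rcases eq_or_ne a 0 with rfl | ha
    · simpa using hzero
    · obtain ⟨k, hk⟩ : ∃ k : ℕ, θu ^ k = Units.mk0 (a / lam) (div_ne_zero ha (inv_ne_zero hβ0)) :=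
        (Submonoid.mem_powers_iff _ _).1 (mem_powers_iff_mem_zpowers.2 (hθ _))
      have := hpow k
      rw [hθdef, ← Units.val_pow_eq_pow_val, hk, Units.val_mk0,
        mul_div_cancel₀ _ (inv_ne_zero hβ0)] at this
      exact this
  have hall : ∀ (k : ℕ) (hk : k + 1 < n) (a : F), Pi.single (⟨k, by omega⟩ : Fin n) a ∈ L := by
    intro k
    induction k with
    | zero => intro _ a; exact hall0 a
    | succ k ih =>
      intro hk a
      set b := c (Fin.rev (⟨k + 1, by omega⟩ : Fin n)) * (c (Fin.rev (⟨k, by omega⟩ : Fin n)))⁻¹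
      have hb : b ≠ 0 := mul_ne_zero (hc0 _) (inv_ne_zero (hc0 _))
      have := hVsingle ⟨k, by omega⟩ (by simp only; omega) (a / b) (ih (by omega) _)
      rwa [div_mul_cancel₀ a hb] at this
  have hLfull : ∀ x : Fin n → F, x z0 = 0 → x ∈ L := by
    intro x hx
    rw [← Finset.univ_sum_single x]
    refine Finset.sum_induction _ (· ∈ L) (fun a b ha hb => hadd a ha b hb) hzero fun i _ => ?_
    by_cases h : i = z0
    · rw [h, hx, Pi.single_zero]; exact hzero
    · have h' : (i : ℕ) + 1 < n := by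
        have := i.isLt; simp [hz0, Fin.ext_iff] at h; omega
      exact hall i h' _
  set P : Matrix (Fin n) (Fin n) F := Matrix.of fun j k => conjMono c (U n F ^ (j : ℕ)) z0 k
    with hP
  have hPdet : P.det ≠ 0 := by
    have h1 : (P.submatrix id Fin.revPerm).det ≠ 0 := by
      rw [Matrix.det_of_isLowerTriangular]
      · refine Finset.prod_ne_zero_iff.2 fun j _ => ?_
        have e : z0.rev = i0 := by simp [hi0, hz0, Fin.ext_iff, Fin.val_rev]; omega
        simp [hP, conjMono, Fin.rev_rev, e, (U_pow_apply (n := n) (F := F) (j : ℕ) i0 j).2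
          (by simp [hi0]), hc0]
      · intro i j h
        have h' : (i : ℕ) < j := h
        have e : z0.rev = i0 := by simp [hi0, hz0, Fin.ext_iff, Fin.val_rev]; omega
        simp [hP, conjMono, Fin.rev_rev, e, (U_pow_apply (n := n) (F := F) (i : ℕ) i0 j).1
          (Or.inr (by simp [hi0]; omega))]
    intro h0
    apply h1
    rw [Matrix.det_permute', h0, mul_zero]
  have hrow : ∀ (j : Fin n) (x : Fin n → F), P j ⬝ᵥ x = 0 →
      1 + vecMulVec x (P j) ∈ matSet K := by
    intro j x hx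
    have hPj : P j = φ ᵥ* ((v ^ (j : ℕ) : SpecialLinearGroup (Fin n) F) : Matrix _ _ F) := by
      rw [hφ, Matrix.single_one_vecMul, hvmat]; rfl
    have hz : (((v ^ (j : ℕ) : SpecialLinearGroup (Fin n) F) : Matrix _ _ F) *ᵥ x) z0 = 0 := by
      rw [← hφdot (((v ^ (j : ℕ) : SpecialLinearGroup (Fin n) F) : Matrix _ _ F) *ᵥ x), dotProduct_mulVec, ← hPj, hx]
    have := conj_mem_matSet (hLfull _ hz).2 (K.inv_mem (K.pow_mem hvK (j : ℕ)))
    rw [conj_rankOne, inv_inv, mulVec_mulVec] at this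
    have h1 : (((v ^ (j : ℕ))⁻¹ : SpecialLinearGroup (Fin n) F) : Matrix (Fin n) (Fin n) F) *
        ((v ^ (j : ℕ) : SpecialLinearGroup (Fin n) F) : Matrix (Fin n) (Fin n) F) = 1 := by
      change (((v ^ (j : ℕ))⁻¹ * v ^ (j : ℕ) : SpecialLinearGroup (Fin n) F) :
        Matrix (Fin n) (Fin n) F) = 1
      rw [inv_mul_cancel]; rfl
    rw [h1, one_mulVec, ← hPj] at this
    exact this
  have hPi : IsUnit P.det := isUnit_iff_ne_zero.2 hPdet
  have hP1 : P * P⁻¹ = 1 := Matrix.mul_nonsing_inv P hPi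
  have hP2 : P⁻¹ * P = 1 := Matrix.nonsing_inv_mul P hPi
  have hconj : ∀ A : SpecialLinearGroup (Fin n) F,
      P⁻¹ * (A : Matrix (Fin n) (Fin n) F) * P ∈ matSet K := by
    intro A
    induction A using CfsgLib.ClassicalLinear.transvection_induction with
    | one => exact ⟨1, K.one_mem, by simp [hP2]⟩
    | transvec i j hij a =>
      have h1 : Matrix.transvection i j a = 1 + vecMulVec (Pi.single i a) (Pi.single j 1) := by
        rw [Matrix.transvection, vecMulVec_single]
      change P⁻¹ * Matrix.transvection i j a * P ∈ matSet K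
      rw [h1, Matrix.mul_add, Matrix.mul_one, Matrix.add_mul, hP2, mul_vecMulVec, vecMulVec_mul,
        Matrix.single_one_vecMul]
      refine hrow j _ ?_
      have h2 : P *ᵥ (P⁻¹ *ᵥ Pi.single i a) = Pi.single i a := by
        rw [mulVec_mulVec, hP1, one_mulVec]
      have h3 := congrFun h2 j
      rw [Pi.single_apply, if_neg hij.symm] at h3
      exact h3
    | mul A B hA hB =>
      have := mul_mem_matSet hA hB
      convert this using 1
      change P⁻¹ * ((A : Matrix (Fin n) (Fin n) F) * (B : Matrix (Fin n) (Fin n) F)) * P = _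
      simp only [Matrix.mul_assoc]
      rw [← Matrix.mul_assoc P P⁻¹, hP1, Matrix.one_mul]
  rw [eq_top_iff]
  intro B _
  have hdet : (P * (B : Matrix (Fin n) (Fin n) F) * P⁻¹).det = 1 := by
    rw [det_mul, det_mul, B.2, mul_one, ← det_mul, hP1, det_one]
  obtain ⟨b, hb, hbB⟩ := hconj ⟨_, hdet⟩
  have : b = B := by
    apply Subtype.ext
    change (b : Matrix (Fin n) (Fin n) F) = B
    rw [show (b : Matrix (Fin n) (Fin n) F) = _ from hbB]
    change P⁻¹ * (P * (B : Matrix (Fin n) (Fin n) F) * P⁻¹) * P = B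
    rw [show P⁻¹ * (P * (B : Matrix (Fin n) (Fin n) F) * P⁻¹) * P =
      (P⁻¹ * P) * (B : Matrix (Fin n) (Fin n) F) * (P⁻¹ * P) by simp only [Matrix.mul_assoc],
      hP2, Matrix.one_mul, Matrix.mul_one]
  exact this ▸ hb

end CfsgLib.InvCentralizers.RegularGen
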