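import Cfsg.Agent.Lib.InvCentralizers.SteinbergCount
import Cfsg.Agent.Lib.InvCentralizers.ChevalleySteinberg

/-!
The (B,N)-pair of a Chevalley group is split.
-/

set_option autoImplicit false
set_option linter.unusedSectionVars false
set_option linter.style.haveILetI false

namespace CfsgLib.InvCentralizers.ChevalleySplit

open Cfsg.Lie CfsgLib.Chevalley CfsgLib.BNPair
open CfsgLib.InvCentralizers.ChevalleySteinberg

variable {D : ChevalleyDatum} {A : Aux} {F : Type*} [Field F]

/-- The positive roots with a positive coordinate outside `J`. -/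
def outRoots (D : ChevalleyDatum) (A : Aux) (J : Set ℕ) : Set ℕ :=
  {r | D.IsPosRoot r ∧ ∃ i < D.rank, i ∉ J ∧ 0 < crd A i r}

theorem xG_conj_out (h : Full D A) (J : Set ℕ) {r : ℕ} (hr : D.IsPosRoot r) (t : F) :
    ∀ v ∈ rootsU D F (outRoots D A J),
      xG h.cert r t * v * (xG h.cert r t)⁻¹ ∈ rootsU D F (outRoots D A J) := by
  refine xG_conj_rootsU h.toStd hr.1 (fun s hs => hs.1.1) (fun s hs hne => ⟨?_, fun c hc => ?_⟩) t
  · intro e
    exact h.pos_not_neg hs.1 (e ▸ h.toStd.neg_isNeg hr)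
  · obtain ⟨hlt, a, b, ha, hb, hcrd⟩ := h.commTerms_crd hr.1 hs.1.1 hc
    obtain ⟨i, hi, hiJ, hpos⟩ := hs.2
    have : 0 < crd A i c.1 := by
      rw [hcrd i hi]
      have := h.crd_nonneg hr hi
      positivity
    exact ⟨h.isPos_of_crd_pos hlt hi this, i, hi, hiJ, this⟩

theorem posUnipotent_conj_out (h : Full D A) (J : Set ℕ) {u : GL D.Idx F}
    (hu : u ∈ D.posUnipotent F) :
    ∀ v ∈ rootsU D F (outRoots D A J), u * v * u⁻¹ ∈ rootsU D F (outRoots D A J) := by
  rw [posUnipotent_eq] at hu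
  induction hu using rootsU_induction h.cert with
  | h1 => intro v hv; simpa using hv
  | hx r hr t => exact xG_conj_out h J hr t
  | hmul a b _ _ ha hb =>
    intro v hv
    have := ha _ (hb v hv)
    simpa [mul_assoc] using this

theorem borel_conj_out (h : Full D A) (J : Set ℕ) {b : GL D.Idx F} (hb : b ∈ D.borelSubgroup F) :
    ∀ v ∈ rootsU D F (outRoots D A J), b * v * b⁻¹ ∈ rootsU D F (outRoots D A J) := by
  obtain ⟨u, hu, t, ht, rfl⟩ := (mem_borel_iff h).1 hb
  intro v hv
  have := posUnipotent_conj_out h J hu _ (diagonal_conj_rootsU h _ t ht v hv)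
  simpa [mul_assoc] using this

theorem rep_conj_out (h : Full D A) (J : Set ℕ) (k : Fin D.rank) (hk : (k : ℕ) ∈ J) {c : F}
    (hc : c ≠ 0) :
    ∀ v ∈ rootsU D F (outRoots D A J),
      nG h.cert (D.simple k) c * v * (nG h.cert (D.simple k) c)⁻¹ ∈ rootsU D F (outRoots D A J) := by
  refine (acts_nG_simple h k hc).conj_rootsU fun s hs => ?_
  obtain ⟨-, i, hi, hiJ, hpos⟩ := hs
  have e : crd A i (rfPerm h.cert k s : Fin D.nroots) = crd A i (s : ℕ) := by
    rw [rfPerm_apply, h.crd_rf k hi, if_neg (fun e : (k : ℕ) = i => hiJ (e ▸ hk)), mul_zero, sub_zero]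
  exact ⟨h.isPos_of_crd_pos (rfPerm h.cert k s).isLt hi (e ▸ hpos), i, hi, hiJ, e ▸ hpos⟩

/-- A word in `J` making the positive roots of the subsystem negative. -/
theorem exists_longest_in (h : Full D A) (J : Set ℕ) :
    ∃ l : List (Fin D.rank), (∀ x ∈ l, (x : ℕ) ∈ J) ∧ ∀ r : Fin D.nroots, D.IsPosRoot r →
      (∀ i < D.rank, i ∉ J → crd A i r = 0) → D.IsNegRoot (wPerm h.cert l r) := by
  classical
  let inv : List (Fin D.rank) → Finset (Fin D.nroots) := fun l =>
    Finset.univ.filter fun r : Fin D.nroots => D.IsPosRoot r ∧ D.IsNegRoot (wPerm h.cert l r)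
  obtain ⟨l, hlJ, hmax⟩ : ∃ l : List (Fin D.rank), (∀ x ∈ l, (x : ℕ) ∈ J) ∧
      ∀ l' : List (Fin D.rank), (∀ x ∈ l', (x : ℕ) ∈ J) → (inv l').card ≤ (inv l).card := by
    let S : Finset ℕ := (Finset.range (D.nroots + 1)).filter fun m =>
      ∃ l : List (Fin D.rank), (∀ x ∈ l, (x : ℕ) ∈ J) ∧ (inv l).card = m
    have hb : ∀ l, (inv l).card < D.nroots + 1 := fun l =>
      Nat.lt_succ_of_le ((Finset.card_le_univ _).trans (by simp))
    have hne : S.Nonempty :=
      ⟨(inv []).card, Finset.mem_filter.2 ⟨Finset.mem_range.2 (hb []), [], by simp, rfl⟩⟩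
    obtain ⟨l, hlJ, hl⟩ := (Finset.mem_filter.1 (S.max'_mem hne)).2
    exact ⟨l, hlJ, fun l' h' => hl ▸ S.le_max' _
      (Finset.mem_filter.2 ⟨Finset.mem_range.2 (hb l'), l', h', rfl⟩)⟩
  obtain ⟨η, hη⟩ := acts_nW (F := ℚ) h l
  have hneg : ∀ k : Fin D.rank, (k : ℕ) ∈ J → D.IsNegRoot (wPerm h.cert l (smp h.cert k)) := by
    intro k hk
    refine (h.pos.pos_or_neg (wPerm h.cert l (smp h.cert k)).isLt).resolve_left fun hp => ?_
    have hsub : insert (smp h.cert k) ((inv l).image (rf h.cert k)) ⊆ inv (l ++ [k]) := by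
      intro r hr
      rw [Finset.mem_insert, Finset.mem_image] at hr
      have hneg : D.IsNegRoot (wPerm h.cert l (ngR h.cert (smp h.cert k))) := by
        rw [hη.neg]
        exact h.neg_isNeg hp
      simp only [inv, Finset.mem_filter, Finset.mem_univ, true_and, wPerm_append, wPerm_cons,
        wPerm_nil, mul_one, Equiv.Perm.mul_apply, rfPerm_apply]
      rcases hr with rfl | ⟨s, hs, rfl⟩
      · exact ⟨h.simple_pos k.isLt, by rwa [rf_smp]⟩
      · simp only [inv, Finset.mem_filter, Finset.mem_univ, true_and] at hs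
        refine ⟨h.rf_ne_simple_pos k hs.1 fun e => h.pos_not_neg hp (e ▸ hs.2), by rw [rf_rf]; exact hs.2⟩
    have hnotin : smp h.cert k ∉ (inv l).image (rf h.cert k) := by
      simp only [Finset.mem_image, inv, Finset.mem_filter, Finset.mem_univ, true_and, not_exists,
        not_and]
      rintro s ⟨hs, -⟩ e
      have : s = ngR h.cert (smp h.cert k) := by rw [← rf_smp, ← e, rf_rf]
      rw [this] at hs
      exact h.pos_not_neg hs (h.neg_isNeg (h.simple_pos k.isLt))
    have := (Finset.card_le_card hsub).trans (hmax (l ++ [k]) (by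
      intro x hx
      rcases List.mem_append.1 hx with hx | hx
      · exact hlJ x hx
      · exact List.mem_singleton.1 hx ▸ hk))
    rw [Finset.card_insert_of_notMem hnotin,
      Finset.card_image_of_injective _ (Function.Involutive.injective (rf_rf h.cert k))] at this
    omega
  refine ⟨l, hlJ, fun r hr hsupp => ?_⟩
  refine (h.pos.pos_or_neg (wPerm h.cert l r).isLt).resolve_left fun hn => ?_
  have h0 : ∀ i < D.rank, crd A i (wPerm h.cert l r) = 0 := fun i hi => le_antisymm (by
    rw [hη.lin i hi r]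
    refine Finset.sum_nonpos fun j _ => ?_
    by_cases hjJ : (j : ℕ) ∈ J
    · exact mul_nonpos_of_nonneg_of_nonpos (h.crd_nonneg hr j.isLt) (h.crd_nonpos (hneg j hjJ) hi)
    · rw [hsupp j j.isLt hjJ, zero_mul]) (h.crd_nonneg hn hi)
  have h1 := h.pos.phi_pos hn
  have : phi D A (wPerm h.cert l r) = 0 := List.sum_eq_zero fun z hz => by
    obtain ⟨i, hi, rfl⟩ := List.mem_map.1 hz
    rw [h0 i (List.mem_range.1 hi), mul_zero]
  omega

theorem nW_conj_out (h : Full D A) (J : Set ℕ) : ∀ l : List (Fin D.rank), (∀ x ∈ l, (x : ℕ) ∈ J) →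
    ∀ v ∈ rootsU D F (outRoots D A J),
      nW h.cert F l * v * (nW h.cert F l)⁻¹ ∈ rootsU D F (outRoots D A J) := by
  intro l
  induction l with
  | nil => intro _ v hv; simpa using hv
  | cons i l ih =>
    intro hl v hv
    have := rep_conj_out h J i (hl i (by simp)) one_ne_zero _
      (ih (fun x hx => hl x (List.mem_cons_of_mem i hx)) v hv)
    simpa [nW_cons, mul_assoc] using this

/-- The fundamental roots of a set of representatives. -/
def idxSet (h : Full D A) (J : Set (D.group F)) : Set ℕ :=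
  {i | i < D.rank ∧ sRep h F i ∈ J}

variable [Fintype F]

/-- The split (B,N)-pair. -/
noncomputable def split (h : Full D A) {p : ℕ} [Fact p.Prime] [CharP F p] :
    SteinbergCount.Split (bnPair h F) p where
  U := (D.posUnipotent F).subgroupOf (D.group F)
  R J := (rootsU D F (outRoots D A (idxSet h J))).subgroupOf (D.group F)
  U_le _ hx := Subgroup.mem_sup_left (show _ ∈ D.posUnipotent F from hx)
  pGroup := (isPGroup_U h).of_equiv (Subgroup.subgroupOfEquivOfLe ((le_sup_left :
    D.posUnipotent F ≤ D.borelSubgroup F).trans (borel_le_group h.cert))).symm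
  index := not_dvd_index h
  exists_mul b hb := by
    obtain ⟨u, hu, t, ht, e⟩ := (mem_borel_iff h).1 (show (b : GL D.Idx F) ∈ D.borelSubgroup F from hb)
    exact ⟨⟨u, borel_le_group h.cert (Subgroup.mem_sup_left hu)⟩, hu,
      ⟨t, diagonal_le_group h.cert ht⟩, ⟨Subgroup.mem_sup_right ht,
        diagonal_le_monomial (D := D) (F := F) ht⟩, Subtype.ext e⟩
  R_le J _ x hx := by
    show (x : GL D.Idx F) ∈ D.posUnipotent F
    rw [posUnipotent_eq]
    exact rootsU_mono (fun r hr => hr.1) (show _ ∈ rootsU D F _ from hx)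
  R_normal J hJ g hg := by
    set O := rootsU D F (outRoots D A (idxSet h J))
    suffices hsuff : (bnPair h F).parabolic J ≤ (Subgroup.normalizer (O : Set (GL D.Idx F))).comap
        (D.group F).subtype by
      intro x hx
      exact ((Subgroup.mem_normalizer_iff.1 (hsuff hg)) (x : GL D.Idx F)).1 hx
    have key : ∀ {K : Subgroup (GL D.Idx F)}, (∀ k ∈ K, ∀ v ∈ O, k * v * k⁻¹ ∈ O) →
        K ≤ Subgroup.normalizer (O : Set (GL D.Idx F)) := fun hK => le_normalizer_of_conj_mem hK
    refine sup_le (fun b hb => key (fun k hk => borel_conj_out h _ hk) hb) ?_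
    rw [Subgroup.closure_le]
    intro s hs
    obtain ⟨i, e⟩ := (mem_simpleReps h).1 (hJ hs)
    have hi : (i : ℕ) ∈ idxSet h J := ⟨i.isLt, by
      rwa [show sRep h F i = s from Subtype.ext e.symm]⟩
    show (s : GL D.Idx F) ∈ Subgroup.normalizer (O : Set (GL D.Idx F))
    rw [e, Subgroup.mem_normalizer_iff]
    refine fun v => ⟨fun hv => rep_conj_out h _ i hi one_ne_zero v hv, fun hv => ?_⟩
    have := rep_conj_out h _ i hi (c := (-1 : F)) (by simp) _ hv
    rw [← nG_inv] at this
    simpa [mul_assoc] using this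
  stab J hJ := by
    classical
    obtain ⟨l, hlJ, hl⟩ := exists_longest_in h (idxSet h J)
    let n₀ : D.group F := ⟨nW h.cert F l, monomial_le_group h.cert (nW_mem_monomial h l)⟩
    have hn₀N : n₀ ∈ (bnPair h F).N := nW_mem_monomial h l
    have hn₀P : n₀ ∈ (bnPair h F).parabolic J := by
      have e : n₀ = (l.map fun i : Fin D.rank => sRep h F i).prod := by
        refine Subtype.ext ?_
        rw [SubmonoidClass.coe_list_prod, List.map_map]
        rfl
      rw [e]
      refine Subgroup.list_prod_mem _ fun x hx => ?_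
      obtain ⟨i, hi, rfl⟩ := List.mem_map.1 hx
      exact subset_parabolic J (hlJ i hi).2
    refine ⟨n₀⁻¹, Subgroup.inv_mem _ hn₀N, Subgroup.inv_mem _ hn₀P, fun x hx hxn => ?_⟩
    rw [inv_inv] at hxn
    have hxn' : nW h.cert F l * (x : GL D.Idx F) * (nW h.cert F l)⁻¹ ∈ D.borelSubgroup F := hxn
    obtain ⟨a, ha, b, hb, hab⟩ := split_pos h.toStd (P := outRoots D A (idxSet h J))
      (Q := {r | ∀ i < D.rank, i ∉ idxSet h J → crd A i r = 0}) (fun r hr => by
        by_cases hex : ∃ i < D.rank, i ∉ idxSet h J ∧ 0 < crd A i r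
        · exact Or.inl ⟨hr, hex⟩
        · refine Or.inr fun i hi hiJ => ?_
          exact le_antisymm (not_lt.1 fun hpos => hex ⟨i, hi, hiJ, hpos⟩) (h.crd_nonneg hr hi))
      (show (x : GL D.Idx F) ∈ D.posUnipotent F from hx)
    have ha' : a ∈ rootsU D F (outRoots D A (idxSet h J)) := rootsU_mono (fun r hr => hr.2) ha
    have h1 := nW_conj_out h (idxSet h J) l hlJ a ha'
    obtain ⟨η, hη⟩ := acts_nW (F := F) h l
    have h2 := hη.conj_rootsU (T := {r | D.IsNegRoot r}) (fun s hs => hl s hs.1 hs.2) b hb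
    have h3 : nW h.cert F l * b * (nW h.cert F l)⁻¹ ∈ D.borelSubgroup F := by
      have h4 := (D.borelSubgroup F).mul_mem ((D.borelSubgroup F).inv_mem (Subgroup.mem_sup_left
        (show _ ∈ D.posUnipotent F by
          rw [posUnipotent_eq]; exact rootsU_mono (fun r hr => hr.1) h1))) hxn'
      rw [hab] at h4
      simpa [mul_assoc] using h4
    have hmem : nW h.cert F l * b * (nW h.cert F l)⁻¹ ∈ D.borelSubgroup F ⊓ D.negUnipotent F :=
      ⟨h3, h2⟩
    rw [borel_inf_negUnipotent h, Subgroup.mem_bot, conj_eq_one_iff] at hmem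
    rw [hmem, mul_one] at hab
    show (x : GL D.Idx F) ∈ rootsU D F _
    rw [hab]
    exact ha'
  R_top := by
    refine eq_bot_iff.2 fun x hx => Subgroup.mem_bot.2 (Subtype.ext ?_)
    have he : outRoots D A (idxSet h (bnPair h F).S) = ∅ := by
      refine Set.eq_empty_iff_forall_notMem.2 fun r hr => ?_
      obtain ⟨i, hi, hiJ, -⟩ := hr.2
      exact hiJ ⟨hi, (mem_bnPair_S h).2 ⟨i, hi, rfl⟩⟩
    have hx' : (x : GL D.Idx F) ∈ rootsU D F (∅ : Set ℕ) := he ▸ hx
    show (x : GL D.Idx F) = 1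
    refine rootsU_induction (p := fun g _ => g = 1) h.cert rfl (fun r hr _ => absurd hr (Set.notMem_empty r))
      (fun a b _ _ ha hb => by rw [ha, hb, one_mul]) hx'

end CfsgLib.InvCentralizers.ChevalleySplit
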