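import Mathlib

/-!
Skew-Hermitian matrices for an involution of a finite field, their congruence classes, and the
bound `(q + 1) |class| ≥ q^(2m) - 1`.
-/

set_option autoImplicit false

namespace CfsgLib.InvCentralizers.HermOrbit

open Matrix Polynomial

variable {F : Type*} [Field F] (σ : F →+* F)

/-- Conjugate transpose for `σ`. -/
def cj {k l : Type*} (A : Matrix k l F) : Matrix l k F := (A.map σ)ᵀ

section cjLemmas

variable {k l m o : Type*}

theorem cj_apply (A : Matrix k l F) (i : l) (j : k) : cj σ A i j = σ (A j i) := rfl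

theorem cj_cj (hσ : ∀ a, σ (σ a) = a) (A : Matrix k l F) : cj σ (cj σ A) = A := by
  ext i j; simp [cj_apply, hσ]

theorem cj_mul [Fintype l] (A : Matrix k l F) (B : Matrix l m F) :
    cj σ (A * B) = cj σ B * cj σ A := by
  simp [cj, Matrix.map_mul, transpose_mul]

theorem cj_add (A B : Matrix k l F) : cj σ (A + B) = cj σ A + cj σ B := by
  ext i j; simp [cj_apply]

theorem cj_neg (A : Matrix k l F) : cj σ (-A) = -cj σ A := by
  ext i j; simp [cj_apply]

theorem cj_zero : cj σ (0 : Matrix k l F) = 0 := by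
  ext i j; simp [cj_apply]

theorem cj_one [DecidableEq k] : cj σ (1 : Matrix k k F) = 1 := by
  simp [cj]

theorem cj_smul (c : F) (A : Matrix k l F) : cj σ (c • A) = σ c • cj σ A := by
  ext i j; simp [cj_apply]

theorem cj_fromBlocks (A : Matrix k m F) (B : Matrix k o F) (C : Matrix l m F) (D : Matrix l o F) :
    cj σ (fromBlocks A B C D) = fromBlocks (cj σ A) (cj σ C) (cj σ B) (cj σ D) := by
  simp [cj, fromBlocks_map, fromBlocks_transpose]

theorem cj_vecMulVec (v : k → F) (w : l → F) :
    cj σ (vecMulVec v w) = vecMulVec (σ ∘ w) (σ ∘ v) := by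
  ext i j; simp [cj_apply, vecMulVec, mul_comm]

theorem det_cj [Fintype k] [DecidableEq k] (A : Matrix k k F) :
    (cj σ A).det = σ A.det := by
  rw [cj, det_transpose, RingHom.map_det]
  rfl

end cjLemmas

variable {m : ℕ}

/-- Skew-Hermitian matrices. -/
def skewMat (m : ℕ) : AddSubgroup (Matrix (Fin m) (Fin m) F) where
  carrier := {A | cj σ A = -A}
  add_mem' {A B} (hA : cj σ A = -A) (hB : cj σ B = -B) := by
    change cj σ (A + B) = -(A + B)
    rw [cj_add, hA, hB]
    abel
  zero_mem' := by
    change cj σ (0 : Matrix (Fin m) (Fin m) F) = -0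
    rw [cj_zero, neg_zero]
  neg_mem' {A} (hA : cj σ A = -A) := by
    change cj σ (-A) = - -A
    rw [cj_neg, hA]

theorem cj_coe (B : skewMat σ m) :
    cj σ (B : Matrix (Fin m) (Fin m) F) = -(B : Matrix (Fin m) (Fin m) F) := B.2

theorem mem_congr (hσ : ∀ a, σ (σ a) = a) (K : Matrix (Fin m) (Fin m) F) (B : skewMat σ m) :
    K * (B : Matrix (Fin m) (Fin m) F) * cj σ K ∈ skewMat σ m := by
  change cj σ (K * (B : Matrix (Fin m) (Fin m) F) * cj σ K) = _
  rw [cj_mul, cj_mul, cj_cj σ hσ, cj_coe, Matrix.neg_mul, Matrix.mul_neg, Matrix.mul_assoc]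

/-- Congruence. -/
def cg (hσ : ∀ a, σ (σ a) = a) (K : Matrix (Fin m) (Fin m) F) (B : skewMat σ m) : skewMat σ m :=
  ⟨K * (B : Matrix (Fin m) (Fin m) F) * cj σ K, mem_congr σ hσ K B⟩

theorem coe_cg (hσ : ∀ a, σ (σ a) = a) (K : Matrix (Fin m) (Fin m) F) (B : skewMat σ m) :
    (cg σ hσ K B : Matrix (Fin m) (Fin m) F) = K * (B : Matrix (Fin m) (Fin m) F) * cj σ K := rfl

theorem cg_cg (hσ : ∀ a, σ (σ a) = a) (K L : Matrix (Fin m) (Fin m) F) (B : skewMat σ m) :
    cg σ hσ K (cg σ hσ L B) = cg σ hσ (K * L) B := by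
  apply Subtype.ext
  simp only [coe_cg, cj_mul, Matrix.mul_assoc]

theorem cg_one (hσ : ∀ a, σ (σ a) = a) (B : skewMat σ m) : cg σ hσ 1 B = B := by
  apply Subtype.ext
  simp [coe_cg, cj_one]

/-- The value of the form. -/
def qval (B : skewMat σ m) (v : Fin m → F) : F :=
  (σ ∘ v) ⬝ᵥ ((B : Matrix (Fin m) (Fin m) F) *ᵥ v)

theorem cj_mulVec (K : Matrix (Fin m) (Fin m) F) (hσ : ∀ a, σ (σ a) = a) (v : Fin m → F) :
    σ ∘ (cj σ K *ᵥ v) = (σ ∘ v) ᵥ* K := by
  funext i
  simp [cj_apply, mulVec, vecMul, dotProduct, map_sum, hσ, mul_comm]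

theorem qval_cg (hσ : ∀ a, σ (σ a) = a) (K : Matrix (Fin m) (Fin m) F) (B : skewMat σ m)
    (v : Fin m → F) : qval σ (cg σ hσ K B) v = qval σ B (cj σ K *ᵥ v) := by
  simp only [qval, coe_cg, cj_mulVec σ K hσ]
  rw [← mulVec_mulVec, ← mulVec_mulVec, dotProduct_mulVec]

theorem exists_qval_ne (hσ : ∀ a, σ (σ a) = a) (hne : σ ≠ RingHom.id F) {B : skewMat σ m}
    (hB : B ≠ 0) : ∃ v, qval σ B v ≠ 0 := by
  by_contra hcon
  push Not at hcon
  refine hB (Subtype.ext ?_)
  set b := (B : Matrix (Fin m) (Fin m) F) with hb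
  have hd : ∀ i, b i i = 0 := fun i => by
    have h1 := hcon (Pi.single i 1)
    have e1 : σ ∘ (Pi.single i (1 : F) : Fin m → F) = Pi.single i 1 := by
      funext j; rcases eq_or_ne j i with rfl | h <;> simp [*]
    simpa [qval, e1, hb] using h1
  ext i j
  by_contra hij
  refine hne (RingHom.ext fun x => ?_)
  have hs : σ (b i j) = -b j i := congrFun (congrFun (cj_coe σ B) j) i
  have key : ∀ c : F, σ c * b j i + c * b i j = 0 := by
    intro c
    have h1 := hcon (Pi.single i 1 + c • Pi.single j 1)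
    have e1 : σ ∘ (Pi.single i 1 + c • Pi.single j 1 : Fin m → F) =
        Pi.single i 1 + σ c • Pi.single j 1 := by
      funext k
      rcases eq_or_ne k i with rfl | hki <;> rcases eq_or_ne k j with rfl | hkj <;> simp [*]
    simp [qval, e1, ← hb, mulVec_add, mulVec_smul, dotProduct_add, add_dotProduct, hd] at h1
    linear_combination h1
  have h1 := key (x / b i j)
  have h2 : b j i = -σ (b i j) := by rw [hs, neg_neg]
  rw [h2, div_mul_cancel₀ _ hij, map_div₀, mul_neg, div_mul_cancel₀ _
    ((map_ne_zero σ).2 hij)] at h1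
  simp only [RingHom.id_apply]
  linear_combination -h1

theorem cg_ne_zero (hσ : ∀ a, σ (σ a) = a) {K : Matrix (Fin m) (Fin m) F} (hK : K.det ≠ 0)
    {B : skewMat σ m} (hB : B ≠ 0) : cg σ hσ K B ≠ 0 := by
  intro h
  have hu : IsUnit K.det := isUnit_iff_ne_zero.2 hK
  have h1 : cg σ hσ K⁻¹ (cg σ hσ K B) = B := by
    rw [cg_cg, nonsing_inv_mul _ hu, cg_one]
  refine hB ?_
  rw [← h1, h]
  apply Subtype.ext
  simp [coe_cg]

/-- A matrix of prescribed determinant moving `e i` to a non-zero vector. -/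
theorem exists_mulVec_single {u : Fin m → F} (hu : u ≠ 0) (i : Fin m) (d : F) (hd : d ≠ 0)
    (hm : 2 ≤ m) : ∃ A : Matrix (Fin m) (Fin m) F, A.det = d ∧ A *ᵥ Pi.single i 1 = u := by
  classical
  obtain ⟨k, hk⟩ := Function.ne_iff.1 hu
  have : Nontrivial (Fin m) := Fin.nontrivial_iff_two_le.2 hm
  obtain ⟨j, hji⟩ := exists_ne i
  set A₀ := ((1 : Matrix (Fin m) (Fin m) F).updateCol k u) * (Equiv.swap i k).permMatrix F with hA₀
  have hdet : A₀.det ≠ 0 := by
    rw [hA₀, det_mul, det_permutation, ← cramer_apply, cramer_one]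
    refine mul_ne_zero hk ?_
    rcases Int.units_eq_one_or (Equiv.Perm.sign (Equiv.swap i k)) with h | h <;> simp [h]
  refine ⟨A₀ * diagonal (Function.update 1 j (d / A₀.det)), ?_, ?_⟩
  · rw [det_mul, det_diagonal, Finset.prod_update_of_mem (Finset.mem_univ j)]
    simp [mul_div_cancel₀ _ hdet]
  · rw [← mulVec_mulVec]
    have e1 : diagonal (Function.update (1 : Fin m → F) j (d / A₀.det)) *ᵥ Pi.single i 1 =
        Pi.single i 1 := by
      funext l
      rcases eq_or_ne l i with rfl | hl
      · simp [mulVec_diagonal, Ne.symm hji]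
      · simp [mulVec_diagonal, hl]
    rw [e1, hA₀, ← mulVec_mulVec, permMatrix_mulVec]
    have : (Pi.single i (1 : F) : Fin m → F) ∘ ⇑(Equiv.swap i k) = Pi.single k 1 := by
      funext j
      rcases eq_or_ne j k with rfl | hj
      · simp
      · rcases eq_or_ne j i with rfl | hji
        · simp [hj, Ne.symm hj]
        · simp [hj, hji, Equiv.swap_apply_of_ne_of_ne hji hj]
    rw [this, mulVec_single_one]
    funext l
    simp

/-- A matrix moving `v` to `w` (determinant one when `2 ≤ m`). -/
theorem exists_move {v w : Fin m → F} (hv : v ≠ 0) (hw : w ≠ 0) :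
    ∃ K : Matrix (Fin m) (Fin m) F, K.det ≠ 0 ∧ (2 ≤ m → K.det = 1) ∧ K *ᵥ v = w := by
  classical
  obtain ⟨i, hi⟩ := Function.ne_iff.1 hv
  simp only [Pi.zero_apply] at hi
  rcases Nat.lt_or_ge m 2 with hm | hm
  · have hsub : Subsingleton (Fin m) := ⟨fun a b => Fin.ext (by omega)⟩
    refine ⟨(w i / v i) • 1, ?_, fun h => absurd h (by omega), ?_⟩
    · rw [det_smul, det_one, mul_one]
      refine pow_ne_zero _ (div_ne_zero (fun h => hw ?_) hi)
      funext j; rw [Subsingleton.elim j i]; exact h
    · funext j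
      rw [Subsingleton.elim j i, smul_mulVec, one_mulVec, Pi.smul_apply, smul_eq_mul,
        div_mul_cancel₀ _ hi]
  · obtain ⟨A, hA, hAv⟩ := exists_mulVec_single hv i 1 one_ne_zero hm
    obtain ⟨B, hB, hBw⟩ := exists_mulVec_single hw i 1 one_ne_zero hm
    have hu : IsUnit A.det := by rw [hA]; exact isUnit_one
    refine ⟨B * A⁻¹, by simp [det_nonsing_inv, hA, hB], fun _ => by simp [det_nonsing_inv, hA, hB],
      ?_⟩
    conv_lhs => rw [← hAv]
    rw [mulVec_mulVec, Matrix.mul_assoc, nonsing_inv_mul _ hu, Matrix.mul_one, hBw]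

variable [Fintype F] {q : ℕ}

/-- A congruence-closed set of non-zero skew-Hermitian matrices taking a given non-zero value at
every non-zero vector has at least `(q^(2m) - 1)/(q + 1)` elements. -/
theorem orbit_card (hσ : ∀ a, σ (σ a) = a) (hne : σ ≠ RingHom.id F) (hσq : ∀ x, σ x = x ^ q)
    (hq : 2 ≤ q) (hF : Fintype.card F = q ^ 2) [Fintype (skewMat σ m)] (O : Finset (skewMat σ m))
    (hO : ∀ C ∈ O, C ≠ 0)
    (hclosed : ∀ C ∈ O, ∀ K : Matrix (Fin m) (Fin m) F, K.det = 1 → cg σ hσ K C ∈ O)
    (a : F) (ha : a ≠ 0) (hmove : ∀ v, v ≠ 0 → ∃ C ∈ O, qval σ C v = a) :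
    q ^ (2 * m) - 1 ≤ (q + 1) * O.card := by
  classical
  have hqF : q ^ (2 * m) = Fintype.card F ^ m := by rw [hF, ← pow_mul]
  rw [hqF]
  set Q := Fintype.card F with hQ
  have hM : ∀ v : Fin m → F, v ≠ 0 → Q ^ (m - 1) ≤ (O.filter fun C => qval σ C v = a).card := by
    intro v hv
    obtain ⟨C₀, hC₀, hC₀v⟩ := hmove v hv
    obtain ⟨k, hk⟩ := Function.ne_iff.1 hv
    simp only [Pi.zero_apply] at hk
    have hsk : σ (v k) ≠ 0 := (map_ne_zero σ).2 hk
    let φ : ({j : Fin m // j ≠ k} → F) → (Fin m → F) := fun x j =>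
      if h : j = k then -(∑ i : {i : Fin m // i ≠ k}, x i * σ (v i)) / σ (v k) else x ⟨j, h⟩
    have hφ : ∀ x, φ x ⬝ᵥ (σ ∘ v) = 0 := by
      intro x
      rw [dotProduct, ← Finset.add_sum_erase _ _ (Finset.mem_univ k)]
      simp only [φ, dif_pos, Function.comp_apply]
      rw [div_mul_cancel₀ _ hsk, neg_add_eq_zero]
      rw [Finset.sum_subtype (Finset.univ.erase k) (p := fun j : Fin m => j ≠ k) (by simp)]
      exact Finset.sum_congr rfl fun i _ => by rw [dif_neg i.2]
    let K : ({j : Fin m // j ≠ k} → F) → Matrix (Fin m) (Fin m) F := fun x =>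
      1 + vecMulVec (φ x) (σ ∘ v)
    have hdet : ∀ x, (K x).det = 1 := by
      intro x
      simp only [K]
      rw [vecMulVec_eq Unit, det_one_add_replicateCol_mul_replicateRow,
        dotProduct_comm, hφ, add_zero]
    let f : ({j : Fin m // j ≠ k} → F) → skewMat σ m := fun x => cg σ hσ (K x) C₀
    have hKv : ∀ x, cj σ (K x) *ᵥ v = v := by
      intro x
      have e1 : σ ∘ σ ∘ v = v := funext fun i => hσ _
      simp only [K, cj_add, cj_one, cj_vecMulVec, e1, add_mulVec, one_mulVec, vecMulVec_mulVec]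
      have e2 : (σ ∘ φ x) ⬝ᵥ v = σ (φ x ⬝ᵥ (σ ∘ v)) := by
        simp [dotProduct, map_sum, hσ]
      rw [e2, hφ, map_zero]
      simp
    have hf : ∀ x, f x ∈ O.filter fun C => qval σ C v = a := fun x =>
      Finset.mem_filter.2 ⟨hclosed _ hC₀ _ (hdet x), by
        simp only [f, qval_cg, hKv, hC₀v]⟩
    have hfv : ∀ x, (f x : Matrix (Fin m) (Fin m) F) *ᵥ v =
        (C₀ : Matrix (Fin m) (Fin m) F) *ᵥ v + a • φ x := by
      intro x
      simp only [f, coe_cg]
      rw [← mulVec_mulVec, hKv, ← mulVec_mulVec]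
      simp only [K, add_mulVec, one_mulVec, vecMulVec_mulVec]
      rw [show (σ ∘ v) ⬝ᵥ ((C₀ : Matrix (Fin m) (Fin m) F) *ᵥ v) = a from hC₀v]
      simp
    have hinj : Function.Injective f := by
      intro x y hxy
      have h1 := hfv x
      rw [hxy, hfv y] at h1
      have h3 : φ y = φ x := smul_right_injective (Fin m → F) ha (add_left_cancel h1)
      funext i
      have h4 := congrFun h3 i
      simp only [φ, dif_neg i.2] at h4
      exact h4.symm
    calc Q ^ (m - 1) = (Finset.univ : Finset ({j : Fin m // j ≠ k} → F)).card := by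
          simp [hQ, Fintype.card_subtype_compl]
      _ = (Finset.univ.image f).card := (Finset.card_image_of_injective _ hinj).symm
      _ ≤ _ := Finset.card_le_card fun C hC => by
          obtain ⟨x, -, rfl⟩ := Finset.mem_image.1 hC
          exact hf x
  have hN : ∀ C ∈ O, ((Finset.univ : Finset (Fin m → F)).filter fun v => qval σ C v = a).card ≤
      (q + 1) * Q ^ (m - 1) := by
    intro C hC
    obtain ⟨u, hu⟩ := exists_qval_ne σ hσ hne (hO C hC)
    obtain ⟨k, hk⟩ := Function.ne_iff.1 (fun h : u = 0 => hu (by simp [h, qval]))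
    simp only [Pi.zero_apply] at hk
    let π : (Fin m → F) → ({j : Fin m // j ≠ k} → F) := fun v j => v j - v k / u k * u j
    refine le_trans (Finset.card_le_mul_card_image (f := π) _ (q + 1) fun x _ => ?_) ?_
    · set S := ((Finset.univ : Finset (Fin m → F)).filter fun v => qval σ C v = a).filter
        fun v => π v = x
      rcases Finset.eq_empty_or_nonempty S with h | ⟨v₁, hv₁⟩
      · simp [h]
      · simp only [S, Finset.mem_filter, Finset.mem_univ, true_and] at hv₁
        set c := qval σ C u with hc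
        set β := (σ ∘ v₁) ⬝ᵥ ((C : Matrix (Fin m) (Fin m) F) *ᵥ u) with hβ
        set β' := (σ ∘ u) ⬝ᵥ ((C : Matrix (Fin m) (Fin m) F) *ᵥ v₁) with hβ'
        have hquad : ∀ t : F, qval σ C (v₁ + t • u) =
            qval σ C v₁ + (c * t ^ (q + 1) + β' * t ^ q + β * t) := by
          intro t
          have e1 : σ ∘ (v₁ + t • u) = σ ∘ v₁ + σ t • (σ ∘ u) := by
            funext i; simp
          simp only [qval, c, β, β', e1, mulVec_add, mulVec_smul, dotProduct_add, add_dotProduct,
            dotProduct_smul, smul_dotProduct, smul_eq_mul, ← hσq, pow_succ]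
          ring
        let P : F[X] := Polynomial.C c * X ^ (q + 1) + Polynomial.C β' * X ^ q + Polynomial.C β * X
        have hP : P ≠ 0 := by
          intro h
          have := congrArg (fun p => Polynomial.coeff p (q + 1)) h
          simp [P, Polynomial.coeff_X_pow, Polynomial.coeff_C, show q ≠ 0 by omega] at this
          exact hu this
        have hdeg : P.natDegree ≤ q + 1 := by
          refine (natDegree_add_le _ _).trans (max_le ((natDegree_add_le _ _).trans (max_le ?_ ?_)) ?_)
          · exact natDegree_C_mul_X_pow_le _ _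
          · exact (natDegree_C_mul_X_pow_le _ _).trans (Nat.le_succ q)
          · refine (natDegree_C_mul_le _ _).trans ?_
            simp
        have hsub : S ⊆ P.roots.toFinset.image fun t => v₁ + t • u := by
          intro v hv
          simp only [S, Finset.mem_filter, Finset.mem_univ, true_and] at hv
          have hl : v = v₁ + ((v k - v₁ k) / u k) • u := by
            funext j
            by_cases hj : j = k
            · subst hj
              simp only [Pi.add_apply, Pi.smul_apply, smul_eq_mul]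
              field_simp
              ring
            · have := congrFun (hv.2.trans hv₁.2.symm) ⟨j, hj⟩
              simp only [π] at this
              simp only [Pi.add_apply, Pi.smul_apply, smul_eq_mul]
              linear_combination this
          set t := (v k - v₁ k) / u k
          refine Finset.mem_image.2 ⟨t, ?_, hl.symm⟩
          have hv1 := hv.1
          rw [hl, hquad, hv₁.1] at hv1
          rw [Multiset.mem_toFinset, mem_roots hP]
          simp only [P, IsRoot.def, eval_add, eval_mul, eval_C, eval_pow, eval_X]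
          linear_combination hv1
        exact ((Finset.card_le_card hsub).trans Finset.card_image_le).trans
          ((Multiset.toFinset_card_le _).trans ((card_roots' P).trans hdeg))
    · refine Nat.mul_le_mul_left _ ((Finset.card_le_univ _).trans ?_)
      simp [hQ, Fintype.card_subtype_compl]
  have hsum : ∑ v : Fin m → F, (O.filter fun C => qval σ C v = a).card =
      ∑ C ∈ O, ((Finset.univ : Finset (Fin m → F)).filter fun v => qval σ C v = a).card := by
    simp only [Finset.card_filter]
    exact Finset.sum_comm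
  have h1 : (Q ^ m - 1) * Q ^ (m - 1) ≤
      ∑ v : Fin m → F, (O.filter fun C => qval σ C v = a).card := by
    calc (Q ^ m - 1) * Q ^ (m - 1)
        = ∑ _v ∈ (Finset.univ : Finset (Fin m → F)).erase 0, Q ^ (m - 1) := by
          simp [hQ]
      _ ≤ ∑ v ∈ (Finset.univ : Finset (Fin m → F)).erase 0,
            (O.filter fun C => qval σ C v = a).card :=
          Finset.sum_le_sum fun v hv => hM v (Finset.ne_of_mem_erase hv)
      _ ≤ _ := Finset.sum_le_sum_of_subset (Finset.erase_subset _ _)
  have h3 := h1.trans (hsum.le.trans (Finset.sum_le_sum hN))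
  rw [Finset.sum_const, smul_eq_mul, ← Nat.mul_assoc, Nat.mul_comm O.card (q + 1)] at h3
  exact Nat.le_of_mul_le_mul_right h3 (pow_pos (Fintype.card_pos (α := F)) _)

end CfsgLib.InvCentralizers.HermOrbit
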