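import Cfsg.Agent.Lib.ClassicalForms.Exceptional.SixPlus
import Cfsg.Agent.Lib.ClassicalForms.Ortho.Generation

/-!
The homomorphism of `SL₄(q)` onto the Siegel group of the hyperbolic form in six variables.
-/

set_option autoImplicit false

namespace CfsgLib.InvCentralizers.KleinHom

open scoped MatrixGroups
open Matrix CfsgLib.ClassicalForms

variable {F : Type*} [Field F] [Finite F]

theorem exists_surjective_hom :
    ∃ φ : SpecialLinearGroup (Fin 4) F →* siegelGroup (qPlus 3 F), Function.Surjective φ := by
  classical
  have : Fact (Even (Fintype.card (Fin 4))) := ⟨by decide⟩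
  have hsurj : Function.Surjective (sixVec (F := F)) := fun a =>
    ⟨Sum.elim ![a 0, a 1, a 2] ![a 5, -a 4, a 3], by
      funext r; fin_cases r <;> simp [sixVec]⟩
  have hinj : Function.Injective (sixVec (F := F)) :=
    (hsurj.bijective_of_nat_card_le (by simp [Nat.card_fun])).1
  obtain ⟨φ, hφ⟩ := exists_orthHom (R := qPlus 3 F) (RingHom.id F) sixVec hinj
    (fun u v => by funext r; fin_cases r <;> simp [sixVec]; ring)
    (fun t v => by funext r; fin_cases r <;> simp [sixVec])
    (fun g : SpecialLinearGroup (Fin 4) F => Alt4.act (g : Matrix (Fin 4) (Fin 4) F))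
    (fun v => Alt4.act_one _)
    (fun g g' v => Alt4.act_mul _ _ _)
    (fun g v => hsurj _)
    Alt4.pf
    (fun v => by
      rw [qPlus_apply]
      simp [Cfsg.quadFormPlus, sixVec, Alt4.pf, Fin.sum_univ_succ]
      ring)
    (fun g v => by rw [Alt4.pf_act, g.2, one_mul])
  have hker : ∀ g, g ∈ φ.ker ↔ g = 1 ∨ g = -1 := by
    intro g
    rw [MonoidHom.mem_ker]
    constructor
    · intro hg
      obtain ⟨d, hd, hgd⟩ := Alt4.exists_scalar_of_act_eq (g := (g : Matrix (Fin 4) (Fin 4) F))
        fun a => by
          obtain ⟨v, rfl⟩ := hsurj a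
          rw [← hφ, hg, orth_one_apply]
      rcases mul_self_eq_one_iff.1 hd with rfl | rfl
      · exact Or.inl (Subtype.ext (by simpa using hgd))
      · exact Or.inr (Subtype.ext (by simpa using hgd))
    · rintro (rfl | rfl)
      · exact map_one φ
      · refine orth_ext fun v => hinj ?_
        rw [hφ, orth_one_apply, Matrix.SpecialLinearGroup.coe_neg,
          Matrix.SpecialLinearGroup.coe_one, Alt4.act_neg_one]
  have hperf := CfsgLib.ClassicalLinear.commutator_sl_eq_top (ι := Fin 4) (F := F)
    (Or.inl (by simp))
  have hQ := nondeg_qPlus (F := F) 3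
  have := finite_orth (qPlus 3 F)
  have hrange := range_le_commutator_of_perfect φ hperf
  have hO := card_orth_qPlus (F := F) 3 (by norm_num)
  simp [Finset.prod_range_succ] at hO
  have hcard : Nat.card (orth (qPlus 3 F)) * Nat.card φ.ker =
      Nat.card (SpecialLinearGroup (Fin 4) F) * (commutator (orth (qPlus 3 F))).index := by
    by_cases h2 : (2 : F) = 0
    · have hbot : φ.ker = ⊥ := φ.ker.eq_bot_iff_forall.2 fun g hg => by
        rcases (hker g).1 hg with rfl | rfl
        · rfl
        · refine Subtype.ext ?_
          ext i j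
          have : (-1 : F) = 1 := by linear_combination -h2
          simp [Matrix.SpecialLinearGroup.coe_neg, Matrix.one_apply, apply_ite, this]
      have hc : Nat.card (orth (qPlus 3 F)) * Nat.card φ.ker =
          Nat.card (SpecialLinearGroup (Fin 4) F) * 2 := by
        rw [hbot, Subgroup.card_bot, mul_one]
        zify
        rw [hO, card_sl_four]; ring
      rw [index_commutator_eq_two φ hrange hc, hc]
    · have hcard : Nat.card φ.ker = 2 := by
        rw [← SetLike.coe_sort_coe,
          show (φ.ker : Set (SpecialLinearGroup (Fin 4) F)) = {1, -1} from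
            Set.ext fun g => by simp [hker g],
          Nat.card_coe_set_eq, Set.ncard_pair]
        exact (neg_one_ne_one_sl h2).symm
      rw [index_commutator_orth_odd h2 (by simp) hQ, hcard]
      zify
      rw [hO, card_sl_four]; ring
  have hr : φ.range = commutator (orth (qPlus 3 F)) := by
    refine Subgroup.eq_of_le_of_card_ge hrange (le_of_eq ?_)
    have h1 := φ.ker.card_mul_index
    rw [Subgroup.index_ker] at h1
    rw [← h1, ← (commutator (orth (qPlus 3 F))).card_mul_index] at hcard
    refine Nat.eq_of_mul_eq_mul_right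
      (show 0 < Nat.card φ.ker * (commutator (orth (qPlus 3 F))).index from
      Nat.mul_pos Nat.card_pos (Nat.pos_of_ne_zero Subgroup.index_ne_zero_of_finite)) ?_
    linarith
  rw [commutator_qPlus le_rfl] at hr
  exact ⟨(MulEquiv.subgroupCongr hr).toMonoidHom.comp φ.rangeRestrict,
    (MulEquiv.subgroupCongr hr).surjective.comp φ.rangeRestrict_surjective⟩

end CfsgLib.InvCentralizers.KleinHom
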