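import Mathlib
import Cfsg.Agent.Lib.InvCentralizers.SLParabolic
import Cfsg.Agent.Lib.CharTheory.Degree

/-!
The smallest degree of a non-trivial representation of the special linear group in dimension at
least three.
-/

set_option autoImplicit false
set_option linter.unusedSectionVars false
set_option linter.style.haveILetI false

namespace CfsgLib.InvCentralizers.LinearDegree

open Matrix
open CfsgLib.InvCentralizers.SLParabolic
open CfsgLib.InvCentralizers.AbelianEigen
open CfsgLib.InvCentralizers.SympBound (psi exists_psi_ne)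
open CfsgLib.InvCentralizers.PermModule (X act act_mul act_one reps)

/-- The number of lines of an `n`-dimensional space. -/
def gs (q n : ℕ) : ℕ := ∑ i ∈ Finset.range n, q ^ i

theorem gs_succ (q n : ℕ) : gs q (n + 1) = gs q n + q ^ n := Finset.sum_range_succ _ _

theorem gs_succ' (q n : ℕ) : gs q (n + 1) = q * gs q n + 1 := by
  rw [gs, Finset.sum_range_succ', gs, Finset.mul_sum]
  simp [pow_succ']

theorem sub_one_mul_gs {q : ℕ} (hq : 1 ≤ q) (n : ℕ) : (q - 1) * gs q n + 1 = q ^ n := by
  induction n with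
  | zero => simp [gs]
  | succ n ih =>
    rw [gs_succ, mul_add, add_right_comm, ih, pow_succ]
    calc q ^ n + (q - 1) * q ^ n = (1 + (q - 1)) * q ^ n := by ring
      _ = q ^ n * q := by rw [show 1 + (q - 1) = q by omega, mul_comm]

variable {F : Type*} [Field F] [Fintype F] [DecidableEq F]

theorem card_reps_eq (ι : Type) [Fintype ι] [DecidableEq ι] :
    (reps F ι).card = gs (Fintype.card F) (Fintype.card ι) := by
  have h1 := CfsgLib.InvCentralizers.PermModule.card_reps (F := F) (ι := ι)
  have h2 := sub_one_mul_gs (q := Fintype.card F) Fintype.card_pos (Fintype.card ι)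
  have hq := Fintype.one_lt_card (α := F)
  exact Nat.eq_of_mul_eq_mul_left (n := Fintype.card F - 1) (by omega) (by omega)

/-- Relabelling the coordinates. -/
def slReindex {ι ι' : Type} [Fintype ι] [DecidableEq ι] [Fintype ι'] [DecidableEq ι'] (e : ι ≃ ι') :
    SpecialLinearGroup ι F →* SpecialLinearGroup ι' F where
  toFun g := ⟨(g : Matrix ι ι F).submatrix e.symm e.symm, by rw [det_submatrix_equiv_self]; exact g.2⟩
  map_one' := by apply Subtype.ext; simp
  map_mul' g h := by
    apply Subtype.ext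
    change ((g : Matrix ι ι F) * (h : Matrix ι ι F)).submatrix e.symm e.symm =
      (g : Matrix ι ι F).submatrix e.symm e.symm * (h : Matrix ι ι F).submatrix e.symm e.symm
    rw [submatrix_mul_equiv]

theorem slReindex_surjective {ι ι' : Type} [Fintype ι] [DecidableEq ι] [Fintype ι'] [DecidableEq ι']
    (e : ι ≃ ι') : Function.Surjective (slReindex (F := F) e) := fun g =>
  ⟨slReindex e.symm g, by
    apply Subtype.ext
    change ((g : Matrix ι' ι' F).submatrix e e).submatrix e.symm e.symm = (g : Matrix ι' ι' F)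
    rw [submatrix_submatrix, Equiv.self_comp_symm, submatrix_id_id]⟩

theorem slReindex_transvection {ι ι' : Type} [Fintype ι] [DecidableEq ι] [Fintype ι']
    [DecidableEq ι'] (e : ι ≃ ι') {i j : ι} (h : i ≠ j) (b : F) :
    slReindex e (SpecialLinearGroup.transvection h b) =
      SpecialLinearGroup.transvection (fun h' => h (e.injective h')) b := by
  apply Subtype.ext
  change (1 + Matrix.single i j b).submatrix e.symm e.symm = 1 + Matrix.single (e i) (e j) b
  ext x y
  simp [Matrix.one_apply, Matrix.single_apply, Equiv.eq_symm_apply]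

/-- A non-trivial representation of a finite group has a non-trivial irreducible constituent. -/
theorem exists_irreducible_constituent {G : Type*} [Group G] [Finite G] {V : Type}
    [AddCommGroup V] [Module ℂ V] [FiniteDimensional ℂ V] (ρ : Representation ℂ G V)
    (h : ∃ g, ρ g ≠ 1) :
    ∃ (W : Type) (_ : AddCommGroup W) (_ : Module ℂ W) (_ : FiniteDimensional ℂ W)
      (σ : Representation ℂ G W), σ.IsIrreducible ∧ (∃ g, σ g ≠ 1) ∧
        Module.finrank ℂ W ≤ Module.finrank ℂ V := by
  induction hn : Module.finrank ℂ V using Nat.strong_induction_on generalizing V with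
  | _ n ih =>
    subst hn
    by_cases hirr : ρ.IsIrreducible
    · exact ⟨V, inferInstance, inferInstance, inferInstance, ρ, hirr, h, le_rfl⟩
    obtain ⟨g, hg⟩ := h
    haveI : Nontrivial V := by
      by_contra hV
      rw [not_nontrivial_iff_subsingleton] at hV
      exact hg (LinearMap.ext fun v => Subsingleton.elim _ _)
    obtain ⟨p, hp0, hp1⟩ : ∃ p : Subrepresentation ρ, p.toSubmodule ≠ ⊥ ∧ p.toSubmodule ≠ ⊤ := by
      by_contra hcon
      push Not at hcon
      refine hirr ?_
      haveI : Nontrivial (Subrepresentation ρ) :=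
        ⟨⟨⊥, ⊤, fun e => bot_ne_top (α := Submodule ℂ V)
          (congrArg Subrepresentation.toSubmodule e)⟩⟩
      exact ⟨fun p => or_iff_not_imp_left.2 fun hp => Subrepresentation.toSubmodule_injective
        (hcon p fun e => hp (Subrepresentation.toSubmodule_injective e))⟩
    by_cases hW : ∃ g, p.toRepresentation g ≠ 1
    · obtain ⟨W, i1, i2, i3, σ, hσ1, hσ2, hσ3⟩ :=
        ih _ (Submodule.finrank_lt hp1) p.toRepresentation hW rfl
      exact ⟨W, i1, i2, i3, σ, hσ1, hσ2, hσ3.trans (Submodule.finrank_le _)⟩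
    push Not at hW
    let τ : Representation ℂ G (V ⧸ p.toSubmodule) :=
      { toFun := fun g => p.toSubmodule.mapQ p.toSubmodule (ρ g) (p.apply_mem_toSubmodule g)
        map_one' := by ext v; simp
        map_mul' := fun a b => by ext v; simp }
    have hlt : Module.finrank ℂ (V ⧸ p.toSubmodule) < Module.finrank ℂ V := by
      have := Submodule.finrank_quotient_add_finrank p.toSubmodule
      have := Submodule.one_le_finrank_iff.2 hp0
      omega
    by_cases hQ : ∃ g, τ g ≠ 1
    · obtain ⟨W, i1, i2, i3, σ, hσ1, hσ2, hσ3⟩ := ih _ hlt τ hQ rfl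
      exact ⟨W, i1, i2, i3, σ, hσ1, hσ2, hσ3.trans hlt.le⟩
    push Not at hQ
    exfalso
    apply hg
    have h1 : ∀ v, ρ g v - v ∈ p.toSubmodule := fun v => by
      have h3 := LinearMap.congr_fun (hQ g) (Submodule.Quotient.mk v)
      exact (Submodule.Quotient.eq _).1 h3
    have h2 : ∀ w ∈ p.toSubmodule, ρ g w = w := fun w hw =>
      congrArg Subtype.val (LinearMap.congr_fun (hW g) ⟨w, hw⟩)
    refine LinearMap.ext fun v => ?_
    have key : ∀ m : ℕ, ρ (g ^ m) v = v + (m : ℂ) • (ρ g v - v) := by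
      intro m
      induction m with
      | zero => simp
      | succ m ihm =>
        rw [pow_succ', map_mul, Module.End.mul_apply, ihm, map_add, map_smul, h2 _ (h1 v)]
        push_cast
        rw [add_smul, one_smul]
        abel
    have h3 := key (orderOf g)
    rw [pow_orderOf_eq_one, map_one, Module.End.one_apply, left_eq_add] at h3
    exact sub_eq_zero.1 ((smul_eq_zero.1 h3).resolve_left
      (by exact_mod_cast (isOfFinOrder_of_finite g).orderOf_pos.ne'))

variable {k : ℕ}

/-- The stabiliser of the first basis vector. -/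
theorem fixed_of_stab {V : Type} [AddCommGroup V] [Module ℂ V]
    (ρ : Representation ℂ (SpecialLinearGroup (Fin 1 ⊕ Fin k) F) V) (v : V)
    (hq : ∀ b, ρ (qRow b) v = v) (hl : ∀ A, ρ (levS A) v = v)
    (g : SpecialLinearGroup (Fin 1 ⊕ Fin k) F)
    (hg : act g (⟨e0, by simp [e0]⟩ : X (Fin 1 ⊕ Fin k) F) = ⟨e0, by simp [e0]⟩) : ρ g v = v := by
  set G : Matrix (Fin 1 ⊕ Fin k) (Fin 1 ⊕ Fin k) F := g.1 with hG
  have hcol : ∀ x, G x (Sum.inl 0) = (e0 : Fin 1 ⊕ Fin k → F) x := fun x => by
    have h := congrFun (congrArg Subtype.val hg) x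
    change (G *ᵥ e0) x = _ at h
    simpa [e0] using h
  have h11 : G.toBlocks₁₁ = 1 := by
    ext i j; fin_cases i; fin_cases j; simpa [toBlocks₁₁, e0] using hcol (Sum.inl 0)
  have h21 : G.toBlocks₂₁ = 0 := by
    ext i j; fin_cases j; simpa [toBlocks₂₁, e0] using hcol (Sum.inr i)
  have hGb : G = fromBlocks 1 G.toBlocks₁₂ 0 G.toBlocks₂₂ := by
    conv_lhs => rw [← fromBlocks_toBlocks G, h11, h21]
  have hdet : G.toBlocks₂₂.det = 1 := by
    have h : G.det = 1 := g.2
    rw [hGb, det_fromBlocks_zero₂₁, det_one, one_mul] at h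
    exact h
  set A : SpecialLinearGroup (Fin k) F := ⟨G.toBlocks₂₂, hdet⟩
  have : g = levS A * qRow (fun j => G.toBlocks₁₂ 0 j) := by
    apply Subtype.ext
    change G = fromBlocks (G.toBlocks₂₂.det⁻¹ • 1) 0 0 G.toBlocks₂₂ *
      fromBlocks 1 (of fun _ j => G.toBlocks₁₂ 0 j) 0 1
    rw [fromBlocks_multiply]
    conv_lhs => rw [hGb]
    congr 1
    · simp [hdet]
    · ext i j; fin_cases i
      simp [hdet, mul_apply]
    · simp
    · simp
  rw [this, map_mul, Module.End.mul_apply, hq, hl]

section Transvections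

variable {V : Type} [AddCommGroup V] [Module ℂ V] [FiniteDimensional ℂ V]
  (ρ : Representation ℂ (SpecialLinearGroup (Fin 1 ⊕ Fin k) F) V)

open scoped Classical in
/-- An irreducible degree divides the weighted number of transvections. -/
theorem finrank_dvd [ρ.IsIrreducible] (hk : 2 ≤ k) (d : ℕ) (hd1 : 1 ≤ d)
    (hchar : ∀ b, b ≠ 0 → ρ.character (qRow b) + 1 = (d : ℂ)) :
    Module.finrank ℂ V ∣
      gs (Fintype.card F) (k + 1) * (Fintype.card F ^ k - 1) * (d - 1) := by
  have h3 : 3 ≤ Fintype.card (Fin 1 ⊕ Fin k) := by simp; omega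
  let x0 : X (Fin 1 ⊕ Fin k) F := ⟨e0, by simp [e0]⟩
  choose gr hgr using fun r : X (Fin 1 ⊕ Fin k) F =>
    CfsgLib.InvCentralizers.PermModule.exists_act_eq h3 x0 r
  let Φ : reps F (Fin 1 ⊕ Fin k) × {b : Fin k → F // b ≠ 0} →
      SpecialLinearGroup (Fin 1 ⊕ Fin k) F := fun p => gr p.1.1 * qRow p.2.1 * (gr p.1.1)⁻¹
  have hΦtv : ∀ p, ∃ φ h, φ ≠ 0 ∧ Φ p = tv (p.1.1.1) φ h := by
    rintro ⟨⟨r, hr⟩, ⟨b, hb⟩⟩
    have e : (gr r : Matrix (Fin 1 ⊕ Fin k) (Fin 1 ⊕ Fin k) F) *ᵥ e0 = r.1 :=
      congrArg Subtype.val (hgr r)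
    have hz : (Sum.elim 0 b ᵥ* (((gr r)⁻¹ : SpecialLinearGroup (Fin 1 ⊕ Fin k) F) :
        Matrix (Fin 1 ⊕ Fin k) (Fin 1 ⊕ Fin k) F)) ⬝ᵥ r.1 = 0 := by
      rw [← e, ← dotProduct_mulVec, mulVec_mulVec, ← Matrix.SpecialLinearGroup.coe_mul,
        inv_mul_cancel, Matrix.SpecialLinearGroup.coe_one, one_mulVec]
      simp [e0]
    refine ⟨_, hz, fun h0 => hb ?_, ?_⟩
    · have h1 := congrArg
        (· ᵥ* (gr r : Matrix (Fin 1 ⊕ Fin k) (Fin 1 ⊕ Fin k) F)) h0
      simp only [vecMul_vecMul, zero_vecMul] at h1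
      rw [← Matrix.SpecialLinearGroup.coe_mul, inv_mul_cancel, Matrix.SpecialLinearGroup.coe_one,
        vecMul_one] at h1
      funext j
      exact congrFun h1 (Sum.inr j)
    · change gr r * qRow b * (gr r)⁻¹ = _
      rw [qRow_eq_tv, tv_conj]
      apply Subtype.ext
      change 1 + vecMulVec _ _ = 1 + vecMulVec _ _
      rw [e]
  have hΦinj : Function.Injective Φ := by
    rintro ⟨⟨r, hr⟩, b⟩ ⟨⟨r', hr'⟩, b'⟩ h
    obtain ⟨φ, hp, hφ0, hφ⟩ := hΦtv (⟨r, hr⟩, b)
    obtain ⟨φ', hp', -, hφ'⟩ := hΦtv (⟨r', hr'⟩, b')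
    rw [hφ, hφ'] at h
    have h1 : vecMulVec r.1 φ = vecMulVec r'.1 φ' := add_left_cancel (congrArg Subtype.val h)
    obtain ⟨j, hj⟩ := Function.ne_iff.1 hφ0
    have h2 : ∀ x, r.1 x * φ j = r'.1 x * φ' j := fun x => by
      simpa [vecMulVec_apply] using congrFun (congrFun h1 x) j
    have hj' : φ' j ≠ 0 := fun h0 => r.2 (funext fun x => by
      have := h2 x
      rw [h0, mul_zero] at this
      exact (mul_eq_zero.1 this).resolve_right hj)
    have hrr : r' = r := CfsgLib.InvCentralizers.PermModule.rep_unique hr hr'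
      (c := Units.mk0 (φ j / φ' j) (div_ne_zero hj hj')) (Subtype.ext (funext fun x => by
        change r'.1 x = φ j / φ' j * r.1 x
        field_simp
        linear_combination -(h2 x)))
    subst hrr
    have h4 : Φ (⟨r', hr⟩, b) = Φ (⟨r', hr'⟩, b') := by rw [hφ, hφ', h]
    simp only [Φ, mul_left_inj, mul_right_inj] at h4
    have hb : b = b' := Subtype.ext (funext fun j => by
      have := congrFun (congrFun (congrArg Subtype.val h4) (Sum.inl 0)) (Sum.inr j)
      simpa [qRow] using this)
    rw [hb]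
  let T : Finset (SpecialLinearGroup (Fin 1 ⊕ Fin k) F) := Finset.univ.image Φ
  have hmem : ∀ u φ, ∀ h : φ ⬝ᵥ u = 0, ∀ hu : u ≠ 0, φ ≠ 0 → tv u φ h ∈ T := by
    intro u φ h hu hφ
    obtain ⟨r, hr, c, hc⟩ := CfsgLib.InvCentralizers.PermModule.exists_rep
      (⟨u, hu⟩ : X (Fin 1 ⊕ Fin k) F)
    have e : (gr r : Matrix (Fin 1 ⊕ Fin k) (Fin 1 ⊕ Fin k) F) *ᵥ e0 = (c : F)⁻¹ • u := by
      have hu' : u = (c : F) • r.1 := congrArg Subtype.val hc
      rw [hu']
      rw [inv_smul_smul₀ c.ne_zero]
      exact congrArg Subtype.val (hgr r)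
    obtain ⟨b, hb, he⟩ := tv_eq_conj u φ h hφ (gr r) _ (inv_ne_zero c.ne_zero) e
    exact Finset.mem_image.2 ⟨(⟨r, hr⟩, ⟨b, hb⟩), Finset.mem_univ _, he.symm⟩
  have hconj : ∀ g h, g ∈ T → h * g * h⁻¹ ∈ T := by
    intro g h hg
    obtain ⟨p, -, rfl⟩ := Finset.mem_image.1 hg
    obtain ⟨φ, hp, hφ0, hφ⟩ := hΦtv p
    rw [hφ, tv_conj]
    refine hmem _ _ _ (fun h0 => p.1.1.2 ?_) (fun h0 => hφ0 ?_)
    · have h1 := congrArg (((h⁻¹ : SpecialLinearGroup (Fin 1 ⊕ Fin k) F) :
        Matrix (Fin 1 ⊕ Fin k) (Fin 1 ⊕ Fin k) F) *ᵥ ·) h0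
      simp only [mulVec_mulVec, mulVec_zero] at h1
      rwa [← Matrix.SpecialLinearGroup.coe_mul, inv_mul_cancel, Matrix.SpecialLinearGroup.coe_one,
        one_mulVec] at h1
    · have h1 := congrArg (· ᵥ* (h : Matrix (Fin 1 ⊕ Fin k) (Fin 1 ⊕ Fin k) F)) h0
      simp only [vecMul_vecMul, zero_vecMul] at h1
      rwa [← Matrix.SpecialLinearGroup.coe_mul, inv_mul_cancel, Matrix.SpecialLinearGroup.coe_one,
        vecMul_one] at h1
  have hcl : Cfsg.IsClassFunction (SpecialLinearGroup (Fin 1 ⊕ Fin k) F)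
      (fun g => if g ∈ T then (1 : ℂ) else 0) := by
    intro g h
    have : h * g * h⁻¹ ∈ T ↔ g ∈ T :=
      ⟨fun hg => by simpa [mul_assoc] using hconj _ h⁻¹ hg, hconj g h⟩
    simp only [this]
  have hint := CfsgLib.CharTheory.isIntegral_sum_mul_character_div ρ hcl (fun g => by
    split_ifs
    · exact isIntegral_one
    · exact isIntegral_zero)
  have hsum : ∑ g, (if g ∈ T then (1 : ℂ) else 0) * ρ.character g =
      ((gs (Fintype.card F) (k + 1) * (Fintype.card F ^ k - 1) * (d - 1) : ℕ) : ℂ) := by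
    simp only [ite_mul, one_mul, zero_mul]
    rw [Finset.sum_ite_mem, Finset.univ_inter, Finset.sum_image fun a _ b _ h => hΦinj h]
    have hv : ∀ p, ρ.character (Φ p) = ((d - 1 : ℕ) : ℂ) := fun p => by
      change ρ.character (gr p.1.1 * qRow p.2.1 * (gr p.1.1)⁻¹) = _
      rw [Representation.char_conj, Nat.cast_sub hd1, Nat.cast_one]
      exact eq_sub_of_add_eq (hchar _ p.2.2)
    rw [Finset.sum_congr rfl fun p _ => hv p, Finset.sum_const, Finset.card_univ, Fintype.card_prod,
      Fintype.card_coe, card_reps_eq, Fintype.card_sum, Fintype.card_fin, Fintype.card_fin,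
      Fintype.card_subtype_compl, Fintype.card_subtype_eq, Fintype.card_fun, Fintype.card_fin,
      nsmul_eq_mul, add_comm 1 k]
    push_cast
    ring
  rw [hsum] at hint
  exact CfsgLib.CharTheory.dvd_of_isIntegral_natCast_div
    (CfsgLib.CharTheory.finrank_pos_of_isIrreducible ρ).ne' hint

end Transvections

/-- The exceptional pairs. -/
def Exc (n q : ℕ) : Prop :=
  (n = 3 ∧ q = 2) ∨ (n = 3 ∧ q = 4) ∨ (n = 4 ∧ q = 2) ∨ (n = 4 ∧ q = 3)

/-- The two dimensional base case: the dimension of the fixed space. -/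
theorem le_fixed_two {V : Type} [AddCommGroup V] [Module ℂ V] [FiniteDimensional ℂ V]
    (ρ : Representation ℂ (SpecialLinearGroup (Fin 1 ⊕ Fin 2) F) V)
    (hgood : Good F 2) (h1 : ∀ c : Fin 2 → F, c ≠ 0 → Module.finrank ℂ (eigc ρ c) = 1) :
    Fintype.card F ≤ Module.finrank ℂ (eigc ρ 0) + 1 := by
  classical
  have h01 : (0 : Fin 2) ≠ 1 := by decide
  have hTT : ∀ a b : F, TT h01 (a + b) = TT h01 a * TT h01 b := fun a b => by
    unfold TT
    rw [← map_mul, SpecialLinearGroup.transvection_add]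
  have hT0 : TT h01 (0 : F) = 1 := by
    have h := hTT 0 0
    rw [add_zero] at h
    exact mul_eq_left.1 h.symm
  have hS : Setup (fun c b : F => psi F (b * c)) (fun b : F => sigma ρ (TT h01 b)) :=
    { addL := fun c c' b => by simp [mul_add, AddChar.map_add_eq_mul]
      addR := fun c b b' => by simp [add_mul, AddChar.map_add_eq_mul]
      zeroL := fun b => by simp
      zeroR := fun c => by simp
      orth := fun c hc => by
        have hne : (psi F).mulShift c ≠ 1 := CfsgLib.InvCentralizers.SympBound.psi_prim hc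
        simpa [AddChar.mulShift_apply, mul_comm c] using AddChar.sum_eq_zero_of_ne_one hne
      orth' := fun b hb => by
        have hne : (psi F).mulShift b ≠ 1 := CfsgLib.InvCentralizers.SympBound.psi_prim hb
        simpa [AddChar.mulShift_apply] using AddChar.sum_eq_zero_of_ne_one hne
      map_zero := by simp [hT0]
      map_add := fun a b => by simp [hTT] }
  set E := fun c : F => eig (fun c b : F => psi F (b * c)) (fun b : F => sigma ρ (TT h01 b)) c
  let D : Fˣ → GL (Fin 2) F := fun a => GeneralLinearGroup.mkOfDetNeZero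
    (diagonal ![1, (a : F)]) (by simp [det_diagonal, Fin.prod_univ_two])
  have hDcomm : ∀ (a : Fˣ) (b : F), TT h01 b * D a = D a * TT h01 (b * a) := by
    intro a b
    apply Units.ext
    change Matrix.transvection 0 1 b * diagonal ![1, (a : F)] =
      diagonal ![1, (a : F)] * Matrix.transvection 0 1 (b * a)
    rw [CfsgLib.ClassicalLinear.diagonal_mul_transvection ![1, (a : F)] (b * a) b (by simp)]
  have hmap : ∀ (a : Fˣ) (c : F), Module.finrank ℂ (E c) ≤ Module.finrank ℂ (E (a * c)) := by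
    intro a c
    refine LinearMap.finrank_le_finrank_of_injective
      (f := (sigma ρ (D a)).restrict (p := E c) (q := E (a * c)) fun w hw b => ?_) ?_
    · change sigma ρ (TT h01 b) (sigma ρ (D a) w) = _
      rw [← Module.End.mul_apply, ← map_mul, hDcomm, map_mul, Module.End.mul_apply, hw (b * a),
        map_smul]
      simp only [mul_assoc]
    · intro x y h
      apply Subtype.ext
      have h' : sigma ρ (D a) x.1 = sigma ρ (D a) y.1 := congrArg Subtype.val h
      have h2 := congrArg (sigma ρ (D a)⁻¹) h'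
      simpa [← Module.End.mul_apply, ← map_mul] using h2
  have hd : ∀ c, c ≠ 0 → Module.finrank ℂ (E c) = Module.finrank ℂ (E 1) := by
    intro c hc
    refine le_antisymm ?_ ?_
    · have h := hmap (Units.mk0 c⁻¹ (inv_ne_zero hc)) c
      rwa [Units.val_mk0, inv_mul_cancel₀ hc] at h
    · have h := hmap (Units.mk0 c hc) 1
      rwa [Units.val_mk0, mul_one] at h
  have h2 := finrank_eq_sum hS
  have h3 := trace_U hS (1 : F)
  have h4 := character_sigma_TT ρ hgood h1 h01
  rw [← Finset.add_sum_erase _ _ (Finset.mem_univ (0 : F)),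
    Finset.sum_congr rfl fun c hc => hd c (Finset.mem_erase.1 hc).1, Finset.sum_const,
    Finset.card_erase_of_mem (Finset.mem_univ _), Finset.card_univ, smul_eq_mul] at h2
  have h5 := hS.orth' 1 one_ne_zero
  rw [← Finset.add_sum_erase _ _ (Finset.mem_univ (0 : F))] at h3 h5
  rw [Finset.sum_congr rfl fun c hc => by
      rw [show Module.finrank ℂ (eig _ _ c) = _ from hd c (Finset.mem_erase.1 hc).1],
    ← Finset.sum_mul, eq_neg_of_add_eq_zero_right h5] at h3
  rw [Representation.character, h3] at h4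
  simp only [mul_zero, AddChar.map_zero_eq_one, one_mul, neg_mul,
    show (2 - 1 : ℕ) = 1 from rfl, pow_one] at h4
  set m := Module.finrank ℂ (E 1) with hm
  set f := Module.finrank ℂ (E 0) with hf
  set d := Module.finrank ℂ (eigc ρ 0) with hd'
  have hq := Fintype.one_lt_card (α := F)
  have h6 : f + Fintype.card F = d + m := by
    have h7 : (f : ℂ) + (Fintype.card F : ℂ) = (d : ℂ) + (m : ℂ) := by linear_combination h4
    exact_mod_cast h7
  obtain ⟨p, hp⟩ : ∃ p, Fintype.card F = p + 1 := ⟨Fintype.card F - 1, by omega⟩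
  rw [hp, Nat.add_sub_cancel] at h2
  rcases Nat.eq_zero_or_pos m with h | h
  · rw [h] at h2 h6; simp only [mul_zero, add_zero] at h2 h6; omega
  · have : p ≤ p * m := Nat.le_mul_of_pos_right _ h
    change d = f + p * m at h2
    omega

theorem no_dvd_two {q d N : ℕ} (hq2 : q ≠ 2) (hq4 : q ≠ 4) (hq10 : q ≠ 10) (hq : 2 ≤ q)
    (hd1 : q ≤ d + 1) (hd2 : d ≤ q) (hN : N + 1 = d + q ^ 2)
    (h : N ∣ gs q 3 * (q ^ 2 - 1) * (d - 1)) : False := by
  have h1 : 1 ≤ q ^ 2 := Nat.one_le_pow _ _ (by omega)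
  have hS : gs q 3 = q ^ 2 + q + 1 := by
    simp [gs, Finset.sum_range_succ]; ring
  have hz : (N : ℤ) ∣ (q ^ 2 + q + 1) * (q ^ 2 - 1) * ((d : ℤ) - 1) := by
    have := Int.natCast_dvd_natCast.2 h
    rw [hS] at this
    push_cast [Nat.cast_sub h1, Nat.cast_sub (show 1 ≤ d by omega)] at this
    exact this
  rcases Nat.eq_or_lt_of_le hd2 with hd | hd
  · subst hd
    have eN : (N : ℤ) = d ^ 2 + d - 1 := by
      have : ((N + 1 : ℕ) : ℤ) = ((d + d ^ 2 : ℕ) : ℤ) := by rw [hN]
      push_cast at this; linarith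
    have e : ((d : ℤ) ^ 2 + d + 1) * (d ^ 2 - 1) * (d - 1) =
        N * ((N - d + 2) * (d - 1) - 2) + (4 * d - 2) := by rw [eN]; ring
    rw [e] at hz
    have h2 : (N : ℤ) ∣ 4 * d - 2 := (Int.dvd_add_right (dvd_mul_right _ _)).1 hz
    have h3 := Int.le_of_dvd (by omega) h2
    have h4 : (3 : ℤ) ≤ d := by omega
    nlinarith
  · have hd' : d + 1 = q := by omega
    subst hd'
    have eN : (N : ℤ) = ((d : ℤ) + 3) * d := by
      have : ((N + 1 : ℕ) : ℤ) = ((d + (d + 1) ^ 2 : ℕ) : ℤ) := by rw [hN]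
      push_cast at this; linarith
    rw [eN] at hz
    push_cast at hz
    have e : (((d : ℤ) + 1) ^ 2 + (d + 1) + 1) * ((d + 1) ^ 2 - 1) * (d - 1) =
        ((((d : ℤ) + 3) * ((d + 1) ^ 3 - 2 * (d + 1) ^ 2 + 2 * (d + 1) - 7)) + 12) * d := by ring
    rw [e] at hz
    have h2 : ((d : ℤ) + 3) ∣ 12 :=
      (Int.dvd_add_right (dvd_mul_right _ _)).1 (Int.dvd_of_mul_dvd_mul_right (by omega) hz)
    have h3 := Int.le_of_dvd (by norm_num) h2
    have h4 : d ≤ 9 := by omega
    interval_cases d <;> omega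

theorem no_dvd_step {q S' N : ℕ} (hq : 2 ≤ q) (hS' : q ^ 2 + q + 1 ≤ S') (hN : N + 1 = q * S')
    (h : N ∣ (q * S' + 1) * ((q - 1) * S') * (S' - 2)) : False := by
  have hz : (N : ℤ) ∣ ((q : ℤ) * S' + 1) * (((q : ℤ) - 1) * S') * ((S' : ℤ) - 2) := by
    have := Int.natCast_dvd_natCast.2 h
    push_cast [Nat.cast_sub (show 1 ≤ q by omega), Nat.cast_sub (show 2 ≤ S' by nlinarith)] at this
    exact this
  have eN : (N : ℤ) + 1 = q * S' := by exact_mod_cast hN
  have h1 := hz.mul_left ((q : ℤ) ^ 2)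
  have e : (q : ℤ) ^ 2 * (((q : ℤ) * S' + 1) * (((q : ℤ) - 1) * S') * ((S' : ℤ) - 2)) =
      N * ((q - 1) * ((N + 3) * (1 - 2 * q + N) + 2)) + -(2 * (q - 1) * (2 * q - 1)) := by
    calc _ = ((q : ℤ) - 1) * ((q * S') + 1) * (q * S') * ((q * S') - 2 * q) := by ring
      _ = _ := by rw [← eN]; ring
  rw [e] at h1
  have h2 := dvd_neg.1 ((Int.dvd_add_right (dvd_mul_right _ _)).1 h1)
  have hq' : (2 : ℤ) ≤ q := by exact_mod_cast hq
  have h3 := Int.le_of_dvd (by
    have : 0 < 2 * ((q : ℤ) - 1) := by omega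
    exact mul_pos this (by omega)) h2
  have hS'' : (q : ℤ) ^ 2 + q + 1 ≤ S' := by exact_mod_cast hS'
  have h4 : (q : ℤ) * (q ^ 2 + q + 1) ≤ q * S' := mul_le_mul_of_nonneg_left hS'' (by omega)
  nlinarith

theorem exc_cases {q k d N : ℕ} (hexc : Exc k q) (hexc' : ¬ Exc (k + 1) q)
    (hlo : q ^ (k - 1) ≤ d + 1) (hhi : d + 1 < gs q k) (hN : N + 1 = d + q ^ k)
    (h : N ∣ gs q (k + 1) * (q ^ k - 1) * (d - 1)) :
    q ^ (k - 1) + 1 ≤ d + 1 ∧ ∃ k'', k = k'' + 2 ∧ d + 2 < q ^ (k - 1) + q ^ k'' ∧ 1 ≤ k'' ∧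
      (2 ≤ k'' ∨ q = 4) := by
  rcases hexc with ⟨rfl, rfl⟩ | ⟨rfl, rfl⟩ | ⟨rfl, rfl⟩ | ⟨rfl, rfl⟩
  · exact absurd (Or.inr (Or.inr (Or.inl ⟨rfl, rfl⟩))) hexc'
  all_goals
    norm_num [gs, Finset.sum_range_succ] at hlo hhi hN h
  · have : d = 17 := by
      have : d ≤ 19 := by omega
      by_contra hd
      subst hN
      interval_cases d <;> omega
    subst this
    exact ⟨by norm_num, 1, rfl, by norm_num, le_rfl, Or.inr rfl⟩
  · have : d = 9 := by
      have : d ≤ 14 := by omega
      by_contra hd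
      subst hN
      interval_cases d <;> omega
    subst this
    exact ⟨by norm_num, 2, rfl, by norm_num, by norm_num, Or.inl le_rfl⟩
  · have : d = 28 ∨ d = 30 := by
      by_contra hd
      push Not at hd
      have : d ≤ 39 := by omega
      subst hN
      interval_cases d <;> omega
    rcases this with rfl | rfl <;>
      exact ⟨by norm_num, 2, rfl, by norm_num, by norm_num, Or.inl le_rfl⟩

/-- A vector of an irreducible non-trivial module fixed by the stabiliser of a non-zero vector. -/
theorem le_of_fixed {V : Type} [AddCommGroup V] [Module ℂ V] [FiniteDimensional ℂ V]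
    (ρ : Representation ℂ (SpecialLinearGroup (Fin 1 ⊕ Fin k) F) V) (hk : 2 ≤ k) (v : V)
    (hq : ∀ b, ρ (qRow b) v = v) (hl : ∀ A, ρ (levS A) v = v) :
    gs (Fintype.card F) (k + 1) ≤ Module.finrank ℂ V + 1 ∨ ∀ g, ρ g v = v := by
  by_cases hall : ∀ g, ρ g v = v
  · exact Or.inr hall
  push Not at hall
  left
  have h3 : 3 ≤ Fintype.card (Fin 1 ⊕ Fin k) := by simp; omega
  have h := CfsgLib.InvCentralizers.PermModule.card_reps_le_of_fixed h3 ρ
    (⟨e0, by simp [e0]⟩ : X (Fin 1 ⊕ Fin k) F) v (fixed_of_stab ρ v hq hl) hall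
  rwa [card_reps_eq, Fintype.card_sum, Fintype.card_fin, Fintype.card_fin, add_comm 1 k] at h

theorem fixed_qRow {V : Type} [AddCommGroup V] [Module ℂ V]
    (ρ : Representation ℂ (SpecialLinearGroup (Fin 1 ⊕ Fin k) F) V) (v : eigc ρ 0) (b : Fin k → F) :
    ρ (qRow b) v.1 = v.1 := by
  have h := v.2 b
  change ρ (qRow b) v.1 = PP 0 b • v.1 at h
  rwa [show PP (0 : Fin k → F) b = 1 by simp [PP], one_smul] at h

/-- Every non-trivial representation of `SL` of degree `k + 1` is large. -/
theorem bound_sum : ∀ k, 2 ≤ k → ¬ Exc (k + 1) (Fintype.card F) →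
    ∀ (V : Type) [AddCommGroup V] [Module ℂ V] [FiniteDimensional ℂ V]
      (ρ : Representation ℂ (SpecialLinearGroup (Fin 1 ⊕ Fin k) F) V), (∃ g, ρ g ≠ 1) →
      gs (Fintype.card F) (k + 1) ≤ Module.finrank ℂ V + 1 := by
  intro k
  induction k using Nat.strong_induction_on with
  | _ k ih =>
    intro hk hexc V' _ _ _ ρ' hρ'
    obtain ⟨V, _, _, _, ρ, hirr, hρ, hle⟩ := exists_irreducible_constituent ρ' hρ'
    refine le_trans ?_ (Nat.add_le_add_right hle 1)
    by_contra hcon
    have hq := Fintype.one_lt_card (α := F)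
    obtain ⟨m, hm, hdim, hch⟩ := structure_of_trans ρ (k := k) (by omega) (trans_of_two_le hk)
    have hm1 := one_le_of_nontrivial ρ (by omega) hρ m hm
    set N := Module.finrank ℂ V with hN
    set d := Module.finrank ℂ (eigc ρ 0) with hd
    have hgk := sub_one_mul_gs (q := Fintype.card F) (by omega) k
    have hgs : gs (Fintype.card F) (k + 1) = gs (Fintype.card F) k + (Fintype.card F) ^ k := gs_succ _ _
    have hgle : gs (Fintype.card F) k + 1 ≤ (Fintype.card F) ^ k := by
      have : gs (Fintype.card F) k ≤ ((Fintype.card F) - 1) * gs (Fintype.card F) k := Nat.le_mul_of_pos_left _ (by omega)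
      omega
    obtain rfl : m = 1 := by
      by_contra hne
      obtain ⟨p, rfl⟩ : ∃ p, m = p + 2 := ⟨m - 2, by omega⟩
      have : p ≤ p * (Fintype.card F) ^ k := Nat.le_mul_of_pos_right _ (by positivity)
      rw [add_mul] at hdim
      omega
    have hgood : Good F k := by
      unfold Exc at hexc; unfold Good
      omega
    have h1 : ∀ c : Fin k → F, c ≠ 0 → Module.finrank ℂ (eigc ρ c) = 1 := hm
    have hdimd : N + 1 = d + (Fintype.card F) ^ k := by rw [hdim, one_mul]
    have hchar : ∀ b, b ≠ 0 → ρ.character (qRow b) + 1 = (d : ℂ) := fun b hb => by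
      simpa using hch b hb
    rcases Nat.eq_or_lt_of_le hk with rfl | hk3
    · have hd1 := le_fixed_two ρ hgood h1
      have hdvd := finrank_dvd ρ (k := 2) le_rfl d (by omega) hchar
      have hq10 : (Fintype.card F) ≠ 10 := by
        intro h10
        obtain ⟨p, n, hp, -, hpn⟩ := FiniteField.isPrimePow_card F
        rw [h10] at hpn
        have hp' := hp.nat_prime
        have h2 : 2 ∣ p := Nat.prime_two.dvd_of_dvd_pow (by rw [hpn]; norm_num : 2 ∣ p ^ n)
        have h5 : 5 ∣ p := (by norm_num : Nat.Prime 5).dvd_of_dvd_pow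
          (by rw [hpn]; norm_num : 5 ∣ p ^ n)
        have := (Nat.prime_dvd_prime_iff_eq Nat.prime_two hp').1 h2
        omega
      have h3 : gs (Fintype.card F) 3 = (Fintype.card F) ^ 2 + (Fintype.card F) + 1 := by simp [gs, Finset.sum_range_succ]; ring
      rw [show (2 + 1 : ℕ) = 3 from rfl] at hcon
      have h4 : gs (Fintype.card F) 2 = (Fintype.card F) + 1 := by
        simp [gs, Finset.sum_range_succ]; ring
      refine no_dvd_two ?_ ?_ hq10 hq hd1 (by omega) hdimd hdvd
      · unfold Exc at hexc; omega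
      · unfold Exc at hexc; omega
    obtain ⟨k', rfl⟩ : ∃ k', k = k' + 1 := ⟨k - 1, by omega⟩
    have hk' : 2 ≤ k' := by omega
    let e : Fin 1 ⊕ Fin k' ≃ Fin (k' + 1) := finSumFinEquiv.trans (finCongr (by omega))
    let τ : Representation ℂ (SpecialLinearGroup (Fin 1 ⊕ Fin k') F) (eigc ρ 0) :=
      (sigma ρ).comp (SpecialLinearGroup.toGL.comp (slReindex e))
    obtain ⟨m', hm', hdim', hch'⟩ := structure_of_trans τ (k := k') (by omega) (trans_of_two_le hk')
    set f := Module.finrank ℂ (eigc τ 0) with hf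
    let i₀ : Fin k' := ⟨0, by omega⟩
    have htv := character_transvection τ (k := k') (by omega) (trans_of_two_le hk')
      (i := Sum.inl 0) (j := Sum.inr i₀) (by simp) (one_ne_zero) m' hm'
    have hsig := character_sigma_TT ρ hgood h1
      (i := e (Sum.inl 0)) (j := e (Sum.inr i₀)) (fun h => by simpa using e.injective h)
    have hτ : ∀ h : (Sum.inl 0 : Fin 1 ⊕ Fin k') ≠ Sum.inr i₀,
        τ.character (SpecialLinearGroup.transvection h 1) =
        (sigma ρ).character (TT (i := e (Sum.inl 0)) (j := e (Sum.inr i₀))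
          (fun h' => h (e.injective h')) 1) := fun h => by
      change LinearMap.trace ℂ _ (sigma ρ (SpecialLinearGroup.toGL (slReindex e _))) = _
      rw [slReindex_transvection]
      rfl
    rw [hτ, ← hf] at htv
    rw [← hd, Nat.add_sub_cancel] at hsig
    have hfd : f + (Fintype.card F) ^ k' = d + m' := by
      have h7 : (f : ℂ) + ((Fintype.card F) : ℂ) ^ k' = (d : ℂ) + (m' : ℂ) := by linear_combination hsig - htv
      exact_mod_cast h7
    change d + m' = f + m' * (Fintype.card F) ^ k' at hdim'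
    obtain rfl : m' = 1 := by
      have h8 : m' * (Fintype.card F) ^ k' = 1 * (Fintype.card F) ^ k' := by omega
      exact Nat.eq_of_mul_eq_mul_right (by positivity) h8
    -- the bound for the fixed space
    have hdS : gs (Fintype.card F) (k' + 1) ≤ d + 1 := by
      by_cases hE : Exc (k' + 1) (Fintype.card F)
      · by_contra hlt
        have hdvd := finrank_dvd ρ (k := k' + 1) hk d (by
          have : 2 ≤ (Fintype.card F) ^ k' := le_trans hq (Nat.le_self_pow (by omega) (Fintype.card F))
          omega) hchar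
        obtain ⟨hf1, k'', hk'', hsm, hk''1, hk''2⟩ := exc_cases (N := N) hE hexc
          (by rw [Nat.add_sub_cancel]; omega) (by omega) hdimd hdvd
        rw [Nat.add_sub_cancel] at hf1 hsm
        obtain rfl : k' = k'' + 1 := by omega
        haveI : Nontrivial (eigc τ 0) := Module.nontrivial_of_finrank_pos (R := ℂ) (by omega)
        obtain ⟨v, hv⟩ := exists_ne (0 : eigc τ 0)
        let e' : Fin 1 ⊕ Fin k'' ≃ Fin (k'' + 1) := finSumFinEquiv.trans (finCongr (by omega))
        let τ' : Representation ℂ (SpecialLinearGroup (Fin 1 ⊕ Fin k'') F) (eigc τ 0) :=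
          (sigma τ).comp (SpecialLinearGroup.toGL.comp (slReindex e'))
        have htr : Trans F k'' := by
          rcases Nat.lt_or_ge k'' 2 with h | h
          · obtain rfl : k'' = 1 := by omega
            have h4 : (Fintype.card F) = 4 := by omega
            refine trans_one_of_isSquare fun x => ?_
            obtain ⟨p, hp⟩ := CharP.exists F
            obtain ⟨n, hp', hn⟩ := FiniteField.card F p
            have h2 : p = 2 := by
              have hdp : p ∣ 2 ^ 2 := by
                rw [show (2 : ℕ) ^ 2 = (Fintype.card F) by omega, hn]; exact dvd_pow_self p n.2.ne'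
              exact (Nat.prime_dvd_prime_iff_eq hp' Nat.prime_two).1 (hp'.dvd_of_dvd_pow hdp)
            subst h2
            exact FiniteField.isSquare_of_char_two (ringChar.eq F 2) x
          · exact trans_of_two_le h
        have htriv : ∀ A : SpecialLinearGroup (Fin (k'' + 1)) F,
            τ (levS A) v.1 = v.1 := by
          intro A
          obtain ⟨g, rfl⟩ := slReindex_surjective e' A
          have h := eq_one_of_small τ' hk''1 htr (by omega) g
          exact congrArg Subtype.val (LinearMap.congr_fun h v)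
        rcases le_of_fixed τ (by omega) v.1 (fixed_qRow τ v) htriv with h | h
        · exact hlt (by omega)
        have hall : ∀ A : SpecialLinearGroup (Fin (k'' + 1 + 1)) F,
            ρ (levS A) v.1.1 = v.1.1 := fun A => by
          obtain ⟨g, rfl⟩ := slReindex_surjective e A
          exact congrArg Subtype.val (h g)
        rcases le_of_fixed ρ hk v.1.1 (fixed_qRow ρ v.1) hall with h | h
        · exact hcon h
        obtain ⟨g, hg⟩ := hρ
        let p : Subrepresentation ρ := ⟨Submodule.span ℂ {v.1.1}, fun g' w hw => by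
          obtain ⟨a, rfl⟩ := Submodule.mem_span_singleton.1 hw
          rw [map_smul, h g']
          exact Submodule.smul_mem _ _ (Submodule.mem_span_singleton_self _)⟩
        rcases hirr.eq_bot_or_eq_top p with hp | hp
        · have h2 : v.1.1 ∈ p.toSubmodule := Submodule.mem_span_singleton_self _
          rw [hp] at h2
          exact hv (Subtype.ext (Subtype.ext ((Submodule.mem_bot ℂ).1 h2)))
        · refine hg (LinearMap.ext fun w => ?_)
          have h2 : w ∈ p.toSubmodule := by rw [hp]; trivial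
          obtain ⟨a, rfl⟩ := Submodule.mem_span_singleton.1 h2
          rw [map_smul, h g, Module.End.one_apply]
      · refine ih k' (by omega) hk' hE (eigc ρ 0) τ ⟨SpecialLinearGroup.transvection
          (i := Sum.inl 0) (j := Sum.inr i₀) (by simp) 1, fun h1' => ?_⟩
        have h2 : τ.character (SpecialLinearGroup.transvection
            (i := (Sum.inl 0 : Fin 1 ⊕ Fin k')) (j := Sum.inr i₀) (by simp) 1) = (d : ℂ) := by
          rw [Representation.character, h1', LinearMap.trace_one]
        rw [hτ] at h2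
        rw [h2] at hsig
        have : ((Fintype.card F) : ℂ) ^ k' = 0 := by linear_combination hsig
        exact pow_ne_zero _ (by exact_mod_cast (show (Fintype.card F) ≠ 0 by omega)) this
    have hNS : N + 2 = gs (Fintype.card F) (k' + 1 + 1) := by omega
    have hdS' : d + 1 = gs (Fintype.card F) (k' + 1) := by omega
    have hdvd := finrank_dvd ρ (k := k' + 1) hk d (by
      have : 2 ≤ (Fintype.card F) ^ k' := le_trans hq (Nat.le_self_pow (by omega) (Fintype.card F))
      omega) hchar
    refine no_dvd_step (q := Fintype.card F) (S' := gs (Fintype.card F) (k' + 1)) (N := N) hq ?_ ?_ ?_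
    · calc (Fintype.card F) ^ 2 + (Fintype.card F) + 1 = gs (Fintype.card F) 3 := by simp [gs, Finset.sum_range_succ]; ring
        _ ≤ _ := Finset.sum_le_sum_of_subset (Finset.range_mono (by omega))
    · have := gs_succ' (Fintype.card F) (k' + 1)
      omega
    · rw [gs_succ', show (Fintype.card F) ^ (k' + 1) - 1 = ((Fintype.card F) - 1) * gs (Fintype.card F) (k' + 1) by omega,
        show d - 1 = gs (Fintype.card F) (k' + 1) - 2 by omega] at hdvd
      exact hdvd

/-- The smallest degree of a non-trivial representation of `SL n`. -/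
theorem bound {n : ℕ} (hn : 3 ≤ n) (hexc : ¬ Exc n (Fintype.card F)) {V : Type} [AddCommGroup V]
    [Module ℂ V] [FiniteDimensional ℂ V] (ρ : Representation ℂ (SpecialLinearGroup (Fin n) F) V)
    (hρ : ∃ g, ρ g ≠ 1) : gs (Fintype.card F) n ≤ Module.finrank ℂ V + 1 := by
  obtain ⟨k, rfl⟩ : ∃ k, n = k + 1 := ⟨n - 1, by omega⟩
  let e : Fin 1 ⊕ Fin k ≃ Fin (k + 1) := finSumFinEquiv.trans (finCongr (by omega))
  obtain ⟨g, hg⟩ := hρ
  obtain ⟨g', rfl⟩ := slReindex_surjective e g
  exact bound_sum k (by omega) hexc V (ρ.comp (slReindex e)) ⟨g', hg⟩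

end CfsgLib.InvCentralizers.LinearDegree
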