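import Cfsg.Agent.Lib.InvCentralizers.OrthTwist
import Cfsg.Agent.Lib.CharTheory.Degree
import Cfsg.Agent.Lib.ClassicalForms.Ortho.Generation
import Cfsg.Agent.Lib.ClassicalForms.Ortho.Dihedral

/-!
The involutions `-r`, for `r` a reflection, in the Siegel group: conjugation, integrality of the
character sum over their class, and stabilisers of a non-singular vector.
-/

set_option autoImplicit false
set_option linter.unusedSectionVars false
set_option linter.style.haveILetI false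

namespace CfsgLib.InvCentralizers.OrthInvolution

open QuadraticMap Module CfsgLib.ClassicalForms
open CfsgLib.InvCentralizers.OrthParabolic

variable {F W : Type*} [Field F] [AddCommGroup W] [Module F W] {Q : QuadraticForm F W}

variable (Q) in
/-- Minus the identity. -/
def negOne : orth Q := ⟨LinearEquiv.neg F, fun v => QuadraticMap.map_neg Q v⟩

theorem negOne_apply (v : W) : (negOne Q : W ≃ₗ[F] W) v = -v := rfl

theorem negOne_comm (g : orth Q) : negOne Q * g = g * negOne Q :=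
  orth_ext fun x => by simp [orth_mul_apply, negOne_apply]

theorem negOne_sq : negOne Q * negOne Q = 1 :=
  orth_ext fun x => by simp [orth_mul_apply, negOne_apply, orth_one_apply]

/-- Conjugation by `-r` is conjugation by `r`. -/
theorem conj_neg_mul (r g : orth Q) :
    negOne Q * r * g * (negOne Q * r)⁻¹ = r * g * r⁻¹ := by
  rw [_root_.mul_inv_rev, mul_assoc (negOne Q) r g, negOne_comm, mul_assoc, ← mul_assoc (negOne Q),
    negOne_comm, mul_assoc r⁻¹, mul_inv_cancel, mul_one]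

/-- Minus the identity on `H ⊥ Q`. -/
theorem negOne_hypSum (h2 : (2 : F) ≠ 0) :
    negOne (hypSum Q) =
      refl (hypSum Q) ((1, 1), 0) (by simp) * refl (hypSum Q) ((1, -1), 0) (by simp) *
        hypExt Q (negOne Q) := by
  refine orth_ext fun x => ?_
  obtain ⟨⟨s, t⟩, b⟩ := x
  simp [orth_mul_apply, refl_apply, hypExt_apply, negOne_apply, polar_hypSum]

/-- Membership does not depend on the representative of the square class. -/
theorem neg_refl_mem_of [Finite F] [FiniteDimensional F W] (hQ : Nondeg Q) (hn : 5 ≤ finrank F W)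
    {a b : W} (ha : Q a ≠ 0) (hb : Q b ≠ 0) (h : IsSquare (Q a * (Q b)⁻¹))
    (hm : negOne Q * refl Q a ha ∈ siegelGroup Q) : negOne Q * refl Q b hb ∈ siegelGroup Q := by
  have e : negOne Q * refl Q b hb =
      negOne Q * refl Q a ha * (refl Q a ha * (refl Q b hb)⁻¹) := by
    rw [refl_inv, mul_assoc, ← mul_assoc (refl Q a ha), refl_mul_self, one_mul]
  rw [e]
  exact mul_mem hm (refl_div_mem_siegelGroup hQ hn ha hb h)

/-- An element fixing `w` commutes with the reflection in `w`. -/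
theorem refl_comm_of_fix {w : W} (hw : Q w ≠ 0) {g : orth Q} (hg : (g : W ≃ₗ[F] W) w = w) :
    refl Q w hw * g * (refl Q w hw)⁻¹ = g := by
  have h := conj_refl g w hw
  rw [refl_congr hg, mul_inv_eq_iff_eq_mul] at h
  rw [← h, mul_inv_cancel_right]

/-- The fixed vectors of a reflection. -/
theorem refl_fix_iff {w : W} (hw : Q w ≠ 0) (c : W) :
    (refl Q w hw : W ≃ₗ[F] W) c = c ↔ polar Q c w = 0 := by
  refine ⟨fun h => ?_, refl_fix hw⟩
  rw [refl_apply, sub_eq_self] at h
  have hw0 : w ≠ 0 := fun e => hw (by rw [e, QuadraticMap.map_zero])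
  exact (mul_eq_zero.1 ((smul_eq_zero.1 h).resolve_right hw0)).resolve_left (inv_ne_zero hw)

section Stabiliser

variable {V₁ : Type*} [AddCommGroup V₁] [Module F V₁] {Q₁ : QuadraticForm F V₁}

/-- The stabiliser of `w` moves every orthogonal non-zero singular vector to the first one. -/
theorem trans_perp (h2 : (2 : F) ≠ 0) (hQ : Nondeg Q₁) {w : V₁} (hw : Q₁ w ≠ 0)
    (huniv : ∀ a : F, a ≠ 0 → ∃ z, polar Q₁ z w = 0 ∧ Q₁ z = a)
    {v : (F × F) × V₁} (hv : hypSum Q₁ v = 0) (hv0 : v ≠ 0)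
    (hvw : polar (hypSum Q₁) v ((0, 0), w) = 0) :
    ∃ g : siegelGroup (hypSum Q₁),
      (g.1 : ((F × F) × V₁) ≃ₗ[F] (F × F) × V₁) ((0, 0), w) = ((0, 0), w) ∧
      (g.1 : ((F × F) × V₁) ≃ₗ[F] (F × F) × V₁) v = ((1, 0), 0) := by
  have kill : ∀ v : (F × F) × V₁, hypSum Q₁ v = 0 → v.1.2 ≠ 0 →
      polar (hypSum Q₁) v ((0, 0), w) = 0 →
      ∃ g : siegelGroup (hypSum Q₁),
        (g.1 : ((F × F) × V₁) ≃ₗ[F] (F × F) × V₁) ((0, 0), w) = ((0, 0), w) ∧
        (g.1 : ((F × F) × V₁) ≃ₗ[F] (F × F) × V₁) v = ((1, 0), 0) := by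
    rintro ⟨⟨s, t⟩, b⟩ hv ht hvw
    simp only at ht
    have hbw : polar Q₁ b w = 0 := by simpa [polar_hypSum] using hvw
    obtain ⟨z, hzw, hz⟩ := huniv (-t⁻¹) (by simp [ht])
    set g₁ : siegelGroup (hypSum Q₁) :=
      ⟨siegel _ ((1, 0), 0) ((0, 0), -(t⁻¹ • b)) (by simp) (by simp [polar_hypSum]),
        siegel_mem_siegelGroup _ _⟩ with hg₁
    set g₂ : siegelGroup (hypSum Q₁) :=
      ⟨siegel _ ((1, 0), 0) ((0, 0), z) (by simp) (by simp [polar_hypSum]),
        siegel_mem_siegelGroup _ _⟩ with hg₂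
    set g₃ : siegelGroup (hypSum Q₁) :=
      ⟨siegel _ ((0, 1), 0) ((0, 0), -(t • z)) (by simp) (by simp [polar_hypSum]),
        siegel_mem_siegelGroup _ _⟩ with hg₃
    have f1 : (g₁.1 : ((F × F) × V₁) ≃ₗ[F] (F × F) × V₁) ((0, 0), w) = ((0, 0), w) := by
      rw [hg₁]; simp [siegel_apply, polar_hypSum, polar_smul_right, polar_comm Q₁ w b, hbw]
    have f2 : (g₂.1 : ((F × F) × V₁) ≃ₗ[F] (F × F) × V₁) ((0, 0), w) = ((0, 0), w) := by
      rw [hg₂]; simp [siegel_apply, polar_hypSum, polar_comm Q₁ w z, hzw]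
    have f3 : (g₃.1 : ((F × F) × V₁) ≃ₗ[F] (F × F) × V₁) ((0, 0), w) = ((0, 0), w) := by
      rw [hg₃]; simp [siegel_apply, polar_hypSum, polar_smul_right, polar_comm Q₁ w z, hzw]
    have e1 : (g₁.1 : ((F × F) × V₁) ≃ₗ[F] (F × F) × V₁) ((s, t), b) = ((0, t), 0) := by
      set x := (g₁.1 : ((F × F) × V₁) ≃ₗ[F] (F × F) × V₁) ((s, t), b) with hx
      have hx2 : x.1.2 = t ∧ x.2 = 0 := by
        rw [hx, hg₁]; simp [siegel_apply, polar_hypSum, ht]
      have hQx : hypSum Q₁ x = 0 := by rw [hx, orth_apply]; exact hv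
      rw [hypSum_apply, hx2.1, hx2.2, QuadraticMap.map_zero, add_zero] at hQx
      exact Prod.ext (Prod.ext ((mul_eq_zero.1 hQx).resolve_right ht) hx2.1) hx2.2
    have e2 : (g₂.1 : ((F × F) × V₁) ≃ₗ[F] (F × F) × V₁) ((0, t), 0) = ((1, t), t • z) := by
      rw [hg₂]; simp [siegel_apply, polar_hypSum, hz, ht]
    have e3 : (g₃.1 : ((F × F) × V₁) ≃ₗ[F] (F × F) × V₁) ((1, t), t • z) = ((1, 0), 0) := by
      set x := (g₃.1 : ((F × F) × V₁) ≃ₗ[F] (F × F) × V₁) ((1, t), t • z) with hx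
      have hx2 : x.1.1 = 1 ∧ x.2 = 0 := by
        rw [hx, hg₃]; simp [siegel_apply, polar_hypSum]
      have hQx : hypSum Q₁ x = 0 := by
        rw [hx, orth_apply, ← e2, orth_apply, ← e1, orth_apply]; exact hv
      rw [hypSum_apply, hx2.1, hx2.2, QuadraticMap.map_zero, add_zero, one_mul] at hQx
      exact Prod.ext (Prod.ext hx2.1 hQx) hx2.2
    refine ⟨g₃ * g₂ * g₁, ?_, ?_⟩
    · simp only [Subgroup.coe_mul, LinearEquiv.mul_apply, f1, f2, f3]
    · simp only [Subgroup.coe_mul, LinearEquiv.mul_apply, e1, e2, e3]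
  by_cases ht : v.1.2 = 0
  swap
  · exact kill v hv ht hvw
  obtain ⟨⟨s, t⟩, b⟩ := v
  simp only at ht
  subst ht
  have hbw : polar Q₁ b w = 0 := by simpa [polar_hypSum] using hvw
  obtain ⟨z, hzw, hne⟩ : ∃ z, polar Q₁ z w = 0 ∧ polar Q₁ b z + Q₁ z * s ≠ 0 := by
    by_cases hb : b = 0
    · have hs : s ≠ 0 := fun hs => hv0 (by rw [hs, hb]; rfl)
      obtain ⟨z, hzw, hz⟩ := huniv 1 one_ne_zero
      exact ⟨z, hzw, by simp [hb, hz, hs]⟩
    obtain ⟨x, hx⟩ := hQ.exists_polar_ne hb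
    set z := x - (polar Q₁ x w / (2 * Q₁ w)) • w with hz
    have hzw : polar Q₁ z w = 0 := by
      rw [hz, polar_sub_left, polar_smul_left, polar_self_mul, smul_eq_mul,
        div_mul_cancel₀ _ (mul_ne_zero h2 hw), sub_self]
    have hbz : polar Q₁ b z ≠ 0 := by
      rw [hz, polar_sub_right, polar_smul_right, hbw, smul_zero, sub_zero]
      exact hx
    by_cases h1 : polar Q₁ b z + Q₁ z * s = 0
    · refine ⟨-z, by rw [polar_neg_left, hzw, neg_zero], fun h3 => hbz ?_⟩
      rw [polar_neg_right, QuadraticMap.map_neg] at h3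
      exact (mul_eq_zero.1 (show (2 : F) * polar Q₁ b z = 0 by
        linear_combination h1 - h3)).resolve_left h2
    · exact ⟨z, hzw, h1⟩
  let g : siegelGroup (hypSum Q₁) :=
    ⟨siegel _ ((0, 1), 0) ((0, 0), z) (by simp) (by simp [polar_hypSum]),
      siegel_mem_siegelGroup _ _⟩
  have hgw : (g.1 : ((F × F) × V₁) ≃ₗ[F] (F × F) × V₁) ((0, 0), w) = ((0, 0), w) := by
    simp [g, siegel_apply, polar_hypSum, polar_comm Q₁ w z, hzw]
  have hgv : ((g.1 : ((F × F) × V₁) ≃ₗ[F] (F × F) × V₁) ((s, 0), b)).1.2 ≠ 0 := by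
    simp [g, siegel_apply, polar_hypSum]
    exact fun h => hne (by linear_combination -h)
  obtain ⟨g', h1, h3⟩ := kill _ (by rw [orth_apply]; exact hv) hgv
    (by rw [← hgw, polar_apply]; exact hvw)
  exact ⟨g' * g, by simp only [Subgroup.coe_mul, LinearEquiv.mul_apply, hgw, h1],
    by simp only [Subgroup.coe_mul, LinearEquiv.mul_apply, h3]⟩

end Stabiliser

section Divisibility

open scoped Classical in
/-- The degree divides the sum of the character over the class. -/
theorem finrank_dvd [Fintype F] [Fintype W] (hQ : Nondeg Q) (hn : 5 ≤ finrank F W) {u : F}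
    (hu : u ≠ 0) (hmem : ∀ x, ∀ hx : Q x ≠ 0, Q x = u → negOne Q * refl Q x hx ∈ siegelGroup Q)
    {V : Type*} [AddCommGroup V] [Module ℂ V] [FiniteDimensional ℂ V]
    (ρ : Representation ℂ (siegelGroup Q) V) [ρ.IsIrreducible] {w : W} (hw : Q w = u) (χ : ℤ)
    (hχ : ρ.character ⟨negOne Q * refl Q w (hw ▸ hu), hmem w _ hw⟩ = (χ : ℂ)) :
    (finrank ℂ V : ℤ) ∣ (Nat.card {x // Q x = u} : ℤ) * χ := by
  haveI : Finite (orth Q) := finite_orth _
  letI : Fintype (siegelGroup Q) := Fintype.ofFinite _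
  let el : {x // Q x = u} → siegelGroup Q := fun x =>
    ⟨negOne Q * refl Q x.1 (by rw [x.2]; exact hu), hmem _ _ x.2⟩
  have helc : ∀ (h : siegelGroup Q) (x : {x // Q x = u}),
      el ⟨(h.1 : W ≃ₗ[F] W) x.1, by rw [orth_apply]; exact x.2⟩ = h * el x * h⁻¹ := by
    intro h x
    apply Subtype.ext
    simp only [el, Subgroup.coe_mul, Subgroup.coe_inv]
    rw [← conj_refl, ← mul_assoc, ← mul_assoc, negOne_comm, mul_assoc (h.1 : orth Q)]
  have hX : ∀ x, ρ.character (el x) = (χ : ℂ) := by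
    intro x
    obtain ⟨g, hg, e⟩ := (Sec.top Q).transitive_norm hQ (by simpa using hn) (Sec.mem_top w)
      (Sec.mem_top x.1) (hw.trans x.2.symm) (by rw [hw]; exact hu)
    have e1 : el x = ⟨g, hg.1⟩ * el ⟨w, hw⟩ * (⟨g, hg.1⟩ : siegelGroup Q)⁻¹ := by
      rw [← helc ⟨g, hg.1⟩ ⟨w, hw⟩]
      exact congrArg el (Subtype.ext e.symm)
    rw [e1, Representation.char_conj]
    exact hχ
  let a : siegelGroup Q → ℂ := fun g =>
    ((Finset.univ.filter fun x : {x // Q x = u} => el x = g).card : ℂ)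
  have hcl : Cfsg.IsClassFunction (siegelGroup Q) a := by
    intro g h
    simp only [a]
    congr 1
    let σp : {x // Q x = u} → {x // Q x = u} := fun x =>
      ⟨(h.1 : W ≃ₗ[F] W) x.1, by rw [orth_apply]; exact x.2⟩
    have hσ : Function.Injective σp := fun p p' e =>
      Subtype.ext (LinearEquiv.injective _ (congrArg Subtype.val e))
    have hel : ∀ x, el (σp x) = h * el x * h⁻¹ := fun x => helc h x
    symm
    refine Finset.card_bij (fun p _ => σp p) (fun p hp => ?_) (fun p _ p' _ e => hσ e) fun p hp => ?_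
    · simp only [Finset.mem_filter, Finset.mem_univ, true_and] at hp ⊢
      rw [hel, hp]
    · obtain ⟨p', rfl⟩ := (Finite.injective_iff_surjective.1 hσ) p
      refine ⟨p', ?_, rfl⟩
      simp only [Finset.mem_filter, Finset.mem_univ, true_and] at hp ⊢
      rw [hel] at hp
      simpa using hp
  have hint := CfsgLib.CharTheory.isIntegral_sum_mul_character_div ρ hcl
    (fun g => isIntegral_natCast _)
  have hsum : ∑ g, a g * ρ.character g = (Nat.card {x // Q x = u} : ℂ) * χ := by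
    rw [Nat.card_eq_fintype_card, ← Finset.card_univ (α := {x // Q x = u}), ← nsmul_eq_mul,
      ← Finset.sum_const, ← Finset.sum_fiberwise Finset.univ el]
    refine Finset.sum_congr rfl fun g _ => ?_
    rw [Finset.sum_const, nsmul_eq_mul]
    rcases (Finset.univ.filter fun x : {x // Q x = u} => el x = g).eq_empty_or_nonempty with
      h | ⟨p, hp⟩
    · simp [a, h]
    · simp only [Finset.mem_filter, Finset.mem_univ, true_and] at hp
      rw [← hp, hX, hp]
  rw [hsum] at hint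
  set Z : ℤ := (Nat.card {x // Q x = u} : ℤ) * χ with hZ
  have hZ' : (Nat.card {x // Q x = u} : ℂ) * χ = ((Z : ℤ) : ℂ) := by
    rw [hZ]; push_cast; ring
  rw [hZ'] at hint
  obtain ⟨z, hz⟩ := CfsgLib.CharTheory.exists_int_of_isIntegral_ratCast
    (q := (Z : ℚ) / (finrank ℂ V : ℚ)) (by push_cast; exact hint)
  rw [eq_div_iff (by exact_mod_cast (CfsgLib.CharTheory.finrank_pos_of_isIrreducible ρ).ne')] at hz
  exact ⟨z, by
    have : ((Z : ℤ) : ℚ) = ((finrank ℂ V : ℤ) * z : ℤ) := by push_cast; linear_combination -hz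
    exact_mod_cast this⟩

end Divisibility

/-- The trace of an involution. -/
theorem trace_involution {V : Type*} [AddCommGroup V] [Module ℂ V] [FiniteDimensional ℂ V]
    {g : Module.End ℂ V} (h : g * g = 1) :
    ∃ r : ℕ, r ≤ finrank ℂ V ∧
      LinearMap.trace ℂ V g = ((2 * (r : ℤ) - finrank ℂ V : ℤ) : ℂ) := by
  set p : Module.End ℂ V := (2⁻¹ : ℂ) • (1 + g) with hp
  have hidem : IsIdempotentElem p := by
    change p * p = p
    rw [hp, smul_mul_smul, mul_add, add_mul, add_mul, h, one_mul, mul_one, one_mul]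
    module
  refine ⟨finrank ℂ (LinearMap.range p), Submodule.finrank_le _, ?_⟩
  have h1 := (LinearMap.IsIdempotentElem.isProj_range p hidem).trace
  rw [hp, map_smul, map_add, LinearMap.trace_one, smul_eq_mul] at h1
  push_cast
  linear_combination 2 * h1

end CfsgLib.InvCentralizers.OrthInvolution
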