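import Cfsg.Agent.Lib.InvCentralizers.OrthMinusSmall

/-!
The exceptional case of `Ω⁻₈(2)`: conjugates of the fixed space of the radical at the points of a
totally singular subspace are independent.
-/

set_option autoImplicit false
set_option linter.unusedSectionVars false
set_option linter.style.haveILetI false

namespace CfsgLib.InvCentralizers.OrthMinusClique

open QuadraticMap Module CfsgLib.ClassicalForms
open CfsgLib.InvCentralizers.OrthParabolic
open CfsgLib.InvCentralizers.OrthSmall
open CfsgLib.InvCentralizers.OrthMinusTower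
open CfsgLib.InvCentralizers.OrthMinusSmall
open CfsgLib.InvCentralizers.AbelianEigen

universe u

variable {F : Type u} [Field F] [Fintype F]

section Key

variable {V₁ : Type*} [AddCommGroup V₁] [Module F V₁] [Fintype V₁] {Q₁ : QuadraticForm F V₁}
  {V : Type*} [AddCommGroup V] [Module ℂ V] [FiniteDimensional ℂ V]
  (ρ : Representation ℂ (siegelGroup (hypSum (hypSum Q₁))) V)

/-- If the inner radical has no fixed vector, the conjugate fixed spaces project to zero. -/
theorem eproj_conj_eq_zero (hQ : Nondeg Q₁) (hσ : eigc (sigma ρ) 0 = ⊥)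
    (h : siegelGroup (hypSum (hypSum Q₁))) {s : F} {bb : (F × F) × V₁}
    (hh : (h.1 : ((F × F) × ((F × F) × V₁)) ≃ₗ[F] (F × F) × ((F × F) × V₁)) x₀ = ((s, 0), bb))
    (hbb : hypSum Q₁ bb = 0)
    (k : siegelGroup (hypSum Q₁))
    (hk : (k.1 : ((F × F) × V₁) ≃ₗ[F] (F × F) × V₁) x₀ = bb)
    {w : V} (hw : w ∈ eigc ρ 0) :
    eproj (PP (hypSum Q₁)) (UU ρ) 0 (ρ h w) = 0 := by
  have hst := setup ρ hQ.hypSum
  set w' := ρ h w with hw'
  have hwrad : ∀ B, ρ (rad B) w = w := fun B => by
    have := hw B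
    simpa [UU, PP] using this
  have hfix : ∀ (W : (F × F) × ((F × F) × V₁)) (hu : hypSum (hypSum Q₁) ((s, 0), bb) = 0)
      (hW : polar (hypSum (hypSum Q₁)) ((s, 0), bb) W = 0),
      ρ ⟨siegel (hypSum (hypSum Q₁)) ((s, 0), bb) W hu hW, siegel_mem_siegelGroup _ _⟩ w' = w' := by
    intro W hu hW
    set W' := ((h.1⁻¹ : orth (hypSum (hypSum Q₁))) :
      ((F × F) × ((F × F) × V₁)) ≃ₗ[F] (F × F) × ((F × F) × V₁)) W with hW'
    have hWh : (h.1 : ((F × F) × ((F × F) × V₁)) ≃ₗ[F] (F × F) × ((F × F) × V₁)) W' = W := by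
      rw [hW', orth_apply_inv]
    have hp : polar (hypSum (hypSum Q₁)) x₀ W' = 0 := by
      have h2 := polar_apply h.1 x₀ W'
      rw [hh, hWh, hW] at h2
      exact h2.symm
    have h12 : W'.1.2 = 0 := by simpa [x₀, polar_hypSum] using hp
    have e2 : W' = ((0, 0), W'.2) + W'.1.1 • x₀ := by
      refine Prod.ext (Prod.ext ?_ ?_) ?_ <;> simp [x₀, h12]
    have e : (⟨siegel (hypSum (hypSum Q₁)) ((s, 0), bb) W hu hW, siegel_mem_siegelGroup _ _⟩ :
        siegelGroup (hypSum (hypSum Q₁))) * h = h * rad W'.2 := by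
      rw [eq_comm, ← mul_inv_eq_iff_eq_mul]
      apply Subtype.ext
      simp only [rad, Subgroup.coe_mul, Subgroup.coe_inv, conj_siegel]
      refine Eq.symm ?_
      refine (siegel_eq hh.symm ?_).trans
        (siegel_add_smul (by rw [orth_apply]; exact x₀_singular)
          (by rw [polar_apply]; exact polar_x₀ _) W'.1.1)
      rw [← map_smul, ← map_add, ← e2, hWh]
    rw [hw', ← Module.End.mul_apply, ← map_mul, e, map_mul, Module.End.mul_apply, hwrad]
  have he0rad : ∀ (B : (F × F) × V₁) (x : V),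
      eproj (PP (hypSum Q₁)) (UU ρ) 0 (ρ (rad B) x) = eproj (PP (hypSum Q₁)) (UU ρ) 0 x := by
    intro B x
    have h1 := eproj_UU ρ hQ.hypSum 0 B x
    rw [hst.zeroL, one_smul] at h1
    exact h1
  set e₀ : eigc ρ 0 := ⟨eproj (PP (hypSum Q₁)) (UU ρ) 0 w', eproj_mem hst 0 w'⟩ with he₀
  have hσfix : ∀ (c : (F × F) × V₁) (hc : polar (hypSum Q₁) bb c = 0),
      sigma ρ ⟨siegel (hypSum Q₁) bb c hbb hc, siegel_mem_siegelGroup _ _⟩ e₀ = e₀ := by
    intro c hc
    apply Subtype.ext
    change ρ (levi (hypSum Q₁) _) (eproj (PP (hypSum Q₁)) (UU ρ) 0 w') =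
      eproj (PP (hypSum Q₁)) (UU ρ) 0 w'
    have hu : hypSum (hypSum Q₁) ((s, 0), bb) = 0 := by simp [show hypSum Q₁ bb = 0 from hbb]
    have hW : polar (hypSum (hypSum Q₁)) ((s, 0), bb) ((0, 0), c) = 0 := by
      rw [polar_hypSum]; simp [hc]
    have e : (⟨siegel (hypSum (hypSum Q₁)) ((s, 0), bb) ((0, 0), c) hu hW,
        siegel_mem_siegelGroup _ _⟩ : siegelGroup (hypSum (hypSum Q₁))) =
        rad (s • c) * levi (hypSum Q₁)
          ⟨siegel (hypSum Q₁) bb c hbb hc, siegel_mem_siegelGroup _ _⟩ *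
          rad ((-(s * hypSum Q₁ c)) • bb) := by
      apply Subtype.ext
      refine orth_ext fun z => ?_
      obtain ⟨⟨z1, z2⟩, z3⟩ := z
      simp only [rad, Subgroup.coe_mul, LinearEquiv.mul_apply, levi_apply, hypExt_apply,
        siegel_apply, polar_hypSum (Q := hypSum Q₁), x₀]
      simp only [Prod.smul_mk, Prod.mk_add_mk, Prod.mk_sub_mk, smul_eq_mul, polar_add_right,
        polar_add_left, polar_sub_left, polar_smul_left, polar_smul_right, QuadraticMap.map_smul,
        polar_self_mul, hbb, hc, polar_comm (hypSum Q₁) c bb, smul_zero, mul_zero, zero_mul,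
        add_zero, zero_add, sub_zero, mul_one, hypSum_apply, Prod.fst_zero, Prod.snd_zero]
      refine Prod.ext (Prod.ext ?_ ?_) ?_
      · simp; ring
      · simp
      · simp; match_scalars <;> ring
    have h1 := hfix _ hu hW
    rw [e, map_mul, map_mul, Module.End.mul_apply, Module.End.mul_apply] at h1
    have h2 := congrArg (eproj (PP (hypSum Q₁)) (UU ρ) 0) h1
    rw [he0rad] at h2
    have h3 := eproj_levi ρ hQ.hypSum ⟨siegel (hypSum Q₁) bb c hbb hc, siegel_mem_siegelGroup _ _⟩ 0
      (ρ (rad ((-(s * hypSum Q₁ c)) • bb)) w')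
    rw [map_zero, he0rad] at h3
    rw [h3] at h2
    exact h2
  have hmem : sigma ρ k⁻¹ e₀ ∈ eigc (sigma ρ) 0 := by
    intro c
    have hkc : polar (hypSum Q₁) bb ((k.1 : ((F × F) × V₁) ≃ₗ[F] (F × F) × V₁) ((0, 0), c)) = 0 := by
      rw [← hk, polar_apply]; exact polar_x₀ c
    have e : rad c * k⁻¹ =
        k⁻¹ * (⟨siegel (hypSum Q₁) bb _ hbb hkc, siegel_mem_siegelGroup _ _⟩ :
          siegelGroup (hypSum Q₁)) := by
      rw [eq_inv_mul_iff_mul_eq, ← mul_assoc]
      apply Subtype.ext
      simp only [rad, Subgroup.coe_mul, Subgroup.coe_inv, conj_siegel]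
      exact siegel_eq hk rfl
    change sigma ρ (rad c) (sigma ρ k⁻¹ e₀) = _
    rw [← Module.End.mul_apply, ← map_mul, e, map_mul, Module.End.mul_apply, hσfix]
    simp [PP]
  rw [hσ, Submodule.mem_bot] at hmem
  have h4 := congrArg (sigma ρ k) hmem
  rw [← Module.End.mul_apply, ← map_mul, mul_inv_cancel, map_one, Module.End.one_apply, map_zero]
    at h4
  exact congrArg Subtype.val h4

end Key

variable {a b : F}

/-- The degree is at least the number of points times the dimension of the fixed space. -/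
theorem clique (h : Aniso a b) (hq : Fintype.card F = 2) {V : Type} [AddCommGroup V] [Module ℂ V]
    [FiniteDimensional ℂ V]
    (ρ : Representation ℂ (siegelGroup (hypSum (tower a b 2).Q)) V)
    (hσ : finrank ℂ (eigc (Q₀ := (tower a b 1).Q) (sigma ρ) 0) = 0) :
    7 * finrank ℂ (eigc ρ 0) ≤ finrank ℂ V := by
  classical
  have hQ2 := nondeg h 2
  have hσ' : eigc (Q₀ := (tower a b 1).Q) (sigma ρ) 0 = ⊥ := Submodule.finrank_eq_zero.1 hσ
  set S := Finset.univ.filter fun y : (tower a b 3).W => y ∈ (tower a b 3).E ∧ y ≠ 0 with hS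
  have hScard : S.card = 7 := by
    have h1 := E_card (a := a) (b := b) 3
    rw [Nat.card_eq_fintype_card, Fintype.card_subtype, hq] at h1
    have h2 : S = (Finset.univ.filter fun y : (tower a b 3).W => y ∈ (tower a b 3).E).erase 0 := by
      ext y; simp [S, and_comm]
    rw [h2, Finset.card_erase_of_mem (by simp), h1]
    rfl
  have hex : ∀ y : S, ∃ g : siegelGroup (hypSum (tower a b 2).Q),
      (g.1 : ((F × F) × (tower a b 2).W) ≃ₗ[F] (F × F) × (tower a b 2).W) x₀ = y.1 := fun y =>
    exists_orth_map_x₀ hQ2 (by rw [finrank_eq]; omega)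
      (E_sing 3 _ (Finset.mem_filter.1 y.2).2.1) (Finset.mem_filter.1 y.2).2.2
  choose g hg using hex
  let Φ : (S → eigc ρ 0) →ₗ[ℂ] V := ∑ y : S, ((ρ (g y)).comp (eigc ρ 0).subtype).comp
    (LinearMap.proj y)
  have hΦ : Function.Injective Φ := by
    rw [injective_iff_map_eq_zero]
    intro u hu
    funext y
    apply Subtype.ext
    have h1 := congrArg (fun v => eproj (PP (tower a b 2).Q) (UU ρ) 0 (ρ (g y)⁻¹ v)) hu
    simp only [Φ, LinearMap.sum_apply, LinearMap.comp_apply, LinearMap.proj_apply, map_sum,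
      map_zero] at h1
    rw [Finset.sum_eq_single y] at h1
    · change eproj _ _ 0 (ρ (g y)⁻¹ (ρ (g y) (u y).1)) = 0 at h1
      rw [← Module.End.mul_apply (ρ (g y)⁻¹), ← map_mul, inv_mul_cancel, map_one, Module.End.one_apply,
        eproj_eig (setup ρ hQ2) (u y).2] at h1
      exact h1
    · intro y' _ hne
      change eproj _ _ 0 (ρ (g y)⁻¹ (ρ (g y') (u y').1)) = 0
      rw [← Module.End.mul_apply (ρ (g y)⁻¹), ← map_mul]
      set z : (F × F) × (tower a b 2).W :=
        (((g y).1⁻¹ : orth (hypSum (tower a b 2).Q)) :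
          ((F × F) × (tower a b 2).W) ≃ₗ[F] (F × F) × (tower a b 2).W) y'.1 with hz
      have hzy : ((g y).1 : ((F × F) × (tower a b 2).W) ≃ₗ[F] (F × F) × (tower a b 2).W) z = y'.1 :=
        orth_apply_inv _ _
      have hpz : z.1.2 = 0 := by
        have h2 := polar_apply (g y).1 x₀ z
        rw [hzy, hg y] at h2
        have h3 : polar (hypSum (tower a b 2).Q) y.1 y'.1 = 0 := by
          have hy := (Finset.mem_filter.1 y.2).2.1
          have hy' := (Finset.mem_filter.1 y'.2).2.1
          exact polar_eq_zero_of_sing (Q₀ := hypSum (tower a b 2).Q) (E_sing 3) hy hy'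
        rw [h3] at h2
        simpa [x₀, polar_hypSum] using h2.symm
      have hzQ : hypSum (tower a b 2).Q z = 0 := by
        rw [hz]; exact (orth_apply ((g y).1⁻¹) y'.1).trans (E_sing 3 _ (Finset.mem_filter.1 y'.2).2.1)
      have hz2Q : hypSum (tower a b 1).Q z.2 = 0 := by
        rw [hypSum_apply, hpz, mul_zero, zero_add] at hzQ; exact hzQ
      have hz20 : z.2 ≠ 0 := by
        intro h0
        have e1 : z = z.1.1 • x₀ := by
          refine Prod.ext (Prod.ext ?_ ?_) ?_ <;> simp [x₀, hpz, h0]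
        have hs : z.1.1 = 1 := by
          have hs0 : z.1.1 ≠ 0 := by
            intro h00
            refine (Finset.mem_filter.1 y'.2).2.2 ?_
            rw [← hzy, e1, h00, zero_smul]
            exact map_zero _
          have h5 := FiniteField.pow_card_sub_one_eq_one z.1.1 hs0
          rw [hq] at h5
          simpa using h5
        refine hne (Subtype.ext ?_)
        rw [← hzy, e1, hs, one_smul]
        exact hg y
      obtain ⟨k, hk⟩ := transitive h 1 (x₀ (V₀ := (tower a b 1).W)) z.2 x₀_singular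
        (fun h0 => one_ne_zero (congrArg (fun x : (F × F) × (tower a b 1).W => x.1.1) h0))
        hz2Q hz20
      refine eproj_conj_eq_zero (Q₁ := (tower a b 1).Q) ρ (nondeg h 1) hσ' _ (s := z.1.1) ?_ hz2Q k
        hk (u y').2
      refine Eq.trans ?_ (show z = ((z.1.1, 0), z.2) from Prod.ext (Prod.ext rfl hpz) rfl)
      rw [hz, ← hg y']
      rfl
    · simp
  have h1 := LinearMap.finrank_le_finrank_of_injective hΦ
  rw [Module.finrank_pi_fintype] at h1
  simp only [Finset.sum_const, Finset.card_univ, Fintype.card_coe, hScard, smul_eq_mul] at h1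
  exact h1

end CfsgLib.InvCentralizers.OrthMinusClique
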