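import Cfsg.Agent.Lib.InvCentralizers.OrthMinusTwoLine
import Cfsg.Agent.Lib.CharTheory.Degree

/-!
`Ω⁻₁₀(2)` has no irreducible representation of degree 153 of the small type.
-/

set_option autoImplicit false
set_option linter.unusedSectionVars false
set_option linter.style.haveILetI false

namespace CfsgLib.InvCentralizers.OrthMinusTwo

open QuadraticMap Module CfsgLib.ClassicalForms
open CfsgLib.InvCentralizers.OrthParabolic
open CfsgLib.InvCentralizers.OrthSmall
open CfsgLib.InvCentralizers.OrthMinusTower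
open CfsgLib.InvCentralizers.OrthMinusSmall
open CfsgLib.InvCentralizers.AbelianEigen

universe u

variable {F : Type u} [Field F] [Fintype F] {a b : F} (hq : Fintype.card F = 2) (h : Aniso a b)

include hq in
theorem refl_swap {V₀ : Type*} [AddCommGroup V₀] [Module F V₀] {Q₀ : QuadraticForm F V₀}
    (hx : hypSum Q₀ (((1 : F), (1 : F)), (0 : V₀)) ≠ 0) :
    (refl (hypSum Q₀) (((1 : F), (1 : F)), (0 : V₀)) hx :
      ((F × F) × V₀) ≃ₗ[F] (F × F) × V₀) ((0, 1), 0) = x₀ := by
  rw [refl_apply]
  simp [polar_hypSum, x₀]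
  linear_combination -(two_eq_zero hq)

set_option maxHeartbeats 1000000 in
/-- The rotation acts trivially on both innermost character lines. -/
theorem scalar_low {V : Type} [AddCommGroup V] [Module ℂ V] [FiniteDimensional ℂ V]
    (σ : Representation ℂ (siegelGroup (hypSum (tower a b 2).Q)) V) (hs : Small σ)
    (hρ : ∃ g, σ g ≠ 1) (c : (tower a b 1).W) (hc0 : c ≠ 0) (hcQ : (tower a b 1).Q c = 0)
    (hfix : (rot hq h 1 : (tower a b 1).W ≃ₗ[F] (tower a b 1).W) c = c) :
    ∀ w ∈ eigc (Q₀ := (tower a b 1).Q) (sigma σ) c,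
      sigma σ (levi (tower a b 1).Q (gg hq h 0)) w = w := by
  obtain ⟨⟨s, t⟩, z⟩ := c
  have hz : z = 0 := by
    have h1 : cp a b 1 (((s, t), z) : (F × F) × (tower a b 0).W) = 0 := (rot_fix_iff hq h 1 _).1 hfix
    exact h1
  subst hz
  have hst : s * t = 0 := by
    have h1 : hypSum (tower a b 0).Q ((s, t), 0) = 0 := hcQ
    simpa using h1
  have h2 := two_eq_zero hq
  intro w hw
  by_cases ht : t = 0
  · subst ht
    obtain rfl : s = 1 := eq_one_of_ne_zero hq fun hs0 => hc0 (by subst hs0; rfl)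
    exact line_fixed hq h σ hs hρ w hw
  · obtain rfl : t = 1 := eq_one_of_ne_zero hq ht
    obtain rfl : s = 0 := by simpa using hst
    set x : (tower a b 1).W := (((1, 1), 0) : (F × F) × (tower a b 0).W) with hx
    have hx1 : (tower a b 1).Q x = 1 := by
      change hypSum (tower a b 0).Q ((1, 1), 0) = 1
      simp
    have hxn : (tower a b 1).Q x ≠ 0 := by rw [hx1]; exact one_ne_zero
    have hxc : cp a b 1 x = 0 := by
      change (tEquiv a b 0 0).2 = 0
      rw [map_zero]; rfl
    have hxa : polar (tower a b 1).Q x (core a b 1 (za F)) = 0 := by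
      rw [polar_core, hxc]; exact polar_zero_left _ _
    have hmem : refl (tower a b 1).Q _ (za_ne hq h 1) * refl _ x hxn ∈
        siegelGroup (tower a b 1).Q := by
      refine refl_mul_mem hq (core_za hq h _) hx1 ?_ _ _
      rw [polar_comm]; exact hxa
    set t' : siegelGroup (tower a b 1).Q := ⟨_, hmem⟩ with ht'
    have htc : (t'.1 : (tower a b 1).W ≃ₗ[F] (tower a b 1).W)
        (((0, 1), 0) : (F × F) × (tower a b 0).W) = x₀ (V₀ := (tower a b 0).W) := by
      rw [ht']
      simp only [Subgroup.coe_mul, LinearEquiv.mul_apply]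
      have e1 : (refl (tower a b 1).Q x hxn : (tower a b 1).W ≃ₗ[F] (tower a b 1).W)
          (((0, 1), 0) : (F × F) × (tower a b 0).W) = x₀ (V₀ := (tower a b 0).W) :=
        refl_swap hq (Q₀ := (tower a b 0).Q) hxn
      change (refl (tower a b 1).Q _ (za_ne hq h 1) : (tower a b 1).W ≃ₗ[F] (tower a b 1).W)
        ((refl (tower a b 1).Q x hxn : (tower a b 1).W ≃ₗ[F] (tower a b 1).W)
          (((0, 1), 0) : (F × F) × (tower a b 0).W)) = _
      refine (congrArg (fun z => (refl (tower a b 1).Q _ (za_ne hq h 1) :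
        (tower a b 1).W ≃ₗ[F] (tower a b 1).W) z) e1).trans ?_
      refine refl_fix _ ?_
      refine (polar_core _ _ _).trans ?_
      rw [show cp a b 1 (x₀ (V₀ := (tower a b 0).W)) = 0 from by
        change (tEquiv a b 0 0).2 = 0
        rw [map_zero]; rfl]
      exact polar_zero_left _ _
    set τ := sigma σ with hτ
    have hw' : τ (levi (tower a b 1).Q t') w ∈
        eigc (Q₀ := (tower a b 1).Q) τ (x₀ (V₀ := (tower a b 0).W)) := by
      have h3 := levi_mem (Q₀ := (tower a b 1).Q) τ t' hw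
      rwa [htc] at h3
    have h4 := line_fixed hq h σ hs hρ _ hw'
    have e : gg hq h 0 * t' * gg hq h 0 = t' := Subtype.ext (rot_inverted hq h 1 hxn hxc)
    have h5 := congrArg (fun g => τ (levi (tower a b 1).Q g) w) e
    have mulτ : ∀ (x y : siegelGroup (hypSum (tower a b 1).Q)) (z : eigc σ 0),
        τ (x * y) z = τ x (τ y z) := fun x y z => LinearMap.congr_fun (map_mul τ x y) z
    have invτ : ∀ (x : siegelGroup (hypSum (tower a b 1).Q)) (z : eigc σ 0),
        τ x⁻¹ (τ x z) = z := fun x z => by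
      refine (mulτ x⁻¹ x z).symm.trans ?_
      rw [inv_mul_cancel]
      exact LinearMap.congr_fun (map_one τ) z
    simp only [map_mul (levi (tower a b 1).Q), mulτ] at h5
    set u := τ (levi (tower a b 1).Q (gg hq h 0)) w with hu
    have hmem2 : τ (levi (tower a b 1).Q t') u ∈
        eigc (Q₀ := (tower a b 1).Q) τ (x₀ (V₀ := (tower a b 0).W)) := by
      have h6 := levi_mem (Q₀ := (tower a b 1).Q) τ (gg hq h 0) hw
      rw [show ((gg hq h 0).1 : (tower a b 1).W ≃ₗ[F] (tower a b 1).W)
        (((0, 1), 0) : (F × F) × (tower a b 0).W) = ((0, 1), 0) from hfix] at h6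
      have h3 := levi_mem (Q₀ := (tower a b 1).Q) τ t' h6
      rwa [htc] at h3
    rw [line_fixed hq h σ hs hρ _ hmem2] at h5
    have h7 := congrArg (τ (levi (tower a b 1).Q t')⁻¹) h5
    rw [invτ, invτ] at h7
    exact h7

set_option maxHeartbeats 1000000 in
include h in
/-- The value of the character at the rotation. -/
theorem character_rot {V : Type} [AddCommGroup V] [Module ℂ V] [FiniteDimensional ℂ V]
    (ρ : Representation ℂ (siegelGroup (hypSum (tower a b 3).Q)) V) (hs : Small ρ)
    (hρ : ∃ g, ρ g ≠ 1) (hN : finrank ℂ V = 153) :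
    ρ.character (levi (tower a b 3).Q (gg hq h 2)) = 48 := by
  classical
  have hs2 : Small (Q₀ := (tower a b 2).Q) (sigma ρ) := small_sigma' h hs
  have hρ2 := sigma_nontrivial h hs hρ
  have hs1 : Small (Q₀ := (tower a b 1).Q) (sigma (Q₀ := (tower a b 2).Q) (sigma ρ)) :=
    small_sigma' h hs2
  have hρ1 := sigma_nontrivial h hs2 hρ2
  have hA : A F 3 = 119 ∧ A F 2 = 27 ∧ A F 1 = 5 := by simp [A, hq]
  have n3 := finrank_small h hs hρ
  have n2 := finrank_small h hs2 hρ2
  have n1 := finrank_small h hs1 hρ1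
  rw [hN, hA.1] at n3
  rw [hA.2.1] at n2
  rw [hA.2.2] at n1
  have e3 := trace_step hq h 2 ρ hs hρ fun c hc _ hfx => scalar_high hq h 1 ρ c (hs c hc).1 hfx
  have e2 : (sigma ρ).character (gg hq h 2) =
      (sigma (Q₀ := (tower a b 2).Q) (sigma ρ)).character (gg hq h 1) +
        (2 ^ (2 * 1 + 1) + 2 ^ (1 + 1) - 2 ^ 1 - 1 : ℂ) := by
    rw [gg_succ hq h 1]
    exact trace_step hq h 1 (sigma ρ) hs2 hρ2 fun c hc _ hfx =>
      scalar_high hq h 0 (sigma ρ) c (hs2 c hc).1 hfx
  let g0 : siegelGroup (tower a b 1).Q := gg hq h 0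
  have e1 : (sigma (Q₀ := (tower a b 2).Q) (sigma ρ)).character (gg hq h 1) =
      Representation.character (k := ℂ) (V := ↥(eigc (Q₀ := (tower a b 1).Q) (sigma (Q₀ := (tower a b 2).Q) (sigma ρ)) 0))
        (sigma (Q₀ := (tower a b 1).Q) (sigma (Q₀ := (tower a b 2).Q) (sigma ρ))) g0 + (2 ^ (2 * 0 + 1) + 2 ^ (0 + 1) - 2 ^ 0 - 1 : ℂ) := by
    rw [gg_succ hq h 0]
    exact trace_step hq h 0 _ hs1 hρ1 fun c hc hcQ hfx => scalar_low hq h (sigma ρ) hs2 hρ2 c hc hcQ hfx
  have e0 : Representation.character (k := ℂ) (V := ↥(eigc (Q₀ := (tower a b 1).Q) (sigma (Q₀ := (tower a b 2).Q) (sigma ρ)) 0))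
        (sigma (Q₀ := (tower a b 1).Q) (sigma (Q₀ := (tower a b 2).Q) (sigma ρ))) g0 =
      (2 : ℕ) := by
    rw [Representation.character]
    have htr : ∀ {W : Type} [AddCommGroup W] [Module ℂ W] [FiniteDimensional ℂ W]
        (τ : Representation ℂ (siegelGroup (tower a b 1).Q) W), τ g0 = 1 →
        τ.character g0 = (finrank ℂ W : ℂ) := fun τ hτ => by
      rw [Representation.character, hτ, LinearMap.trace_one]
    refine (htr (W := ↥(eigc (Q₀ := (tower a b 1).Q) (sigma (Q₀ := (tower a b 2).Q) (sigma ρ)) 0))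
      (sigma (Q₀ := (tower a b 1).Q) (sigma (Q₀ := (tower a b 2).Q) (sigma ρ)))
      (bottom_trivial h _ (small_sigma' h hs1) g0)).trans ?_
    congr 1
    omega
  rw [e2, e1, e0] at e3
  rw [e3]
  norm_num

section Pairs

variable (a b)

/-- Pairs spanning an elliptic plane. -/
def IsEllPair (p : (tower a b 4).W × (tower a b 4).W) : Prop :=
  (tower a b 4).Q p.1 = 1 ∧ (tower a b 4).Q p.2 = 1 ∧ polar (tower a b 4).Q p.1 p.2 = 1

variable {a b}

theorem isGen (h : Aniso a b) : ∀ k, IsGen (tower a b k).Q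
  | 0 => IsGen.of_reflGroup (reflGroup_binForm h)
  | k + 1 => (isGen h k).hypSum (nondeg h k)

include hq h in
theorem mem_or (n : ℕ) {w : (tower a b (n + 2)).W} (hw : (tower a b (n + 2)).Q w ≠ 0)
    (g : orth (tower a b (n + 2)).Q) :
    g ∈ siegelGroup (tower a b (n + 2)).Q ∨
      refl _ w hw * g ∈ siegelGroup (tower a b (n + 2)).Q := by
  set S := siegelGroup (tower a b (n + 2)).Q with hS
  haveI : S.Normal := siegelGroup_normal
  set r := refl (tower a b (n + 2)).Q w hw with hr
  have hrr : r⁻¹ = r := refl_inv _ _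
  have hrefl : ∀ (x : (tower a b (n + 2)).W) (hx : (tower a b (n + 2)).Q x ≠ 0),
      r * refl _ x hx ∈ S := by
    intro x hx
    have h1 := refl_div_mem_siegelGroup (nondeg h (n + 2)) (by rw [finrank_eq]; omega) hw hx
      ⟨1, by rw [eq_one_of_ne_zero hq hw, eq_one_of_ne_zero hq hx]; simp⟩
    rwa [refl_inv] at h1
  let H : Subgroup (orth (tower a b (n + 2)).Q) :=
    { carrier := {g | g ∈ S ∨ r * g ∈ S}
      one_mem' := Or.inl (one_mem _)
      mul_mem' := by
        rintro g g' (hg | hg) (hg' | hg')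
        · exact Or.inl (mul_mem hg hg')
        · right
          rw [show r * (g * g') = (r * g * r⁻¹) * (r * g') by group]
          exact mul_mem (Subgroup.Normal.conj_mem inferInstance g hg r) hg'
        · right
          rw [show r * (g * g') = r * g * g' by group]
          exact mul_mem hg hg'
        · left
          have := mul_mem (Subgroup.Normal.conj_mem inferInstance (r * g) hg r) hg'
          rwa [show r * (r * g) * r⁻¹ * (r * g') = (r * r) * (g * g') by group,
            show r * r = 1 from refl_mul_self _ _, one_mul] at this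
      inv_mem' := by
        rintro g (hg | hg)
        · exact Or.inl (inv_mem hg)
        · right
          have := Subgroup.Normal.conj_mem inferInstance _ (inv_mem hg) r
          rwa [show r * (r * g)⁻¹ * r⁻¹ = r * g⁻¹ * (r * r)⁻¹ by group,
            show r * r = 1 from refl_mul_self _ _, inv_one, mul_one] at this }
  have htop : H = ⊤ := by
    refine eq_top_iff.2 ?_
    rw [← show reflGroup (tower a b (n + 2)).Q ⊔ S = ⊤ from isGen h (n + 2), sup_le_iff]
    refine ⟨(Subgroup.closure_le _).2 ?_, fun x hx => Or.inl hx⟩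
    rintro _ ⟨x, hx, rfl⟩
    exact Or.inr (hrefl x hx)
  exact (htop ▸ Subgroup.mem_top g : g ∈ H)

theorem ell_ne {p : (tower a b 4).W × (tower a b 4).W} (hp : IsEllPair a b p) :
    (tower a b 4).Q p.1 ≠ 0 ∧ (tower a b 4).Q p.2 ≠ 0 :=
  ⟨by rw [hp.1]; exact one_ne_zero, by rw [hp.2.1]; exact one_ne_zero⟩

/-- The rotation of an elliptic pair. -/
noncomputable def el (p : {p // IsEllPair a b p}) : siegelGroup (tower a b 4).Q :=
  ⟨refl (tower a b 4).Q p.1.1 (ell_ne p.2).1 * (refl (tower a b 4).Q p.1.2 (ell_ne p.2).2)⁻¹,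
    refl_div_mem_siegelGroup (Q := (tower a b 4).Q) (nondeg h 4) (by rw [finrank_eq]; omega) _ _
      ⟨1, by rw [p.2.1, p.2.2.1]; simp⟩⟩

include hq in
theorem exists_conj (p : {p // IsEllPair a b p}) :
    ∃ k : siegelGroup (tower a b 4).Q, k * el h p * k⁻¹ = gg hq h 3 := by
  obtain ⟨⟨x, y⟩, hx, hy, hxy⟩ := p
  simp only at hx hy hxy
  have hQ := nondeg h 4
  have h2 := two_eq_zero hq
  set A₀ := core a b 4 (za F) with hA₀
  set B₀ := core a b 4 (zb F) with hB₀
  have hA1 : (tower a b 4).Q A₀ = 1 := core_za hq h 4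
  have hB1 : (tower a b 4).Q B₀ = 1 := core_zb hq h 4
  have hAB : polar (tower a b 4).Q A₀ B₀ = 1 := by rw [hA₀, hB₀, polar_core_core, za_zb hq h]
  obtain ⟨g, hg, hgx⟩ := (Sec.top (tower a b 4).Q).transitive_norm hQ
    (by rw [finrank_eq]; omega) (Sec.mem_top x) (Sec.mem_top A₀) (hx.trans hA1.symm)
    (by rw [hx]; exact one_ne_zero)
  -- the second vector, fixing the first
  have move : ∀ u v : (tower a b 4).W, (tower a b 4).Q u = 1 → (tower a b 4).Q v = 1 →
      polar (tower a b 4).Q A₀ u = 1 → polar (tower a b 4).Q A₀ v = 1 →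
      polar (tower a b 4).Q u v = 1 →
      ∃ o : orth (tower a b 4).Q,
        (o : (tower a b 4).W ≃ₗ[F] (tower a b 4).W) A₀ = A₀ ∧
        (o : (tower a b 4).W ≃ₗ[F] (tower a b 4).W) u = v := by
    intro u v hu hv hAu hAv huv
    have hd : (tower a b 4).Q (u - v) ≠ 0 := by
      rw [map_sub_eq, hu, hv, huv]; intro h0; exact one_ne_zero (by linear_combination h0)
    refine ⟨refl _ (u - v) hd, refl_fix hd ?_, refl_sub_apply (hu.trans hv.symm) hd⟩
    rw [polar_sub_right, hAu, hAv, sub_self]
  set y₁ := (g : (tower a b 4).W ≃ₗ[F] (tower a b 4).W) y with hy₁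
  have hy₁1 : (tower a b 4).Q y₁ = 1 := by rw [hy₁, orth_apply, hy]
  have hAy₁ : polar (tower a b 4).Q A₀ y₁ = 1 := by rw [← hgx, hy₁, polar_apply, hxy]
  obtain ⟨o, hoA, hoy⟩ : ∃ o : orth (tower a b 4).Q,
      (o : (tower a b 4).W ≃ₗ[F] (tower a b 4).W) A₀ = A₀ ∧
      (o : (tower a b 4).W ≃ₗ[F] (tower a b 4).W) y₁ = B₀ := by
    by_cases hyB : polar (tower a b 4).Q y₁ B₀ = 0
    · have hmid : (tower a b 4).Q (A₀ + y₁) = 1 := by
        rw [QuadraticMap.map_add ⇑(tower a b 4).Q, hA1, hy₁1, hAy₁]; linear_combination h2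
      have hAm : polar (tower a b 4).Q A₀ (A₀ + y₁) = 1 := by
        rw [polar_add_right, polar_self_mul, hA1, hAy₁]; linear_combination h2
      obtain ⟨o₁, ho₁A, ho₁y⟩ := move y₁ (A₀ + y₁) hy₁1 hmid hAy₁ hAm (by
        rw [polar_add_right, polar_self_mul, hy₁1, polar_comm, hAy₁]; linear_combination h2)
      obtain ⟨o₂, ho₂A, ho₂y⟩ := move (A₀ + y₁) B₀ hmid hB1 hAm hAB (by
        rw [polar_add_left, hAB, hyB, add_zero])
      exact ⟨o₂ * o₁, by rw [orth_mul_apply, ho₁A, ho₂A], by rw [orth_mul_apply, ho₁y, ho₂y]⟩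
    · exact move y₁ B₀ hy₁1 hB1 hAy₁ hAB (eq_one_of_ne_zero hq hyB)
  set o' := o * g with ho'
  have ho'x : (o' : (tower a b 4).W ≃ₗ[F] (tower a b 4).W) x = A₀ := by
    rw [ho', orth_mul_apply, hgx, hoA]
  have ho'y : (o' : (tower a b 4).W ≃ₗ[F] (tower a b 4).W) y = B₀ := by
    rw [ho', orth_mul_apply, ← hy₁, hoy]
  set w : (tower a b 4).W := (((1, 1), 0) : (F × F) × (tower a b 3).W) with hw
  have hw1 : (tower a b 4).Q w = 1 := by
    change hypSum (tower a b 3).Q ((1, 1), 0) = 1
    simp
  have hwn : (tower a b 4).Q w ≠ 0 := by rw [hw1]; exact one_ne_zero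
  have hwc : cp a b 4 w = 0 := by
    change (tEquiv a b 3 0).2 = 0
    rw [map_zero]; rfl
  have key : ∀ o'' : orth (tower a b 4).Q,
      (o'' : (tower a b 4).W ≃ₗ[F] (tower a b 4).W) x = A₀ →
      (o'' : (tower a b 4).W ≃ₗ[F] (tower a b 4).W) y = B₀ →
      o'' * (el h ⟨(x, y), hx, hy, hxy⟩).1 * o''⁻¹ = rot hq h 4 := by
    intro o'' h1 h3
    simp only [el, refl_inv, rot]
    rw [← conj_mul, conj_refl, conj_refl]
    exact congrArg₂ (· * ·) (refl_congr h1 _) (refl_congr h3 _)
  rcases mem_or hq h 2 hwn o' with ho | ho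
  · refine ⟨⟨o', ho⟩, Subtype.ext ?_⟩
    exact key o' ho'x ho'y
  · have fixw : ∀ z, (refl (tower a b 4).Q w hwn : (tower a b 4).W ≃ₗ[F] (tower a b 4).W)
        (core a b 4 z) = core a b 4 z := fun z => refl_fix hwn (by
      rw [polar_comm, polar_core, hwc]; exact polar_zero_left _ _)
    refine ⟨⟨refl _ w hwn * o', ho⟩, Subtype.ext ?_⟩
    refine key (refl _ w hwn * o') ?_ ?_
    · rw [orth_mul_apply, ho'x, hA₀, fixw]
    · rw [orth_mul_apply, ho'y, hB₀, fixw]

open scoped Classical in
include hq h in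
theorem card_ell : Fintype.card {p // IsEllPair a b p} = 143616 := by
  have hQ := nondeg h 4
  set A₀ := core a b 4 (za F) with hA₀
  have hA1 : (tower a b 4).Q A₀ = 1 := core_za hq h 4
  choose g hg using fun x : {x : (tower a b 4).W // (tower a b 4).Q x = 1} =>
    (Sec.top (tower a b 4).Q).transitive_norm hQ (by rw [finrank_eq]; omega) (Sec.mem_top A₀)
      (Sec.mem_top x.1) (hA1.trans x.2.symm) (by rw [hA1]; exact one_ne_zero)
  let e : {p // IsEllPair a b p} ≃
      {x : (tower a b 4).W // (tower a b 4).Q x = 1} ×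
        {y : (tower a b 4).W // (tower a b 4).Q y = 1 ∧ polar (tower a b 4).Q A₀ y = 1} :=
    { toFun := fun p => (⟨p.1.1, p.2.1⟩,
        ⟨(((g ⟨p.1.1, p.2.1⟩)⁻¹ : orth (tower a b 4).Q) :
          (tower a b 4).W ≃ₗ[F] (tower a b 4).W) p.1.2,
          by rw [orth_apply]; exact p.2.2.1, by
            rw [← polar_apply (g ⟨p.1.1, p.2.1⟩), (hg ⟨p.1.1, p.2.1⟩).2, orth_apply_inv]
            exact p.2.2.2⟩)
      invFun := fun z => ⟨(z.1.1, (g z.1 : (tower a b 4).W ≃ₗ[F] (tower a b 4).W) z.2.1),
        z.1.2, by rw [orth_apply]; exact z.2.2.1, by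
          have h1 := polar_apply (g z.1) A₀ z.2.1
          rw [(hg z.1).2, z.2.2.2] at h1
          exact h1⟩
      left_inv := fun p => Subtype.ext (Prod.ext rfl (orth_apply_inv _ _))
      right_inv := fun z => Prod.ext rfl (Subtype.ext (orth_inv_apply _ _)) }
  let e' : {y : (tower a b 4).W // (tower a b 4).Q y = 1 ∧ polar (tower a b 4).Q A₀ y = 1} ≃
      {u : Fin 4 ⊕ Fin 4 → F // qPlus 4 F u = 0} × F :=
    { toFun := fun y => (⟨(tEquiv a b 4 y.1).1, by
          obtain ⟨h1, h2⟩ := y.2
          have h2' : polar (tower a b 4).Q y.1 (core a b 4 (za F)) = 1 :=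
            (polar_comm _ _ _).trans h2
          clear h2
          rename' h2' => h2
          rw [polar_core, polar_binForm] at h2
          simp [za, (coeffs hq h).1] at h2
          rw [← qH_tEquiv, qH_apply, binForm_apply] at h1
          simp [(coeffs hq h).1, (coeffs hq h).2] at h1
          have h20 := two_eq_zero hq
          have hz1 : (tEquiv a b 4 y.1).2 1 = 1 := by
            change cp a b 4 y.1 1 = 1
            linear_combination h2 - cp a b 4 y.1 0 * h20
          have hs : ∀ s : F, s ^ 2 + s = 0 := fun s => by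
            by_cases hs : s = 0
            · simp [hs]
            · rw [eq_one_of_ne_zero hq hs]; linear_combination h20
          rw [hz1] at h1
          linear_combination h1 - hs ((tEquiv a b 4 y.1).2 0)⟩, (tEquiv a b 4 y.1).2 0)
      invFun := fun z => ⟨(tEquiv a b 4).symm (z.1.1, ![z.2, 1]), by
          rw [qH_tEquiv_symm, qH_apply, z.1.2, binForm_apply]
          simp [(coeffs hq h).1, (coeffs hq h).2]
          have h20 := two_eq_zero hq
          by_cases hs : z.2 = 0
          · simp [hs]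
          · rw [eq_one_of_ne_zero hq hs]; linear_combination h20, by
          rw [hA₀, polar_comm, polar_core, cp, LinearEquiv.apply_symm_apply, polar_binForm]
          simp [za, (coeffs hq h).1]
          exact Or.inl (two_eq_zero hq)⟩
      left_inv := fun y => by
        refine Subtype.ext ((LinearEquiv.symm_apply_eq _).2 (Prod.ext rfl (funext fun i => ?_)))
        obtain ⟨h1, h2⟩ := y.2
        have h2' : polar (tower a b 4).Q y.1 (core a b 4 (za F)) = 1 :=
          (polar_comm _ _ _).trans h2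
        clear h2
        rename' h2' => h2
        rw [polar_core, polar_binForm] at h2
        simp [za, (coeffs hq h).1] at h2
        fin_cases i
        · rfl
        · change (1 : F) = cp a b 4 y.1 1
          linear_combination -h2 + cp a b 4 y.1 0 * two_eq_zero hq
      right_inv := fun z => by
        refine Prod.ext (Subtype.ext ?_) ?_ <;> simp }
  have hL : Nat.card {x : (tower a b 4).W // (tower a b 4).Q x = 1} = 528 := by
    have h1 := card_level h (one_ne_zero : (1 : F) ≠ 0) 4
    rw [hq] at h1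
    norm_num at h1
    rw [Nat.card_eq_fintype_card]; exact_mod_cast h1
  have hZ : Nat.card {u : Fin 4 ⊕ Fin 4 → F // qPlus 4 F u = 0} = 136 := by
    have h1 := OrthPlusDegree.card_zeros (F := F) 3
    rw [hq] at h1
    norm_num at h1
    rw [Nat.card_eq_fintype_card]; exact_mod_cast h1
  rw [← Nat.card_eq_fintype_card, Nat.card_congr (e.trans (Equiv.prodCongr (Equiv.refl _) e')),
    Nat.card_prod, Nat.card_prod, hL, hZ, Nat.card_eq_fintype_card, hq]

end Pairs

set_option maxHeartbeats 1000000 in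
include hq h in
open scoped Classical in
/-- No small irreducible representation of degree 153. -/
theorem no_candidate {V : Type} [AddCommGroup V] [Module ℂ V] [FiniteDimensional ℂ V]
    (ρ : Representation ℂ (siegelGroup (hypSum (tower a b 3).Q)) V) [ρ.IsIrreducible]
    (hs : Small ρ) (hρ : ∃ g, ρ g ≠ 1) : finrank ℂ V ≠ 153 := by
  intro hN
  let ρ4 : Representation ℂ (siegelGroup (tower a b 4).Q) V := ρ
  haveI : ρ4.IsIrreducible := ‹ρ.IsIrreducible›
  have h48 : ρ4.character (gg hq h 3) = 48 := by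
    rw [gg_succ]; exact character_rot hq h ρ hs hρ hN
  have hel : ∀ p : {p // IsEllPair a b p}, ρ4.character (el h p) = 48 := by
    intro p
    obtain ⟨k, hk⟩ := exists_conj hq h p
    rw [← h48, ← hk, Representation.char_conj]
  have h2 := two_eq_zero hq
  haveI : Finite (orth (tower a b 4).Q) := Finite.of_injective
    (fun g : orth (tower a b 4).Q => (⇑(g.1) : _ → _))
    fun x y h => Subtype.ext (DFunLike.coe_injective h)
  letI : Fintype (siegelGroup (tower a b 4).Q) := Fintype.ofFinite _
  -- the cyclic shift of a pair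
  have hshift : ∀ p : {p // IsEllPair a b p}, IsEllPair a b (p.1.2, p.1.1 + p.1.2) := fun p =>
    ⟨p.2.2.1, by
      rw [QuadraticMap.map_add ⇑(tower a b 4).Q, p.2.1, p.2.2.1, p.2.2.2]; linear_combination h2,
      by rw [polar_add_right, polar_self_mul, polar_comm, p.2.2.2, p.2.2.1]; linear_combination h2⟩
  let sh : {p // IsEllPair a b p} → {p // IsEllPair a b p} := fun p => ⟨_, hshift p⟩
  have h20 : ∀ x : (tower a b 4).W, x + x = 0 := fun x => by rw [← two_smul F x, h2, zero_smul]
  have sh3 : ∀ p, sh (sh (sh p)) = p := by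
    rintro ⟨⟨x, y⟩, hp⟩
    refine Subtype.ext (Prod.ext ?_ ?_) <;> simp only [sh]
    · rw [add_left_comm, h20, add_zero]
    · rw [add_left_comm y x y, h20, add_zero, add_comm x y, add_assoc, h20, add_zero]
  have shne : ∀ p, sh p ≠ p := by
    rintro ⟨⟨x, y⟩, hp⟩ e
    have e1 : y = x := congrArg (fun p : {p // IsEllPair a b p} => p.1.1) e
    have h1 := hp.2.2
    simp only at h1
    rw [e1, polar_self_mul, hp.1] at h1
    exact one_ne_zero (by linear_combination h2 - h1)
  have hel_sh : ∀ p, el h (sh p) = el h p := by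
    rintro ⟨⟨x, y⟩, hp⟩
    apply Subtype.ext
    simp only [el, sh, refl_inv]
    have hyx : (refl (tower a b 4).Q y (ell_ne hp).2 : (tower a b 4).W ≃ₗ[F] (tower a b 4).W) x =
        x + y := by
      rw [refl_apply, hp.2.1, hp.2.2, inv_one, mul_one, one_smul, sub_eq_iff_eq_add, add_assoc, h20,
        add_zero]
    rw [show refl (tower a b 4).Q (x + y) (ell_ne (hshift ⟨(x, y), hp⟩)).2 =
      refl _ y (ell_ne hp).2 * refl _ x (ell_ne hp).1 * (refl _ y (ell_ne hp).2)⁻¹ by
        rw [conj_refl]; exact refl_congr hyx.symm _]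
    rw [refl_inv, ← mul_assoc, ← mul_assoc, refl_mul_self, one_mul]
  let a' : siegelGroup (tower a b 4).Q → ℕ := fun g =>
    (Finset.univ.filter fun p : {p // IsEllPair a b p} => el h p = g).card
  have ha3 : ∀ g, 3 ∣ a' g := by
    intro g
    let σ : Equiv.Perm {p : {p // IsEllPair a b p} // el h p = g} :=
      { toFun := fun p => ⟨sh p.1, (hel_sh p.1).trans p.2⟩
        invFun := fun p => ⟨sh (sh p.1), ((hel_sh _).trans (hel_sh p.1)).trans p.2⟩
        left_inv := fun p => Subtype.ext (sh3 p.1)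
        right_inv := fun p => Subtype.ext (sh3 p.1) }
    haveI : Fact (Nat.Prime 3) := ⟨by norm_num⟩
    have hσ : σ ^ 3 ^ 1 = 1 := Equiv.ext fun p => Subtype.ext (by
      simp [pow_succ, Equiv.Perm.mul_apply, σ, sh3])
    have h1 := Equiv.Perm.card_compl_support_modEq hσ
    have h3 : σ.supportᶜ = ∅ := by
      refine Finset.eq_empty_of_forall_notMem fun p hp => ?_
      rw [Finset.mem_compl, Equiv.Perm.notMem_support] at hp
      exact shne p.1 (congrArg Subtype.val hp)
    rw [h3, Finset.card_empty, Fintype.card_subtype] at h1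
    exact Nat.dvd_of_mod_eq_zero h1.symm
  let ac : siegelGroup (tower a b 4).Q → ℂ := fun g => ((a' g / 3 : ℕ) : ℂ)
  have hcl : Cfsg.IsClassFunction (siegelGroup (tower a b 4).Q) ac := by
    intro g k
    simp only [ac]
    congr 2
    let σp : {p // IsEllPair a b p} → {p // IsEllPair a b p} := fun p =>
      ⟨((k.1 : (tower a b 4).W ≃ₗ[F] (tower a b 4).W) p.1.1,
        (k.1 : (tower a b 4).W ≃ₗ[F] (tower a b 4).W) p.1.2),
        (orth_apply k.1 _).trans p.2.1, (orth_apply k.1 _).trans p.2.2.1,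
        (polar_apply k.1 _ _).trans p.2.2.2⟩
    have hσ : Function.Injective σp := fun p p' e => Subtype.ext (Prod.ext
      (LinearEquiv.injective _ (congrArg (fun p : {p // IsEllPair a b p} => p.1.1) e))
      (LinearEquiv.injective _ (congrArg (fun p : {p // IsEllPair a b p} => p.1.2) e)))
    have hel' : ∀ p, el h (σp p) = k * el h p * k⁻¹ := fun p => by
      apply Subtype.ext
      simp only [el, refl_inv, Subgroup.coe_mul, Subgroup.coe_inv]
      rw [← conj_mul]
      refine (congrArg₂ (· * ·) ?_ ?_).symm <;> exact (conj_refl _ _ _).trans (refl_congr rfl _)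
    symm
    refine Finset.card_bij (fun p _ => σp p) (fun p hp => ?_) (fun p _ p' _ e => hσ e) fun p hp => ?_
    · simp only [Finset.mem_filter, Finset.mem_univ, true_and] at hp ⊢
      rw [hel', hp]
    · obtain ⟨p', rfl⟩ := (Finite.injective_iff_surjective.1 hσ) p
      refine ⟨p', ?_, rfl⟩
      simp only [Finset.mem_filter, Finset.mem_univ, true_and] at hp ⊢
      rw [hel'] at hp
      simpa using hp
  have hint := CfsgLib.CharTheory.isIntegral_sum_mul_character_div ρ4 hcl
    (fun g => isIntegral_natCast _)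
  have hsum : 3 * ∑ g, ac g * ρ4.character g = ((143616 * 48 : ℕ) : ℂ) := by
    rw [Finset.mul_sum]
    have h4 : ∀ g, 3 * (ac g * ρ4.character g) = (a' g : ℂ) * 48 := by
      intro g
      have e : (3 : ℂ) * ac g = (a' g : ℂ) := by
        simp only [ac]
        rw [show (3 : ℂ) = ((3 : ℕ) : ℂ) by norm_num, ← Nat.cast_mul, Nat.mul_div_cancel' (ha3 g)]
      rw [← mul_assoc, e]
      rcases (Finset.univ.filter fun p : {p // IsEllPair a b p} => el h p = g).eq_empty_or_nonempty
        with h0 | ⟨p, hp⟩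
      · simp [a', h0]
      · rw [← (Finset.mem_filter.1 hp).2, hel p]
    rw [Finset.sum_congr rfl fun g _ => h4 g, ← Finset.sum_mul, ← Nat.cast_sum,
      ← Finset.card_eq_sum_card_fiberwise (s := Finset.univ) (t := Finset.univ)
        (f := fun p : {p // IsEllPair a b p} => el h p) (fun _ _ => Finset.mem_univ _),
      Finset.card_univ, card_ell hq h]
    norm_num
  have hval : (∑ g, ac g * ρ4.character g) = ((2297856 : ℚ) : ℂ) := by
    push_cast at hsum ⊢
    linear_combination hsum / 3
  rw [hval, hN] at hint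
  obtain ⟨z, hz⟩ := CfsgLib.CharTheory.exists_int_of_isIntegral_ratCast
    (q := (2297856 : ℚ) / 153) (by push_cast; exact hint)
  rw [eq_div_iff (by norm_num)] at hz
  have : z * 153 = (2297856 : ℤ) := by exact_mod_cast hz
  omega

end CfsgLib.InvCentralizers.OrthMinusTwo
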