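import Cfsg.Agent.Lib.InvCentralizers.OrthMinusClique
import Cfsg.Agent.Lib.InvCentralizers.OrthMinusTwoFinal

/-!
The smallest degree of a non-trivial representation of `Ω⁻₂ₙ(q)`, `n ≥ 4`.
-/

set_option autoImplicit false
set_option linter.unusedSectionVars false
set_option linter.style.haveILetI false

namespace CfsgLib.InvCentralizers.OrthMinusDegree

open QuadraticMap Module CfsgLib.ClassicalForms
open CfsgLib.InvCentralizers.OrthParabolic
open CfsgLib.InvCentralizers.OrthSmall
open CfsgLib.InvCentralizers.OrthMinusTower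
open CfsgLib.InvCentralizers.OrthMinusSmall
open CfsgLib.InvCentralizers.AbelianEigen

universe u

variable {F : Type u} [Field F] [Fintype F] {a b : F}

local notation "q" => (Fintype.card F : ℤ)

theorem two_le_q : (2 : ℤ) ≤ q := by exact_mod_cast (Fintype.one_lt_card : 1 < Fintype.card F)

theorem one_le_A (k : ℕ) : 1 ≤ A F (k + 1) := by
  have hq := two_le_q (F := F)
  have h1 : (2 : ℤ) ≤ q ^ (k + 1) := le_trans hq (le_self_pow₀ (by omega) (by omega))
  have h2 : (2 : ℤ) ≤ q ^ (k + 2) := le_trans hq (le_self_pow₀ (by omega) (by omega))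
  simp only [A]
  nlinarith

theorem A_growth (k : ℕ) : 3 * A F (k + 1) ≤ A F (k + 2) := by
  have hq := two_le_q (F := F)
  have hx : (2 : ℤ) ≤ q ^ (k + 1) := le_trans hq (le_self_pow₀ (by omega) (by omega))
  simp only [A, pow_succ] at *
  have e := mul_le_mul_of_nonneg_left hx (show (0 : ℤ) ≤ q * (q ^ 2 - 3) by nlinarith)
  nlinarith [mul_nonneg (show (0 : ℤ) ≤ q - 2 by omega) (show (0 : ℤ) ≤ q - 1 by omega),
    mul_le_mul_of_nonneg_left e (show (0 : ℤ) ≤ q ^ k * q by positivity)]

theorem S_nonneg (k : ℕ) : 0 ≤ S F k := by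
  induction k with
  | zero => simp [S]
  | succ k ih => have := one_le_A (F := F) k; simp only [S]; omega

theorem S_lt_A (k : ℕ) : S F k + 1 ≤ A F (k + 1) := by
  induction k with
  | zero => have := one_le_A (F := F) 0; simp only [S]; omega
  | succ k ih =>
    have h1 := A_growth (F := F) k
    have h2 := one_le_A (F := F) k
    have h3 : A F (k + 2) = A F (k + 1 + 1) := rfl
    simp only [S]
    omega

theorem card_ne_zero_level (h : Aniso a b) (k : ℕ) {c : F} :
    (A F k : ℤ) ≤ Nat.card {v : (tower a b k).W // v ≠ 0 ∧ (tower a b k).Q v = c} := by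
  classical
  by_cases hc : c = 0
  · subst hc
    have h1 := OrthPairs.card_sing_ne_zero (tower a b k).Q
    have h2 := zeros_eq h k
    rw [Nat.card_congr (Equiv.subtypeEquivRight fun v => and_comm), Nat.card_eq_fintype_card, h1]
    have h3 : 1 ≤ Nat.card {v // (tower a b k).Q v = 0} := by
      haveI : Nonempty {v // (tower a b k).Q v = 0} := ⟨⟨0, map_zero _⟩⟩
      exact Nat.card_pos
    omega
  · rw [Nat.card_congr (Equiv.subtypeEquivRight
      (fun v => (show (v ≠ 0 ∧ (tower a b k).Q v = c) ↔ (tower a b k).Q v = c from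
      ⟨And.right, fun h' => ⟨fun h0 => hc (by rw [← h', h0, QuadraticMap.map_zero]), h'⟩⟩))),
      card_level h hc k]
    have hq := two_le_q (F := F)
    have h1 : (1 : ℤ) ≤ q ^ k := one_le_pow₀ (by omega)
    have h2 : (1 : ℤ) ≤ q ^ (k + 1) := one_le_pow₀ (by omega)
    simp only [A]
    nlinarith

theorem L_bound (k : ℕ) : S F (k + 1) + q ^ (k + 2) ≤ q ^ (k + 1) * (q ^ (k + 2) + 1) + S F k := by
  simp only [S, A]
  ring_nf
  omega

theorem L_bound_two : S F 2 ≤ q ^ 2 * (q ^ 3 + 1) := by
  have hq := two_le_q (F := F)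
  norm_num [S, A]
  nlinarith [mul_nonneg (show (0 : ℤ) ≤ q - 1 by omega) (show (0 : ℤ) ≤ q by omega)]

theorem exc_zero (h : Aniso a b) (hq : Fintype.card F = 2 ∨ Fintype.card F = 4) {V : Type}
    [AddCommGroup V] [Module ℂ V] [FiniteDimensional ℂ V]
    (ρ : Representation ℂ (siegelGroup (hypSum (tower a b 2).Q)) V) [ρ.IsIrreducible]
    (hs : Small ρ) (hρ : ∃ g, ρ g ≠ 1) : S F 2 ≤ finrank ℂ V := by
  classical
  have hN := finrank_small h hs hρ
  have hd := finrank_small h (small_sigma' h hs) (sigma_nontrivial h hs hρ)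
  have hdvd := small_dvd h ρ hs hρ
  rw [hN, hd] at hdvd
  rw [hN, hd]
  have hclique := fun hq2 h0 => OrthMinusClique.clique h hq2 ρ h0
  set f := finrank ℂ (eigc (Q₀ := (tower a b 1).Q) (sigma ρ) 0) with hf
  by_contra hlt
  rcases hq with hq | hq
  · simp only [S, A, hq] at hlt
    norm_num at hlt
    have hf2 : f ≤ 1 := by omega
    interval_cases f
    · have h2 := hclique hq rfl
      zify at h2
      rw [hN, hd] at h2
      simp [A, hq] at h2
    · simp only [A, hq] at hdvd
      norm_num at hdvd
  · simp only [S, A, hq] at hlt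
    norm_num at hlt
    have hf2 : f ≤ 1 := by omega
    interval_cases f <;> simp only [A, hq] at hdvd <;> norm_num at hdvd

theorem exc_one (h : Aniso a b) (hq : Fintype.card F = 2 ∨ Fintype.card F = 3) {V : Type}
    [AddCommGroup V] [Module ℂ V] [FiniteDimensional ℂ V]
    (ρ : Representation ℂ (siegelGroup (hypSum (tower a b 3).Q)) V) [ρ.IsIrreducible]
    (hs : Small ρ) (hρ : ∃ g, ρ g ≠ 1) (hd : S F 2 ≤ finrank ℂ (eigc ρ 0)) :
    S F 3 ≤ finrank ℂ V := by
  classical
  have hN := finrank_small h hs hρ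
  have hdvd := small_dvd h ρ hs hρ
  have hS : S F 3 = A F 3 + S F 2 + 1 := rfl
  rcases lt_or_eq_of_le hd with hlt | heq
  · have h3 : A F (2 + 1) = A F 3 := rfl
    rw [hN, hS]; omega
  exfalso
  rw [hN, ← heq] at hdvd
  rcases hq with hq | hq
  · refine OrthMinusTwo.no_candidate hq h ρ hs hρ ?_
    rw [← heq] at hN
    simp [S, A, hq] at hN
    omega
  · simp only [S, A, hq] at hdvd
    norm_num at hdvd

set_option maxHeartbeats 1000000 in
/-- The bound. -/
theorem bound (h : Aniso a b) : ∀ (k : ℕ) (V : Type) [AddCommGroup V] [Module ℂ V]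
    [FiniteDimensional ℂ V] (ρ : Representation ℂ (siegelGroup (hypSum (tower a b (k + 2)).Q)) V),
    (∃ g, ρ g ≠ 1) → S F (k + 2) ≤ finrank ℂ V := by
  intro k
  induction k using Nat.strong_induction_on with
  | _ k ih =>
    intro V _ _ _ ρ hρ
    classical
    haveI : Finite (orth (hypSum (tower a b (k + 2)).Q)) := finite_orth _
    obtain ⟨W, _, _, _, σ, hirr, hne, hle⟩ := LinearDegree.exists_irreducible_constituent ρ hρ
    refine le_trans ?_ (Int.ofNat_le.2 hle)
    have hQ := nondeg h (k + 2)
    have hn : 5 ≤ finrank F (tower a b (k + 2)).W := by rw [finrank_eq]; omega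
    have hA2 : S F (k + 2) ≤ A F (k + 2) + A F (k + 2) := by
      have h1 := S_lt_A (F := F) (k + 1)
      have h2 : S F (k + 2) = A F (k + 2) + S F (k + 1) + 1 := rfl
      have h3 : A F (k + 1 + 1) = A F (k + 2) := rfl
      omega
    rcases OrthSmallFix.large_or_single σ hQ hn hne (S F (k + 2)).toNat (fun c c' _ _ => by
      have h1 := card_ne_zero_level h (k + 2) (c := c)
      have h2 := card_ne_zero_level h (k + 2) (c := c')
      omega) with hbig | ⟨ν, -, hm⟩
    · have := S_nonneg (F := F) (k + 2)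
      omega
    have hsig : ∀ j, k + 2 = j + 2 + 1 → (∃ g, sigma σ g ≠ 1) →
        S F (k + 1) ≤ finrank ℂ (eigc σ 0) := by
      intro j hj hs'
      obtain rfl : k = j + 1 := by omega
      exact ih j (by omega) (eigc σ 0) (sigma σ) hs'
    by_cases hν : ν = 0
    · subst hν
      have hs : Small σ := fun c hc => by
        rw [hm c hc]
        refine ⟨?_, fun hQc => if_neg hQc⟩
        split_ifs <;> omega
      by_cases hexc : LinearDegree.Exc (k + 3) (Fintype.card F)
      · rcases hexc with ⟨h1, h2⟩ | ⟨h1, h2⟩ | ⟨h1, h2⟩ | ⟨h1, h2⟩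
        · obtain rfl : k = 0 := by omega
          exact exc_zero h (Or.inl h2) σ hs hne
        · obtain rfl : k = 0 := by omega
          exact exc_zero h (Or.inr h2) σ hs hne
        · obtain rfl : k = 1 := by omega
          exact exc_one h (Or.inl h2) σ hs hne (hsig 0 rfl (sigma_nontrivial h hs hne))
        · obtain rfl : k = 1 := by omega
          exact exc_one h (Or.inr h2) σ hs hne (hsig 0 rfl (sigma_nontrivial h hs hne))
      · have h1 := gs_le_fixed h hexc hs hne
        have h2 := fixed_add h (k + 2) W σ hs fun _ => hne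
        have h3 := Es_gs (F := F) (k + 2)
        have h4 : LinearDegree.gs (Fintype.card F) (k + 2 + 1) =
            LinearDegree.gs (Fintype.card F) (k + 3) := rfl
        omega
    · have h1 := finrank_level hQ hm
      rw [if_neg hν, add_zero] at h1
      have h2 := card_level h hν (k + 2)
      rcases k with _ | k
      · have h3 := L_bound_two (F := F)
        simp only [zero_add, Nat.reduceAdd] at h2 h3 ⊢
        rw [h1, Nat.cast_add, h2]
        omega
      · have hnt : ∃ g, sigma σ g ≠ 1 := by
          refine sigma_ne_one (Q₂ := (tower a b (k + 1)).Q) σ (nondeg h (k + 1)) (ν := ν)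
            (fun c hc => ?_) fun z _ => exists_pair_orth (nondeg h (k + 1))
              (by rw [finrank_eq]; omega) z (Or.inl (by rw [finrank_eq]; omega))
          refine (hm c hc).trans ?_
          split_ifs <;> first | rfl | contradiction
        have h3 := hsig k rfl hnt
        have h4 := L_bound (F := F) (k + 2)
        have h5 : (0 : ℤ) ≤ q ^ (k + 2 + 2) := by positivity
        rw [h1, Nat.cast_add, h2]
        have h6 : q ^ (k + 1 + 2) * (q ^ (k + 1 + 2 + 1) + 1) =
          q ^ (k + 2 + 1) * (q ^ (k + 2 + 2) + 1) := rfl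
        have h7 : S F (k + 2 + 1) = S F (k + 1 + 2) := rfl
        have h8 : S F (k + 2) = S F (k + 1 + 1) := rfl
        omega

end CfsgLib.InvCentralizers.OrthMinusDegree
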