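import Cfsg.Agent.Lib.InvCentralizers.OrthSmall

/-!
Vectors fixed by the radical of a maximal totally singular subspace in a small representation, and
the division into levels of the characters of the radical of a point stabiliser.
-/

set_option autoImplicit false
set_option linter.unusedSectionVars false
set_option linter.style.haveILetI false

namespace CfsgLib.InvCentralizers.OrthSmallFix

open QuadraticMap Module CfsgLib.ClassicalForms
open CfsgLib.InvCentralizers.OrthParabolic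
open CfsgLib.InvCentralizers.OrthSmall
open CfsgLib.InvCentralizers.SympBound (psi exists_psi_ne psi_prim)
open CfsgLib.InvCentralizers.AbelianEigen

variable {F : Type*} [Field F] [Fintype F]
variable {V : Type*} [AddCommGroup V] [Module ℂ V] [FiniteDimensional ℂ V]

section Levels

variable {V₀ : Type*} [AddCommGroup V₀] [Module F V₀] [Fintype V₀] {Q₀ : QuadraticForm F V₀}

open scoped Classical in
/-- Either the degree is large, or exactly one level of non-trivial characters occurs, once. -/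
theorem large_or_single (ρ : Representation ℂ (siegelGroup (hypSum Q₀)) V) (hQ : Nondeg Q₀)
    (hn : 5 ≤ finrank F V₀) (hρ : ∃ g, ρ g ≠ 1) (B : ℕ)
    (hB : ∀ a a' : F, (∃ c, c ≠ 0 ∧ Q₀ c = a) → (∃ c, c ≠ 0 ∧ Q₀ c = a') →
      B ≤ Nat.card {c // c ≠ 0 ∧ Q₀ c = a} + Nat.card {c // c ≠ 0 ∧ Q₀ c = a'}) :
    B ≤ finrank ℂ V ∨ ∃ ν : F, (∃ c, c ≠ 0 ∧ Q₀ c = ν) ∧
      ∀ c, c ≠ 0 → finrank ℂ (eigc ρ c) = if Q₀ c = ν then 1 else 0 := by
  have const : ∀ c c', c ≠ 0 → c' ≠ 0 → Q₀ c = Q₀ c' →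
      finrank ℂ (eigc ρ c) = finrank ℂ (eigc ρ c') := by
    intro c c' hc hc' h
    by_cases h0 : Q₀ c = 0
    · exact finrank_eig_singular ρ hQ hn h0 (h ▸ h0) hc hc'
    · obtain ⟨g, hg, e⟩ := (Sec.top Q₀).transitive_norm hQ (by simpa using hn) (Sec.mem_top c)
        (Sec.mem_top c') h h0
      rw [← e]
      exact (finrank_eig_levi ρ ⟨g, hg.1⟩ c).symm
  obtain ⟨g, hg⟩ := hρ
  have hne : ∃ b, UU ρ b ≠ 1 := by
    by_contra hcon
    push Not at hcon
    exact hg (eq_one_of_rad ρ hQ (by omega) hcon g)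
  obtain ⟨c₀, hc₀, w, hw, hw0⟩ := exists_eig (setup ρ hQ) hne
  have hpos : 1 ≤ finrank ℂ (eigc ρ c₀) := by
    by_contra h0
    rw [not_le, Nat.lt_one_iff, Submodule.finrank_eq_zero] at h0
    rw [show eig (PP Q₀) (UU ρ) c₀ = ⊥ from h0, Submodule.mem_bot] at hw
    exact hw0 hw
  have hsum : finrank ℂ V = ∑ c, finrank ℂ (eigc ρ c) := finrank_eq_sum (setup ρ hQ)
  set L := fun a : F => Finset.univ.filter fun c => c ≠ 0 ∧ Q₀ c = a with hL
  have hcard : ∀ a, Nat.card {c // c ≠ 0 ∧ Q₀ c = a} = (L a).card := fun a => by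
    rw [Nat.card_eq_fintype_card, Fintype.card_subtype]
  have hlev : ∀ c, c ≠ 0 →
      ∑ c' ∈ L (Q₀ c), finrank ℂ (eigc ρ c') = (L (Q₀ c)).card * finrank ℂ (eigc ρ c) := by
    intro c hc
    rw [Finset.sum_congr rfl fun c' hc' => ?_, Finset.sum_const, smul_eq_mul]
    obtain ⟨h1, h2⟩ := (Finset.mem_filter.1 hc').2
    exact const c' c h1 hc h2
  by_cases hother : ∃ c, c ≠ 0 ∧ Q₀ c ≠ Q₀ c₀ ∧ 1 ≤ finrank ℂ (eigc ρ c)
  · left
    obtain ⟨c, hc, hne', hpos'⟩ := hother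
    have hdisj : Disjoint (L (Q₀ c)) (L (Q₀ c₀)) := by
      rw [Finset.disjoint_left]
      intro x hx hx'
      exact hne' ((Finset.mem_filter.1 hx).2.2.symm.trans (Finset.mem_filter.1 hx').2.2)
    have h1 : ∑ x ∈ L (Q₀ c) ∪ L (Q₀ c₀), finrank ℂ (eigc ρ x) ≤ finrank ℂ V := by
      rw [hsum]; exact Finset.sum_le_sum_of_subset (Finset.subset_univ _)
    rw [Finset.sum_union hdisj, hlev c hc, hlev c₀ hc₀] at h1
    refine le_trans (hB _ _ ⟨c, hc, rfl⟩ ⟨c₀, hc₀, rfl⟩) (le_trans ?_ h1)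
    rw [hcard, hcard]
    exact Nat.add_le_add (Nat.le_mul_of_pos_right _ hpos') (Nat.le_mul_of_pos_right _ hpos)
  push Not at hother
  rcases Nat.lt_or_ge (finrank ℂ (eigc ρ c₀)) 2 with h2 | h2
  · right
    refine ⟨Q₀ c₀, ⟨c₀, hc₀, rfl⟩, fun c hc => ?_⟩
    split_ifs with h
    · rw [const c c₀ hc hc₀ h]; omega
    · have := hother c hc h; omega
  · left
    have h1 : ∑ x ∈ L (Q₀ c₀), finrank ℂ (eigc ρ x) ≤ finrank ℂ V := by
      rw [hsum]; exact Finset.sum_le_sum_of_subset (Finset.subset_univ _)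
    rw [hlev c₀ hc₀] at h1
    refine le_trans (hB _ _ ⟨c₀, hc₀, rfl⟩ ⟨c₀, hc₀, rfl⟩) (le_trans ?_ h1)
    rw [hcard, ← two_mul, mul_comm]
    exact Nat.mul_le_mul_left _ h2

end Levels

section Vector

variable {V₁ : Type*} [AddCommGroup V₁] [Module F V₁] [Fintype V₁] {Q₁ : QuadraticForm F V₁}

/-- An element of the innermost group is centralised by the exchange of the two points. -/
theorem swapEl_comm {a z : V₁} (ha : Q₁ a = 0) (haz : polar Q₁ a z = 0) :
    levi (hypSum Q₁) (levi Q₁ ⟨siegel Q₁ a z ha haz, siegel_mem_siegelGroup _ _⟩) * swapEl Q₁ =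
      swapEl Q₁ * levi (hypSum Q₁) (levi Q₁ ⟨siegel Q₁ a z ha haz, siegel_mem_siegelGroup _ _⟩) := by
  rw [eq_comm, ← mul_inv_eq_iff_eq_mul]
  apply Subtype.ext
  simp only [Subgroup.coe_mul, Subgroup.coe_inv, levi_apply, OrthParabolic.hypExt_siegel,
    conj_siegel]
  refine siegel_eq ?_ ?_
  · refine (swapEl_apply (Q₁ := Q₁) (0 : F) 0 0 0 a).trans ?_
    simp only [neg_zero]
  · refine (swapEl_apply (Q₁ := Q₁) (0 : F) 0 0 0 z).trans ?_
    simp only [neg_zero]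

variable (ρ : Representation ℂ (siegelGroup (hypSum (hypSum Q₁))) V)

set_option maxHeartbeats 1000000 in
/-- A character vector of the inner radical, at a point of the totally singular subspace, is fixed
by the radical of the subspace. -/
theorem mem_Fixed_of_eig (hQ : Nondeg Q₁) {c' : V₁} (hc' : c' ≠ 0) (E₁ : Submodule F V₁)
    (hE : ∀ a ∈ E₁, Q₁ a = 0) (hcE : c' ∈ E₁)
    (hcore : ∃ y y', (∀ a ∈ E₁, polar Q₁ a y = 0) ∧ (∀ a ∈ E₁, polar Q₁ a y' = 0) ∧
      polar Q₁ y y' = 1)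
    (hs : finrank ℂ (eigc ρ ((0, 0), c')) ≤ 1) {v : eigc ρ 0} (hv : v ∈ eigc (sigma ρ) c') :
    v.1 ∈ Fixed ρ (Ecat (Ecat E₁)) := by
  set x₁ : (F × F) × ((F × F) × V₁) := x₀ with hx₁
  set x₂ : (F × F) × ((F × F) × V₁) := ((0, 0), x₀) with hx₂
  have hx1E : x₁ ∈ Ecat (Ecat E₁) := mem_Ecat.2 ⟨rfl, zero_mem _⟩
  have hx2E : x₂ ∈ Ecat (Ecat E₁) := mem_Ecat.2 ⟨rfl, mem_Ecat.2 ⟨rfl, zero_mem _⟩⟩
  have hrad : ∀ B, ρ (rad B) v.1 = v.1 := fun B => by
    have := v.2 B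
    simpa [UU, PP] using this
  have hlev : ∀ b, polar Q₁ b c' = 0 → ρ (levi (hypSum Q₁) (rad b)) v.1 = v.1 := fun b hb => by
    have h1 : ρ (levi (hypSum Q₁) (rad b)) v.1 = PP Q₁ c' b • v.1 := congrArg Subtype.val (hv b)
    rwa [show PP Q₁ c' b = 1 by simp [PP, hb], one_smul] at h1
  let Fx : ((F × F) × ((F × F) × V₁)) → ((F × F) × ((F × F) × V₁)) → Prop := fun u w =>
    ∀ (hu : hypSum (hypSum Q₁) u = 0) (hw : polar (hypSum (hypSum Q₁)) u w = 0),
      ρ ⟨siegel (hypSum (hypSum Q₁)) u w hu hw, siegel_mem_siegelGroup _ _⟩ v.1 = v.1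
  have fadd : ∀ u w w', polar (hypSum (hypSum Q₁)) u w = 0 →
      polar (hypSum (hypSum Q₁)) u w' = 0 → Fx u w → Fx u w' → Fx u (w + w') := by
    intro u w w' h h' hf hf' hu hw
    have e : (⟨siegel _ u (w + w') hu hw, siegel_mem_siegelGroup _ _⟩ :
        siegelGroup (hypSum (hypSum Q₁))) =
        ⟨siegel _ u w hu h, siegel_mem_siegelGroup _ _⟩ *
          ⟨siegel _ u w' hu h', siegel_mem_siegelGroup _ _⟩ :=
      Subtype.ext (siegel_mul hu h h').symm
    rw [e, map_mul, Module.End.mul_apply, hf' hu h', hf hu h]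
  -- the radical of the first point
  have F1 : ∀ (B : (F × F) × V₁) (α : F), Fx x₁ (((0, 0), B) + α • x₁) := by
    intro B α hu hw
    have e : (⟨siegel _ x₁ _ hu hw, siegel_mem_siegelGroup _ _⟩ :
        siegelGroup (hypSum (hypSum Q₁))) = rad B :=
      Subtype.ext (siegel_add_smul x₀_singular (polar_x₀ B) α)
    rw [e, hrad]
  -- a shift towards the first point
  have F2 : ∀ (b : (F × F) × V₁) (α : F), Fx ((0, 0), b) (α • x₁) := by
    intro b α hu hw
    have h1 : hypSum (hypSum Q₁) (α • x₁) = 0 := by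
      rw [QuadraticMap.map_smul, hx₁, x₀_singular, smul_zero]
    have e : (⟨siegel _ ((0, 0), b) (α • x₁) hu hw, siegel_mem_siegelGroup _ _⟩ :
        siegelGroup (hypSum (hypSum Q₁))) = rad (α • (-b)) := by
      apply Subtype.ext
      refine (siegel_swap hu hw h1).symm.trans ?_
      refine (siegel_smul x₀_singular (by simp [hx₁, x₀, polar_hypSum]) α).trans ?_
      exact siegel_eq (hu' := x₀_singular) (hw' := polar_x₀ _) rfl (by simp)
    rw [e, hrad]
  -- the inner radical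
  have F3 : ∀ (b : V₁) (γ : F), polar Q₁ b c' = 0 →
      Fx x₂ (((0, 0), ((0, 0), b)) + γ • x₂) := by
    intro b γ hb hu hw
    have e : (⟨siegel _ x₂ _ hu hw, siegel_mem_siegelGroup _ _⟩ :
        siegelGroup (hypSum (hypSum Q₁))) = levi (hypSum Q₁) (rad b) := by
      apply Subtype.ext
      refine (siegel_add_smul hu (by simp [x₂, x₀, polar_hypSum]) γ).trans ?_
      exact (OrthParabolic.hypExt_siegel x₀_singular (polar_x₀ b)).symm
    rw [e, hlev b hb]
  refine fix_of_span ρ _ (Ecat_sing (Ecat_sing hE))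
    {u | u = x₁ ∨ u = x₂ ∨ ∃ a ∈ E₁, u = ((0, 0), ((0, 0), a))} ?_ ?_ ?_
  · rintro ⟨⟨s, t⟩, ⟨⟨s', t'⟩, a⟩⟩ hu
    rw [mem_Ecat, mem_Ecat] at hu
    obtain ⟨ht, ht', ha⟩ := hu
    simp only at ht ht' ha
    subst ht ht'
    rw [show (((s, 0), ((s', 0), a)) : (F × F) × ((F × F) × V₁)) =
      s • x₁ + s' • x₂ + ((0, 0), ((0, 0), a)) by simp [x₁, x₂, x₀]]
    exact add_mem (add_mem (Submodule.smul_mem _ _ (Submodule.subset_span (Or.inl rfl)))
      (Submodule.smul_mem _ _ (Submodule.subset_span (Or.inr (Or.inl rfl)))))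
      (Submodule.subset_span (Or.inr (Or.inr ⟨a, ha, rfl⟩)))
  · rintro u (rfl | rfl | ⟨a, ha, rfl⟩)
    · exact hx1E
    · exact hx2E
    · exact mem_Ecat.2 ⟨rfl, mem_Ecat.2 ⟨rfl, ha⟩⟩
  intro u huS w hu hw hwE
  obtain ⟨⟨α, β⟩, ⟨⟨γ, δ⟩, z⟩⟩ := w
  obtain rfl : β = 0 := by simpa [x₁, x₀, polar_hypSum] using hwE x₁ hx1E
  obtain rfl : δ = 0 := by simpa [x₂, x₀, polar_hypSum] using hwE x₂ hx2E
  have hzE : ∀ a ∈ E₁, polar Q₁ a z = 0 := fun a ha => by
    simpa [polar_hypSum] using hwE _ (mem_Ecat.2 ⟨rfl, mem_Ecat.2 ⟨rfl, ha⟩⟩ :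
      ((((0 : F), (0 : F)), (((0 : F), (0 : F)), a)) : (F × F) × ((F × F) × V₁)) ∈ Ecat (Ecat E₁))
  suffices h : Fx u ((α, 0), ((γ, 0), z)) from h hu hw
  rcases huS with rfl | rfl | ⟨a, ha, rfl⟩
  · rw [show (((α, 0), ((γ, 0), z)) : (F × F) × ((F × F) × V₁)) =
      ((0, 0), ((γ, 0), z)) + α • x₁ by simp [x₁, x₀]]
    exact F1 _ _
  · rw [show (((α, 0), ((γ, 0), z)) : (F × F) × ((F × F) × V₁)) =
      (((0, 0), ((0, 0), z)) + γ • x₂) + α • x₁ by simp [x₁, x₂, x₀]]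
    refine fadd _ _ _ (by simp [x₂, x₀, polar_hypSum]) (by simp [x₁, x₂, x₀, polar_hypSum])
      (F3 z γ ?_) (F2 x₀ α)
    rw [polar_comm]; exact hzE c' hcE
  · have haz := hzE a ha
    have ha0 := hE a ha
    have hac : polar Q₁ c' a = 0 := polar_eq_zero_of_sing hE hcE ha
    rw [show (((α, 0), ((γ, 0), z)) : (F × F) × ((F × F) × V₁)) =
      (((0, 0), ((0, 0), z)) + γ • x₂) + α • x₁ by simp [x₁, x₂, x₀]]
    refine fadd _ _ _ (by simp [x₂, x₀, polar_hypSum, haz]) (by simp [x₁, x₀, polar_hypSum])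
      (fadd _ _ _ (by simp [polar_hypSum, haz]) (by simp [x₂, x₀, polar_hypSum]) ?_ ?_) (F2 _ α)
    swap
    · intro hu' hw'
      have h1 : hypSum (hypSum Q₁) (γ • x₂) = 0 := by simp [x₂, x₀, QuadraticMap.map_smul]
      have e : (⟨siegel _ ((0, 0), ((0, 0), a)) (γ • x₂) hu' hw', siegel_mem_siegelGroup _ _⟩ :
          siegelGroup (hypSum (hypSum Q₁))) = levi (hypSum Q₁) (rad (γ • (-a))) := by
        apply Subtype.ext
        refine (siegel_swap hu' hw' h1).symm.trans ?_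
        refine (siegel_smul (by simp [x₂, x₀]) (by simp [x₂, x₀, polar_hypSum]) γ).trans ?_
        refine (siegel_eq rfl ?_).trans
          (OrthParabolic.hypExt_siegel x₀_singular (polar_x₀ _)).symm
        simp
      rw [e, hlev]
      rw [polar_smul_left, polar_neg_left, polar_comm, hac, neg_zero, smul_zero]
    -- the core part
    intro hu' hw'
    set T₁ : siegelGroup Q₁ := ⟨siegel Q₁ a z ha0 haz, siegel_mem_siegelGroup _ _⟩ with hT₁
    have hT₁c : (T₁.1 : V₁ ≃ₗ[F] V₁) c' = c' := by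
      simp [hT₁, siegel_apply, hac, hzE c' hcE]
    have hgT : levi (hypSum Q₁) (levi Q₁ T₁) =
        (⟨siegel (hypSum (hypSum Q₁)) ((0, 0), ((0, 0), a)) ((0, 0), ((0, 0), z)) hu' hw',
          siegel_mem_siegelGroup _ _⟩ : siegelGroup (hypSum (hypSum Q₁))) := by
      apply Subtype.ext
      simp only [hT₁, levi_apply, OrthParabolic.hypExt_siegel]
    rw [← hgT]
    have hmem : sigma ρ (levi Q₁ T₁) v ∈ eigc (sigma ρ) c' := by
      have h1 := levi_mem (sigma ρ) T₁ hv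
      rwa [hT₁c] at h1
    suffices h : sigma ρ (levi Q₁ T₁) v - v = 0 from congrArg Subtype.val (sub_eq_zero.1 h)
    refine comp_injective ρ hQ hc' (sub_mem hmem hv) ?_
    change eproj (PP (hypSum Q₁)) (UU ρ) ((0, 0), c')
      (ρ (swapEl Q₁)⁻¹ (ρ (levi (hypSum Q₁) (levi Q₁ T₁)) v.1 - v.1)) = 0
    have hc : (((levi Q₁ T₁).1 : orth (hypSum Q₁)) :
        ((F × F) × V₁) ≃ₗ[F] (F × F) × V₁) ((0, 0), c') = ((0, 0), c') := by
      rw [levi_apply, hypExt_apply, hT₁c]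
    have hswap : (swapEl Q₁)⁻¹ * levi (hypSum Q₁) (levi Q₁ T₁) =
        levi (hypSum Q₁) (levi Q₁ T₁) * (swapEl Q₁)⁻¹ := by
      rw [eq_mul_inv_iff_mul_eq, mul_assoc, hT₁, swapEl_comm ha0 haz, inv_mul_cancel_left]
    set p := eproj (PP (hypSum Q₁)) (UU ρ) ((0, 0), c') (ρ (swapEl Q₁)⁻¹ v.1) with hp
    have hpm : p ∈ eigc ρ ((0, 0), c') := eproj_mem (setup ρ hQ.hypSum) _ _
    rw [map_sub, map_sub, ← Module.End.mul_apply (ρ (swapEl Q₁)⁻¹), ← map_mul, hswap, map_mul,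
      Module.End.mul_apply]
    nth_rw 1 [← hc]
    rw [eproj_levi ρ hQ.hypSum, ← hp, sub_eq_zero]
    -- the root element fixes the eigenspace
    rcases Nat.lt_or_ge (finrank ℂ (eigc ρ ((0, 0), c'))) 1 with h0 | h1
    · rw [Nat.lt_one_iff, Submodule.finrank_eq_zero] at h0
      rw [h0, Submodule.mem_bot] at hpm
      rw [hpm, map_zero]
    have h1' : finrank ℂ (eigc ρ ((0, 0), c')) = 1 := by omega
    obtain ⟨y, y', hy, hy', hyy⟩ := hcore
    have hlT : levi Q₁ T₁ = (⟨siegel (hypSum Q₁) ((0, 0), a) ((0, 0), z) (by simp [ha0])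
        (by simp [polar_hypSum, haz]), siegel_mem_siegelGroup _ _⟩ : siegelGroup (hypSum Q₁)) :=
      Subtype.ext (OrthParabolic.hypExt_siegel ha0 haz)
    let h₁ : siegelGroup (hypSum Q₁) :=
      ⟨siegel (hypSum Q₁) ee₁ ((0, 0), z) (by simp [ee₁]) (by simp [ee₁, polar_hypSum]),
        siegel_mem_siegelGroup _ _⟩
    let h₂ : siegelGroup (hypSum Q₁) :=
      ⟨siegel (hypSum Q₁) ee₁ ((0, 0), -(Q₁ z • y')) (by simp [ee₁]) (by simp [ee₁, polar_hypSum]),
        siegel_mem_siegelGroup _ _⟩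
    have hzc : polar Q₁ c' z = 0 := hzE c' hcE
    have s1 := shift_fix ρ h1' (a := ((0, 0), a)) (y := ((0, 1), 0))
      (z := ((0, 0), z) + (-Q₁ z) • ee₁) (by simp [ha0]) (by simp [polar_hypSum])
      (by simp [ee₁, polar_hypSum, haz]) (by simp [polar_hypSum, hac]) (by simp [polar_hypSum]) h₁
      (by simp [h₁, siegel_apply, ee₁, polar_hypSum, hzc])
      (by simp [h₁, siegel_apply, ee₁, polar_hypSum, haz])
      (by simp [h₁, siegel_apply, ee₁, polar_hypSum, sub_eq_add_neg]) hpm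
    have s2 := shift_fix ρ h1' (a := ((0, 0), a)) (y := ((0, 0), y))
      (z := Q₁ z • ee₁) (by simp [ha0]) (by simp [polar_hypSum, hy a ha])
      (by simp [ee₁, polar_hypSum]) (by simp [polar_hypSum, hac])
      (by simp [polar_hypSum, hy c' hcE]) h₂
      (by simp [h₂, siegel_apply, ee₁, polar_hypSum, hy' c' hcE])
      (by simp [h₂, siegel_apply, ee₁, polar_hypSum, hy' a ha])
      (by simp [h₂, siegel_apply, ee₁, polar_hypSum, hyy]) hpm
    have e : levi Q₁ T₁ =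
        (⟨siegel (hypSum Q₁) ((0, 0), a) (((0, 0), z) + (-Q₁ z) • ee₁) (by simp [ha0])
            (by simp [ee₁, polar_hypSum, haz]), siegel_mem_siegelGroup _ _⟩ :
          siegelGroup (hypSum Q₁)) *
        ⟨siegel (hypSum Q₁) ((0, 0), a) (Q₁ z • ee₁) (by simp [ha0])
            (by simp [ee₁, polar_hypSum]), siegel_mem_siegelGroup _ _⟩ := by
      apply Subtype.ext
      simp only [hlT, Subgroup.coe_mul, siegel_mul]
      exact siegel_eq rfl (by module)
    rw [e, map_mul, map_mul, Module.End.mul_apply, s2, s1]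

end Vector

end CfsgLib.InvCentralizers.OrthSmallFix
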