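import Cfsg.Agent.Lib.InvCentralizers.OrthMinusTower
import Cfsg.Agent.Lib.InvCentralizers.OrthSmallFix
import Cfsg.Agent.Lib.InvCentralizers.LinearDegree

/-!
Small representations of the Siegel groups of `H^k ⊥ N`.
-/

set_option autoImplicit false
set_option linter.unusedSectionVars false
set_option linter.style.haveILetI false

namespace CfsgLib.InvCentralizers.OrthMinusSmall

open QuadraticMap Module CfsgLib.ClassicalForms
open CfsgLib.InvCentralizers.OrthParabolic
open CfsgLib.InvCentralizers.OrthSmall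
open CfsgLib.InvCentralizers.OrthMinusTower
open CfsgLib.InvCentralizers.OrthStep (QQ ee)
open CfsgLib.InvCentralizers.SympBound (psi exists_psi_ne psi_prim)
open CfsgLib.InvCentralizers.AbelianEigen

universe u

variable {F : Type u} [Field F] [Fintype F] {a b : F}

local notation "q" => (Fintype.card F : ℤ)

variable (F) in
/-- The number of non-zero singular vectors of `H^k ⊥ N`. -/
def A (k : ℕ) : ℤ := (q ^ (k + 1) + 1) * (q ^ k - 1)

variable (F) in
/-- The bound. -/
def S : ℕ → ℤ
  | 0 => 0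
  | k + 1 => A F (k + 1) + S k + 1

variable (F) in
/-- The part of the degree outside the fixed space of the radical. -/
def Es : ℕ → ℤ
  | 0 => 0
  | k + 1 => Es k + A F (k + 1) - (q ^ (k + 1) - 1)

theorem S_mul (k : ℕ) : S F k * (q ^ 2 - 1) = (q ^ (k + 2) + 1) * (q ^ (k + 1) - q) := by
  induction k with
  | zero => simp [S]
  | succ k ih => simp only [S, A]; linear_combination ih

theorem Es_gs (k : ℕ) :
    Es F k + (LinearDegree.gs (Fintype.card F) (k + 1) : ℤ) - 1 = S F k := by
  induction k with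
  | zero => simp [Es, S, LinearDegree.gs]
  | succ k ih =>
    rw [LinearDegree.gs_succ]
    simp only [Es, S]
    push_cast
    linear_combination ih

theorem zeros_eq (h : Aniso a b) (k : ℕ) :
    (Nat.card {v // (tower a b k).Q v = 0} : ℤ) = A F k + 1 := card_zeros h k

/-- One level of singular characters, once. -/
theorem mult_one (h : Aniso a b) {k : ℕ} {V : Type} [AddCommGroup V] [Module ℂ V]
    [FiniteDimensional ℂ V]
    {ρ : Representation ℂ (siegelGroup (hypSum (tower a b (k + 1)).Q)) V} (hs : Small ρ)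
    (hρ : ∃ g, ρ g ≠ 1) :
    ∀ c, c ≠ 0 → finrank ℂ (eigc ρ c) =
      @ite _ ((tower a b (k + 1)).Q c = 0) (Classical.propDecidable _) 1 0 := by
  classical
  obtain ⟨g, hg⟩ := hρ
  have hne : ∃ x, UU ρ x ≠ 1 := by
    by_contra hcon
    push Not at hcon
    exact hg (eq_one_of_rad ρ (nondeg h _) (by rw [finrank_eq]; omega) hcon g)
  intro c hc
  refine (hs.mult_eq (nondeg h _) (fun c c' h1 h2 h3 h4 => transitive h k c c' h1 h2 h3 h4) hne c
    hc).trans ?_
  split_ifs <;> rfl

/-- The degree of a small representation. -/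
theorem finrank_small (h : Aniso a b) {k : ℕ} {V : Type} [AddCommGroup V] [Module ℂ V]
    [FiniteDimensional ℂ V]
    {ρ : Representation ℂ (siegelGroup (hypSum (tower a b (k + 1)).Q)) V} (hs : Small ρ)
    (hρ : ∃ g, ρ g ≠ 1) :
    (finrank ℂ V : ℤ) = A F (k + 1) + finrank ℂ (eigc ρ 0) := by
  classical
  have h1 := finrank_level (nondeg h _) (ν := (0 : F)) (ρ := ρ) (fun c hc => by
    rw [mult_one h hs hρ c hc])
  rw [if_pos rfl] at h1
  have h2 := zeros_eq h (k + 1)
  omega

/-- The fixed space of the radical is non-trivial. -/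
theorem sigma_nontrivial (h : Aniso a b) {k : ℕ} {V : Type} [AddCommGroup V] [Module ℂ V]
    [FiniteDimensional ℂ V]
    {ρ : Representation ℂ (siegelGroup (hypSum (tower a b (k + 2)).Q)) V} (hs : Small ρ)
    (hρ : ∃ g, ρ g ≠ 1) : ∃ g, sigma ρ g ≠ 1 := by
  classical
  refine sigma_ne_one (Q₂ := (tower a b k).Q) ρ (nondeg h k) (ν := 0) (fun c hc => ?_) fun z hz => ?_
  · refine (mult_one h hs hρ c hc).trans ?_
    split_ifs <;> first | rfl | contradiction
  · refine exists_pair_orth (nondeg h k) (by rw [finrank_eq]; omega) z ?_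
    rcases k with _ | k
    · exact Or.inr (h.eq_zero hz)
    · left; rw [finrank_eq]; omega

theorem small_sigma' (h : Aniso a b) {k : ℕ} {V : Type} [AddCommGroup V] [Module ℂ V]
    [FiniteDimensional ℂ V]
    {ρ : Representation ℂ (siegelGroup (hypSum (tower a b (k + 1)).Q)) V} (hs : Small ρ) :
    Small (Q₀ := (tower a b k).Q) (sigma ρ) :=
  small_sigma (Q₁ := (tower a b k).Q) ρ (nondeg h k) hs

/-- The part of the degree outside the fixed space. -/
theorem fixed_add (h : Aniso a b) : ∀ (k : ℕ) (V : Type) [AddCommGroup V] [Module ℂ V]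
    [FiniteDimensional ℂ V] (ρ : Representation ℂ (siegelGroup (hypSum (tower a b k).Q)) V),
    Small ρ → (1 ≤ k → ∃ g, ρ g ≠ 1) →
    (finrank ℂ (Fixed ρ (Ecat (tower a b k).E)) : ℤ) + Es F k ≤ finrank ℂ V
  | 0, V, _, _, _, ρ, _, _ => by
    have := Submodule.finrank_le (Fixed ρ (Ecat (tower a b 0).E))
    simp only [Es]; omega
  | k + 1, V, _, _, _, ρ, hs, hne => by
    classical
    have hρ := hne (Nat.succ_pos k)
    have h1 := finrank_Fixed_le ρ (nondeg h (k + 1)) hs (tower a b (k + 1)).E (E_dd h (k + 1))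
    have h2 : (finrank ℂ (Fixed (sigma ρ) (tower a b (k + 1)).E) : ℤ) + Es F k ≤
        finrank ℂ (eigc ρ 0) :=
      fixed_add h k (eigc ρ 0) (sigma ρ) (small_sigma' h hs) fun hk => by
        obtain ⟨j, rfl⟩ : ∃ j, k = j + 1 := ⟨k - 1, by omega⟩
        exact sigma_nontrivial h hs hρ
    have h3 := finrank_small h hs hρ
    rw [← Nat.card_eq_fintype_card, E_card] at h1
    simp only [Es]
    zify at h1
    linarith

theorem one_ne_two_fin (k : ℕ) : (1 : Fin (k + 3)) ≠ 2 := by
  intro e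
  have e1 := congrArg Fin.val e
  rw [Fin.coe_ofNat_eq_mod, Fin.coe_ofNat_eq_mod, Nat.mod_eq_of_lt (by omega),
    Nat.mod_eq_of_lt (by omega)] at e1
  omega

/-- The fixed space of the radical of a maximal totally singular subspace is not trivial. -/
theorem gs_le_fixed (h : Aniso a b) {k : ℕ} (hexc : ¬ LinearDegree.Exc (k + 3) (Fintype.card F))
    {V : Type} [AddCommGroup V] [Module ℂ V] [FiniteDimensional ℂ V]
    {ρ : Representation ℂ (siegelGroup (hypSum (tower a b (k + 2)).Q)) V} (hs : Small ρ)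
    (hρ : ∃ g, ρ g ≠ 1) :
    LinearDegree.gs (Fintype.card F) (k + 3) ≤
      finrank ℂ (Fixed ρ (Ecat (tower a b (k + 2)).E)) + 1 := by
  classical
  obtain ⟨t, ht⟩ := exists_psi_ne (one_ne_zero : (1 : F) ≠ 0)
  set c' : (tower a b (k + 1)).W := (((1, 0), 0) : (F × F) × (tower a b k).W) with hc'
  have hc'0 : c' ≠ 0 := fun e => one_ne_zero (congrArg (fun x : (F × F) × (tower a b k).W => x.1.1) e)
  have hc'Q : (tower a b (k + 1)).Q c' = 0 :=
    x₀_singular (Q₀ := (tower a b k).Q)
  have hc'E : c' ∈ (tower a b (k + 1)).E := mem_Ecat.2 ⟨rfl, zero_mem _⟩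
  have hsig := mult_one h (small_sigma' h hs) (sigma_nontrivial h hs hρ) c' hc'0
  rw [if_pos hc'Q] at hsig
  haveI : Nontrivial (eigc (sigma (Q₀ := (tower a b (k + 2)).Q) ρ) c') :=
    Module.nontrivial_of_finrank_pos (R := ℂ) (by rw [hsig]; exact Nat.one_pos)
  obtain ⟨v, hv0⟩ := exists_ne (0 : eigc (sigma (Q₀ := (tower a b (k + 2)).Q) ρ) c')
  have hvF : v.1.1 ∈ Fixed ρ (Ecat (tower a b (k + 2)).E) :=
    OrthSmallFix.mem_Fixed_of_eig (Q₁ := (tower a b (k + 1)).Q) ρ (nondeg h _) hc'0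
      (tower a b (k + 1)).E (E_sing _) hc'E (exists_core h _)
      (hs _ (fun e => hc'0 (congrArg Prod.snd e))).1 v.2
  let τ : Representation ℂ (Matrix.SpecialLinearGroup (Fin (k + 3)) F)
      (Fixed ρ (Ecat (tower a b (k + 2)).E)) :=
    { toFun := fun A => (ρ (slTower a b (k + 3) A)).restrict fun x hx =>
        Fixed_invariant (Q := (tower a b (k + 3)).Q) ρ _ (slTower a b (k + 3) A)
          (fun y hy => slTower_E A hy) hx
      map_one' := by
        refine LinearMap.ext fun x => Subtype.ext ?_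
        change ρ (slTower a b (k + 3) 1) x.1 = x.1
        rw [map_one]
        exact LinearMap.congr_fun (map_one ρ) x.1
      map_mul' := fun A B => by
        refine LinearMap.ext fun x => Subtype.ext ?_
        change ρ (slTower a b (k + 3) (A * B)) x.1 = ρ (slTower a b (k + 3) A) (ρ (slTower a b (k + 3) B) x.1)
        rw [map_mul]
        exact LinearMap.congr_fun (map_mul ρ _ _) x.1 }
  refine LinearDegree.bound (by omega) hexc τ ?_
  refine ⟨Matrix.SpecialLinearGroup.transvection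
    (one_ne_two_fin k) (-t), fun e => ?_⟩
  have e1 := congrArg Subtype.val (LinearMap.congr_fun e ⟨v.1.1, hvF⟩)
  change ρ (slTower a b (k + 3) _) v.1.1 = v.1.1 at e1
  have hu : tEquiv a b (k + 3) (((0, 0), ((1, 0), 0)) : (F × F) × ((F × F) × (tower a b (k + 1)).W)) =
      (Pi.single (.inl 1) 1, 0) := by
    refine (tEquiv_snd_inl (i := 0) (s := 1) ?_).trans ?_
    · refine (tEquiv_fst (k + 1) 1 0).trans ?_
      simp
    · rfl
  have hw : tEquiv a b (k + 3)
      (((0, 0), ((0, 0), ((0, t), 0))) : (F × F) × ((F × F) × ((F × F) × (tower a b k).W))) =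
      (Pi.single (.inr 2) (- -t), 0) := by
    refine (tEquiv_snd_inr (i := 1) (s := t) (tEquiv_snd_inr (i := 0) (s := t) ?_)).trans ?_
    · refine (tEquiv_fst k 0 t).trans ?_
      simp
    · rw [neg_neg]; rfl
  have hu0 : hypSum (hypSum (tower a b (k + 1)).Q) ((0, 0), ((1, 0), 0)) = 0 := by simp
  have hw0 : polar (hypSum (hypSum (tower a b (k + 1)).Q)) ((0, 0), ((1, 0), 0))
      ((0, 0), ((0, 0), (((0, t), 0) : (tower a b (k + 1)).W))) = 0 := by
    simp [polar_hypSum]
    exact polar_zero_left _ _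
  have e2 := slTower_transvection (a := a) (b := b)
    (one_ne_two_fin k) (-t) hu hw hu0 hw0
  rw [e2] at e1
  have e3 : levi (hypSum (tower a b (k + 1)).Q) (rad (((0, t), 0) : (tower a b (k + 1)).W)) =
      (⟨siegel _ _ _ hu0 hw0, siegel_mem_siegelGroup _ _⟩ :
        siegelGroup (hypSum (hypSum (tower a b (k + 1)).Q))) :=
    Subtype.ext (OrthParabolic.hypExt_siegel x₀_singular (polar_x₀ _))
  have e4 : ρ (levi (hypSum (tower a b (k + 1)).Q) (rad (((0, t), 0) : (tower a b (k + 1)).W)))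
      v.1.1 = PP (tower a b (k + 1)).Q c' (((0, t), 0) : (tower a b (k + 1)).W) • v.1.1 :=
    congrArg Subtype.val (v.2 (((0, t), 0) : (tower a b (k + 1)).W))
  rw [e3] at e4
  erw [e1] at e4
  have hP : PP (tower a b (k + 1)).Q c' (((0, t), 0) : (tower a b (k + 1)).W) ≠ 1 := by
    change psi F (polar (hypSum (tower a b k).Q) ((0, t), 0) ((1, 0), 0)) ≠ 1
    simpa [polar_hypSum] using ht
  have h5 : (PP (tower a b (k + 1)).Q c' (((0, t), 0) : (tower a b (k + 1)).W) - 1) • v.1.1 = 0 := by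
    rw [sub_smul, one_smul, ← e4, sub_self]
  exact hv0 (Subtype.ext (Subtype.ext ((smul_eq_zero.1 h5).resolve_left (sub_ne_zero.2 hP))))

open scoped Classical in
/-- The degree divides the weighted number of pairs. -/
theorem small_dvd (h : Aniso a b) {k : ℕ} {V : Type} [AddCommGroup V] [Module ℂ V]
    [FiniteDimensional ℂ V]
    (ρ : Representation ℂ (siegelGroup (hypSum (tower a b (k + 2)).Q)) V) [ρ.IsIrreducible]
    (hs : Small ρ) (hρ : ∃ g, ρ g ≠ 1) :
    (finrank ℂ V : ℤ) ∣ (A F (k + 3) * (q * A F (k + 2))) *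
      ((finrank ℂ (eigc ρ 0) : ℤ) + q * (A F (k + 1) + 1) - q ^ (2 * k + 4) - 1) := by
  set X : ℤ := (finrank ℂ (eigc ρ 0) : ℤ) + q * (A F (k + 1) + 1) - q ^ (2 * k + 4) - 1 with hX
  have hQ0 := nondeg h (k + 2)
  have hn : 5 ≤ finrank F (tower a b (k + 2)).W := by rw [finrank_eq]; omega
  have hm : ∀ c, c ≠ 0 → finrank ℂ (eigc ρ c) = if (tower a b (k + 2)).Q c = 0 then 1 else 0 :=
    fun c hc => by rw [mult_one h hs hρ c hc]
  set e₀ : (tower a b (k + 2)).W := (ee : (F × F) × ((F × F) × (tower a b k).W)) with he₀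
  have hchee : ρ.character (rad e₀) = (X : ℂ) := by
    rw [character_rad hQ0 hm e₀, if_pos rfl]
    have h2 : ∑ c ∈ Finset.univ.filter (fun c => (tower a b (k + 2)).Q c = 0),
        psi F (polar (tower a b (k + 2)).Q e₀ c) =
        (Fintype.card F : ℂ) * (Nat.card {w // (tower a b (k + 1)).Q w = 0} : ℂ) -
          (Fintype.card (tower a b (k + 1)).W : ℂ) := by
      refine Eq.trans ?_ (sum_psi_level (tower a b (k + 1)).Q 0)
      refine Finset.sum_congr ?_ fun c _ => ?_
      · ext c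
        constructor <;> intro hc <;>
          exact Finset.mem_filter.2 ⟨Finset.mem_univ _, (Finset.mem_filter.1 hc).2⟩
      · refine congrArg (psi F) ((polar_hypSum (Q := hypSum (tower a b k).Q) ee c).trans ?_)
        simp [ee]
    have hz : (Nat.card {w // (tower a b (k + 1)).Q w = 0} : ℂ) = ((A F (k + 1) + 1 : ℤ) : ℂ) := by
      rw [← zeros_eq h (k + 1)]; norm_cast
    rw [h2, hz, ← Nat.card_eq_fintype_card (α := (tower a b (k + 1)).W), card_eq, hX]
    push_cast
    ring
  have hchb : ∀ x, (tower a b (k + 2)).Q x = 0 → x ≠ 0 → ρ.character (rad x) = (X : ℂ) := by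
    intro x hx hx0
    obtain ⟨g, hg, e⟩ := (Sec.top (tower a b (k + 2)).Q).transitive_singular hQ0
      (by simpa using hn) (Sec.mem_top e₀) (Sec.mem_top x)
      (OrthStep.ee_sing (Q₂ := (tower a b k).Q)) hx
      (fun h0 => one_ne_zero (congrArg (fun x : (F × F) × ((F × F) × (tower a b k).W) => x.1.1) h0))
      hx0
    rw [← e, ← hchee]
    rw [show rad ((g : (tower a b (k + 2)).W ≃ₗ[F] (tower a b (k + 2)).W) e₀) =
      levi _ ⟨g, hg.1⟩ * rad e₀ * (levi (tower a b (k + 2)).Q ⟨g, hg.1⟩)⁻¹ from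
        (OrthStep.rad_conj (Q₂ := (tower a b k).Q) ⟨g, hg.1⟩ e₀).symm, Representation.char_conj]
  have hchel : ∀ p : {p // OrthPairs.IsPair (tower a b (k + 2)).Q p},
      ρ.character (OrthPairs.el p) = (X : ℂ) := by
    intro p
    obtain ⟨g, x, hx, hx0, e⟩ := OrthPairs.exists_split hQ0 (by omega) p
    rw [e, Representation.char_conj, hchb x hx hx0]
  have hdvd := OrthPairs.finrank_dvd ρ X hchel
  rw [OrthPairs.card_pairs hQ0 (by omega)] at hdvd
  have hp₂ : 1 ≤ Nat.card {v // (tower a b (k + 2)).Q v = 0} := by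
    haveI : Nonempty {v // (tower a b (k + 2)).Q v = 0} := ⟨⟨0, map_zero _⟩⟩
    exact Nat.card_pos
  have hp₃ : 1 ≤ Nat.card {v // (tower a b (k + 3)).Q v = 0} := by
    haveI : Nonempty {v // (tower a b (k + 3)).Q v = 0} := ⟨⟨0, map_zero _⟩⟩
    exact Nat.card_pos
  have h3 : ((Nat.card {v // hypSum (tower a b (k + 2)).Q v = 0} - 1 : ℕ) : ℤ) = A F (k + 3) := by
    change ((Nat.card {v // (tower a b (k + 3)).Q v = 0} - 1 : ℕ) : ℤ) = _
    rw [Nat.cast_sub hp₃, zeros_eq h (k + 3)]
    ring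
  rw [Nat.cast_mul, h3, Nat.cast_mul, Nat.cast_sub hp₂, zeros_eq h (k + 2)] at hdvd
  simpa using hdvd

end CfsgLib.InvCentralizers.OrthMinusSmall
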