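import Cfsg.Agent.Lib.InvCentralizers.OrthStep
import Cfsg.Agent.Lib.InvCentralizers.KleinHom
import Cfsg.Agent.Lib.InvCentralizers.LinearDegree
import Cfsg.Agent.Lib.ClassicalForms.Ortho.Values

/-!
The smallest degree of a nontrivial representation of `Ω⁺₂ₙ(q)`, `q > 3`.
-/

set_option autoImplicit false
set_option linter.unusedSectionVars false
set_option linter.style.haveILetI false

namespace CfsgLib.InvCentralizers.OrthPlusDegree

open QuadraticMap Module CfsgLib.ClassicalForms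
open CfsgLib.InvCentralizers.OrthParabolic
open CfsgLib.InvCentralizers.OrthStep (QQ)

variable {F : Type*} [Field F]

/-- Splitting off the first hyperbolic plane. -/
def planeEquiv (k : ℕ) :
    ((F × F) × (Fin k ⊕ Fin k → F)) ≃ₗ[F] (Fin (k + 1) ⊕ Fin (k + 1) → F) where
  toFun x := Sum.elim (Fin.cons x.1.1 (x.2 ∘ Sum.inl)) (Fin.cons x.1.2 (x.2 ∘ Sum.inr))
  invFun y := ((y (.inl 0), y (.inr 0)),
    Sum.elim (fun i => y (.inl i.succ)) (fun i => y (.inr i.succ)))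
  map_add' x y := by
    funext i
    rcases i with i | i <;> refine Fin.cases ?_ (fun j => ?_) i <;> simp
  map_smul' c x := by
    funext i
    rcases i with i | i <;> refine Fin.cases ?_ (fun j => ?_) i <;> simp
  left_inv x := by
    refine Prod.ext (by simp) (funext fun i => ?_)
    rcases i with i | i <;> simp
  right_inv y := by
    funext i
    rcases i with i | i <;> refine Fin.cases ?_ (fun j => ?_) i <;> simp

theorem qPlus_planeEquiv (k : ℕ) (x : (F × F) × (Fin k ⊕ Fin k → F)) :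
    qPlus (k + 1) F (planeEquiv k x) = hypSum (qPlus k F) x := by
  simp [qPlus_apply, Cfsg.quadFormPlus, planeEquiv, Fin.sum_univ_succ]

/-- Two planes split off. -/
def planeEquiv₂ (k : ℕ) :
    ((F × F) × ((F × F) × (Fin k ⊕ Fin k → F))) ≃ₗ[F] (Fin (k + 2) ⊕ Fin (k + 2) → F) :=
  ((LinearEquiv.refl F (F × F)).prodCongr (planeEquiv k)).trans (planeEquiv (k + 1))

theorem qPlus_planeEquiv₂ (k : ℕ) (x : (F × F) × ((F × F) × (Fin k ⊕ Fin k → F))) :
    qPlus (k + 2) F (planeEquiv₂ k x) = QQ (qPlus k F) x := by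
  simp [planeEquiv₂, qPlus_planeEquiv]

/-- Three planes split off. -/
def planeEquiv₃ (k : ℕ) :
    ((F × F) × ((F × F) × ((F × F) × (Fin k ⊕ Fin k → F)))) ≃ₗ[F]
      (Fin (k + 3) ⊕ Fin (k + 3) → F) :=
  ((LinearEquiv.refl F (F × F)).prodCongr (planeEquiv₂ k)).trans (planeEquiv (k + 2))

theorem qPlus_planeEquiv₃ (k : ℕ) (x : (F × F) × ((F × F) × ((F × F) × (Fin k ⊕ Fin k → F)))) :
    qPlus (k + 3) F (planeEquiv₃ k x) = hypSum (QQ (qPlus k F)) x := by
  simp [planeEquiv₃, qPlus_planeEquiv, qPlus_planeEquiv₂]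

section Congr

variable {V W : Type*} [AddCommGroup V] [Module F V] [AddCommGroup W] [Module F W]
  {Q : QuadraticForm F V} {Q' : QuadraticForm F W}

theorem map_siegelGroup (e : V ≃ₗ[F] W) (h : ∀ v, Q' (e v) = Q v) :
    (siegelGroup Q).map (orthCongr e h).toMonoidHom = siegelGroup Q' := by
  refine le_antisymm ?_ ?_
  · rw [Subgroup.map_le_iff_le_comap]
    refine (Subgroup.closure_le _).2 ?_
    rintro _ ⟨u, x, hu, hx, rfl⟩
    rw [SetLike.mem_coe, Subgroup.mem_comap, MulEquiv.coe_toMonoidHom, orthCongr_siegel]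
    exact siegel_mem_siegelGroup _ _
  · refine (Subgroup.closure_le _).2 ?_
    rintro _ ⟨u, x, hu, hx, rfl⟩
    have hu' : Q (e.symm u) = 0 := by rw [← h, e.apply_symm_apply, hu]
    have hx' : polar Q (e.symm u) (e.symm x) = 0 := by
      simp only [polar, ← map_add, ← h, e.apply_symm_apply]
      exact hx
    refine ⟨siegel Q (e.symm u) (e.symm x) hu' hx', siegel_mem_siegelGroup _ _, ?_⟩
    rw [MulEquiv.coe_toMonoidHom, orthCongr_siegel]
    exact siegel_congr (e.apply_symm_apply u) (e.apply_symm_apply x) _ _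

/-- The isomorphism of Siegel groups of isometric forms. -/
noncomputable def siegelCongr (e : V ≃ₗ[F] W) (h : ∀ v, Q' (e v) = Q v) :
    siegelGroup Q ≃* siegelGroup Q' :=
  ((orthCongr e h).subgroupMap (siegelGroup Q)).trans
    (MulEquiv.subgroupCongr (map_siegelGroup e h))

theorem commutator_congr (e : V ≃ₗ[F] W) (h : ∀ v, Q' (e v) = Q v)
    (hc : commutator (orth Q') = siegelGroup Q') : commutator (orth Q) = siegelGroup Q := by
  apply Subgroup.map_injective (f := (orthCongr e h).toMonoidHom) (orthCongr e h).injective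
  rw [map_siegelGroup, ← hc, commutator_def, commutator_def, Subgroup.map_commutator,
    Subgroup.map_top_of_surjective _ (orthCongr e h).surjective]

end Congr

variable [Fintype F]

local notation "q" => (Fintype.card F : ℤ)

variable (F) in
/-- The bound, shifted by three. -/
def S : ℕ → ℤ
  | 0 => q ^ 3 + q ^ 2 + q
  | j + 1 => (q ^ (j + 3) - 1) * (q ^ (j + 2) + 1) + S j + 1

theorem S_mul (j : ℕ) :
    S F j * (q ^ 2 - 1) = (q ^ (j + 3) - 1) * (q ^ (j + 2) + q) := by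
  induction j with
  | zero => simp only [S]; ring
  | succ j ih => simp only [S]; linear_combination ih

theorem card_zeros (i : ℕ) :
    (Nat.card {v : Fin (i + 1) ⊕ Fin (i + 1) → F // qPlus (i + 1) F v = 0} : ℤ) =
      q ^ (2 * i + 1) + q ^ (i + 1) - q ^ i := by
  have h := card_zeros_qPlus (F := F) (i + 1)
  rw [Nat.card_eq_fintype_card (α := F)] at h
  apply mul_right_cancel₀ (show q ≠ 0 by exact_mod_cast Fintype.card_ne_zero)
  rw [h]
  ring

theorem card_level (m : ℕ) {c : F} (hc : c ≠ 0) :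
    (Nat.card {v : Fin (m + 1) ⊕ Fin (m + 1) → F // qPlus (m + 1) F v = c} : ℤ) =
      q ^ m * (q ^ (m + 1) - 1) := by
  have h := card_values_qH (F := F) (0 : QuadraticForm F (Fin 0 → F)) c (m + 1)
  rw [← card_values_congr (plusEquiv (m + 1)) (qH_plusEquiv (m + 1))] at h
  have h0 : Nat.card {v : Fin 0 → F // (0 : QuadraticForm F (Fin 0 → F)) v = c} = 0 := by
    rw [Nat.card_eq_zero]
    left
    exact ⟨fun v => hc (by simpa using v.2.symm)⟩
  rw [h0, Nat.card_fun, Nat.card_fin, Nat.card_eq_fintype_card (α := F)] at h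
  apply mul_right_cancel₀ (show q ≠ 0 by exact_mod_cast Fintype.card_ne_zero)
  rw [h]
  push_cast
  ring

/-- The arithmetic of the exceptional candidate. -/
theorem not_dvd_aux {Q : ℤ} (hQ : 4 ≤ Q) (j : ℕ) :
    ¬ (Q ^ (j + 4) + Q ^ 2 + Q - 1) ∣ (Q ^ 2 - 1) ^ 3 := by
  intro hd
  have hQ2 : 16 ≤ Q ^ 2 := by nlinarith
  rcases Nat.lt_or_ge j 2 with hj | hj
  · interval_cases j
    · have h : (Q ^ (0 + 4) + Q ^ 2 + Q - 1) ∣ (-Q ^ 3 + 8 * Q ^ 2 + 4 * Q - 5) := by
        have := dvd_sub hd (dvd_mul_left (Q ^ (0 + 4) + Q ^ 2 + Q - 1) (Q ^ 2 - 4))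
        rw [show -Q ^ 3 + 8 * Q ^ 2 + 4 * Q - 5 = (Q ^ 2 - 1) ^ 3 -
          (Q ^ 2 - 4) * (Q ^ (0 + 4) + Q ^ 2 + Q - 1) by ring]
        exact this
      have h4 : 4 * Q ^ 3 ≤ Q ^ 4 := by
        nlinarith [mul_nonneg (show (0 : ℤ) ≤ Q - 4 by omega) (pow_nonneg (show 0 ≤ Q by omega) 3)]
      have h23 : 4 * Q ^ 2 ≤ Q ^ 3 := by nlinarith
      have h0 := Int.eq_zero_of_abs_lt_dvd h (by
        rw [abs_lt]; norm_num only; constructor <;> nlinarith)
      have h5 : Q ∣ 5 := ⟨-Q ^ 2 + 8 * Q + 4, by linear_combination -h0⟩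
      have := Int.le_of_dvd (by norm_num) h5
      interval_cases Q <;> norm_num at h0
    · have h : (Q ^ (1 + 4) + Q ^ 2 + Q - 1) ∣
          (-3 * Q ^ 4 - Q ^ 3 + 2 * Q ^ 2 + Q - 1) := by
        have := dvd_sub hd (dvd_mul_left (Q ^ (1 + 4) + Q ^ 2 + Q - 1) Q)
        rw [show -3 * Q ^ 4 - Q ^ 3 + 2 * Q ^ 2 + Q - 1 = (Q ^ 2 - 1) ^ 3 -
          Q * (Q ^ (1 + 4) + Q ^ 2 + Q - 1) by ring]
        exact this
      have h4 : 4 * Q ^ 3 ≤ Q ^ 4 := by
        nlinarith [mul_nonneg (show (0 : ℤ) ≤ Q - 4 by omega) (pow_nonneg (show 0 ≤ Q by omega) 3)]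
      have h45 : 4 * Q ^ 4 ≤ Q ^ 5 := by
        nlinarith [mul_nonneg (show (0 : ℤ) ≤ Q - 4 by omega) (pow_nonneg (show 0 ≤ Q by omega) 4)]
      have h23 : 4 * Q ^ 2 ≤ Q ^ 3 := by nlinarith
      have h0 := Int.eq_zero_of_abs_lt_dvd h (by
        rw [abs_lt]; norm_num only; constructor <;> nlinarith)
      nlinarith
  · have h6 : (Q ^ 2) ^ 3 ≤ Q ^ (j + 4) := by
      rw [← pow_mul]; exact pow_le_pow_right₀ (by omega) (by omega)
    have hpos : 0 < (Q ^ 2 - 1) ^ 3 := pow_pos (by omega) 3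
    have hle := Int.le_of_dvd hpos hd
    have : (Q ^ 2 - 1) ^ 3 ≤ (Q ^ 2) ^ 3 := pow_le_pow_left₀ (by omega) (by omega) 3
    omega

/-- The candidate degree one below the bound does not divide the pair sum. -/
theorem not_dvd {Q : ℤ} (hQ : 4 ≤ Q) (j : ℕ) {N : ℤ}
    (hN : N * (Q ^ 2 - 1) = (Q ^ (j + 3) - 1) * (Q ^ (j + 4) + Q ^ 2 + Q - 1)) :
    ¬ N ∣ (Q ^ (j + 4) - 1) * (Q ^ (j + 3) + 1) * Q * ((Q ^ (j + 3) - 1) * (Q ^ (j + 2) + 1)) *
      (N - Q ^ (2 * j + 5)) := by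
  intro hd
  set P := (Q ^ (j + 4) - 1) * (Q ^ (j + 3) + 1) * Q *
    ((Q ^ (j + 3) - 1) * (Q ^ (j + 2) + 1)) with hP
  have h1 : N ∣ P * Q ^ (2 * j + 5) := by
    have := dvd_sub (dvd_mul_left N P) hd
    rwa [show P * N - P * (N - Q ^ (2 * j + 5)) = P * Q ^ (2 * j + 5) by ring] at this
  obtain ⟨c, hc⟩ := h1
  set M := Q ^ (j + 4) + Q ^ 2 + Q - 1 with hM
  have hA : (Q ^ (j + 3) - 1 : ℤ) ≠ 0 := by
    have : (1 : ℤ) < Q ^ (j + 3) := one_lt_pow₀ (by omega) (by omega)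
    omega
  have h2 : M ∣ (Q ^ (j + 4) - 1) * (Q ^ (j + 3) + 1) * Q * (Q ^ (j + 2) + 1) *
      Q ^ (2 * j + 5) * (Q ^ 2 - 1) := by
    refine ⟨c, mul_left_cancel₀ hA ?_⟩
    linear_combination (Q ^ 2 - 1) * hc + c * hN
  have h3 : M ∣ Q ^ (2 * j + 8) * (Q ^ 2 - 1) ^ 3 := by
    -- modulo `M` the power `Q ^ (j + 4)` is `1 - Q - Q ^ 2`
    have h4 : M ∣ (Q ^ (j + 4) - 1) * (Q ^ (j + 4) + Q) * (Q ^ (j + 4) + Q ^ 2) -
        (-Q * (Q ^ 2 - 1) ^ 2) := by
      refine ⟨(Q ^ (j + 4)) ^ 2 + Q ^ (j + 4) * (1 - Q - Q ^ 2) + (1 - Q - Q ^ 2) ^ 2 +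
        (Q ^ 2 + Q - 1) * (Q ^ (j + 4) + (1 - Q - Q ^ 2)) + (Q ^ 3 - Q ^ 2 - Q), ?_⟩
      rw [hM]; ring
    obtain ⟨b, hb⟩ := h4
    obtain ⟨e, he⟩ := h2
    exact ⟨b * (Q ^ (2 * j + 7) * (Q ^ 2 - 1)) - e * Q ^ 4, by
      linear_combination Q ^ (2 * j + 7) * (Q ^ 2 - 1) * hb - (Q ^ 2 * Q ^ 2) * he⟩
  have hcop : IsCoprime M (Q ^ (2 * j + 8)) := by
    refine IsCoprime.pow_right ⟨-1, Q ^ (j + 3) + Q + 1, ?_⟩
    rw [hM]; ring
  exact not_dvd_aux hQ j (hcop.dvd_of_dvd_mul_left h3)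

theorem exists_sq_ne_one (h3 : 3 < Fintype.card F) : ∃ l : Fˣ, (l : F) * l ≠ 1 := by
  classical
  obtain ⟨x, -, hx⟩ := Finset.exists_mem_notMem_of_card_lt_card
    (s := ({0, 1, -1} : Finset F)) (t := (Finset.univ : Finset F))
    (lt_of_le_of_lt Finset.card_le_three (by simpa using h3))
  simp only [Finset.mem_insert, Finset.mem_singleton, not_or] at hx
  refine ⟨Units.mk0 x hx.1, fun h => ?_⟩
  rcases mul_self_eq_one_iff.1 h with h1 | h1
  · exact hx.2.1 h1
  · exact hx.2.2 h1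

theorem base (h3 : 3 < Fintype.card F) (V : Type) [AddCommGroup V] [Module ℂ V]
    [FiniteDimensional ℂ V] (ρ : Representation ℂ (siegelGroup (qPlus 3 F)) V)
    (hρ : ∃ g, ρ g ≠ 1) : S F 0 ≤ finrank ℂ V := by
  classical
  obtain ⟨φ, hφ⟩ := KleinHom.exists_surjective_hom (F := F)
  obtain ⟨g, hg⟩ := hρ
  obtain ⟨g', rfl⟩ := hφ g
  have h := LinearDegree.bound (F := F) (n := 4) (by norm_num)
    (fun h => by rcases h with h | h | h | h <;> omega) (ρ.comp φ) ⟨g', hg⟩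
  have hgs : (LinearDegree.gs (Fintype.card F) 4 : ℤ) = q ^ 3 + q ^ 2 + q + 1 := by
    simp [LinearDegree.gs, Finset.sum_range_succ]; ring
  have h' : (LinearDegree.gs (Fintype.card F) 4 : ℤ) ≤ finrank ℂ V + 1 := by exact_mod_cast h
  simp only [S]
  omega

set_option maxHeartbeats 1000000 in
/-- The bound. -/
theorem bound (h3 : 3 < Fintype.card F) : ∀ (j : ℕ) (V : Type) [AddCommGroup V] [Module ℂ V]
    [FiniteDimensional ℂ V] (ρ : Representation ℂ (siegelGroup (qPlus (j + 3) F)) V),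
    (∃ g, ρ g ≠ 1) → S F j ≤ finrank ℂ V := by
  intro j
  induction j with
  | zero => exact fun V _ _ _ ρ hρ => base h3 V ρ hρ
  | succ j ih =>
    intro V _ _ _ ρ hρ
    classical
    let e₃ := siegelCongr (planeEquiv₃ (F := F) (j + 1)) (qPlus_planeEquiv₃ (j + 1))
    let e₂ := siegelCongr (planeEquiv₂ (F := F) (j + 1)) (qPlus_planeEquiv₂ (j + 1))
    obtain ⟨g, hg⟩ := hρ
    obtain ⟨g', rfl⟩ := e₃.surjective g
    haveI : Finite (orth (hypSum (QQ (qPlus (j + 1) F)))) := finite_orth _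
    obtain ⟨W, _, _, _, σ, hσ, hne, hle⟩ := LinearDegree.exists_irreducible_constituent
      (ρ.comp e₃.toMonoidHom) ⟨g', hg⟩
    obtain ⟨l, hl⟩ := exists_sq_ne_one h3
    have hq : (4 : ℤ) ≤ q := by exact_mod_cast h3
    have hcW : commutator (orth (hypSum (QQ (qPlus (j + 1) F)))) =
        siegelGroup (hypSum (QQ (qPlus (j + 1) F))) :=
      commutator_congr (planeEquiv₃ (j + 1)) (qPlus_planeEquiv₃ (j + 1))
        (commutator_qPlus (by omega))
    have hc₀ : commutator (orth (QQ (qPlus (j + 1) F))) = siegelGroup (QQ (qPlus (j + 1) F)) :=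
      commutator_congr (planeEquiv₂ (j + 1)) (qPlus_planeEquiv₂ (j + 1))
        (commutator_qPlus (by omega))
    have hZ : (Nat.card {v // QQ (qPlus (j + 1) F) v = 0} : ℤ) =
        q ^ (2 * j + 5) + q ^ (j + 3) - q ^ (j + 2) := by
      rw [card_zeros_congr (planeEquiv₂ (j + 1)) (qPlus_planeEquiv₂ (j + 1)), card_zeros (j + 2)]
      ring
    have hp₂ : 1 ≤ Nat.card {v // QQ (qPlus (j + 1) F) v = 0} := by
      haveI : Nonempty {v // QQ (qPlus (j + 1) F) v = 0} := ⟨⟨0, map_zero _⟩⟩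
      exact Nat.card_pos
    have hp₃ : 1 ≤ Nat.card {v // hypSum (QQ (qPlus (j + 1) F)) v = 0} := by
      haveI : Nonempty {v // hypSum (QQ (qPlus (j + 1) F)) v = 0} := ⟨⟨0, map_zero _⟩⟩
      exact Nat.card_pos
    have hle' : (finrank ℂ W : ℤ) ≤ finrank ℂ V := by exact_mod_cast hle
    have hSj := S_mul (F := F) j
    have hx : (16 : ℤ) ≤ q ^ (j + 2) := le_trans (by nlinarith : (16 : ℤ) ≤ q ^ 2)
      (pow_le_pow_right₀ (by omega) (by omega))
    have hqq : q * q ≤ q ^ (j + 2) := by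
      rw [← pow_two]; exact pow_le_pow_right₀ (by omega) (by omega)
    have hy : q ^ (j + 3) = q * q ^ (j + 2) := by rw [pow_succ']
    have key : q ^ 2 - 1 ≤ (q ^ (j + 3) - 1) * ((q ^ (j + 2) - 1) * (q ^ 2 - 1) -
        (q ^ (j + 2) + q)) := by
      have h1 : 1 ≤ (q ^ (j + 2) - 1) * (q ^ 2 - 1) - (q ^ (j + 2) + q) := by
        nlinarith [mul_le_mul_of_nonneg_left hqq (show (0 : ℤ) ≤ q by omega),
          mul_le_mul hq hx (by norm_num) (by omega)]
      calc q ^ 2 - 1 ≤ (q ^ (j + 3) - 1) * 1 := by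
            rw [mul_one, sub_le_sub_iff_right]; exact pow_le_pow_right₀ (by omega) (by omega)
        _ ≤ _ := mul_le_mul_of_nonneg_left h1 (by nlinarith)
    have hq1 : (0 : ℤ) < q ^ 2 - 1 := by nlinarith
    refine le_trans ?_ hle'
    rcases OrthStep.step σ (nondeg_qPlus (j + 1)) (by rw [finrank_qPlus]; omega) hcW hc₀ l hl hne
      with h | ⟨a, ha, h⟩ | ⟨⟨x, hx'⟩, hN, hdvd⟩
    · zify [hp₂] at h
      rw [hZ, show (q ^ (2 * j + 5) + q ^ (j + 3) - q ^ (j + 2) - 1 : ℤ) =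
        (q ^ (j + 3) - 1) * (q ^ (j + 2) + 1) by ring] at h
      simp only [S]
      refine le_trans ?_ h
      refine le_of_mul_le_mul_right ?_ hq1
      nlinarith [key, hSj, mul_nonneg (show (0 : ℤ) ≤ q ^ (j + 3) - 1 by nlinarith) hq1.le]
    · rw [card_values_congr (planeEquiv₂ (j + 1)) (qPlus_planeEquiv₂ (j + 1))] at h
      have h' : (2 : ℤ) * Nat.card {v : Fin (j + 3) ⊕ Fin (j + 3) → F // qPlus (j + 3) F v = a} ≤
          finrank ℂ W := by exact_mod_cast h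
      rw [card_level (j + 2) ha] at h'
      simp only [S]
      refine le_trans ?_ h'
      refine le_of_mul_le_mul_right ?_ hq1
      have e : q ^ (j + 2 + 1) = q ^ (j + 3) := by ring
      nlinarith [key, hSj, mul_nonneg (show (0 : ℤ) ≤ q ^ (j + 3) - 1 by nlinarith) hq1.le]
    · have hd : S F j ≤ finrank ℂ (eigc σ 0) := by
        refine ih _ ((sigma σ).comp e₂.symm.toMonoidHom) ⟨e₂ x, ?_⟩
        simpa using hx'
      zify [hp₂] at hN
      rw [hZ] at hN
      have e : (q ^ (2 * j + 5) + q ^ (j + 3) - q ^ (j + 2) - 1 : ℤ) =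
          (q ^ (j + 3) - 1) * (q ^ (j + 2) + 1) := by ring
      simp only [S]
      rcases lt_or_eq_of_le hd with hlt | heq
      · omega
      exfalso
      rw [← heq] at hdvd
      have hB : (Nat.card {v // hypSum (QQ (qPlus (j + 1) F)) v = 0} : ℤ) =
          q ^ (2 * (j + 3) + 1) + q ^ (j + 3 + 1) - q ^ (j + 3) := by
        rw [card_zeros_congr (planeEquiv₃ (j + 1)) (qPlus_planeEquiv₃ (j + 1))]
        exact card_zeros (j + 3)
      have hC : (Nat.card {v // hypSum (qPlus (j + 1) F) v = 0} : ℤ) =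
          q ^ (2 * (j + 1) + 1) + q ^ (j + 1 + 1) - q ^ (j + 1) := by
        rw [card_zeros_congr (planeEquiv (j + 1)) (qPlus_planeEquiv (j + 1))]
        exact card_zeros (j + 1)
      generalize Nat.card {v // hypSum (QQ (qPlus (j + 1) F)) v = 0} = B at hdvd hB hp₃
      generalize Nat.card {v // QQ (qPlus (j + 1) F) v = 0} = A at hdvd hZ hp₂ hN
      generalize Nat.card {v // hypSum (qPlus (j + 1) F) v = 0} = C at hdvd hC
      rw [Nat.cast_mul, Nat.cast_mul, Nat.cast_sub hp₃, Nat.cast_sub hp₂, Nat.cast_one, hZ, hB,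
        hC] at hdvd
      simp only [Fintype.card_prod, Fintype.card_fun, Fintype.card_sum, Fintype.card_fin] at hdvd
      push_cast at hdvd
      refine not_dvd hq j (N := (finrank ℂ W : ℤ)) ?_ ?_
      · rw [hN, ← heq]; linear_combination hSj
      · convert hdvd using 1
        rw [hN, ← heq]; ring

end CfsgLib.InvCentralizers.OrthPlusDegree
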