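import Cfsg.Agent.Lib.InvCentralizers.OrthSmall
import Cfsg.Agent.Lib.InvCentralizers.OrthPlusDegree
import Cfsg.Agent.Lib.ClassicalLinear.Generation

/-!
The spaces `H^k ⊥ N` for an anisotropic binary form `N`: their numbers of vectors of given value,
transitivity, and the action of the special linear group on a maximal totally singular subspace.
-/

set_option autoImplicit false
set_option linter.unusedSectionVars false
set_option linter.style.haveILetI false

namespace CfsgLib.InvCentralizers.OrthMinusTower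

open QuadraticMap Module CfsgLib.ClassicalForms
open CfsgLib.InvCentralizers.OrthParabolic
open CfsgLib.InvCentralizers.OrthSmall
open Matrix

universe u

/-- A finite quadratic space with a subspace. -/
structure QSpace (F : Type u) [Field F] where
  /-- The underlying space. -/
  W : Type u
  [grp : AddCommGroup W]
  [mod : Module F W]
  [fin : Fintype W]
  /-- The form. -/
  Q : QuadraticForm F W
  /-- The subspace. -/
  E : Submodule F W

attribute [instance] QSpace.grp QSpace.mod QSpace.fin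

variable {F : Type u} [Field F] [Fintype F]

open scoped Classical in
/-- `H^k ⊥ N` with its maximal totally singular subspace. -/
noncomputable def tower (a b : F) : ℕ → QSpace F
  | 0 => ⟨Fin 2 → F, binForm a b, ⊥⟩
  | k + 1 => ⟨(F × F) × (tower a b k).W, hypSum (tower a b k).Q, Ecat (tower a b k).E⟩

variable {a b : F}

section Binary

/-- Composition for the norm form. -/
def binMul (a b : F) (v : Fin 2 → F) : (Fin 2 → F) →ₗ[F] (Fin 2 → F) where
  toFun y := ![v 0 * y 0 - b * v 1 * y 1, v 0 * y 1 + v 1 * y 0 + a * v 1 * y 1]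
  map_add' x y := by
    funext i; fin_cases i <;> simp <;> ring
  map_smul' c y := by
    funext i; fin_cases i <;> simp <;> ring

theorem binForm_binMul (v y : Fin 2 → F) :
    binForm a b (binMul a b v y) = binForm a b v * binForm a b y := by
  simp only [binForm_apply, binMul, LinearMap.coe_mk, AddHom.coe_mk]
  simp
  ring

theorem binMul_injective (h : Aniso a b) {v : Fin 2 → F} (hv : binForm a b v ≠ 0) :
    Function.Injective (binMul a b v) := by
  rw [injective_iff_map_eq_zero]
  intro y hy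
  refine h.eq_zero ?_
  have h1 := binForm_binMul (a := a) (b := b) v y
  rw [hy, QuadraticMap.map_zero] at h1
  exact (mul_eq_zero.1 h1.symm).resolve_left hv

open scoped Classical in
/-- An anisotropic binary form takes every non-zero value `q + 1` times. -/
theorem card_binForm (h : Aniso a b) {c : F} (hc : c ≠ 0) :
    Nat.card {v : Fin 2 → F // binForm a b v = c} = Fintype.card F + 1 := by
  set L := fun c : F => Finset.univ.filter fun v : Fin 2 → F => binForm a b v = c with hL
  have hcard : ∀ c, Nat.card {v : Fin 2 → F // binForm a b v = c} = (L c).card := fun c => by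
    rw [Nat.card_eq_fintype_card, Fintype.card_subtype]
  have h1 : (L 1).card = Fintype.card F + 1 := by
    rw [← hcard, card_binForm_eq_one h, Nat.card_eq_fintype_card]
  have key : ∀ c, c ≠ 0 → (L c).Nonempty → (L c).card = Fintype.card F + 1 := by
    rintro c hc ⟨v, hv⟩
    simp only [L, Finset.mem_filter, Finset.mem_univ, true_and] at hv
    set v' : Fin 2 → F := ![(v 0 + a * v 1) / c, -(v 1) / c] with hv'
    have hQv' : binForm a b v' = c⁻¹ := by
      rw [binForm_apply] at hv ⊢
      simp [hv']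
      field_simp
      linear_combination hv
    rw [← h1]
    refine le_antisymm (Finset.card_le_card_of_injOn (binMul a b v') (fun y hy => ?_) ?_)
      (Finset.card_le_card_of_injOn (binMul a b v) (fun y hy => ?_) ?_)
    · simp only [L, Finset.mem_coe, Finset.mem_filter, Finset.mem_univ, true_and] at hy ⊢
      rw [binForm_binMul, hQv', hy, inv_mul_cancel₀ hc]
    · exact (binMul_injective h (by rw [hQv']; exact inv_ne_zero hc)).injOn
    · simp only [L, Finset.mem_coe, Finset.mem_filter, Finset.mem_univ, true_and] at hy ⊢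
      rw [binForm_binMul, hv, hy, mul_one]
    · exact (binMul_injective h (by rw [hv]; exact hc)).injOn
  set S := (Finset.univ.erase (0 : F)).filter fun c => (L c).Nonempty with hS
  have hsum : ((Finset.univ : Finset (Fin 2 → F)).erase 0).card =
      ∑ c ∈ S, (L c).card := by
    rw [Finset.card_eq_sum_card_fiberwise (f := fun v => binForm a b v) (t := S) fun v hv => ?_]
    · refine Finset.sum_congr rfl fun c hc => ?_
      congr 1
      ext v
      simp only [L, Finset.mem_filter, Finset.mem_erase, Finset.mem_univ, true_and, and_true]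
      refine ⟨fun h => h.2, fun h' => ⟨fun h0 => ?_, h'⟩⟩
      simp only [hS, Finset.mem_filter, Finset.mem_erase] at hc
      rw [h0, QuadraticMap.map_zero] at h'
      exact hc.1.1 h'.symm
    · simp only [Finset.mem_coe, Finset.mem_erase] at hv
      simp only [hS, Finset.mem_coe, Finset.mem_filter, Finset.mem_erase, Finset.mem_univ, and_true]
      exact ⟨fun h0 => hv.1 (h.eq_zero h0), ⟨v, by simp [L]⟩⟩
  rw [Finset.sum_congr rfl (fun c hc => key c
      (Finset.mem_erase.1 (Finset.mem_filter.1 hc).1).1 (Finset.mem_filter.1 hc).2),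
    Finset.sum_const, smul_eq_mul, Finset.card_erase_of_mem (Finset.mem_univ _), Finset.card_univ,
    Fintype.card_fun, Fintype.card_fin] at hsum
  have hq := Fintype.one_lt_card (α := F)
  have hScard : S.card = Fintype.card F - 1 := by
    refine Nat.eq_of_mul_eq_mul_right (m := Fintype.card F + 1) (by omega) ?_
    rw [← hsum, mul_comm, ← Nat.sq_sub_sq, one_pow]
  have hall : S = Finset.univ.erase (0 : F) :=
    Finset.eq_of_subset_of_card_le (Finset.filter_subset _ _) (by simp [hScard])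
  have hmem : c ∈ S := by rw [hall]; simp [hc]
  rw [hcard]
  exact key c hc (Finset.mem_filter.1 hmem).2

end Binary

theorem nondeg (h : Aniso a b) : ∀ k, Nondeg (tower a b k).Q
  | 0 => h.nondeg
  | k + 1 => (nondeg h k).hypSum

theorem finrank_eq (a b : F) : ∀ k, finrank F (tower a b k).W = 2 * k + 2
  | 0 => by
    change finrank F (Fin 2 → F) = _
    simp [Module.finrank_fintype_fun_eq_card]
  | k + 1 => by
    change finrank F ((F × F) × (tower a b k).W) = _
    rw [finrank_prod, finrank_prod, finrank_self, finrank_eq a b k]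
    ring

theorem card_eq (a b : F) : ∀ k, Nat.card (tower a b k).W = Fintype.card F ^ (2 * k + 2)
  | 0 => by simp [tower, Nat.card_eq_fintype_card]
  | k + 1 => by
    change Nat.card ((F × F) × (tower a b k).W) = _
    rw [Nat.card_prod, Nat.card_prod, card_eq a b k, Nat.card_eq_fintype_card]
    ring

local notation "q" => (Fintype.card F : ℤ)

/-- Number of zeros. -/
theorem card_zeros (h : Aniso a b) : ∀ k, (Nat.card {v // (tower a b k).Q v = 0} : ℤ) =
    (q ^ (k + 1) + 1) * (q ^ k - 1) + 1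
  | 0 => by
    have h1 : Nat.card {v : Fin 2 → F // binForm a b v = 0} = 1 := by
      rw [Nat.card_eq_one_iff_unique]
      exact ⟨⟨fun x y => Subtype.ext ((h.eq_zero x.2).trans (h.eq_zero y.2).symm)⟩,
        ⟨⟨0, QuadraticMap.map_zero _⟩⟩⟩
    change (Nat.card {v : Fin 2 → F // binForm a b v = 0} : ℤ) = _
    rw [h1]; simp
  | k + 1 => by
    change (Nat.card {v : (F × F) × (tower a b k).W // hypSum (tower a b k).Q v = 0} : ℤ) = _
    rw [card_zeros_hypSum, card_eq a b k, Nat.card_eq_fintype_card (α := F)]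
    push_cast [Nat.cast_sub (Fintype.card_pos (α := F))]
    rw [card_zeros h k]
    ring

/-- Number of vectors of a non-zero value. -/
theorem card_level (h : Aniso a b) {c : F} (hc : c ≠ 0) :
    ∀ k, (Nat.card {v // (tower a b k).Q v = c} : ℤ) = q ^ k * (q ^ (k + 1) + 1)
  | 0 => by
    change (Nat.card {v : Fin 2 → F // binForm a b v = c} : ℤ) = _
    rw [card_binForm h hc]; simp
  | k + 1 => by
    change (Nat.card {v : (F × F) × (tower a b k).W // hypSum (tower a b k).Q v = c} : ℤ) = _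
    rw [card_values_hypSum, card_eq a b k, Nat.card_eq_fintype_card (α := F)]
    push_cast [Nat.cast_sub (Fintype.card_pos (α := F))]
    rw [card_level h hc k]
    ring

theorem Ecat_dd {V₀ : Type*} [AddCommGroup V₀] [Module F V₀] {Q₀ : QuadraticForm F V₀}
    {E₀ : Submodule F V₀}
    (ih : ∀ c, (∀ x, (∀ e ∈ E₀, polar Q₀ e x = 0) → polar Q₀ x c = 0) → c ∈ E₀)
    (c : (F × F) × V₀)
    (hc : ∀ x, (∀ e ∈ Ecat E₀, polar (hypSum Q₀) e x = 0) → polar (hypSum Q₀) x c = 0) :
    c ∈ Ecat E₀ := by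
  refine mem_Ecat.2 ⟨?_, ih _ fun x hx => ?_⟩
  · have h1 := hc ((1, 0), 0) fun e he => polar_Ecat he fun e' _ => polar_zero_right _ _
    simpa [polar_hypSum] using h1
  · have h1 := hc ((0, 0), x) fun e he => polar_Ecat he hx
    simpa [polar_hypSum] using h1

theorem bot_sing (x : Fin 2 → F) (hx : x ∈ (⊥ : Submodule F (Fin 2 → F))) :
    binForm a b x = 0 := by
  rw [(Submodule.mem_bot F).1 hx]
  exact QuadraticMap.map_zero _

theorem bot_dd (h : Aniso a b) (c : Fin 2 → F)
    (hc : ∀ x, (∀ e ∈ (⊥ : Submodule F (Fin 2 → F)), polar (binForm a b) e x = 0) →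
      polar (binForm a b) x c = 0) : c ∈ (⊥ : Submodule F (Fin 2 → F)) := by
  refine (Submodule.mem_bot F).2 (h.nondeg c fun x => ?_)
  rw [polar_comm]
  exact hc x fun e he => by rw [(Submodule.mem_bot F).1 he]; exact polar_zero_left _ _

theorem bot_core (h : Aniso a b) : ∃ y y',
    (∀ e ∈ (⊥ : Submodule F (Fin 2 → F)), polar (binForm a b) e y = 0) ∧
      (∀ e ∈ (⊥ : Submodule F (Fin 2 → F)), polar (binForm a b) e y' = 0) ∧
      polar (binForm a b) y y' = 1 := by
  obtain ⟨y', hy'⟩ := h.nondeg.exists_polar_ne (u := (![1, 0] : Fin 2 → F)) (by simp)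
  refine ⟨(![1, 0] : Fin 2 → F), (polar (binForm a b) ![1, 0] y')⁻¹ • y', ?_, ?_, ?_⟩
  · intro e he; rw [(Submodule.mem_bot F).1 he]; exact polar_zero_left _ _
  · intro e he; rw [(Submodule.mem_bot F).1 he]; exact polar_zero_left _ _
  · rw [polar_smul_right, smul_eq_mul, inv_mul_cancel₀ hy']

theorem E_sing : ∀ k, ∀ x ∈ (tower a b k).E, (tower a b k).Q x = 0
  | 0 => bot_sing
  | k + 1 => Ecat_sing (E_sing k)

theorem E_dd (h : Aniso a b) : ∀ k, ∀ c : (tower a b k).W,
    (∀ x, (∀ e ∈ (tower a b k).E, polar (tower a b k).Q e x = 0) →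
      polar (tower a b k).Q x c = 0) → c ∈ (tower a b k).E
  | 0 => bot_dd h
  | k + 1 => Ecat_dd (E_dd h k)

theorem E_card : ∀ k, Nat.card (tower a b k).E = Fintype.card F ^ k
  | 0 => by
    change Nat.card (⊥ : Submodule F (Fin 2 → F)) = _
    simp
  | k + 1 => by
    let e : (tower a b (k + 1)).E ≃ F × (tower a b k).E :=
      { toFun := fun x => (x.1.1.1, ⟨x.1.2, (mem_Ecat.1 x.2).2⟩)
        invFun := fun y => ⟨((y.1, 0), y.2.1), mem_Ecat.2 ⟨rfl, y.2.2⟩⟩
        left_inv := fun x => Subtype.ext (Prod.ext (Prod.ext rfl (mem_Ecat.1 x.2).1.symm) rfl)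
        right_inv := fun y => rfl }
    rw [Nat.card_congr e, Nat.card_prod, E_card k, Nat.card_eq_fintype_card, pow_succ']

theorem exists_core (h : Aniso a b) : ∀ k, ∃ y y',
    (∀ e ∈ (tower a b k).E, polar (tower a b k).Q e y = 0) ∧
      (∀ e ∈ (tower a b k).E, polar (tower a b k).Q e y' = 0) ∧ polar (tower a b k).Q y y' = 1
  | 0 => bot_core h
  | k + 1 => by
    obtain ⟨y, y', hy, hy', hyy⟩ := exists_core h k
    refine ⟨((0, 0), y), ((0, 0), y'), fun e he => polar_Ecat he hy,
      fun e he => polar_Ecat he hy', ?_⟩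
    change polar (hypSum (tower a b k).Q) ((0, 0), y) ((0, 0), y') = 1
    simp [polar_hypSum, hyy]

theorem exists_pair_orth {V₂ : Type*} [AddCommGroup V₂] [Module F V₂] [FiniteDimensional F V₂]
    {Q₂ : QuadraticForm F V₂} (hQ : Nondeg Q₂) (hn : 2 ≤ finrank F V₂) (z : V₂)
    (hz : 3 ≤ finrank F V₂ ∨ z = 0) :
    ∃ y y', polar Q₂ z y = 0 ∧ polar Q₂ z y' = 0 ∧ polar Q₂ y y' = 1 := by
  suffices h : ∃ y y', polar Q₂ z y = 0 ∧ polar Q₂ z y' = 0 ∧ polar Q₂ y y' ≠ 0 by
    obtain ⟨y, y', h1, h2, h3⟩ := h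
    refine ⟨y, (polar Q₂ y y')⁻¹ • y', h1, by simp [polar_smul_right, h2], ?_⟩
    rw [polar_smul_right, smul_eq_mul, inv_mul_cancel₀ h3]
  by_cases hz0 : z = 0
  · subst hz0
    haveI : Nontrivial V₂ := Module.nontrivial_of_finrank_pos (R := F) (by omega)
    obtain ⟨y, hy⟩ := exists_ne (0 : V₂)
    obtain ⟨y', hy'⟩ := hQ.exists_polar_ne hy
    exact ⟨y, y', by simp, by simp, hy'⟩
  have hn3 : 3 ≤ finrank F V₂ := hz.resolve_right hz0
  by_contra hcon
  push Not at hcon
  obtain ⟨x₁, hx₁⟩ := hQ.exists_polar_ne hz0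
  set φ : V₂ →ₗ[F] F := (polarBilin Q₂) z with hφ
  have hker : LinearMap.ker φ ≤ F ∙ z := by
    intro y hy
    have hy' : polar Q₂ z y = 0 := hy
    rw [Submodule.mem_span_singleton]
    refine ⟨polar Q₂ y x₁ / polar Q₂ z x₁, (sub_eq_zero.1 (hQ _ fun x => ?_)).symm⟩
    have hk : polar Q₂ z (x - (polar Q₂ z x / polar Q₂ z x₁) • x₁) = 0 := by
      rw [polar_sub_right, polar_smul_right, smul_eq_mul, div_mul_cancel₀ _ hx₁, sub_self]
    have h2 := hcon y (x - (polar Q₂ z x / polar Q₂ z x₁) • x₁) hy' hk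
    rw [polar_sub_right, polar_smul_right, smul_eq_mul] at h2
    rw [polar_sub_left, polar_smul_left, smul_eq_mul]
    field_simp at h2 ⊢
    linear_combination h2
  have h1 := Submodule.finrank_mono hker
  rw [finrank_span_singleton hz0] at h1
  have h2 := φ.finrank_range_add_finrank_ker
  have h3 := Submodule.finrank_le (LinearMap.range φ)
  rw [finrank_self] at h3
  omega

/-- Transitivity on singular vectors in dimension four. -/
theorem trans_one (h : Aniso a b) {v : (F × F) × (Fin 2 → F)}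
    (hv : hypSum (binForm a b) v = 0) (hv0 : v ≠ 0) :
    ∃ g : siegelGroup (hypSum (binForm a b)),
      (g.1 : ((F × F) × (Fin 2 → F)) ≃ₗ[F] (F × F) × (Fin 2 → F)) v = ((1, 0), 0) := by
  have kill : ∀ (v : (F × F) × (Fin 2 → F)), hypSum (binForm a b) v = 0 → v.1.2 ≠ 0 →
      ∃ g : siegelGroup (hypSum (binForm a b)),
        (g.1 : ((F × F) × (Fin 2 → F)) ≃ₗ[F] (F × F) × (Fin 2 → F)) v = ((1, 0), 0) := by
    rintro ⟨⟨s, t⟩, z⟩ hv ht
    simp only at ht
    obtain ⟨w₂, hw₂⟩ : ∃ w₂, binForm a b w₂ = -t⁻¹ := by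
      have h1 := card_binForm h (c := -t⁻¹) (by simp [ht])
      haveI : Nonempty {v : Fin 2 → F // binForm a b v = -t⁻¹} :=
        (Nat.card_pos_iff.1 (by omega)).1
      exact ⟨_, (Classical.arbitrary {v : Fin 2 → F // binForm a b v = -t⁻¹}).2⟩
    set g₁ : siegelGroup (hypSum (binForm a b)) :=
      ⟨siegel _ ((1, 0), 0) ((0, 0), -(t⁻¹ • z)) (by simp) (by simp [polar_hypSum]),
        siegel_mem_siegelGroup _ _⟩ with hg₁
    set g₂ : siegelGroup (hypSum (binForm a b)) :=
      ⟨siegel _ ((1, 0), 0) ((0, 0), w₂) (by simp) (by simp [polar_hypSum]),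
        siegel_mem_siegelGroup _ _⟩ with hg₂
    set g₃ : siegelGroup (hypSum (binForm a b)) :=
      ⟨siegel _ ((0, 1), 0) ((0, 0), -(t • w₂)) (by simp) (by simp [polar_hypSum]),
        siegel_mem_siegelGroup _ _⟩ with hg₃
    have e1 : (g₁.1 : ((F × F) × (Fin 2 → F)) ≃ₗ[F] (F × F) × (Fin 2 → F)) ((s, t), z) =
        ((0, t), 0) := by
      set x := (g₁.1 : ((F × F) × (Fin 2 → F)) ≃ₗ[F] (F × F) × (Fin 2 → F)) ((s, t), z) with hx
      have hx2 : x.1.2 = t ∧ x.2 = 0 := by
        rw [hx, hg₁]; simp [siegel_apply, polar_hypSum, ht]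
      have hQx : hypSum (binForm a b) x = 0 := by rw [hx, orth_apply]; exact hv
      rw [hypSum_apply, hx2.1, hx2.2, QuadraticMap.map_zero, add_zero] at hQx
      exact Prod.ext (Prod.ext ((mul_eq_zero.1 hQx).resolve_right ht) hx2.1) hx2.2
    have e2 : (g₂.1 : ((F × F) × (Fin 2 → F)) ≃ₗ[F] (F × F) × (Fin 2 → F)) ((0, t), 0) =
        ((1, t), t • w₂) := by
      rw [hg₂]; simp [siegel_apply, polar_hypSum, hw₂, ht]
    have e3 : (g₃.1 : ((F × F) × (Fin 2 → F)) ≃ₗ[F] (F × F) × (Fin 2 → F)) ((1, t), t • w₂) =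
        ((1, 0), 0) := by
      set x := (g₃.1 : ((F × F) × (Fin 2 → F)) ≃ₗ[F] (F × F) × (Fin 2 → F)) ((1, t), t • w₂)
        with hx
      have hx2 : x.1.1 = 1 ∧ x.2 = 0 := by
        rw [hx, hg₃]; simp [siegel_apply, polar_hypSum]
      have hQx : hypSum (binForm a b) x = 0 := by
        rw [hx, orth_apply, ← e2, orth_apply, ← e1, orth_apply]; exact hv
      rw [hypSum_apply, hx2.1, hx2.2, QuadraticMap.map_zero, add_zero, one_mul] at hQx
      exact Prod.ext (Prod.ext hx2.1 hQx) hx2.2
    refine ⟨g₃ * g₂ * g₁, ?_⟩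
    simp only [Subgroup.coe_mul, LinearEquiv.mul_apply, e1, e2, e3]
  by_cases ht : v.1.2 = 0
  swap
  · exact kill v hv ht
  obtain ⟨⟨s, t⟩, z⟩ := v
  simp only at ht
  subst ht
  obtain rfl : z = 0 := h.eq_zero (by simpa using hv)
  have hs : s ≠ 0 := by rintro rfl; exact hv0 rfl
  let g : siegelGroup (hypSum (binForm a b)) :=
    ⟨siegel _ ((0, 1), 0) ((0, 0), ![1, 0]) (by simp) (by simp [polar_hypSum]),
      siegel_mem_siegelGroup _ _⟩
  have hg : ((g.1 : ((F × F) × (Fin 2 → F)) ≃ₗ[F] (F × F) × (Fin 2 → F)) ((s, 0), 0)).1.2 ≠ 0 := by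
    simp [g, siegel_apply, polar_hypSum, binForm_apply, hs]
  obtain ⟨g', hg'⟩ := kill _ (by rw [orth_apply]; exact hv) hg
  exact ⟨g' * g, by simp only [Subgroup.coe_mul, LinearEquiv.mul_apply, hg']⟩

/-- The Siegel group is transitive on singular vectors. -/
theorem transitive (h : Aniso a b) (k : ℕ) (c c' : (tower a b (k + 1)).W)
    (hc : (tower a b (k + 1)).Q c = 0) (hc0 : c ≠ 0) (hc' : (tower a b (k + 1)).Q c' = 0)
    (hc'0 : c' ≠ 0) :
    ∃ g : siegelGroup (tower a b (k + 1)).Q,
      (g.1 : (tower a b (k + 1)).W ≃ₗ[F] (tower a b (k + 1)).W) c = c' := by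
  cases k with
  | zero =>
    obtain ⟨g, hg⟩ := trans_one h hc hc0
    obtain ⟨g', hg'⟩ := trans_one h hc' hc'0
    refine ⟨g'⁻¹ * g, ?_⟩
    have : ((g'.1⁻¹ : orth (hypSum (binForm a b))) :
        ((F × F) × (Fin 2 → F)) ≃ₗ[F] (F × F) × (Fin 2 → F))
        ((g.1 : ((F × F) × (Fin 2 → F)) ≃ₗ[F] (F × F) × (Fin 2 → F)) c) = c' := by
      rw [hg, ← hg']
      exact orth_inv_apply _ _
    exact this
  | succ k =>
    obtain ⟨g, hg, e⟩ := (Sec.top (tower a b (k + 2)).Q).transitive_singular (nondeg h _)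
      (by rw [finrank_eq]; omega) (Sec.mem_top c) (Sec.mem_top c') hc hc' hc0 hc'0
    exact ⟨⟨g, hg.1⟩, e⟩

section Coordinates

/-- Coordinates. -/
noncomputable def tEquiv (a b : F) :
    ∀ n, (tower a b n).W ≃ₗ[F] ((Fin n ⊕ Fin n → F) × (Fin 2 → F))
  | 0 => zeroEquiv
  | n + 1 => ((LinearEquiv.refl F (F × F)).prodCongr (tEquiv a b n)).trans (succEquiv n)

theorem qH_tEquiv (a b : F) : ∀ (n : ℕ) (v : (tower a b n).W),
    qH n (binForm a b) (tEquiv a b n v) = (tower a b n).Q v
  | 0, v => qH_zeroEquiv _ _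
  | n + 1, v => by
    change qH (n + 1) (binForm a b) (succEquiv n (v.1, tEquiv a b n v.2)) =
      hypSum (tower a b n).Q v
    rw [qH_succEquiv]
    exact congrArg (v.1.1 * v.1.2 + ·) (qH_tEquiv a b n v.2)

theorem tEquiv_succ (n : ℕ) (s t : F) (y : (tower a b n).W) :
    tEquiv a b (n + 1) ((s, t), y) =
      (Sum.elim (Fin.cons s ((tEquiv a b n y).1 ∘ Sum.inl))
        (Fin.cons t ((tEquiv a b n y).1 ∘ Sum.inr)), (tEquiv a b n y).2) := rfl

theorem tEquiv_fst (n : ℕ) (s t : F) :
    tEquiv a b (n + 1) ((s, t), 0) = (Pi.single (.inl 0) s + Pi.single (.inr 0) t, 0) := by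
  rw [tEquiv_succ, map_zero]
  refine Prod.ext (funext fun i => ?_) rfl
  rcases i with i | i <;> refine Fin.cases ?_ (fun j => ?_) i <;> simp [Fin.succ_ne_zero]

theorem tEquiv_snd_inl {n : ℕ} {y : (tower a b n).W} {i : Fin n} {s : F}
    (hy : tEquiv a b n y = (Pi.single (.inl i) s, 0)) :
    tEquiv a b (n + 1) ((0, 0), y) = (Pi.single (.inl i.succ) s, 0) := by
  rw [tEquiv_succ, hy]
  refine Prod.ext (funext fun l => ?_) rfl
  rcases l with l | l <;> refine Fin.cases ?_ (fun j => ?_) l <;>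
    simp [Pi.single_apply, Fin.succ_inj, (Fin.succ_ne_zero _).symm]

theorem tEquiv_snd_inr {n : ℕ} {y : (tower a b n).W} {i : Fin n} {s : F}
    (hy : tEquiv a b n y = (Pi.single (.inr i) s, 0)) :
    tEquiv a b (n + 1) ((0, 0), y) = (Pi.single (.inr i.succ) s, 0) := by
  rw [tEquiv_succ, hy]
  refine Prod.ext (funext fun l => ?_) rfl
  rcases l with l | l <;> refine Fin.cases ?_ (fun j => ?_) l <;>
    simp [Pi.single_apply, Fin.succ_inj, (Fin.succ_ne_zero _).symm]

theorem bot_iff (x : Fin 2 → F) : x ∈ (⊥ : Submodule F (Fin 2 → F)) ↔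
    (∀ i : Fin 0, (zeroEquiv (F := F) x).1 (.inr i) = 0) ∧ (zeroEquiv (F := F) x).2 = 0 := by
  rw [Submodule.mem_bot]
  exact ⟨fun h => ⟨fun i => i.elim0, h⟩, fun h => h.2⟩

theorem mem_E_iff : ∀ (n : ℕ) (x : (tower a b n).W), x ∈ (tower a b n).E ↔
    (∀ i, (tEquiv a b n x).1 (.inr i) = 0) ∧ (tEquiv a b n x).2 = 0
  | 0, x => bot_iff x
  | n + 1, x => by
    obtain ⟨⟨s, t⟩, y⟩ := x
    rw [tEquiv_succ, Fin.forall_fin_succ]
    refine (mem_Ecat (a := (((s, t), y) : (F × F) × (tower a b n).W))).trans ?_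
    simp only [mem_E_iff n y, Sum.elim_inr, Fin.cons_zero, Fin.cons_succ, Function.comp_apply,
      and_assoc]

end Coordinates

section Linear

variable {V₀ : Type*} [AddCommGroup V₀] [Module F V₀] {n : ℕ}

/-- A pair of contragredient maps on `H^n ⊥ V₀`. -/
def slLin (A : SpecialLinearGroup (Fin n) F) :
    ((Fin n ⊕ Fin n → F) × V₀) →ₗ[F] (Fin n ⊕ Fin n → F) × V₀ where
  toFun x := (Sum.elim ((A : Matrix (Fin n) (Fin n) F) *ᵥ (x.1 ∘ Sum.inl))
    ((x.1 ∘ Sum.inr) ᵥ* ((A⁻¹ : SpecialLinearGroup (Fin n) F) : Matrix (Fin n) (Fin n) F)), x.2)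
  map_add' x y := by
    refine Prod.ext (funext fun i => ?_) rfl
    rcases i with i | i
    · exact congrFun (mulVec_add _ (x.1 ∘ Sum.inl) (y.1 ∘ Sum.inl)) i
    · exact congrFun (add_vecMul _ (x.1 ∘ Sum.inr) (y.1 ∘ Sum.inr)) i
  map_smul' c x := by
    refine Prod.ext (funext fun i => ?_) rfl
    rcases i with i | i
    · exact congrFun (mulVec_smul _ c (x.1 ∘ Sum.inl)) i
    · exact congrFun (smul_vecMul c (x.1 ∘ Sum.inr) _) i

theorem slLin_mul (A B : SpecialLinearGroup (Fin n) F) (x : (Fin n ⊕ Fin n → F) × V₀) :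
    slLin (A * B) x = slLin A (slLin B x) := by
  refine Prod.ext (funext fun i => ?_) rfl
  rcases i with i | i
  · simp [slLin, mulVec_mulVec]
  · simp [slLin, vecMul_vecMul, _root_.mul_inv_rev]

theorem slLin_one (x : (Fin n ⊕ Fin n → F) × V₀) : slLin 1 x = x := by
  refine Prod.ext (funext fun i => ?_) rfl
  rcases i with i | i <;> simp [slLin]

/-- The special linear group inside the isometry group of `H^n ⊥ Q₀`. -/
def slOrth (Q₀ : QuadraticForm F V₀) : SpecialLinearGroup (Fin n) F →* orth (qH n Q₀) where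
  toFun A := ⟨LinearEquiv.ofLinearMap (slLin A) (slLin A⁻¹)
    (LinearMap.ext fun x => by simp [← slLin_mul, slLin_one])
    (LinearMap.ext fun x => by simp [← slLin_mul, slLin_one]), fun x => by
    have e : ∀ y : (Fin n ⊕ Fin n → F) × V₀,
        qH n Q₀ y = (y.1 ∘ Sum.inl) ⬝ᵥ (y.1 ∘ Sum.inr) + Q₀ y.2 := fun y => by
      rw [qH_apply, qPlus_apply]; rfl
    change qH n Q₀ (slLin A x) = qH n Q₀ x
    simp only [e]
    congr 1
    simp only [slLin, LinearMap.coe_mk, AddHom.coe_mk, Sum.elim_comp_inl, Sum.elim_comp_inr]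
    rw [dotProduct_comm, ← dotProduct_mulVec, mulVec_mulVec,
      show ((A⁻¹ : SpecialLinearGroup (Fin n) F) : Matrix (Fin n) (Fin n) F) *
        (A : Matrix (Fin n) (Fin n) F) = 1 from congrArg Subtype.val (inv_mul_cancel A),
      one_mulVec, dotProduct_comm]⟩
  map_one' := orth_ext fun x => slLin_one x
  map_mul' A B := orth_ext fun x => slLin_mul A B x

theorem polar_qH (Q₀ : QuadraticForm F V₀) (x y : (Fin n ⊕ Fin n → F) × V₀) :
    polar (qH n Q₀) x y = (∑ i, x.1 (.inl i) * y.1 (.inr i)) +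
      (∑ i, y.1 (.inl i) * x.1 (.inr i)) + polar Q₀ x.2 y.2 := by
  simp only [polar, qH_apply, qPlus_apply, Cfsg.quadFormPlus, Prod.fst_add, Prod.snd_add,
    Pi.add_apply, add_mul, mul_add, Finset.sum_add_distrib]
  ring

theorem slOrth_transvection (Q₀ : QuadraticForm F V₀) {i j : Fin n} (hij : i ≠ j) (c : F) :
    slOrth Q₀ (SpecialLinearGroup.transvection hij c) =
      siegel (qH n Q₀) (Pi.single (.inl i) 1, 0) (Pi.single (.inr j) (-c), 0)
        (by simp [qH_apply, qPlus_apply, Cfsg.quadFormPlus])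
        (by simp [polar_qH, Pi.single_apply, hij, hij.symm]) := by
  refine orth_ext fun x => ?_
  have hinv : (SpecialLinearGroup.transvection hij c)⁻¹ =
      SpecialLinearGroup.transvection hij (-c) := by
    refine inv_eq_of_mul_eq_one_right ?_
    apply Subtype.ext
    change Matrix.transvection i j c * Matrix.transvection i j (-c) = 1
    rw [Matrix.transvection_mul_transvection_same i j hij, add_neg_cancel,
      Matrix.transvection_zero]
  change slLin (SpecialLinearGroup.transvection hij c) x = _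
  rw [siegel_apply]
  have hval : ∀ c, ((SpecialLinearGroup.transvection hij c : SpecialLinearGroup (Fin n) F) :
      Matrix (Fin n) (Fin n) F) = 1 + Matrix.single i j c := fun c => rfl
  simp only [slLin, LinearMap.coe_mk, AddHom.coe_mk, hinv, hval]
  simp [polar_qH, qH_apply, qPlus_apply, Cfsg.quadFormPlus, Pi.single_apply]
  refine Prod.ext (funext fun l => ?_) (by simp)
  rcases l with l | l <;>
    simp [mulVec, vecMul, dotProduct, Matrix.transvection, Matrix.single_apply, Matrix.one_apply,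
      mul_add, add_mul, Finset.sum_add_distrib, Pi.single_apply] <;>
    split_ifs <;> first | ring1 | (simp_all [ite_and] <;> first | ring1 | (intro hh; subst hh; simp_all))

theorem slOrth_mem (Q₀ : QuadraticForm F V₀) (A : SpecialLinearGroup (Fin n) F) :
    slOrth Q₀ A ∈ siegelGroup (qH n Q₀) := by
  refine CfsgLib.ClassicalLinear.transvection_induction
    (P := fun A => slOrth Q₀ A ∈ siegelGroup (qH n Q₀)) ?_ ?_ ?_ A
  · rw [map_one]; exact one_mem _
  · intro i j h c
    rw [slOrth_transvection]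
    exact siegel_mem_siegelGroup _ _
  · intro A B hA hB; rw [map_mul]; exact mul_mem hA hB

theorem qH_tEquiv_symm (a b : F) (n : ℕ) (v : (Fin n ⊕ Fin n → F) × (Fin 2 → F)) :
    (tower a b n).Q ((tEquiv a b n).symm v) = qH n (binForm a b) v := by
  rw [← qH_tEquiv, LinearEquiv.apply_symm_apply]

/-- The special linear group inside the Siegel group of the tower. -/
noncomputable def slTower (a b : F) (n : ℕ) :
    SpecialLinearGroup (Fin n) F →* siegelGroup (tower a b n).Q :=
  (OrthPlusDegree.siegelCongr (tEquiv a b n).symm (qH_tEquiv_symm a b n)).toMonoidHom.comp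
    ((slOrth (binForm a b)).codRestrict _ (slOrth_mem _))

theorem slTower_apply (n : ℕ) (A : SpecialLinearGroup (Fin n) F) (x : (tower a b n).W) :
    ((slTower a b n A).1 : (tower a b n).W ≃ₗ[F] (tower a b n).W) x =
      (tEquiv a b n).symm (slLin A (tEquiv a b n x)) := rfl

theorem slTower_E {n : ℕ} (A : SpecialLinearGroup (Fin n) F) {x : (tower a b n).W}
    (hx : x ∈ (tower a b n).E) :
    ((slTower a b n A).1 : (tower a b n).W ≃ₗ[F] (tower a b n).W) x ∈ (tower a b n).E := by
  rw [mem_E_iff] at hx ⊢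
  rw [slTower_apply, LinearEquiv.apply_symm_apply]
  refine ⟨fun i => ?_, hx.2⟩
  have h0 : (tEquiv a b n x).1 ∘ Sum.inr = 0 := funext hx.1
  simp [slLin, h0]

/-- The images of transvections. -/
theorem slTower_transvection {n : ℕ} {i j : Fin n} (hij : i ≠ j) (c : F)
    {u w : (tower a b n).W} (hu : tEquiv a b n u = (Pi.single (.inl i) 1, 0))
    (hw : tEquiv a b n w = (Pi.single (.inr j) (-c), 0)) (h₁ : (tower a b n).Q u = 0)
    (h₂ : polar (tower a b n).Q u w = 0) :
    slTower a b n (SpecialLinearGroup.transvection hij c) =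
      ⟨siegel (tower a b n).Q u w h₁ h₂, siegel_mem_siegelGroup _ _⟩ := by
  apply Subtype.ext
  change orthCongr (tEquiv a b n).symm (qH_tEquiv_symm a b n)
    (slOrth (binForm a b) (SpecialLinearGroup.transvection hij c)) = _
  rw [slOrth_transvection, orthCongr_siegel]
  exact siegel_eq (hu' := h₁) (hw' := h₂) ((LinearEquiv.symm_apply_eq _).2 hu.symm)
    ((LinearEquiv.symm_apply_eq _).2 hw.symm)

end Linear

end CfsgLib.InvCentralizers.OrthMinusTower
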