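import Cfsg.Agent.Lib.InvCentralizers.OrthMinusSmall
import Cfsg.Agent.Lib.ClassicalForms.Ortho.Generation

/-!
The exceptional candidate degree for `Ω⁻₁₀(2)`: the value of the character at a rotation of order
three of an elliptic plane and the integrality along its class.
-/

set_option autoImplicit false
set_option linter.unusedSectionVars false
set_option linter.style.haveILetI false

namespace CfsgLib.InvCentralizers.OrthMinusTwo

open QuadraticMap Module CfsgLib.ClassicalForms
open CfsgLib.InvCentralizers.OrthParabolic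
open CfsgLib.InvCentralizers.OrthSmall
open CfsgLib.InvCentralizers.OrthMinusTower
open CfsgLib.InvCentralizers.OrthMinusSmall
open CfsgLib.InvCentralizers.SympBound (psi exists_psi_ne)
open CfsgLib.InvCentralizers.AbelianEigen

universe u

variable {F : Type u} [Field F] [Fintype F]

theorem eq_one_of_ne_zero (hq : Fintype.card F = 2) {x : F} (hx : x ≠ 0) : x = 1 := by
  have h := FiniteField.pow_card_sub_one_eq_one x hx
  rw [hq] at h
  simpa using h

theorem two_eq_zero (hq : Fintype.card F = 2) : (2 : F) = 0 := by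
  by_contra h
  have h1 := eq_one_of_ne_zero hq h
  exact one_ne_zero (show (1 : F) = 0 by linear_combination h1)

/-- Two reflections in orthogonal vectors of value one. -/
theorem refl_mul_mem (hq : Fintype.card F = 2) {V₀ : Type*} [AddCommGroup V₀] [Module F V₀]
    {Q : QuadraticForm F V₀} {x y : V₀} (hx : Q x = 1) (hy : Q y = 1) (hxy : polar Q x y = 0)
    (hx' : Q x ≠ 0) (hy' : Q y ≠ 0) : refl Q x hx' * refl Q y hy' ∈ siegelGroup Q := by
  have h2 := two_eq_zero hq
  have hu : Q (x + y) = 0 := by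
    rw [QuadraticMap.map_add ⇑Q, hx, hy, hxy]; linear_combination h2
  have hw : polar Q (x + y) x = 0 := by
    rw [polar_add_left, polar_self_mul, hx, polar_comm, hxy]; linear_combination h2
  obtain ⟨hz, e⟩ := siegel_eq_refl_mul_refl hu hw hx'
  have e2 : x + Q x • (x + y) = y := by
    rw [hx, one_smul, ← add_assoc, ← two_smul F x, h2, zero_smul, zero_add]
  rw [refl_congr (b := x + Q x • (x + y)) e2.symm hy', ← e]
  exact siegel_mem_siegelGroup hu hw

variable (a b : F)

/-- The core projection. -/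
noncomputable def cp (n : ℕ) (x : (tower a b n).W) : Fin 2 → F := (tEquiv a b n x).2

/-- The core embedding. -/
noncomputable def core (n : ℕ) (z : Fin 2 → F) : (tower a b n).W :=
  (tEquiv a b n).symm (0, z)

variable {a b}

theorem core_Q (n : ℕ) (z : Fin 2 → F) : (tower a b n).Q (core a b n z) = binForm a b z := by
  rw [core, qH_tEquiv_symm, qH_apply, QuadraticMap.map_zero, zero_add]

theorem core_succ (n : ℕ) (z : Fin 2 → F) :
    core a b (n + 1) z = (((0, 0), core a b n z) : (F × F) × (tower a b n).W) := by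
  apply (tEquiv a b (n + 1)).injective
  rw [core, LinearEquiv.apply_symm_apply, tEquiv_succ, core, LinearEquiv.apply_symm_apply]
  refine Prod.ext (funext fun i => ?_) rfl
  rcases i with i | i <;> refine Fin.cases ?_ (fun j => ?_) i <;> simp

theorem polar_core (n : ℕ) (x : (tower a b n).W) (z : Fin 2 → F) :
    polar (tower a b n).Q x (core a b n z) = polar (binForm a b) (cp a b n x) z := by
  rw [core, cp, ← polar_congr (tEquiv a b n) (qH_tEquiv a b n), LinearEquiv.apply_symm_apply,
    polar_qH]
  simp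

theorem polar_core_core (n : ℕ) (z z' : Fin 2 → F) :
    polar (tower a b n).Q (core a b n z) (core a b n z') = polar (binForm a b) z z' := by
  rw [polar_core, cp, core, LinearEquiv.apply_symm_apply]

section Rotation

variable (hq : Fintype.card F = 2) (h : Aniso a b)

include hq h in
theorem coeffs : a = 1 ∧ b = 1 := by
  have hb : b ≠ 0 := fun e => one_ne_zero (h 0 1 (by simp [e])).2
  have hb1 := eq_one_of_ne_zero hq hb
  refine ⟨eq_one_of_ne_zero hq fun ha => ?_, hb1⟩
  exact one_ne_zero (h 1 1 (by rw [ha, hb1]; linear_combination two_eq_zero hq)).1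

/-- The first vector of the elliptic plane. -/
def za (F : Type u) [Field F] : Fin 2 → F := ![1, 0]

/-- The second vector of the elliptic plane. -/
def zb (F : Type u) [Field F] : Fin 2 → F := ![0, 1]

include hq h in
theorem za_val : binForm a b (za F) = 1 := by
  simp [za, binForm_apply]

include hq h in
theorem zb_val : binForm a b (zb F) = 1 := by
  simp [zb, binForm_apply, (coeffs hq h).2]

include hq h in
theorem za_zb : polar (binForm a b) (za F) (zb F) = 1 := by
  simp [za, zb, polar_binForm, (coeffs hq h).1]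

include hq h in
theorem core_za (n : ℕ) : (tower a b n).Q (core a b n (za F)) = 1 := by
  rw [core_Q, za_val hq h]

include hq h in
theorem core_zb (n : ℕ) : (tower a b n).Q (core a b n (zb F)) = 1 := by
  rw [core_Q, zb_val hq h]

include hq h in
theorem za_ne (n : ℕ) : (tower a b n).Q (core a b n (za F)) ≠ 0 := by
  rw [core_za hq h]; exact one_ne_zero

include hq h in
theorem zb_ne (n : ℕ) : (tower a b n).Q (core a b n (zb F)) ≠ 0 := by
  rw [core_zb hq h]; exact one_ne_zero

/-- The rotation in the isometry group. -/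
noncomputable def rot (n : ℕ) : orth (tower a b n).Q :=
  refl (tower a b n).Q (core a b n (za F)) (za_ne hq h n) *
    refl (tower a b n).Q (core a b n (zb F)) (zb_ne hq h n)

theorem rot_succ (n : ℕ) : rot hq h (n + 1) = hypExt (tower a b n).Q (rot hq h n) := by
  rw [rot, rot, map_mul, hypExt_refl, hypExt_refl]
  congr 1 <;> exact refl_congr (core_succ n _) _

theorem rot_mem : ∀ n, rot hq h (n + 1) ∈ siegelGroup (tower a b (n + 1)).Q
  | 0 => by
    have hp : (tower a b 1).Q ((((1 : F), (1 : F)), (0 : (tower a b 0).W)) : (F × F) × (tower a b 0).W) = 1 := by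
      change hypSum (tower a b 0).Q _ = 1
      simp
    have hpn : (tower a b 1).Q ((((1 : F), (1 : F)), (0 : (tower a b 0).W)) : (F × F) × (tower a b 0).W) ≠ 0 := by
      rw [hp]; exact one_ne_zero
    have orth0 : ∀ z, polar (tower a b 1).Q
        ((((1 : F), (1 : F)), (0 : (tower a b 0).W)) : (F × F) × (tower a b 0).W)
        (core a b 1 z) = 0 := by
      intro z
      rw [core_succ 0 z]
      exact (polar_hypSum (Q := (tower a b 0).Q) _ _).trans (by simp)
    have e : rot hq h 1 = (refl _ _ (za_ne hq h 1) * refl (tower a b 1).Q _ hpn) *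
        (refl _ _ hpn * refl _ _ (zb_ne hq h 1)) := by
      rw [rot, mul_assoc, ← mul_assoc (refl (tower a b 1).Q _ hpn),
        show refl (tower a b 1).Q _ hpn * refl (tower a b 1).Q _ hpn = 1 from refl_mul_self _ hpn,
        one_mul]
    rw [e]
    refine mul_mem (refl_mul_mem hq (core_za hq h 1) hp ?_ _ _)
      (refl_mul_mem hq hp (core_zb hq h 1) (orth0 _) _ _)
    exact (polar_comm _ _ _).trans (orth0 _)
  | n + 1 => by
    rw [rot_succ]
    exact OrthParabolic.hypExt_mem (rot_mem n)

/-- The rotation in the Siegel group. -/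
noncomputable def gg (n : ℕ) : siegelGroup (tower a b (n + 1)).Q := ⟨_, rot_mem hq h n⟩

theorem gg_succ (n : ℕ) : gg hq h (n + 1) = levi (tower a b (n + 1)).Q (gg hq h n) :=
  Subtype.ext (rot_succ hq h (n + 1))

theorem rot_coord (n : ℕ) (x : (tower a b n).W) :
    tEquiv a b n ((rot hq h n : (tower a b n).W ≃ₗ[F] (tower a b n).W) x) =
      ((tEquiv a b n x).1, ![cp a b n x 1, cp a b n x 0 + cp a b n x 1]) := by
  obtain ⟨ha, hb⟩ := coeffs hq h
  have h2 := two_eq_zero hq
  simp only [rot, Subgroup.coe_mul, LinearEquiv.mul_apply, refl_apply, polar_sub_left,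
    polar_smul_left, smul_eq_mul, polar_core, polar_core_core, core_za hq h, core_zb hq h,
    inv_one, one_mul, map_sub, map_smul]
  simp only [cp, core, LinearEquiv.apply_symm_apply]
  rw [polar_comm _ (zb F) (za F), za_zb hq h]
  refine Prod.ext ?_ ?_
  · simp
  · funext i
    fin_cases i <;> simp [za, zb, polar_binForm, ha, hb, Matrix.vecHead, Matrix.vecTail]
    · ring
    · linear_combination (-((tEquiv a b n x).2 0) - (tEquiv a b n x).2 1) * h2

theorem rot_fix_iff (n : ℕ) (x : (tower a b n).W) :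
    (rot hq h n : (tower a b n).W ≃ₗ[F] (tower a b n).W) x = x ↔ cp a b n x = 0 := by
  rw [← (tEquiv a b n).injective.eq_iff, rot_coord]
  constructor
  · intro e
    have e1 := congrArg Prod.snd e
    have e10 := congrFun e1 0
    have e11 := congrFun e1 1
    simp [cp] at e10 e11
    funext i
    fin_cases i <;> simp [cp]
    · exact e11
    · linear_combination e10 + e11
  · intro e
    refine Prod.ext rfl ?_
    change _ = cp a b n x
    rw [e]
    funext i
    fin_cases i <;> simp

theorem rot_cube (n : ℕ) : rot hq h n * rot hq h n * rot hq h n = 1 := by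
  refine orth_ext fun x => (tEquiv a b n).injective ?_
  simp only [Subgroup.coe_mul, LinearEquiv.mul_apply, orth_one_apply, rot_coord, cp]
  refine Prod.ext rfl ?_
  have h2 := two_eq_zero hq
  funext i
  fin_cases i <;> simp
  · linear_combination (tEquiv a b n x).2 1 * h2
  · linear_combination (tEquiv a b n x).2 0 * h2 + (tEquiv a b n x).2 1 * h2

theorem gg_cube (n : ℕ) : gg hq h n * gg hq h n * gg hq h n = 1 :=
  Subtype.ext (rot_cube hq h (n + 1))

/-- A reflection in an orthogonal vector times one in the plane inverts the rotation. -/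
theorem rot_inverted (n : ℕ) {w : (tower a b n).W} (hw : (tower a b n).Q w ≠ 0)
    (hw0 : cp a b n w = 0) :
    rot hq h n * (refl _ _ (za_ne hq h n) * refl _ w hw) * rot hq h n =
      refl _ _ (za_ne hq h n) * refl _ w hw := by
  have hpa : polar (tower a b n).Q w (core a b n (za F)) = 0 := by
    rw [polar_core, hw0]; exact polar_zero_left _ _
  have hpb : polar (tower a b n).Q w (core a b n (zb F)) = 0 := by
    rw [polar_core, hw0]; exact polar_zero_left _ _
  have ca := refl_comm hw (za_ne hq h n) hpa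
  have cb := refl_comm hw (zb_ne hq h n) hpb
  rw [rot]
  set A := refl (tower a b n).Q (core a b n (za F)) (za_ne hq h n) with hA
  set B := refl (tower a b n).Q (core a b n (zb F)) (zb_ne hq h n) with hB
  set R := refl (tower a b n).Q w hw with hR
  have hAA : A * A = 1 := refl_mul_self _ _
  have hBB : B * B = 1 := refl_mul_self _ _
  calc A * B * (A * R) * (A * B) = A * B * A * (R * A) * B := by simp only [mul_assoc]
    _ = A * B * (A * A) * (R * B) := by rw [ca]; simp only [mul_assoc]
    _ = A * (B * B) * R := by rw [hAA, mul_one, cb]; simp only [mul_assoc]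
    _ = A * R := by rw [hBB, mul_one]

theorem rot_fix_line {n : ℕ} {V : Type*} [AddCommGroup V] [Module ℂ V]
    (σ : Representation ℂ (siegelGroup (tower a b (n + 1)).Q) V) (t : siegelGroup (tower a b (n + 1)).Q)
    (ht : gg hq h n * t * gg hq h n = t) {v : V} {μ ν : ℂ}
    (hg : σ (gg hq h n) v = μ • v) (htv : σ t v = ν • v) : σ (gg hq h n) v = v := by
  by_cases hv : v = 0
  · subst hv; simp
  have hν : ν ≠ 0 := by
    intro h0
    rw [h0, zero_smul] at htv
    apply hv
    have h1 := congrArg (σ t⁻¹) htv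
    rwa [← Module.End.mul_apply, ← map_mul, inv_mul_cancel, map_one, Module.End.one_apply,
      map_zero] at h1
  have e1 : σ (gg hq h n * t * gg hq h n) v = (μ * ν * μ) • v := by
    rw [map_mul, map_mul, Module.End.mul_apply, Module.End.mul_apply, hg, map_smul, htv, map_smul,
      map_smul, hg, smul_smul, smul_smul, mul_assoc]
  rw [ht, htv] at e1
  have hμ2 : μ * μ = 1 := by
    refine mul_right_cancel₀ hν ?_
    rw [one_mul]
    have e1' : ν = μ * ν * μ := smul_left_injective ℂ hv e1
    linear_combination -e1'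
  have e2 : σ (gg hq h n * gg hq h n * gg hq h n) v = (μ * μ * μ) • v := by
    rw [map_mul, map_mul, Module.End.mul_apply, Module.End.mul_apply, hg, map_smul, hg, map_smul,
      map_smul, hg, smul_smul, smul_smul, mul_assoc]
  rw [gg_cube, map_one, Module.End.one_apply, hμ2, one_mul] at e2
  rw [hg, ← e2]

end Rotation

section Fixed

variable (hq : Fintype.card F = 2) (h : Aniso a b)

open scoped Classical in
/-- Number of non-zero singular vectors fixed by the rotation. -/
theorem card_fixed (i : ℕ) :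
    ((Finset.univ.filter fun c : (tower a b (i + 1)).W =>
      ((tower a b (i + 1)).Q c = 0 ∧ c ≠ 0) ∧
        (rot hq h (i + 1) : (tower a b (i + 1)).W ≃ₗ[F] (tower a b (i + 1)).W) c = c).card : ℤ) + 1
      = 2 ^ (2 * i + 1) + 2 ^ (i + 1) - 2 ^ i := by
  have h1 : (Finset.univ.filter fun c : (tower a b (i + 1)).W =>
      (tower a b (i + 1)).Q c = 0 ∧ cp a b (i + 1) c = 0).card =
      Nat.card {v : Fin (i + 1) ⊕ Fin (i + 1) → F // qPlus (i + 1) F v = 0} := by
    rw [Nat.card_eq_fintype_card, Fintype.card_subtype]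
    refine Finset.card_bij' (fun c _ => (tEquiv a b (i + 1) c).1)
      (fun u _ => (tEquiv a b (i + 1)).symm (u, 0)) ?_ ?_ ?_ ?_
    · intro c hc
      obtain ⟨hQ, hc0⟩ := (Finset.mem_filter.1 hc).2
      refine Finset.mem_filter.2 ⟨Finset.mem_univ _, ?_⟩
      rw [← qH_tEquiv, qH_apply, show (tEquiv a b (i + 1) c).2 = 0 from hc0,
        QuadraticMap.map_zero, add_zero] at hQ
      exact hQ
    · intro u hu
      refine Finset.mem_filter.2 ⟨Finset.mem_univ _, ?_, ?_⟩
      · rw [qH_tEquiv_symm, qH_apply, (Finset.mem_filter.1 hu).2, QuadraticMap.map_zero, add_zero]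
      · rw [cp, LinearEquiv.apply_symm_apply]
    · intro c hc
      rw [LinearEquiv.symm_apply_eq]
      exact Prod.ext rfl (Finset.mem_filter.1 hc).2.2.symm
    · intro u _
      simp
  have h2 : (Finset.univ.filter fun c : (tower a b (i + 1)).W =>
      ((tower a b (i + 1)).Q c = 0 ∧ c ≠ 0) ∧
        (rot hq h (i + 1) : (tower a b (i + 1)).W ≃ₗ[F] (tower a b (i + 1)).W) c = c) =
      (Finset.univ.filter fun c : (tower a b (i + 1)).W =>
      (tower a b (i + 1)).Q c = 0 ∧ cp a b (i + 1) c = 0).erase 0 := by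
    ext c
    simp only [Finset.mem_filter, Finset.mem_univ, true_and, Finset.mem_erase, rot_fix_iff]
    tauto
  have h3 := OrthPlusDegree.card_zeros (F := F) i
  rw [hq] at h3
  rw [h2, ← Nat.cast_add_one, Finset.card_erase_add_one (Finset.mem_filter.2
    ⟨Finset.mem_univ _, QuadraticMap.map_zero _, by simp [cp]⟩), h1, h3]
  norm_num

open scoped Classical in
/-- The value at the rotation, one step. -/
theorem trace_step (i : ℕ) {V : Type} [AddCommGroup V] [Module ℂ V] [FiniteDimensional ℂ V]
    (ρ : Representation ℂ (siegelGroup (hypSum (tower a b (i + 1)).Q)) V) (hs : Small ρ)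
    (hρ : ∃ g, ρ g ≠ 1)
    (hfix : ∀ c, c ≠ 0 → (tower a b (i + 1)).Q c = 0 →
      (rot hq h (i + 1) : (tower a b (i + 1)).W ≃ₗ[F] (tower a b (i + 1)).W) c = c →
      ∀ w ∈ eigc ρ c, ρ (levi (tower a b (i + 1)).Q (gg hq h i)) w = w) :
    ρ.character (levi (tower a b (i + 1)).Q (gg hq h i)) =
      (sigma ρ).character (gg hq h i) +
        (2 ^ (2 * i + 1) + 2 ^ (i + 1) - 2 ^ i - 1 : ℂ) := by
  have hm := mult_one h hs hρ
  have htr := trace_perm (setup ρ (nondeg h (i + 1))) (ρ (levi (tower a b (i + 1)).Q (gg hq h i)))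
    (fun c => (rot hq h (i + 1) : (tower a b (i + 1)).W ≃ₗ[F] (tower a b (i + 1)).W) c) (map_zero _)
    (fun c w hw => levi_mem ρ (gg hq h i) hw) (fun c hc hfx w hw => ?_)
  swap
  · by_cases hQ : (tower a b (i + 1)).Q c = 0
    · exact hfix c hc hQ hfx w hw
    · have h0 := hm c hc
      rw [if_neg hQ, Submodule.finrank_eq_zero] at h0
      have hw' : w ∈ eigc ρ c := hw
      rw [show eigc ρ c = ⊥ from h0, Submodule.mem_bot] at hw'
      rw [hw', map_zero]
  refine htr.trans (congrArg₂ (· + ·) rfl ?_)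
  have hcount := card_fixed hq h i
  rw [Finset.sum_congr rfl (g := fun c => if (tower a b (i + 1)).Q c = 0 then (1 : ℂ) else 0)
      (fun c hc => by
        change (finrank ℂ (eigc ρ c) : ℂ) = _
        rw [hm c (Finset.mem_filter.1 hc).2.1]
        split_ifs <;> simp),
    Finset.sum_boole, Finset.filter_filter]
  have e : (Finset.univ.filter fun c : (tower a b (i + 1)).W => (c ≠ 0 ∧
      (rot hq h (i + 1) : (tower a b (i + 1)).W ≃ₗ[F] (tower a b (i + 1)).W) c = c) ∧
        (tower a b (i + 1)).Q c = 0) = Finset.univ.filter fun c : (tower a b (i + 1)).W =>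
      ((tower a b (i + 1)).Q c = 0 ∧ c ≠ 0) ∧
        (rot hq h (i + 1) : (tower a b (i + 1)).W ≃ₗ[F] (tower a b (i + 1)).W) c = c := by
    ext c; simp only [Finset.mem_filter, Finset.mem_univ, true_and]; tauto
  rw [e, eq_sub_iff_add_eq]
  exact_mod_cast hcount

theorem exists_orth_one (hq : Fintype.card F = 2) {V₀ : Type*} [AddCommGroup V₀] [Module F V₀]
    [FiniteDimensional F V₀] {Q : QuadraticForm F V₀} (hQ : Nondeg Q) (hn : 3 ≤ finrank F V₀)
    (c : V₀) : ∃ x, Q x = 1 ∧ polar Q c x = 0 := by
  obtain ⟨y, y', hy, hy', hyy⟩ := exists_pair_orth hQ (by omega) c (Or.inl hn)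
  by_cases h1 : Q y = 0
  · by_cases h2 : Q y' = 0
    · exact ⟨y + y', by rw [QuadraticMap.map_add ⇑Q, h1, h2, hyy]; ring,
        by rw [polar_add_right, hy, hy', add_zero]⟩
    · exact ⟨y', eq_one_of_ne_zero hq h2, hy'⟩
  · exact ⟨y, eq_one_of_ne_zero hq h1, hy⟩

theorem scalar_high (i : ℕ) {V : Type} [AddCommGroup V] [Module ℂ V] [FiniteDimensional ℂ V]
    (ρ : Representation ℂ (siegelGroup (hypSum (tower a b (i + 2)).Q)) V)
    (c : (tower a b (i + 2)).W) (h1 : finrank ℂ (eigc ρ c) ≤ 1)
    (hc : (rot hq h (i + 2) : (tower a b (i + 2)).W ≃ₗ[F] (tower a b (i + 2)).W) c = c) :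
    ∀ w ∈ eigc ρ c, ρ (levi (tower a b (i + 2)).Q (gg hq h (i + 1))) w = w := by
  intro w hw
  rcases Nat.lt_or_ge (finrank ℂ (eigc ρ c)) 1 with h0 | h0
  · rw [Nat.lt_one_iff, Submodule.finrank_eq_zero] at h0
    rw [h0, Submodule.mem_bot] at hw
    rw [hw, map_zero]
  obtain ⟨w₀, -, hspan⟩ := finrank_eq_one_iff'.1 (le_antisymm h1 h0)
  have key : ∀ g : siegelGroup (tower a b (i + 2)).Q,
      (g.1 : (tower a b (i + 2)).W ≃ₗ[F] (tower a b (i + 2)).W) c = c →
      ∃ μ : ℂ, ρ (levi (tower a b (i + 2)).Q g) w = μ • w := by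
    intro g hg
    obtain ⟨β, hβ⟩ := hspan ⟨w, hw⟩
    have hm : ρ (levi (tower a b (i + 2)).Q g) w₀.1 ∈ eigc ρ c := by
      have := levi_mem ρ g w₀.2
      rwa [hg] at this
    obtain ⟨μ, hμ⟩ := hspan ⟨_, hm⟩
    refine ⟨μ, ?_⟩
    have hβ' : β • w₀.1 = w := congrArg Subtype.val hβ
    have hμ' : μ • w₀.1 = ρ (levi (tower a b (i + 2)).Q g) w₀.1 := congrArg Subtype.val hμ
    rw [← hβ', map_smul, ← hμ', smul_comm]
  have hc0 : cp a b (i + 2) c = 0 := (rot_fix_iff hq h _ c).1 hc
  obtain ⟨u, hu1, hu2⟩ := exists_orth_one hq (nondeg_qPlus (i + 2))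
    (by rw [finrank_qPlus]; omega) (tEquiv a b (i + 2) c).1
  set x := (tEquiv a b (i + 2)).symm (u, 0) with hx
  have hx1 : (tower a b (i + 2)).Q x = 1 := by
    rw [hx, qH_tEquiv_symm, qH_apply, hu1, QuadraticMap.map_zero, add_zero]
  have hxn : (tower a b (i + 2)).Q x ≠ 0 := by rw [hx1]; exact one_ne_zero
  have hxc : cp a b (i + 2) x = 0 := by rw [hx, cp, LinearEquiv.apply_symm_apply]
  have hcx : polar (tower a b (i + 2)).Q c x = 0 := by
    rw [← polar_congr (tEquiv a b (i + 2)) (qH_tEquiv a b (i + 2)), hx,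
      LinearEquiv.apply_symm_apply, show tEquiv a b (i + 2) c = ((tEquiv a b (i + 2) c).1, 0) from
        Prod.ext rfl hc0]
    have e : ∀ u u' : Fin (i + 2) ⊕ Fin (i + 2) → F,
        polar (qH (i + 2) (binForm a b)) (u, 0) (u', 0) = polar (qPlus (i + 2) F) u u' := by
      intro u u'; simp [polar, qH_apply]
    rw [e, hu2]
  have hmem : refl (tower a b (i + 2)).Q _ (za_ne hq h (i + 2)) * refl _ x hxn ∈
      siegelGroup (tower a b (i + 2)).Q := by
    refine refl_mul_mem hq (core_za hq h _) hx1 ?_ _ _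
    rw [polar_comm, polar_core, hxc]; exact polar_zero_left _ _
  set t : siegelGroup (tower a b (i + 2)).Q := ⟨_, hmem⟩ with ht
  have htc : (t.1 : (tower a b (i + 2)).W ≃ₗ[F] (tower a b (i + 2)).W) c = c := by
    rw [ht]
    simp only [Subgroup.coe_mul, LinearEquiv.mul_apply]
    rw [refl_fix hxn hcx, refl_fix]
    rw [polar_core, hc0]; exact polar_zero_left _ _
  obtain ⟨μ, hμ⟩ := key (gg hq h (i + 1)) hc
  obtain ⟨ν, hν⟩ := key t htc
  exact rot_fix_line hq h (ρ.comp (levi (tower a b (i + 2)).Q)) t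
    (Subtype.ext (rot_inverted hq h (i + 2) hxn hxc)) hμ hν

end Fixed

end CfsgLib.InvCentralizers.OrthMinusTwo
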