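import Cfsg.Agent.Lib.InvCentralizers.OrthMinusTwo
import Cfsg.Agent.Lib.InvCentralizers.OrthSmallFix

/-!
The exceptional candidate degree for `Ω⁻₁₀(2)`: the rotation fixes the innermost character line,
and the value of the character at the rotation.
-/

set_option autoImplicit false
set_option linter.unusedSectionVars false
set_option linter.style.haveILetI false

namespace CfsgLib.InvCentralizers.OrthMinusTwo

open QuadraticMap Module CfsgLib.ClassicalForms
open CfsgLib.InvCentralizers.OrthParabolic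
open CfsgLib.InvCentralizers.OrthSmall
open CfsgLib.InvCentralizers.OrthMinusTower
open CfsgLib.InvCentralizers.OrthMinusSmall
open CfsgLib.InvCentralizers.SympBound (psi exists_psi_ne)
open CfsgLib.InvCentralizers.AbelianEigen

universe u

variable {F : Type u} [Field F] [Fintype F]

section Generic

variable {V₀ : Type*} [AddCommGroup V₀] [Module F V₀] [Fintype V₀] {Q₀ : QuadraticForm F V₀}
  {V : Type*} [AddCommGroup V] [Module ℂ V] [FiniteDimensional ℂ V]
  (ρ : Representation ℂ (siegelGroup (hypSum Q₀)) V)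

theorem comp_eq_zero (hQ : Nondeg Q₀) {E₀ : Submodule F V₀}
    (hdd : ∀ c, (∀ x, (∀ e ∈ E₀, polar Q₀ e x = 0) → polar Q₀ x c = 0) → c ∈ E₀) {v : V}
    (hv : v ∈ Fixed ρ (Ecat E₀)) {c : V₀} (hc : c ∉ E₀) : eproj (PP Q₀) (UU ρ) c v = 0 := by
  have : ∃ x, (∀ e ∈ E₀, polar Q₀ e x = 0) ∧ polar Q₀ x c ≠ 0 := by
    by_contra h0
    push Not at h0
    exact hc (hdd c h0)
  obtain ⟨x, hx, hxc⟩ := this
  obtain ⟨t, ht⟩ := exists_psi_ne hxc
  refine eproj_eq_zero_of_psi ρ hQ (S := t • x) (μ := 1) ?_ ?_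
  · rw [one_smul]
    exact hv x₀ (mem_Ecat.2 ⟨rfl, zero_mem _⟩) ((0, 0), t • x) x₀_singular (polar_x₀ _)
      fun y hy => polar_Ecat hy fun e he => by rw [polar_smul_right, hx e he, smul_zero]
  · simpa [PP, polar_smul_left, mul_comm] using ht

theorem fixed_zero {E₀ : Submodule F V₀} {p : eigc ρ 0} (hp : p.1 ∈ Fixed ρ (Ecat E₀)) :
    p ∈ Fixed (sigma ρ) E₀ := by
  intro x hx w hx0 hw hwE
  apply Subtype.ext
  change ρ (levi Q₀ _) p.1 = p.1
  have e : levi Q₀ ⟨siegel Q₀ x w hx0 hw, siegel_mem_siegelGroup _ _⟩ =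
      (⟨siegel (hypSum Q₀) ((0, 0), x) ((0, 0), w) (by simp [hx0]) (by simp [polar_hypSum, hw]),
        siegel_mem_siegelGroup _ _⟩ : siegelGroup (hypSum Q₀)) :=
    Subtype.ext (OrthParabolic.hypExt_siegel hx0 hw)
  rw [e]
  exact hp _ (mem_Ecat.2 ⟨rfl, hx⟩) _ _ _ fun y hy => polar_Ecat hy hwE

end Generic

variable {a b : F}

/-- The innermost group acts trivially. -/
theorem bottom_trivial (h : Aniso a b) {V : Type} [AddCommGroup V] [Module ℂ V]
    [FiniteDimensional ℂ V] (τ : Representation ℂ (siegelGroup (hypSum (tower a b 0).Q)) V)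
    (hs : Small τ) (g : siegelGroup (hypSum (tower a b 0).Q)) : τ g = 1 := by
  classical
  have hst := setup τ (nondeg h 0)
  have hrad : ∀ x, τ (rad x) = 1 := by
    intro x
    by_contra hx
    obtain ⟨c, hc, w, hw, hw0⟩ := exists_eig hst ⟨x, hx⟩
    have h0 := (hs c hc).2 fun hQ => hc (h.eq_zero hQ)
    rw [Submodule.finrank_eq_zero] at h0
    rw [show eig (PP (tower a b 0).Q) (UU τ) c = ⊥ from h0, Submodule.mem_bot] at hw
    exact hw0 hw
  obtain ⟨g, hg⟩ := g
  suffices ∀ hg : g ∈ siegelGroup (hypSum (tower a b 0).Q), τ ⟨g, hg⟩ = 1 from this hg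
  refine Subgroup.closure_induction
    (p := fun x _ => ∀ hx : x ∈ siegelGroup (hypSum (tower a b 0).Q), τ ⟨x, hx⟩ = 1) ?_ ?_ ?_ ?_ hg
  · rintro x ⟨u, w, hu, hw, rfl⟩ hx
    by_cases hu0 : u = 0
    · have : (⟨siegel (hypSum (tower a b 0).Q) u w hu hw, hx⟩ :
          siegelGroup (hypSum (tower a b 0).Q)) = 1 :=
        Subtype.ext (orth_ext fun z => by simp [siegel_apply, hu0])
      rw [this, map_one]
    obtain ⟨g, hg⟩ : ∃ g : siegelGroup (hypSum (tower a b 0).Q),
        (g.1 : ((F × F) × (tower a b 0).W) ≃ₗ[F] (F × F) × (tower a b 0).W) x₀ = u :=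
      transitive h 0 (x₀ (V₀ := (tower a b 0).W)) u x₀_singular
      (fun h0 => one_ne_zero (congrArg (fun x : (F × F) × (tower a b 0).W => x.1.1) h0)) hu hu0
    set w' := (((g.1)⁻¹ : orth (hypSum (tower a b 0).Q)) :
      ((F × F) × (tower a b 0).W) ≃ₗ[F] (F × F) × (tower a b 0).W) w with hw'
    have hgw : (g.1 : ((F × F) × (tower a b 0).W) ≃ₗ[F] (F × F) × (tower a b 0).W) w' = w := by
      rw [hw']; exact orth_apply_inv _ _
    have hp : polar (hypSum (tower a b 0).Q) x₀ w' = 0 := by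
      have h2 := polar_apply g.1 x₀ w'
      rw [hg, hgw] at h2
      exact h2.symm.trans hw
    have hsnd : w'.1.2 = 0 := by simpa [x₀, polar_hypSum] using hp
    have e : (⟨siegel (hypSum (tower a b 0).Q) u w hu hw, hx⟩ :
        siegelGroup (hypSum (tower a b 0).Q)) = g * rad w'.2 * g⁻¹ := by
      apply Subtype.ext
      simp only [rad, Subgroup.coe_mul, Subgroup.coe_inv, conj_siegel]
      have e2 : w' = ((0, 0), w'.2) + w'.1.1 • x₀ := by
        refine Prod.ext (Prod.ext ?_ ?_) ?_ <;> simp [x₀, hsnd]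
      refine (siegel_eq hg.symm ?_).trans
        (siegel_add_smul (by rw [orth_apply]; exact x₀_singular)
          (by rw [polar_apply]; exact polar_x₀ _) w'.1.1)
      rw [← map_smul, ← map_add, ← e2, hgw]
    rw [e, map_mul, map_mul, hrad, mul_one, ← map_mul, mul_inv_cancel, map_one]
  · intro hx; exact map_one τ
  · intro x y hx hy iha ihb hxy
    rw [show (⟨x * y, hxy⟩ : siegelGroup (hypSum (tower a b 0).Q)) = ⟨x, hx⟩ * ⟨y, hy⟩ from rfl,
      map_mul, iha hx, ihb hy, mul_one]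
  · intro x hx iha hx'
    have h1 : τ (⟨x, hx⟩ : siegelGroup (hypSum (tower a b 0).Q)) *
        τ (⟨x, hx⟩ : siegelGroup (hypSum (tower a b 0).Q))⁻¹ = 1 := by
      rw [← map_mul, mul_inv_cancel, map_one]
    rwa [iha hx, one_mul] at h1

variable (hq : Fintype.card F = 2) (h : Aniso a b)

theorem slTower_comm (n : ℕ) (A : Matrix.SpecialLinearGroup (Fin (n + 1)) F) :
    slTower a b (n + 1) A * gg hq h n = gg hq h n * slTower a b (n + 1) A := by
  refine Subtype.ext (orth_ext fun x => (tEquiv a b (n + 1)).injective ?_)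
  simp only [Subgroup.coe_mul, LinearEquiv.mul_apply, slTower_apply, gg, rot_coord, cp,
    LinearEquiv.apply_symm_apply]
  rfl

set_option maxHeartbeats 1000000 in
/-- The rotation fixes the innermost character line. -/
theorem line_fixed {V : Type} [AddCommGroup V] [Module ℂ V] [FiniteDimensional ℂ V]
    (σ : Representation ℂ (siegelGroup (hypSum (tower a b 2).Q)) V) (hs : Small σ)
    (hρ : ∃ g, σ g ≠ 1) :
    ∀ v ∈ eigc (Q₀ := (tower a b 1).Q) (sigma σ) (x₀ (V₀ := (tower a b 0).W)),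
      sigma σ (levi (tower a b 1).Q (gg hq h 0)) v = v := by
  classical
  intro v hv
  by_cases hv0 : v = 0
  · subst hv0; simp
  set c₁ : (tower a b 1).W := x₀ (V₀ := (tower a b 0).W) with hc₁
  have hc₁0 : c₁ ≠ 0 := fun e =>
    one_ne_zero (congrArg (fun x : (F × F) × (tower a b 0).W => x.1.1) e)
  have hsig := mult_one h (small_sigma' h hs) (sigma_nontrivial h hs hρ)
  have hc₁Q : (tower a b 1).Q c₁ = 0 := x₀_singular (Q₀ := (tower a b 0).Q)
  have h1 : finrank ℂ (eigc (Q₀ := (tower a b 1).Q) (sigma σ) c₁) = 1 := by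
    rw [hsig c₁ hc₁0, if_pos hc₁Q]
  obtain ⟨w₀, -, hspan⟩ := finrank_eq_one_iff'.1 h1
  have line : ∀ p ∈ eigc (Q₀ := (tower a b 1).Q) (sigma σ) c₁, ∃ r : ℂ, r • v = p := by
    intro p hp
    obtain ⟨r, hr⟩ := hspan ⟨p, hp⟩
    obtain ⟨r', hr'⟩ := hspan ⟨v, hv⟩
    have e1 : r • w₀.1 = p := congrArg Subtype.val hr
    have e2 : r' • w₀.1 = v := congrArg Subtype.val hr'
    have hr0 : r' ≠ 0 := fun e => hv0 (by rw [← e2, e, zero_smul])
    exact ⟨r / r', by rw [← e2, smul_smul, div_mul_cancel₀ _ hr0, e1]⟩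
  have hfc : (rot hq h 1 : (tower a b 1).W ≃ₗ[F] (tower a b 1).W) c₁ = c₁ := by
    rw [rot_fix_iff]
    exact ((mem_E_iff 1 c₁).1 (mem_Ecat.2 ⟨rfl, zero_mem _⟩)).2
  obtain ⟨μ, hμ⟩ : ∃ μ : ℂ, μ • v = sigma σ (levi (tower a b 1).Q (gg hq h 0)) v := by
    refine line _ ?_
    have h2 := levi_mem (sigma σ) (gg hq h 0) hv
    rwa [show ((gg hq h 0).1 : (tower a b 1).W ≃ₗ[F] (tower a b 1).W) c₁ = c₁ from hfc] at h2
  rw [← hμ]
  by_contra hne
  have hμ1 : μ ≠ 1 := fun e => hne (by rw [e, one_smul])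
  have hgv : σ (gg hq h 2) v.1 = μ • v.1 := by
    rw [gg_succ, gg_succ]
    exact (congrArg Subtype.val hμ).symm
  have hvF : v.1 ∈ Fixed σ (Ecat (tower a b 2).E) :=
    OrthSmallFix.mem_Fixed_of_eig (Q₁ := (tower a b 1).Q) σ (nondeg h 1) hc₁0
      (tower a b 1).E (E_sing 1) (mem_Ecat.2 ⟨rfl, zero_mem _⟩) (exists_core h 1)
      (hs _ (fun e => hc₁0 (congrArg Prod.snd e))).1 hv
  -- the eigenvectors of the rotation in the fixed space
  have key : ∀ x ∈ Fixed σ (Ecat (tower a b 2).E), σ (gg hq h 2) x = μ • x →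
      ∃ r : ℂ, r • v.1 = x := by
    intro x hx hgx
    have hst := setup σ (nondeg h 2)
    have hsmall : ∀ {W : Type} [AddCommGroup W] [Module ℂ W] (p : W), μ • p = p → p = 0 := by
      intro W _ _ p hp
      have : (μ - 1) • p = 0 := by rw [sub_smul, one_smul, hp, sub_self]
      exact (smul_eq_zero.1 this).resolve_left (sub_ne_zero.2 hμ1)
    have hx0 : eproj (PP (tower a b 2).Q) (UU σ) 0 x = x := by
      conv_rhs => rw [show x = (∑ B, eproj (PP (tower a b 2).Q) (UU σ) B) x by rw [sum_eproj hst]; rfl]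
      rw [LinearMap.sum_apply, Finset.sum_eq_single (0 : (tower a b 2).W)]
      · intro c _ hc
        by_cases hcE : c ∈ (tower a b 2).E
        swap
        · exact comp_eq_zero σ (nondeg h 2) (E_dd h 2) hx hcE
        refine hsmall _ ?_
        have hfix : (rot hq h 2 : (tower a b 2).W ≃ₗ[F] (tower a b 2).W) c = c :=
          (rot_fix_iff hq h 2 c).2 ((mem_E_iff 2 c).1 hcE).2
        have h2 := eproj_levi σ (nondeg h 2) (gg hq h 1) c x
        rw [← gg_succ, hgx, map_smul,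
          show ((gg hq h 1).1 : (tower a b 2).W ≃ₗ[F] (tower a b 2).W) c = c from hfix] at h2
        rw [h2, gg_succ]
        exact scalar_high hq h 0 σ c (hs c hc).1 hfix _ (eproj_mem hst c x)
      · simp
    set p : eigc σ 0 := ⟨x, hx0 ▸ eproj_mem hst 0 x⟩ with hp
    have hpF : p ∈ Fixed (sigma σ) (tower a b 2).E := fixed_zero σ hx
    have hgp : sigma σ (levi (tower a b 1).Q (gg hq h 0)) p = μ • p := by
      apply Subtype.ext
      rw [gg_succ, gg_succ] at hgx
      exact hgx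
    have hst' := setup (Q₀ := (tower a b 1).Q) (sigma σ) (nondeg h 1)
    have hp1 : eproj (PP (tower a b 1).Q) (UU (Q₀ := (tower a b 1).Q) (sigma σ)) c₁ p = p := by
      conv_rhs => rw [show p =
        (∑ B, eproj (PP (tower a b 1).Q) (UU (Q₀ := (tower a b 1).Q) (sigma σ)) B) p by
          rw [sum_eproj hst']; rfl]
      rw [LinearMap.sum_apply, Finset.sum_eq_single c₁]
      · intro c _ hc
        by_cases hcE : c ∈ (tower a b 1).E
        swap
        · exact comp_eq_zero (Q₀ := (tower a b 1).Q) (sigma σ) (nondeg h 1) (E_dd h 1) hpF hcE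
        have hc0 : c = 0 := by
          obtain ⟨ht, hy⟩ := mem_Ecat.1 hcE
          have hy' : c.2 = 0 := (Submodule.mem_bot F).1 hy
          by_cases hs0 : c.1.1 = 0
          · exact Prod.ext (Prod.ext hs0 ht) hy'
          · exact absurd (Prod.ext (Prod.ext (eq_one_of_ne_zero hq hs0) ht) hy' : c = c₁) hc
        subst hc0
        refine hsmall _ ?_
        have h2 := eproj_levi (Q₀ := (tower a b 1).Q) (sigma σ) (nondeg h 1) (gg hq h 0) 0 p
        rw [map_zero] at h2
        erw [hgp] at h2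
        rw [map_smul] at h2
        rw [h2]
        exact congrArg Subtype.val (LinearMap.congr_fun
          (bottom_trivial h _ (small_sigma' h (small_sigma' h hs)) (gg hq h 0))
          ⟨_, eproj_mem hst' 0 p⟩)
      · simp
    obtain ⟨r, hr⟩ := line p (hp1 ▸ eproj_mem hst' c₁ p)
    exact ⟨r, congrArg Subtype.val hr⟩
  have mulσ : ∀ (x y : siegelGroup (tower a b 3).Q) (w : V), σ (x * y) w = σ x (σ y w) :=
    fun x y w => LinearMap.congr_fun (map_mul σ x y) w
  have invσ : ∀ (x : siegelGroup (tower a b 3).Q) (w : V), σ x⁻¹ (σ x w) = w := fun x w => by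
    refine (mulσ x⁻¹ x w).symm.trans ?_
    rw [inv_mul_cancel]
    exact LinearMap.congr_fun (map_one σ) w
  have scal : ∀ A : Matrix.SpecialLinearGroup (Fin 3) F,
      ∃ r : ℂ, r • v.1 = σ (slTower a b 3 A) v.1 := by
    intro A
    refine key _ (Fixed_invariant (Q := (tower a b 3).Q) σ _ (slTower a b 3 A)
      (fun y hy => slTower_E A hy) hvF) ?_
    rw [← mulσ, ← slTower_comm hq h 2 A, mulσ, hgv, map_smul]
  set A₁ := Matrix.SpecialLinearGroup.transvection
    (show (1 : Fin 3) ≠ 0 by decide) (1 : F) with hA₁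
  set A₂ := Matrix.SpecialLinearGroup.transvection
    (show (0 : Fin 3) ≠ 2 by decide) (-1 : F) with hA₂
  set A₃ := Matrix.SpecialLinearGroup.transvection
    (show (1 : Fin 3) ≠ 2 by decide) (-1 : F) with hA₃
  have hA : A₁ * A₂ = A₃ * A₂ * A₁ := by
    apply Subtype.ext
    change Matrix.transvection (1 : Fin 3) 0 (1 : F) * Matrix.transvection 0 2 (-1) =
      Matrix.transvection 1 2 (-1) * Matrix.transvection 0 2 (-1) * Matrix.transvection 1 0 1
    ext i j
    fin_cases i <;> fin_cases j <;>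
      simp [Matrix.mul_apply, Fin.sum_univ_three, Matrix.transvection, Matrix.single_apply,
        Matrix.one_apply]
  obtain ⟨r₁, hr₁⟩ := scal A₁
  obtain ⟨r₂, hr₂⟩ := scal A₂
  obtain ⟨r₃, hr₃⟩ := scal A₃
  have hv1 : v.1 ≠ 0 := fun e => hv0 (Subtype.ext e)
  have hne0 : ∀ (A : Matrix.SpecialLinearGroup (Fin 3) F) (r : ℂ),
      r • v.1 = σ (slTower a b 3 A) v.1 → r ≠ 0 := by
    intro A r hr e
    rw [e, zero_smul] at hr
    apply hv1
    have h2 := congrArg (σ (slTower a b 3 A)⁻¹) hr.symm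
    rw [invσ, map_zero] at h2
    exact h2
  have e1 := congrArg (fun A => σ (slTower a b 3 A) v.1) hA
  simp only [map_mul (slTower a b 3), mulσ, ← hr₁, ← hr₂, ← hr₃, map_smul, smul_smul] at e1
  have e2 : r₃ = 1 := by
    have h2 := smul_left_injective ℂ hv1 e1
    refine mul_left_cancel₀ (mul_ne_zero (hne0 _ _ hr₁) (hne0 _ _ hr₂)) ?_
    linear_combination -h2
  rw [e2, one_smul] at hr₃
  -- the transvection moves the vector
  obtain ⟨t, ht⟩ := exists_psi_ne (one_ne_zero : (1 : F) ≠ 0)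
  obtain rfl : t = 1 := eq_one_of_ne_zero hq (by rintro rfl; simp at ht)
  have hu : tEquiv a b 3 (((0, 0), ((1, 0), 0)) : (F × F) × ((F × F) × (tower a b 1).W)) =
      (Pi.single (.inl 1) 1, 0) := by
    refine (tEquiv_snd_inl (i := 0) (s := 1) ?_).trans ?_
    · refine (tEquiv_fst 1 1 0).trans ?_
      simp
    · rfl
  have hw : tEquiv a b 3
      (((0, 0), ((0, 0), ((0, 1), 0))) : (F × F) × ((F × F) × ((F × F) × (tower a b 0).W))) =
      (Pi.single (.inr 2) (- -1), 0) := by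
    refine (tEquiv_snd_inr (i := 1) (s := 1) (tEquiv_snd_inr (i := 0) (s := 1) ?_)).trans ?_
    · refine (tEquiv_fst 0 0 1).trans ?_
      simp
    · rw [neg_neg]; rfl
  have hu0 : hypSum (hypSum (tower a b 1).Q) ((0, 0), ((1, 0), 0)) = 0 := by simp
  have hw0 : polar (hypSum (hypSum (tower a b 1).Q)) ((0, 0), ((1, 0), 0))
      ((0, 0), ((0, 0), (((0, 1), 0) : (tower a b 1).W))) = 0 := by
    simp [polar_hypSum]
    exact polar_zero_left _ _
  have e3 := slTower_transvection (a := a) (b := b)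
    (show (1 : Fin 3) ≠ 2 by decide) (-1) hu hw hu0 hw0
  have e4 : levi (hypSum (tower a b 1).Q) (rad (((0, 1), 0) : (tower a b 1).W)) =
      (⟨siegel _ _ _ hu0 hw0, siegel_mem_siegelGroup _ _⟩ :
        siegelGroup (hypSum (hypSum (tower a b 1).Q))) :=
    Subtype.ext (OrthParabolic.hypExt_siegel x₀_singular (polar_x₀ _))
  have e5 : σ (levi (hypSum (tower a b 1).Q) (rad (((0, 1), 0) : (tower a b 1).W))) v.1 =
      PP (tower a b 1).Q c₁ (((0, 1), 0) : (tower a b 1).W) • v.1 :=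
    congrArg Subtype.val (hv (((0, 1), 0) : (tower a b 1).W))
  rw [hA₃, e3] at hr₃
  rw [e4] at e5
  erw [← hr₃] at e5
  have hP : PP (tower a b 1).Q c₁ (((0, 1), 0) : (tower a b 1).W) ≠ 1 := by
    change psi F (polar (hypSum (tower a b 0).Q) ((0, 1), 0) ((1, 0), 0)) ≠ 1
    simpa [polar_hypSum] using ht
  have h5 : (PP (tower a b 1).Q c₁ (((0, 1), 0) : (tower a b 1).W) - 1) • v.1 = 0 := by
    rw [sub_smul, one_smul, ← e5, sub_self]
  exact hv1 ((smul_eq_zero.1 h5).resolve_left (sub_ne_zero.2 hP))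

end CfsgLib.InvCentralizers.OrthMinusTwo
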