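import Cfsg.Agent.Lib.InvCentralizers.OrthOddThree

/-!
The smallest degree of a non-trivial representation of `Ω₂ₙ₊₁(q)`, `n ≥ 3`, `q > 3` odd.
-/

set_option autoImplicit false
set_option linter.unusedSectionVars false
set_option linter.style.haveILetI false

namespace CfsgLib.InvCentralizers.OrthOddDegree

open QuadraticMap Module CfsgLib.ClassicalForms
open CfsgLib.InvCentralizers.OrthParabolic
open CfsgLib.InvCentralizers.OrthSmall
open CfsgLib.InvCentralizers.OrthOddTower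
open CfsgLib.InvCentralizers.OrthOddSmall
open CfsgLib.InvCentralizers.OrthOddInvolution
open CfsgLib.InvCentralizers.OrthTwist
open CfsgLib.InvCentralizers.OrthInvolution
open CfsgLib.InvCentralizers.AbelianEigen

universe u

variable {F : Type u} [Field F] [Fintype F]

local notation "q" => (Fintype.card F : ℤ)

theorem one_le_S (k : ℕ) : 1 ≤ S F k := by
  induction k with
  | zero => simp [S]
  | succ k ih =>
    rw [S_succ]
    nlinarith [mul_nonneg (sq_nonneg (q : ℤ)) (show (0 : ℤ) ≤ S F k by omega)]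

theorem pow_le_S (k : ℕ) : q ^ (2 * k) ≤ S F k := by
  rcases k with _ | k
  · simp [S]
  · rw [show S F (k + 1) = A F (k + 1) + S F k + 1 from rfl, A]
    have := one_le_S (F := F) k
    omega

theorem coprime_S (k : ℕ) : IsCoprime (S F (k + 1)) q :=
  ⟨1, -(q * S F k), by rw [S_succ]; ring⟩

theorem S_mod (k : ℕ) : ∃ T, S F k - (k + 1) = (q ^ 2 - 1) * T := by
  induction k with
  | zero => exact ⟨0, by simp [S]⟩
  | succ k ih =>
    obtain ⟨T, hT⟩ := ih
    exact ⟨q ^ 2 * T + (k + 1), by rw [S_succ]; push_cast; linear_combination q ^ 2 * hT⟩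

theorem two_mul_level (h4 : 4 < Fintype.card F) (j : ℕ) :
    S F (j + 1) ≤ 2 * (q ^ (2 * (j + 1)) - q ^ (j + 1)) := by
  have hq : (5 : ℤ) ≤ q := by exact_mod_cast h4
  have hX : (5 : ℤ) ≤ q ^ (j + 1) := le_trans hq (le_self_pow₀ (by omega) (by omega))
  have hS := S_mul (F := F) (j + 1)
  have hq2 : (0 : ℤ) < q ^ 2 - 1 := by nlinarith
  refine le_of_mul_le_mul_right ?_ hq2
  rw [hS, show q ^ (2 * (j + 1) + 2) = q ^ (j + 1) * q ^ (j + 1) * q ^ 2 by ring,
    show q ^ (2 * (j + 1)) = q ^ (j + 1) * q ^ (j + 1) by ring]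
  have hq25 : (25 : ℤ) ≤ q ^ 2 := by nlinarith
  generalize q ^ (j + 1) = X at hX ⊢
  generalize q ^ 2 = Y at hq25 ⊢
  nlinarith [mul_le_mul_of_nonneg_left hX (show (0 : ℤ) ≤ X * (Y - 2) by nlinarith),
    mul_nonneg (show (0 : ℤ) ≤ X by omega) (show (0 : ℤ) ≤ Y - 25 by omega)]

theorem card_ne_zero_level (k : ℕ) (c : F) :
    q ^ (2 * k) - q ^ k ≤ Nat.card {v : (otower F k).W // v ≠ 0 ∧ (otower F k).Q v = c} := by
  classical
  by_cases hc : c = 0
  · subst hc
    have h1 := OrthPairs.card_sing_ne_zero (otower F k).Q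
    have h2 := card_zeros (F := F) k
    rw [Nat.card_congr (Equiv.subtypeEquivRight fun v => and_comm), Nat.card_eq_fintype_card, h1]
    have h3 : 1 ≤ Nat.card {v // (otower F k).Q v = 0} := by
      haveI : Nonempty {v // (otower F k).Q v = 0} := ⟨⟨0, map_zero _⟩⟩
      exact Nat.card_pos
    have h5 : (1 : ℤ) ≤ q ^ k := one_le_pow₀ (by exact_mod_cast Fintype.card_pos)
    push_cast [Nat.cast_sub h3]
    omega
  · rw [Nat.card_congr (Equiv.subtypeEquivRight
      (fun v => (show (v ≠ 0 ∧ (otower F k).Q v = c) ↔ (otower F k).Q v = c from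
      ⟨And.right, fun h' => ⟨fun h0 => hc (by rw [← h', h0, QuadraticMap.map_zero]), h'⟩⟩)))]
    exact le_card_level c k

/-- The arithmetic of the divisibility. -/
theorem arith (h4 : 4 < Fintype.card F) (k : ℕ) {θ lam m : ℤ} (hθ : θ = 1 ∨ θ = -1)
    (hlam : lam = 1 ∨ lam = -1) (hm : |m| ≤ k + 2)
    (hdvd : q ^ 2 * S F (k + 1) ∣ (q ^ (2 * (k + 3)) + θ * q ^ (k + 3)) *
      (lam * (q * S F (k + 1) + θ * (q ^ (k + 2) - 1) - (k + 2)) + m)) :
    k = 0 ∧ θ = -1 ∧ m = 0 := by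
  set S₁ := S F (k + 1) with hS₁
  set x := lam * (θ * (q ^ (k + 2) - 1) - (k + 2)) + m with hx
  have hq : (5 : ℤ) ≤ q := by exact_mod_cast h4
  have hθ2 : θ * θ = 1 := by rcases hθ with rfl | rfl <;> norm_num
  have hlam2 : lam * lam = 1 := by rcases hlam with rfl | rfl <;> norm_num
  -- remove the power of q
  have d1 : S₁ ∣ q ^ (k + 3) * ((q ^ (k + 3) + θ) *
      (lam * (q * S₁ + θ * (q ^ (k + 2) - 1) - (k + 2)) + m)) := by
    exact dvd_trans (dvd_mul_left S₁ (q ^ 2)) (hdvd.trans (dvd_of_eq (by ring)))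
  have d2 := ((coprime_S (F := F) k).pow_right (n := k + 3)).dvd_of_dvd_mul_left d1
  have d3 : S₁ ∣ (q ^ 2 - 1) * x := by
    have h1 := S_mul (F := F) (k + 2)
    rw [S_succ (k + 1), ← hS₁, show 2 * (k + 2) + 2 = 2 * (k + 3) by ring] at h1
    have h3 : (q ^ 2 - 1) * x = (q ^ (k + 3) + θ) *
        (lam * (q * S₁ + θ * (q ^ (k + 2) - 1) - (k + 2)) + m) * (q ^ (k + 3) - θ) -
        S₁ * ((q ^ 2 - 1) * (lam * q + q ^ 2 *
          (lam * (q * S₁ + θ * (q ^ (k + 2) - 1) - (k + 2)) + m))) := by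
      rw [hx]
      have e : q ^ (2 * (k + 3)) = q ^ (k + 3) * q ^ (k + 3) := by ring
      linear_combination (lam * (q * S₁ + θ * (q ^ (k + 2) - 1) - (k + 2)) + m) * h1 +
        (lam * (q * S₁ + θ * (q ^ (k + 2) - 1) - (k + 2)) + m) * e +
        (lam * (q * S₁ + θ * (q ^ (k + 2) - 1) - (k + 2)) + m) * hθ2
    rw [h3]
    exact dvd_sub (dvd_mul_of_dvd_left d2 _) (dvd_mul_right _ _)
  obtain ⟨T, hT⟩ := S_mod (F := F) (k + 1)
  have d4 : S₁ ∣ (k + 2 : ℤ) * x := by
    have h3 : (k + 2 : ℤ) * x = S₁ * x - T * ((q ^ 2 - 1) * x) := by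
      rw [← hS₁] at hT
      push_cast at hT
      linear_combination x * hT.symm
    rw [h3]
    exact dvd_sub (dvd_mul_right _ _) (Dvd.dvd.mul_left d3 _)
  have hpow : (25 : ℤ) ≤ q ^ (k + 2) := by
    calc (25 : ℤ) ≤ q ^ 2 := by nlinarith
      _ ≤ q ^ (k + 2) := pow_le_pow_right₀ (by omega) (by omega)
  have hS₁le := pow_le_S (F := F) (k + 1)
  rw [← hS₁] at hS₁le
  rcases Nat.eq_zero_or_pos k with rfl | hk
  · have hS1 : S₁ = q ^ 2 + 1 := by rw [hS₁]; simp [S, A]
    rw [hS1] at d4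
    simp only [hx, Nat.cast_zero, zero_add] at d4
    rw [abs_le] at hm
    rcases hθ with rfl | rfl
    · exfalso
      rcases hlam with rfl | rfl
      · have d5 := dvd_sub d4 (dvd_refl (q ^ 2 + 1))
        have h0 := Int.le_of_dvd (by push_cast at hm; nlinarith) d5
        push_cast at hm
        nlinarith
      · have d5 := dvd_sub (dvd_neg.2 d4) (dvd_refl (q ^ 2 + 1))
        have h0 := Int.le_of_dvd (by push_cast at hm; nlinarith) d5
        push_cast at hm
        nlinarith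
    · refine ⟨rfl, rfl, ?_⟩
      have d5 : q ^ 2 + 1 ∣ 2 * m := by
        have h3 : 2 * m = 2 * (lam * (-1 * (q ^ 2 - 1) - 2) + m) + (q ^ 2 + 1) * (2 * lam) := by
          ring
        rw [h3]
        exact dvd_add d4 (dvd_mul_right _ _)
      have h0 := Int.eq_zero_of_abs_lt_dvd d5 (by rw [abs_lt]; push_cast at hm; constructor <;> nlinarith)
      omega
  · exfalso
    have hk' : (1 : ℤ) ≤ k := by exact_mod_cast hk
    have hgrow : ∀ j : ℕ, 1 ≤ j → (j : ℤ) + 4 ≤ q ^ j := by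
      intro j hj
      induction j, hj using Nat.le_induction with
      | base => simpa using hq
      | succ j hj ih => rw [pow_succ]; push_cast; nlinarith
    have hgsq : ∀ j : ℕ, ((j : ℤ) + 4) ^ 2 ≤ q ^ (j + 2) := by
      intro j
      induction j with
      | zero => simp; nlinarith
      | succ j ih =>
        rw [show j + 1 + 2 = j + 2 + 1 from rfl, pow_succ q (j + 2)]
        push_cast
        nlinarith [mul_le_mul_of_nonneg_left hq (show (0 : ℤ) ≤ q ^ (j + 2) by positivity),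
          sq_nonneg (j : ℤ), Int.natCast_nonneg j]
    have hxl : |x| ≤ q ^ (k + 2) + 2 * k + 3 ∧ 0 < |x| := by
      rw [abs_le] at hm
      have hXk : (2 * k + 6 : ℤ) ≤ q ^ (k + 2) := by nlinarith [hgsq k]
      refine ⟨?_, abs_pos.2 ?_⟩
      · rw [abs_le, hx]
        rcases hθ with rfl | rfl <;> rcases hlam with rfl | rfl <;> constructor <;> omega
      · rw [hx]
        rcases hθ with rfl | rfl <;> rcases hlam with rfl | rfl <;> omega
    have h0 : (k + 2 : ℤ) * x ≠ 0 := mul_ne_zero (by omega) (abs_pos.1 hxl.2)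
    have h1 := Int.le_of_dvd (abs_pos.2 h0) ((dvd_abs _ _).2 d4)
    rw [abs_mul, abs_of_pos (show (0 : ℤ) < k + 2 by omega)] at h1
    have h3 := hgrow k hk
    have h5 : q ^ (2 * (k + 1)) = q ^ k * q ^ (k + 2) := by ring
    have h6 : (k + 2 : ℤ) * |x| ≤ (k + 2) * (q ^ (k + 2) + 2 * k + 3) :=
      mul_le_mul_of_nonneg_left hxl.1 (by omega)
    have h7 : ((k : ℤ) + 4) * q ^ (k + 2) ≤ q ^ k * q ^ (k + 2) :=
      mul_le_mul_of_nonneg_right h3 (by omega)
    have h8 : (k + 2 : ℤ) * (2 * k + 3) < 2 * q ^ (k + 2) := by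
      nlinarith [hgsq k]
    linarith

set_option maxHeartbeats 1600000 in
/-- The exceptional candidate in dimension seven. -/
theorem exceptional (h2 : (2 : F) ≠ 0) {V : Type} [AddCommGroup V] [Module ℂ V]
    [FiniteDimensional ℂ V] (ρ : Representation ℂ (siegelGroup (hypSum (otower F 2).Q)) V)
    (hs : Full ρ) (hN : (finrank ℂ V : ℤ) = S F 2 - 1) (hns : ¬ IsSquare (-1 : F))
    (g₀ : siegelGroup (hypSum (otower F 2).Q))
    (hg₀ : g₀.1 = negOne (otower F 3).Q * RR (neg_ne_zero.2 (one_ne_zero (α := F))) 2)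
    (hT : Twist (conjS (RR (neg_ne_zero.2 (one_ne_zero (α := F))) 2)) ρ (ρ g₀))
    (hzero : LinearMap.trace ℂ _ (res hT (RR_splits (neg_ne_zero.2 (one_ne_zero (α := F))) 1)) = 0) :
    False := by
  have hs₁ := full_sigma h2 hs
  have hs₂ := full_sigma h2 hs₁
  have hf : finrank ℂ (eigc (Q₀ := (otower F 1).Q) (sigma ρ) 0) = 2 := by
    have e1 := finrank_full h2 hs
    have e2 := finrank_full h2 hs₁
    simp only [S, A] at *
    have : (finrank ℂ (eigc (Q₀ := (otower F 1).Q) (sigma ρ) 0) : ℤ) = 2 := by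
      norm_num at *
      linarith
    exact_mod_cast this
  have e1 : hypExt (otower F 1).Q (RR (neg_ne_zero.2 (one_ne_zero (α := F))) 0) =
      RR (neg_ne_zero.2 (one_ne_zero (α := F))) 1 := hypExt_refl _ _ _
  have e2 : hypExt (otower F 2).Q (RR (neg_ne_zero.2 (one_ne_zero (α := F))) 1) =
      RR (neg_ne_zero.2 (one_ne_zero (α := F))) 2 := hypExt_refl _ _ _
  exact OrthOddThree.no_candidate h2 ρ hs hs₁ hs₂ hns hf g₀ _ _
    (RR_splits (neg_ne_zero.2 (one_ne_zero (α := F))) 1) e2.symm e1.symm hg₀ hT hzero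

set_option maxHeartbeats 1600000 in
/-- The bound. -/
theorem bound (h2 : (2 : F) ≠ 0) (h4 : 4 < Fintype.card F) (k : ℕ) (V : Type) [AddCommGroup V]
    [Module ℂ V] [FiniteDimensional ℂ V]
    (ρ : Representation ℂ (siegelGroup (hypSum (otower F (k + 2)).Q)) V) (hρ : ∃ g, ρ g ≠ 1) :
    S F (k + 2) ≤ finrank ℂ V := by
  classical
  haveI : Finite (orth (hypSum (otower F (k + 2)).Q)) := finite_orth _
  obtain ⟨W, _, _, _, σ, hirr, hne, hle⟩ := LinearDegree.exists_irreducible_constituent ρ hρ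
  refine le_trans ?_ (Int.ofNat_le.2 hle)
  have hQ := nondeg h2 (k + 2)
  have hn : 5 ≤ finrank F (otower F (k + 2)).W := by rw [finrank_eq]; omega
  have hlev : ∀ c : F, 1 ≤ Nat.card {v : (otower F (k + 2)).W // v ≠ 0 ∧ (otower F (k + 2)).Q v = c} := by
    intro c
    have h1 := card_ne_zero_level (k + 2) c
    have h3 : S F (k + 2) ≤ 2 * (q ^ (2 * (k + 2)) - q ^ (k + 2)) := two_mul_level h4 (k + 1)
    have h5 := one_le_S (F := F) (k + 2)
    omega
  rcases OrthSmallFix.large_or_single σ hQ hn hne (S F (k + 2)).toNat (fun c c' _ _ => by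
    have h1 := card_ne_zero_level (k + 2) c
    have h3 := card_ne_zero_level (k + 2) c'
    have h5 : S F (k + 2) ≤ 2 * (q ^ (2 * (k + 2)) - q ^ (k + 2)) := two_mul_level h4 (k + 1)
    omega) with hbig | ⟨ν, ⟨c₀, hc₀, hQc₀⟩, hm⟩
  · have := one_le_S (F := F) (k + 2)
    omega
  obtain ⟨l, hl⟩ := OrthPlusDegree.exists_sq_ne_one (F := F) (by omega)
  obtain rfl : ν = 0 := by
    by_contra hν
    haveI : Nonempty {v : (otower F (k + 2)).W // v ≠ 0 ∧ (otower F (k + 2)).Q v = (l : F) * l * ν} :=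
      (Nat.card_pos_iff.1 (hlev ((l : F) * l * ν))).1
    obtain ⟨c', hc'0, hc'⟩ := Classical.arbitrary
      {v : (otower F (k + 2)).W // v ≠ 0 ∧ (otower F (k + 2)).Q v = (l : F) * l * ν}
    have hp := two_levels σ hQ hn (commutator_eq h2 (k + 1)) (c := c₀) (by rwa [hQc₀])
      (by rw [hm c₀ hc₀, if_pos hQc₀]; omega) l (c' := c') (Or.inl (by rw [hc', hQc₀]))
    rw [hm c' hc'0, if_neg] at hp
    · omega
    rw [hc']
    intro e
    exact hl (mul_right_cancel₀ hν (by rw [e, one_mul]))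
  have hsm : Small σ := fun c hc => by
    rw [hm c hc]
    exact ⟨by split_ifs <;> omega, fun hQc => if_neg hQc⟩
  have hs : Full σ := full_of_small h2 hsm hne
  have hlow := finrank_ge h2 h4 hs
  by_contra hlt
  have hN : (finrank ℂ W : ℤ) = S F (k + 2) - 1 := by omega
  -- the involution
  set u : F := (-1) ^ (k + 3) with hu'
  have hu : u ≠ 0 := pow_ne_zero _ (neg_ne_zero.2 one_ne_zero)
  have hval : ∀ x : (otower F (k + 3)).W, ∀ hx : (otower F (k + 3)).Q x ≠ 0,
      (otower F (k + 3)).Q x = u → negOne (otower F (k + 3)).Q * refl _ x hx ∈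
        siegelGroup (otower F (k + 3)).Q := fun x hx e => neg_refl_mem h2 (k + 1) x hx e
  let g₀ : siegelGroup (hypSum (otower F (k + 2)).Q) :=
    ⟨negOne (otower F (k + 3)).Q * RR hu (k + 2), hval _ _ (wv_value u (k + 2))⟩
  have hT : Twist (conjS (RR hu (k + 2))) σ (σ g₀) :=
    twist_of_elem σ _ g₀ fun g => conj_neg_mul _ _
  have hsq : σ g₀ * σ g₀ = 1 := by
    rw [← map_mul, show g₀ * g₀ = 1 from Subtype.ext ?_, map_one]
    change negOne (otower F (k + 3)).Q * RR hu (k + 2) *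
      (negOne (otower F (k + 3)).Q * RR hu (k + 2)) = 1
    rw [mul_assoc, ← mul_assoc (RR hu (k + 2)), ← negOne_comm, mul_assoc (negOne _), RR,
      refl_mul_self, mul_one, negOne_sq]
  set x₁ : (otower F (k + 2)).W := (x₀ : (F × F) × (otower F (k + 1)).W) with hx₁
  have hx₁0 : x₁ ≠ 0 := fun e =>
    one_ne_zero (congrArg (fun x : (F × F) × (otower F (k + 1)).W => x.1.1) e)
  have hx₁Q : (otower F (k + 2)).Q x₁ = 0 := x₀_singular
  have hx₁p : polar (otower F (k + 2)).Q x₁ (wv F u (k + 1)) = 0 := by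
    change polar (hypSum (otower F (k + 1)).Q) x₀ ((0, 0), wv F u k) = 0
    simp [x₀, polar_hypSum]
  have hR := RR_splits hu (k + 1)
  obtain ⟨lam, hlam, hmu₁⟩ : ∃ lam : ℤ, (lam = 1 ∨ lam = -1) ∧
      mu (PP (otower F (k + 2)).Q) (UU σ) (σ g₀) x₁ = (lam : ℂ) := by
    rcases mu_sign (setup σ hQ) ((hs x₁ hx₁0).trans (if_pos hx₁Q)) (g := σ g₀) (fun w hw => by
        have := hT.mem_eig hR hw
        rwa [show (1 : F) • (RR hu (k + 1)).1 x₁ = x₁ by
          rw [one_smul]; exact (refl_fix_iff _ _).2 hx₁p] at this) hsq with h | h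
    · exact ⟨1, Or.inl rfl, by rw [h]; norm_num⟩
    · exact ⟨-1, Or.inr rfl, by rw [h]; norm_num⟩
  have hmu : ∀ c, c ≠ 0 → (otower F (k + 2)).Q c = 0 →
      polar (otower F (k + 2)).Q c (wv F u (k + 1)) = 0 →
      mu (PP (otower F (k + 2)).Q) (UU σ) (σ g₀) c = (lam : ℂ) := fun c hc hQc hp =>
    (mu_const h2 hu hT hs hc hQc hp).trans hmu₁
  obtain ⟨m, htr, hmb⟩ := trace_rec h2 hu (k + 1) W σ (σ g₀) hT hsq hs lam hmu
  have hX := OrthInvolution.finrank_dvd (Q := hypSum (otower F (k + 2)).Q) (nondeg h2 (k + 3))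
    ((show 5 ≤ finrank F (otower F (k + 3)).W by rw [finrank_eq]; omega)) hu hval σ
    (w := wv F u (k + 2)) (wv_value u (k + 2)) _ htr
  have hcard : (Nat.card {x // hypSum (otower F (k + 2)).Q x = u} : ℤ) =
      q ^ (2 * (k + 3)) + theta u * q ^ (k + 3) := card_level h2 hu (k + 3)
  rw [hcard, hN,
    show S F (k + 2) = q ^ 2 * S F (k + 1) + 1 from S_succ (k + 1), add_sub_cancel_right] at hX
  have hmb' : |m| ≤ (k : ℤ) + 2 := by
    refine le_trans hmb (le_of_eq ?_)
    rw [hN, show S F (k + 1 + 1) = S F (k + 2) from rfl]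
    push_cast
    ring
  have hθ : theta u = 1 ∨ theta u = -1 := by rw [theta]; split_ifs <;> simp
  obtain ⟨hk0, hθ1, hm0⟩ := arith h4 k hθ hlam hmb' (by
    convert hX using 2
    push_cast
    ring)
  subst hk0
  subst hm0
  have hns : ¬ IsSquare u := by
    intro h
    rw [theta, if_pos h] at hθ1
    norm_num at hθ1
  have hu1 : u = -1 := by rw [hu']; norm_num
  revert hns hT hmu hN hs
  clear_value u
  subst hu1
  intro hs hN hT hmu hns
  refine exceptional h2 σ hs hN hns g₀ rfl hT ?_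
  have e := trace_eq hQ hT hR
  rw [sum_fixed h2 hu hs hmu, htr] at e
  have e0 : S F (0 + 1) = q ^ 2 + 1 := by simp [S, A]
  rw [e0, hθ1] at e
  push_cast at e
  linear_combination -e

end CfsgLib.InvCentralizers.OrthOddDegree
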