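import Cfsg.Agent.Lib.InvCentralizers.OrthOddTower
import Cfsg.Agent.Lib.InvCentralizers.OrthMinusSmall
import Cfsg.Agent.Lib.ClassicalForms.Ortho.Generation

/-!
Small representations of the Siegel groups of `H^k ⊥ ⟨1⟩`.
-/

set_option autoImplicit false
set_option linter.unusedSectionVars false
set_option linter.style.haveILetI false

namespace CfsgLib.InvCentralizers.OrthOddSmall

open QuadraticMap Module CfsgLib.ClassicalForms
open CfsgLib.InvCentralizers.OrthParabolic
open CfsgLib.InvCentralizers.OrthSmall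
open CfsgLib.InvCentralizers.OrthOddTower
open CfsgLib.InvCentralizers.SympBound (psi exists_psi_ne psi_prim)
open CfsgLib.InvCentralizers.AbelianEigen

universe u

section Full

variable {F V₀ : Type*} [Field F] [Fintype F] [AddCommGroup V₀] [Module F V₀] [Fintype V₀]
  {Q₀ : QuadraticForm F V₀} {V : Type*} [AddCommGroup V] [Module ℂ V]

/-- The non-trivial characters are the singular ones, each once. -/
def Full (ρ : Representation ℂ (siegelGroup (hypSum Q₀)) V) : Prop :=
  ∀ c : V₀, c ≠ 0 → finrank ℂ (eigc ρ c) = @ite _ (Q₀ c = 0) (Classical.propDecidable _) 1 0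

variable {ρ : Representation ℂ (siegelGroup (hypSum Q₀)) V}

theorem Full.small [FiniteDimensional ℂ V] (h : Full ρ) : Small ρ := by
  intro c hc
  rw [h c hc]
  exact ⟨by split_ifs <;> omega, fun hQ => if_neg hQ⟩

theorem Full.level [DecidableEq F] (h : Full ρ) (c : V₀) (hc : c ≠ 0) :
    finrank ℂ (eigc ρ c) = if Q₀ c = 0 then 1 else 0 := by
  rw [h c hc]
  split_ifs <;> rfl

end Full

variable {F : Type u} [Field F] [Fintype F]

local notation "q" => (Fintype.card F : ℤ)

variable (F) in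
/-- The number of non-zero singular vectors of `H^k ⊥ ⟨1⟩`. -/
def A (k : ℕ) : ℤ := q ^ (2 * k) - 1

variable (F) in
/-- The bound. -/
def S : ℕ → ℤ
  | 0 => 1
  | k + 1 => A F (k + 1) + S k + 1

variable (F) in
/-- The part of the degree outside the fixed space of the radical. -/
def Es : ℕ → ℤ
  | 0 => 0
  | k + 1 => Es k + A F (k + 1) - (q ^ (k + 1) - 1)

theorem S_mul (k : ℕ) : S F k * (q ^ 2 - 1) = q ^ (2 * k + 2) - 1 := by
  induction k with
  | zero => simp [S]
  | succ k ih => simp only [S, A]; linear_combination ih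

theorem S_succ (k : ℕ) : S F (k + 1) = q ^ 2 * S F k + 1 := by
  induction k with
  | zero => simp [S, A]
  | succ k ih =>
    calc S F (k + 1 + 1) = A F (k + 1 + 1) + S F (k + 1) + 1 := rfl
      _ = q ^ 2 * (A F (k + 1) + S F k + 1) + 1 := by
        rw [ih]; simp only [A]; ring
      _ = q ^ 2 * S F (k + 1) + 1 := rfl

theorem Es_gs (k : ℕ) :
    Es F k + (LinearDegree.gs (Fintype.card F) (k + 1) : ℤ) = S F k := by
  induction k with
  | zero => simp [Es, S, LinearDegree.gs]
  | succ k ih =>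
    rw [LinearDegree.gs_succ]
    simp only [Es, S]
    push_cast
    linear_combination ih

theorem isGen (h2 : (2 : F) ≠ 0) : ∀ k, IsGen (otower F k).Q
  | 0 => IsGen.of_reflGroup (reflGroup_sqForm h2)
  | k + 1 => IsGen.hypSum (nondeg h2 k) (isGen h2 k)

theorem commutator_eq (h2 : (2 : F) ≠ 0) (k : ℕ) :
    commutator (orth (otower F (k + 2)).Q) = siegelGroup (otower F (k + 2)).Q :=
  commutator_eq_siegelGroup (nondeg h2 _) (by rw [finrank_eq]; omega) (isGen h2 _)

/-- The Weyl element of `H ⊥ ⟨1⟩`. -/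
def weyl (F : Type u) [Field F] : siegelGroup (hypSum (sqForm F)) :=
  let a : siegelGroup (hypSum (sqForm F)) :=
    ⟨siegel (hypSum (sqForm F)) ((1, 0), 0) ((0, 0), 1) (by simp) (by simp [polar_hypSum]),
      siegel_mem_siegelGroup _ _⟩
  let b : siegelGroup (hypSum (sqForm F)) :=
    ⟨siegel (hypSum (sqForm F)) ((0, 1), 0) ((0, 0), 1) (by simp) (by simp [polar_hypSum]),
      siegel_mem_siegelGroup _ _⟩
  a * b * a

theorem weyl_apply (s t z : F) :
    ((weyl F).1 : ((F × F) × F) ≃ₗ[F] (F × F) × F) ((s, t), z) = ((-t, -s), -z) := by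
  simp [weyl, orth_mul_apply, siegel_apply, polar_hypSum, polar]
  refine ⟨⟨?_, ?_⟩, ?_⟩ <;> ring

attribute [irreducible] weyl

/-- Transitivity on singular lines in dimension three. -/
theorem trans_line {v : (F × F) × F} (hv : hypSum (sqForm F) v = 0) (hv0 : v ≠ 0) :
    ∃ (g : siegelGroup (hypSum (sqForm F))) (t : F), t ≠ 0 ∧
      (g.1 : ((F × F) × F) ≃ₗ[F] (F × F) × F) v = t • ((1, 0), 0) := by
  obtain ⟨⟨s, t⟩, z⟩ := v
  by_cases ht : t = 0
  · subst ht
    obtain rfl : z = 0 := sqForm_eq_zero (by simpa using hv)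
    have hs : s ≠ 0 := by rintro rfl; exact hv0 rfl
    exact ⟨1, s, hs, by simp⟩
  set g₁ : siegelGroup (hypSum (sqForm F)) :=
    ⟨siegel _ ((1, 0), 0) ((0, 0), -(z / t)) (by simp) (by simp [polar_hypSum]),
      siegel_mem_siegelGroup _ _⟩ with hg₁
  have e1 : (g₁.1 : ((F × F) × F) ≃ₗ[F] (F × F) × F) ((s, t), z) = ((0, t), 0) := by
    set x := (g₁.1 : ((F × F) × F) ≃ₗ[F] (F × F) × F) ((s, t), z) with hx
    have hx2 : x.1.2 = t ∧ x.2 = 0 := by
      rw [hx, hg₁]; simp [siegel_apply, polar_hypSum]; field_simp; ring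
    have hQx : hypSum (sqForm F) x = 0 := by rw [hx, orth_apply]; exact hv
    rw [hypSum_apply, hx2.1, hx2.2, QuadraticMap.map_zero, add_zero] at hQx
    exact Prod.ext (Prod.ext ((mul_eq_zero.1 hQx).resolve_right ht) hx2.1) hx2.2
  refine ⟨weyl F * g₁, -t, neg_ne_zero.2 ht, ?_⟩
  rw [Subgroup.coe_mul, orth_mul_apply, e1, weyl_apply]
  simp

theorem zeros_eq (k : ℕ) : (Nat.card {v // (otower F k).Q v = 0} : ℤ) = A F k + 1 := by
  rw [card_zeros, A]; ring

/-- Scaling the characters of the second radical. -/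
theorem finrank_scale_le {F V₁ : Type*} [Field F] [Fintype F] [AddCommGroup V₁] [Module F V₁]
    [Fintype V₁] {Q₁ : QuadraticForm F V₁} {V : Type} [AddCommGroup V] [Module ℂ V]
    [FiniteDimensional ℂ V] (hQ : Nondeg Q₁)
    (hcom : commutator (orth (hypSum (hypSum Q₁))) = siegelGroup (hypSum (hypSum Q₁)))
    (ρ : Representation ℂ (siegelGroup (hypSum (hypSum Q₁))) V) (s : Fˣ) (c : V₁) :
    finrank ℂ (eigc (sigma ρ) c) ≤
      finrank ℂ (eigc (sigma ρ) ((s : F) • c)) := by
  classical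
  have hP : IsHypPair (hypSum (hypSum Q₁))
      ((((0 : F), (0 : F)), (((1 : F), (0 : F)), (0 : V₁))),
        (((0 : F), (0 : F)), (((0 : F), (1 : F)), (0 : V₁)))) :=
    ⟨by simp, by simp, by simp [polar_hypSum]⟩
  have hX : IsHypPair (hypSum (hypSum Q₁))
      ((((1 : F), (0 : F)), (0 : (F × F) × V₁)),
        (((0 : F), (1 : F)), (0 : (F × F) × V₁))) := isHypPair_std
  have hmem := OrthTorus.tor_mul_tor_mem (hQ.hypSum.hypSum) hX hP s
  rw [hcom] at hmem
  let g : siegelGroup (hypSum (hypSum Q₁)) := ⟨_, hmem⟩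
  have hP' : IsHypPair (hypSum Q₁)
      ((((1 : F), (0 : F)), (0 : V₁)), (((0 : F), (1 : F)), (0 : V₁))) :=
    isHypPair_std
  let k : orth (hypSum Q₁) := OrthTorus.tor hP' s⁻¹
  have hk : ∀ B : (F × F) × V₁, g.1.1 ((((0 : F), (0 : F))), B) =
      ((((0 : F), (0 : F))), k.1 B) := by
    intro B
    change (OrthTorus.tor hX s * OrthTorus.tor hP s⁻¹ : orth (hypSum (hypSum Q₁))).1
      ((0, 0), B) = _
    rw [orth_mul_apply, OrthTorus.tor_apply hP]
    rw [OrthTorus.tor_of_orth hX]
    · simp [k, OrthTorus.tor_apply, polar_hypSum]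
    · simp [polar_hypSum]
    · simp [polar_hypSum]
  have hx : g.1.1 x₀ = (s : F) • x₀ := by
    change (OrthTorus.tor hX s * OrthTorus.tor hP s⁻¹ : orth (hypSum (hypSum Q₁))).1
      x₀ = _
    rw [orth_mul_apply, OrthTorus.tor_of_orth hP (z := x₀) _ (by simp [x₀, polar_hypSum])
      (by simp [x₀, polar_hypSum])]
    exact OrthTorus.tor_fst hX s
  let T : eigc (Q₀ := hypSum Q₁) ρ 0 →ₗ[ℂ] eigc (Q₀ := hypSum Q₁) ρ 0 :=
    (ρ g).restrict fun v hv => by
      have h := mem_eig_of_conj (Q₀ := hypSum Q₁) ρ g s k hx hk (c := 0) hv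
      simpa using h
  have hT : Function.Injective T := fun v w e => Subtype.ext (by
    have e' := congrArg (ρ g⁻¹) (congrArg Subtype.val e)
    change ρ g⁻¹ (ρ g v.1) = ρ g⁻¹ (ρ g w.1) at e'
    rwa [← Module.End.mul_apply, ← Module.End.mul_apply, ← map_mul, inv_mul_cancel, map_one,
      Module.End.one_apply, Module.End.one_apply] at e')
  have hconj : ∀ b, levi (hypSum Q₁) (rad b) * g =
      g * levi (hypSum Q₁) (rad ((s : F) • b)) := by
    intro b
    rw [eq_comm, ← mul_inv_eq_iff_eq_mul]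
    apply Subtype.ext
    simp only [rad, levi_apply, Subgroup.coe_mul, Subgroup.coe_inv]
    erw [OrthParabolic.hypExt_siegel, OrthParabolic.hypExt_siegel, conj_siegel]
    refine (siegel_eq (u' := ((s⁻¹ : Fˣ) : F) • ((((0 : F), (0 : F)), x₀) :
        (F × F) × ((F × F) × V₁)))
      (w' := ((0, 0), ((0, 0), (s : F) • b))) (hu' := by simp [x₀])
      (hw' := by simp [x₀, polar_hypSum]) ?_ ?_).trans ?_
    · rw [hk]; simp [k, OrthTorus.tor_apply, polar_hypSum, x₀]
    · rw [hk]; simp [k, OrthTorus.tor_apply, polar_hypSum]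
    · rw [siegel_smul (by simp [x₀]) (by simp [x₀, polar_hypSum])]
      exact siegel_eq rfl (by simp [smul_smul])
  refine LinearMap.finrank_le_finrank_of_injective (f := T.restrict fun v hv => ?_) ?_
  · intro b
    apply Subtype.ext
    change ρ (levi (hypSum Q₁) (rad b)) (ρ g v.1) = _
    rw [← Module.End.mul_apply, ← map_mul, hconj, map_mul, Module.End.mul_apply]
    have hv' : ρ (levi (hypSum Q₁) (rad ((s : F) • b))) v.1 =
        PP Q₁ c ((s : F) • b) • v.1 := congrArg Subtype.val (hv ((s : F) • b))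
    rw [hv', map_smul]
    change _ = PP Q₁ ((s : F) • c) b • ρ g v.1
    rw [PP, PP, polar_smul_left, polar_smul_right]
  · intro v w e
    exact Subtype.ext (hT (congrArg Subtype.val e))


section Levels

variable (h2 : (2 : F) ≠ 0) {V : Type} [AddCommGroup V] [Module ℂ V] [FiniteDimensional ℂ V]

include h2

/-- One level of singular characters, once. -/
theorem full_of_small {k : ℕ} {ρ : Representation ℂ (siegelGroup (hypSum (otower F (k + 2)).Q)) V}
    (hs : Small ρ) (hρ : ∃ g, ρ g ≠ 1) : Full ρ := by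
  classical
  obtain ⟨g, hg⟩ := hρ
  have hne : ∃ x, UU ρ x ≠ 1 := by
    by_contra hcon
    push Not at hcon
    exact hg (eq_one_of_rad ρ (nondeg h2 _) (by rw [finrank_eq]; omega) hcon g)
  intro c hc
  refine (hs.mult_eq (nondeg h2 _) (fun c c' a b a' b' => transitive h2 k c c' a b a' b') hne c
    hc).trans ?_
  split_ifs <;> rfl

/-- The degree of a small representation. -/
theorem finrank_full {k : ℕ} {ρ : Representation ℂ (siegelGroup (hypSum (otower F k).Q)) V}
    (hs : Full ρ) : (finrank ℂ V : ℤ) = A F k + finrank ℂ (eigc ρ 0) := by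
  classical
  have h1 := finrank_level (nondeg h2 k) (ν := (0 : F)) (ρ := ρ) (fun c hc => hs.level c hc)
  rw [if_pos rfl] at h1
  have h3 := zeros_eq (F := F) k
  omega

/-- The fixed space of the radical is non-trivial. -/
theorem sigma_nontrivial {k : ℕ}
    {ρ : Representation ℂ (siegelGroup (hypSum (otower F (k + 2)).Q)) V} (hs : Full ρ) :
    ∃ g, sigma ρ g ≠ 1 := by
  classical
  exact sigma_ne_one (Q₂ := (otower F k).Q) ρ (nondeg h2 k) (ν := 0) (fun c hc => hs.level c hc)
    fun z hz => exists_pair h2 k z hz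

/-- Fullness passes to the fixed space of the radical. -/
theorem full_sigma {k : ℕ} {ρ : Representation ℂ (siegelGroup (hypSum (otower F (k + 1)).Q)) V}
    (hs : Full ρ) : Full (Q₀ := (otower F k).Q) (sigma ρ) := by
  classical
  have hsm : Small (Q₀ := (otower F k).Q) (sigma ρ) :=
    small_sigma (Q₁ := (otower F k).Q) ρ (nondeg h2 k) hs.small
  rcases k with _ | _ | k
  · intro c hc
    exact ((hsm c hc).2 fun h => hc (sqForm_eq_zero (F := F) h)).trans
      (if_neg fun h => hc (sqForm_eq_zero (F := F) h)).symm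
  · obtain ⟨g, hg⟩ := sigma_nontrivial h2 hs
    have hne : ∃ x, UU (Q₀ := (otower F 1).Q) (sigma ρ) x ≠ 1 := by
      by_contra hcon
      push Not at hcon
      exact hg (eq_one_of_rad (Q₀ := (otower F 1).Q) (sigma ρ) (nondeg h2 1)
        (by rw [finrank_eq]) hcon g)
    obtain ⟨c₀, hc₀, w, hw, hw0⟩ := exists_eig (setup (sigma ρ) (nondeg h2 1)) hne
    have hpos : finrank ℂ (eigc (Q₀ := (otower F 1).Q) (sigma ρ) c₀) ≠ 0 := by
      intro h0
      rw [Submodule.finrank_eq_zero] at h0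
      rw [show eig (PP (otower F 1).Q) (UU (sigma ρ)) c₀ = ⊥ from h0, Submodule.mem_bot] at hw
      exact hw0 hw
    have hQ₀ : (otower F 1).Q c₀ = 0 := by
      by_contra h
      exact hpos ((hsm c₀ hc₀).2 h)
    intro c hc
    split_ifs with hQc
    swap
    · exact (hsm c hc).2 hQc
    obtain ⟨g₁, t₁, ht₁, e₁⟩ := trans_line hQ₀ hc₀
    obtain ⟨g₂, t₂, ht₂, e₂⟩ := trans_line hQc hc
    have h1 := finrank_eig_levi (Q₀ := (otower F 1).Q) (sigma ρ) g₁ c₀
    have h3 := finrank_eig_levi (Q₀ := (otower F 1).Q) (sigma ρ) g₂ c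
    have h4 := finrank_scale_le (Q₁ := (otower F 1).Q) (nondeg h2 1) (commutator_eq h2 1) ρ (Units.mk0 (t₂ / t₁) (div_ne_zero ht₂ ht₁))
      (t₁ • ((1, 0), 0) : (F × F) × (otower F 0).W)
    have e : (Units.mk0 (t₂ / t₁) (div_ne_zero ht₂ ht₁) : F) •
        (t₁ • ((1, 0), 0) : (F × F) × (otower F 0).W) = t₂ • ((1, 0), 0) := by
      rw [smul_smul, Units.val_mk0, div_mul_cancel₀ _ ht₁]
    erw [e₁] at h1
    erw [e₂] at h3
    erw [e] at h4
    have h5 := (hsm c hc).1
    erw [h1, h3] at h4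
    omega
  · exact full_of_small h2 hsm (sigma_nontrivial h2 hs)

end Levels

/-- The part of the degree outside the fixed space. -/
theorem fixed_add (h2 : (2 : F) ≠ 0) : ∀ (k : ℕ) (V : Type) [AddCommGroup V] [Module ℂ V]
    [FiniteDimensional ℂ V] (ρ : Representation ℂ (siegelGroup (hypSum (otower F k).Q)) V),
    Full ρ → (finrank ℂ (Fixed ρ (Ecat (otower F k).E)) : ℤ) + Es F k ≤ finrank ℂ V
  | 0, V, _, _, _, ρ, _ => by
    have := Submodule.finrank_le (Fixed ρ (Ecat (otower F 0).E))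
    simp only [Es]; omega
  | k + 1, V, _, _, _, ρ, hs => by
    classical
    have h1 := finrank_Fixed_le ρ (nondeg h2 (k + 1)) hs.small (otower F (k + 1)).E (E_dd h2 (k + 1))
    have h3 : (finrank ℂ (Fixed (sigma ρ) (otower F (k + 1)).E) : ℤ) + Es F k ≤
        finrank ℂ (eigc ρ 0) := fixed_add h2 k (eigc ρ 0) (sigma ρ) (full_sigma h2 hs)
    have h4 := finrank_full h2 hs
    rw [← Nat.card_eq_fintype_card, E_card] at h1
    simp only [Es]
    zify at h1
    linarith

/-- The fixed space of the radical of a maximal totally singular subspace is not trivial. -/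
theorem gs_le_fixed (h2 : (2 : F) ≠ 0) (h4 : 4 < Fintype.card F) {k : ℕ}
    {V : Type} [AddCommGroup V] [Module ℂ V] [FiniteDimensional ℂ V]
    {ρ : Representation ℂ (siegelGroup (hypSum (otower F (k + 2)).Q)) V} (hs : Full ρ) :
    LinearDegree.gs (Fintype.card F) (k + 3) ≤
      finrank ℂ (Fixed ρ (Ecat (otower F (k + 2)).E)) + 1 := by
  classical
  obtain ⟨t, ht⟩ := exists_psi_ne (one_ne_zero : (1 : F) ≠ 0)
  set c' : (otower F (k + 1)).W := (((1, 0), 0) : (F × F) × (otower F k).W) with hc'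
  have hc'0 : c' ≠ 0 := fun e =>
    one_ne_zero (congrArg (fun x : (F × F) × (otower F k).W => x.1.1) e)
  have hc'Q : (otower F (k + 1)).Q c' = 0 := x₀_singular (Q₀ := (otower F k).Q)
  have hc'E : c' ∈ (otower F (k + 1)).E := mem_Ecat.2 ⟨rfl, zero_mem _⟩
  have hsig := full_sigma h2 hs c' hc'0
  rw [if_pos hc'Q] at hsig
  haveI : Nontrivial (eigc (sigma (Q₀ := (otower F (k + 2)).Q) ρ) c') :=
    Module.nontrivial_of_finrank_pos (R := ℂ) (by rw [hsig]; exact Nat.one_pos)
  obtain ⟨v, hv0⟩ := exists_ne (0 : eigc (sigma (Q₀ := (otower F (k + 2)).Q) ρ) c')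
  have hvF : v.1.1 ∈ Fixed ρ (Ecat (otower F (k + 2)).E) :=
    OrthSmallFix.mem_Fixed_of_eig (Q₁ := (otower F (k + 1)).Q) ρ (nondeg h2 _) hc'0
      (otower F (k + 1)).E (E_sing _) hc'E (exists_core h2 _)
      (hs.small _ (fun e => hc'0 (congrArg Prod.snd e))).1 v.2
  let τ : Representation ℂ (Matrix.SpecialLinearGroup (Fin (k + 3)) F)
      (Fixed ρ (Ecat (otower F (k + 2)).E)) :=
    { toFun := fun A => (ρ (slTower F (k + 3) A)).restrict fun x hx =>
        Fixed_invariant (Q := (otower F (k + 3)).Q) ρ _ (slTower F (k + 3) A)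
          (fun y hy => slTower_E A hy) hx
      map_one' := by
        refine LinearMap.ext fun x => Subtype.ext ?_
        change ρ (slTower F (k + 3) 1) x.1 = x.1
        rw [map_one]
        exact LinearMap.congr_fun (map_one ρ) x.1
      map_mul' := fun A B => by
        refine LinearMap.ext fun x => Subtype.ext ?_
        change ρ (slTower F (k + 3) (A * B)) x.1 =
          ρ (slTower F (k + 3) A) (ρ (slTower F (k + 3) B) x.1)
        rw [map_mul]
        exact LinearMap.congr_fun (map_mul ρ _ _) x.1 }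
  refine LinearDegree.bound (by omega)
    (by rintro (⟨-, h⟩ | ⟨-, h⟩ | ⟨-, h⟩ | ⟨-, h⟩) <;> omega) τ ?_
  refine ⟨Matrix.SpecialLinearGroup.transvection
    (OrthMinusSmall.one_ne_two_fin k) (-t), fun e => ?_⟩
  have e1 := congrArg Subtype.val (LinearMap.congr_fun e ⟨v.1.1, hvF⟩)
  change ρ (slTower F (k + 3) _) v.1.1 = v.1.1 at e1
  have hu : oEquiv F (k + 3) (((0, 0), ((1, 0), 0)) : (F × F) × ((F × F) × (otower F (k + 1)).W)) =
      (Pi.single (.inl 1) 1, 0) := by
    refine (oEquiv_snd_inl (i := 0) (s := 1) ?_).trans ?_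
    · refine (oEquiv_fst (k + 1) 1 0).trans ?_
      simp
    · rfl
  have hw : oEquiv F (k + 3)
      (((0, 0), ((0, 0), ((0, t), 0))) : (F × F) × ((F × F) × ((F × F) × (otower F k).W))) =
      (Pi.single (.inr 2) (- -t), 0) := by
    refine (oEquiv_snd_inr (i := 1) (s := t) (oEquiv_snd_inr (i := 0) (s := t) ?_)).trans ?_
    · refine (oEquiv_fst k 0 t).trans ?_
      simp
    · rw [neg_neg]; rfl
  have hu0 : hypSum (hypSum (otower F (k + 1)).Q) ((0, 0), ((1, 0), 0)) = 0 := by simp
  have hw0 : polar (hypSum (hypSum (otower F (k + 1)).Q)) ((0, 0), ((1, 0), 0))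
      ((0, 0), ((0, 0), (((0, t), 0) : (otower F (k + 1)).W))) = 0 := by
    simp [polar_hypSum]
    exact polar_zero_left _ _
  have e2 := slTower_transvection (F := F)
    (OrthMinusSmall.one_ne_two_fin k) (-t) hu hw hu0 hw0
  rw [e2] at e1
  have e3 : levi (hypSum (otower F (k + 1)).Q) (rad (((0, t), 0) : (otower F (k + 1)).W)) =
      (⟨siegel _ _ _ hu0 hw0, siegel_mem_siegelGroup _ _⟩ :
        siegelGroup (hypSum (hypSum (otower F (k + 1)).Q))) :=
    Subtype.ext (OrthParabolic.hypExt_siegel x₀_singular (polar_x₀ _))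
  have e4 : ρ (levi (hypSum (otower F (k + 1)).Q) (rad (((0, t), 0) : (otower F (k + 1)).W)))
      v.1.1 = PP (otower F (k + 1)).Q c' (((0, t), 0) : (otower F (k + 1)).W) • v.1.1 :=
    congrArg Subtype.val (v.2 (((0, t), 0) : (otower F (k + 1)).W))
  rw [e3] at e4
  erw [e1] at e4
  have hP : PP (otower F (k + 1)).Q c' (((0, t), 0) : (otower F (k + 1)).W) ≠ 1 := by
    change psi F (polar (hypSum (otower F k).Q) ((0, t), 0) ((1, 0), 0)) ≠ 1
    simpa [polar_hypSum] using ht
  have h5 : (PP (otower F (k + 1)).Q c' (((0, t), 0) : (otower F (k + 1)).W) - 1) • v.1.1 = 0 := by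
    rw [sub_smul, one_smul, ← e4, sub_self]
  exact hv0 (Subtype.ext (Subtype.ext ((smul_eq_zero.1 h5).resolve_left (sub_ne_zero.2 hP))))

/-- The degree of a small representation is at most one below the bound. -/
theorem finrank_ge (h2 : (2 : F) ≠ 0) (h4 : 4 < Fintype.card F) {k : ℕ}
    {V : Type} [AddCommGroup V] [Module ℂ V] [FiniteDimensional ℂ V]
    {ρ : Representation ℂ (siegelGroup (hypSum (otower F (k + 2)).Q)) V} (hs : Full ρ) :
    S F (k + 2) - 1 ≤ finrank ℂ V := by
  have h1 := gs_le_fixed h2 h4 hs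
  have h3 := fixed_add h2 (k + 2) V ρ hs
  have h5 := Es_gs (F := F) (k + 2)
  have h6 : LinearDegree.gs (Fintype.card F) (k + 2 + 1) =
      LinearDegree.gs (Fintype.card F) (k + 3) := rfl
  omega

end CfsgLib.InvCentralizers.OrthOddSmall
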