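import Cfsg.Agent.Lib.InvCentralizers.OrthInvolution
import Cfsg.Agent.Lib.InvCentralizers.OrthOddSmall

/-!
The value of a small representation of the Siegel group of `H^k ⊥ ⟨1⟩` at `-r`, for a reflection
`r` in a vector of the discriminant value.
-/

set_option autoImplicit false
set_option linter.unusedSectionVars false
set_option linter.style.haveILetI false

namespace CfsgLib.InvCentralizers.OrthOddInvolution

open QuadraticMap Module CfsgLib.ClassicalForms
open CfsgLib.InvCentralizers.OrthParabolic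
open CfsgLib.InvCentralizers.OrthSmall
open CfsgLib.InvCentralizers.OrthOddTower
open CfsgLib.InvCentralizers.OrthOddSmall
open CfsgLib.InvCentralizers.OrthTwist
open CfsgLib.InvCentralizers.OrthInvolution
open CfsgLib.InvCentralizers.AbelianEigen

universe u

section Generic

variable {F V₁ : Type*} [Field F] [AddCommGroup V₁] [Module F V₁] (Q₁ : QuadraticForm F V₁)

/-- The vectors orthogonal to `w`. -/
def perp (w : V₁) : Submodule F V₁ where
  carrier := {v | polar Q₁ v w = 0}
  add_mem' {a b} ha hb := by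
    simp only [Set.mem_ofPred_eq] at ha hb ⊢
    rw [polar_add_left, ha, hb, add_zero]
  zero_mem' := by simp
  smul_mem' c {a} ha := by
    simp only [Set.mem_ofPred_eq] at ha ⊢
    rw [polar_smul_left, ha, smul_zero]

theorem mem_perp {w v : V₁} : v ∈ perp Q₁ w ↔ polar Q₁ v w = 0 := Iff.rfl

variable [Fintype F] [Fintype V₁]

theorem card_perp_succ (w : V₁) :
    Nat.card (perp (hypSum Q₁) ((0, 0), w)) = Fintype.card F ^ 2 * Nat.card (perp Q₁ w) := by
  let e : perp (hypSum Q₁) ((0, 0), w) ≃ (F × F) × perp Q₁ w :=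
    { toFun := fun v => (v.1.1, ⟨v.1.2, by
        have := v.2; rw [mem_perp] at this ⊢; simpa [polar_hypSum] using this⟩)
      invFun := fun v => ⟨(v.1, v.2.1), by
        have := v.2.2; rw [mem_perp] at this ⊢; simp [polar_hypSum, this]⟩
      left_inv := fun v => rfl
      right_inv := fun v => rfl }
  rw [Nat.card_congr e, Nat.card_prod, Nat.card_prod, Nat.card_eq_fintype_card (α := F), pow_two]

theorem card_sing_perp_succ (w : V₁) :
    (Nat.card {v // hypSum Q₁ v = 0 ∧ polar (hypSum Q₁) v ((0, 0), w) = 0} : ℤ) =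
      (Fintype.card F : ℤ) * Nat.card {v // Q₁ v = 0 ∧ polar Q₁ v w = 0} +
        ((Fintype.card F : ℤ) - 1) * Nat.card (perp Q₁ w) := by
  let Q' : QuadraticForm F (perp Q₁ w) := Q₁.comp (perp Q₁ w).subtype
  let e : {v // hypSum Q₁ v = 0 ∧ polar (hypSum Q₁) v ((0, 0), w) = 0} ≃
      {v : (F × F) × perp Q₁ w // hypSum Q' v = 0} :=
    { toFun := fun v => ⟨(v.1.1, ⟨v.1.2, by
        have := v.2.2; rw [mem_perp]; simpa [polar_hypSum] using this⟩),
          by simpa [Q'] using v.2.1⟩
      invFun := fun v => ⟨(v.1.1, v.1.2.1), by simpa [Q'] using v.2, by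
        have := v.1.2.2; rw [mem_perp] at this; simp [polar_hypSum, this]⟩
      left_inv := fun v => rfl
      right_inv := fun v => rfl }
  let e' : {v : perp Q₁ w // Q' v = 0} ≃ {v // Q₁ v = 0 ∧ polar Q₁ v w = 0} :=
    { toFun := fun v => ⟨v.1.1, by simpa [Q'] using v.2, v.1.2⟩
      invFun := fun v => ⟨⟨v.1, v.2.2⟩, by simpa [Q'] using v.2.1⟩
      left_inv := fun v => rfl
      right_inv := fun v => rfl }
  rw [Nat.card_congr e, card_values_hypSum, Nat.card_congr e',
    Nat.card_eq_fintype_card (α := F)]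
  push_cast [Nat.cast_sub (Fintype.card_pos (α := F))]
  ring

end Generic

variable {F : Type u} [Field F] [Fintype F]

local notation "q" => (Fintype.card F : ℤ)

variable (F) in
/-- The non-singular vector of value `u` at the bottom. -/
noncomputable def wv (u : F) : ∀ i, (otower F (i + 1)).W
  | 0 => (((1 : F), u), (0 : (otower F 0).W))
  | i + 1 => (((0 : F), (0 : F)), wv u i)

theorem wv_value (u : F) : ∀ i, (otower F (i + 1)).Q (wv F u i) = u
  | 0 => by
    change hypSum (otower F 0).Q ((1, u), 0) = u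
    simp
  | i + 1 => by
    change hypSum (otower F (i + 1)).Q ((0, 0), wv F u i) = u
    simp [wv_value u i]

variable {u : F}

/-- The reflection. -/
noncomputable def RR (hu : u ≠ 0) (i : ℕ) : orth (otower F (i + 1)).Q :=
  refl (otower F (i + 1)).Q (wv F u i) (by rw [wv_value]; exact hu)

theorem RR_splits (hu : u ≠ 0) (i : ℕ) :
    Splits (Q₀ := (otower F (i + 1)).Q) (1 : F) (RR hu (i + 1)) (RR hu i) := by
  refine ⟨one_mul 1, fun p b => ?_⟩
  have e : hypExt (otower F (i + 1)).Q (RR hu i) = RR hu (i + 1) := hypExt_refl _ _ _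
  rw [← e]
  refine (hypExt_apply _ _).trans ?_
  rw [one_smul]

theorem card_perp_base (u : F) :
    Nat.card (perp (hypSum (sqForm F)) (((1, u), 0) : (F × F) × F)) = Fintype.card F ^ 2 := by
  let e : perp (hypSum (sqForm F)) (((1, u), 0) : (F × F) × F) ≃ F × F :=
    { toFun := fun v => (v.1.1.1, v.1.2)
      invFun := fun v => ⟨((v.1, -(v.1 * u)), v.2), by
        rw [mem_perp]; simp [polar_hypSum]⟩
      left_inv := fun v => by
        obtain ⟨⟨⟨s, t⟩, z⟩, hv⟩ := v
        rw [mem_perp] at hv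
        simp [polar_hypSum] at hv
        refine Subtype.ext (Prod.ext (Prod.ext rfl ?_) rfl)
        change -(s * u) = t
        linear_combination -hv
      right_inv := fun v => rfl }
  rw [Nat.card_congr e, Nat.card_prod, Nat.card_eq_fintype_card (α := F), pow_two]

theorem card_perp (u : F) : ∀ i,
    Nat.card (perp (otower F (i + 1)).Q (wv F u i)) = Fintype.card F ^ (2 * i + 2)
  | 0 => card_perp_base u
  | i + 1 => by
    change Nat.card (perp (hypSum (otower F (i + 1)).Q) ((0, 0), wv F u i)) = _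
    rw [card_perp_succ, card_perp u i]
    ring

open scoped Classical in
theorem theta_mul_sq {s : F} (hs : s ≠ 0) : theta (u * (s * s)) = theta u := by
  refine if_congr ⟨fun h => ?_, fun h => h.mul ⟨s, rfl⟩⟩ rfl rfl
  obtain ⟨r, hr⟩ := h
  exact ⟨r / s, by field_simp; linear_combination hr⟩

theorem card_base_fibre (h2 : (2 : F) ≠ 0) (hu : u ≠ 0) (s : F) [Decidable (s = 0)] :
    (Nat.card {z : F // sqForm F z = u * (s * s)} : ℤ) = if s = 0 then 1 else 1 + theta u := by
  split_ifs with hs
  · subst hs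
    rw [Nat.cast_eq_one, Nat.card_eq_one_iff_unique]
    exact ⟨⟨fun x y => Subtype.ext ((sqForm_eq_zero (by rw [x.2]; ring)).trans
      (sqForm_eq_zero (F := F) (x := y.1) (by rw [y.2]; ring)).symm)⟩, ⟨⟨0, by simp⟩⟩⟩
  · rw [card_sqForm h2 (mul_ne_zero hu (mul_ne_zero hs hs)), theta_mul_sq hs]

theorem card_sing_perp_base (h2 : (2 : F) ≠ 0) (hu : u ≠ 0) :
    (Nat.card {v : (F × F) × F // hypSum (sqForm F) v = 0 ∧
      polar (hypSum (sqForm F)) v ((1, u), 0) = 0} : ℤ) =
      q ^ (2 * 0 + 1) + theta u * (q ^ (0 + 1) - q ^ 0) := by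
  classical
  let e : {v : (F × F) × F // hypSum (sqForm F) v = 0 ∧ polar (hypSum (sqForm F)) v ((1, u), 0) = 0} ≃
      Σ s : F, {z : F // sqForm F z = u * (s * s)} :=
    { toFun := fun v => ⟨v.1.1.1, ⟨v.1.2, by
        obtain ⟨⟨⟨s, t⟩, z⟩, hv, hw⟩ := v
        change hypSum (sqForm F) ((s, t), z) = 0 at hv
        change polar (hypSum (sqForm F)) ((s, t), z) ((1, u), 0) = 0 at hw
        simp [polar_hypSum] at hv hw
        simp only [sqForm_apply]
        linear_combination hv - s * hw⟩⟩
      invFun := fun v => ⟨(((v.1, -(v.1 * u)) : F × F), (v.2.1 : F)), by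
        change hypSum (sqForm F) ((v.1, -(v.1 * u)), v.2.1) = 0
        have h := v.2.2
        simp [sqForm_apply] at h ⊢
        linear_combination h, by
        change polar (hypSum (sqForm F)) ((v.1, -(v.1 * u)), v.2.1) ((1, u), 0) = 0
        simp [polar_hypSum]⟩
      left_inv := fun v => by
        obtain ⟨⟨⟨s, t⟩, z⟩, hv, hw⟩ := v
        change polar (hypSum (sqForm F)) ((s, t), z) ((1, u), 0) = 0 at hw
        simp [polar_hypSum] at hw
        refine Subtype.ext (Prod.ext (Prod.ext rfl ?_) rfl)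
        change -(s * u) = t
        linear_combination -hw
      right_inv := fun v => rfl }
  rw [Nat.card_congr e, Nat.card_sigma, Nat.cast_sum,
    Finset.sum_congr rfl fun s _ => card_base_fibre h2 hu s,
    ← Finset.add_sum_erase _ _ (Finset.mem_univ (0 : F)), if_pos rfl,
    Finset.sum_congr rfl fun s hs => if_neg (Finset.mem_erase.1 hs).1, Finset.sum_const,
    Finset.card_erase_of_mem (Finset.mem_univ _), Finset.card_univ, nsmul_eq_mul]
  push_cast [Nat.cast_sub (Fintype.card_pos (α := F))]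
  ring

/-- The number of singular vectors orthogonal to the bottom vector. -/
theorem card_sing_perp (h2 : (2 : F) ≠ 0) (hu : u ≠ 0) : ∀ i,
    (Nat.card {v // (otower F (i + 1)).Q v = 0 ∧
      polar (otower F (i + 1)).Q v (wv F u i) = 0} : ℤ) =
      q ^ (2 * i + 1) + theta u * (q ^ (i + 1) - q ^ i)
  | 0 => card_sing_perp_base h2 hu
  | i + 1 => by
    change (Nat.card {v // hypSum (otower F (i + 1)).Q v = 0 ∧
      polar (hypSum (otower F (i + 1)).Q) v ((0, 0), wv F u i) = 0} : ℤ) = _
    rw [card_sing_perp_succ, card_sing_perp h2 hu i, card_perp]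
    push_cast
    ring

/-- Every value occurs on the vectors orthogonal to the bottom vector. -/
theorem perp_universal (h2 : (2 : F) ≠ 0) (hu : u ≠ 0) : ∀ (i : ℕ) (c : F),
    ∃ z, polar (otower F (i + 1)).Q z (wv F u i) = 0 ∧ (otower F (i + 1)).Q z = c
  | 0, c => by
    have hodd : Fintype.card F % 2 = 1 := FiniteField.odd_card_of_char_ne_two fun h => h2 (by
      have := (CharP.cast_eq_zero F (ringChar F))
      rw [h] at this
      exact_mod_cast this)
    obtain ⟨z, s, hzs⟩ := FiniteField.exists_root_sum_quadratic (R := F)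
      (f := Polynomial.X ^ 2 - Polynomial.C c) (g := Polynomial.C (-u) * Polynomial.X ^ 2)
      (Polynomial.degree_X_pow_sub_C (by norm_num) _)
      (Polynomial.degree_C_mul_X_pow 2 (neg_ne_zero.2 hu)) hodd
    refine ⟨(((s, -(s * u)) : F × F), (z : F)), ?_, ?_⟩
    · change polar (hypSum (sqForm F)) ((s, -(s * u)), z) ((1, u), 0) = 0
      simp [polar_hypSum]
    · change hypSum (sqForm F) ((s, -(s * u)), z) = c
      simp at hzs ⊢
      linear_combination hzs
  | i + 1, c => by
    refine ⟨((1, c), 0), ?_, ?_⟩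
    · change polar (hypSum (otower F (i + 1)).Q) ((1, c), 0) ((0, 0), wv F u i) = 0
      simp [polar_hypSum]
    · change hypSum (otower F (i + 1)).Q ((1, c), 0) = c
      simp

section Membership

theorem negOne_sqForm (h2 : (2 : F) ≠ 0) :
    negOne (sqForm F) = refl (sqForm F) 1 (by simp) := by
  refine orth_ext fun x => ?_
  simp [refl_apply, negOne_apply, polar]
  ring

theorem negOne_hypSum' (h2 : (2 : F) ≠ 0) {V₁ : Type*} [AddCommGroup V₁] [Module F V₁]
    (Q₁ : QuadraticForm F V₁) {e : F} (he : e = 1 ∨ e = -1) :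
    negOne (hypSum Q₁) =
      refl (hypSum Q₁) ((1, -e), 0) (by rcases he with rfl | rfl <;> simp) *
        refl (hypSum Q₁) ((1, e), 0) (by rcases he with rfl | rfl <;> simp) *
        hypExt Q₁ (negOne Q₁) := by
  rcases he with rfl | rfl
  · rw [negOne_hypSum h2, refl_comm _ _ (by simp [polar_hypSum])]
  · rw [negOne_hypSum h2]
    congr 2
    exact refl_congr (by simp) _

theorem neg_refl_mem_base (h2 : (2 : F) ≠ 0) (x : (F × F) × ((F × F) × F))
    (hx : hypSum (hypSum (sqForm F)) x ≠ 0)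
    (hval : hypSum (hypSum (sqForm F)) x = (-1) ^ (0 + 2)) :
    negOne (hypSum (hypSum (sqForm F))) * refl _ x hx ∈
      siegelGroup (hypSum (hypSum (sqForm F))) := by
  have hQ : Nondeg (hypSum (hypSum (sqForm F))) := (nondeg_sqForm h2).hypSum.hypSum
  have hn : 5 ≤ finrank F ((F × F) × ((F × F) × F)) := by simp [finrank_prod]
  let a : (F × F) × ((F × F) × F) := ((1, 1), 0)
  have ha : hypSum (hypSum (sqForm F)) a ≠ 0 := by simp [a]
  refine neg_refl_mem_of hQ hn ha hx ⟨1, by rw [hval]; simp [a]⟩ ?_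
  have e : negOne (hypSum (hypSum (sqForm F))) * refl _ a ha =
      (refl (hypSum (hypSum (sqForm F))) ((1, -1), 0) (by simp) *
        refl (hypSum (hypSum (sqForm F))) ((0, 0), ((1, -1), 0)) (by simp)) *
      (refl (hypSum (hypSum (sqForm F))) ((0, 0), ((1, 1), 0)) (by simp) *
        refl (hypSum (hypSum (sqForm F))) ((0, 0), ((0, 0), 1)) (by simp)) := by
    have e2 : negOne (hypSum (sqForm F)) =
        refl (hypSum (sqForm F)) ((1, -1), 0) (by simp) *
          refl (hypSum (sqForm F)) ((1, 1), 0) (by simp) *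
            hypExt (sqForm F) (refl (sqForm F) 1 (by simp)) := by
      rw [negOne_hypSum h2, negOne_sqForm h2, refl_comm _ _ (by simp [polar_hypSum])]
    rw [negOne_comm, negOne_hypSum h2, e2, map_mul, map_mul, hypExt_refl, hypExt_refl, hypExt_refl,
      hypExt_refl, ← mul_assoc (refl _ a ha), ← mul_assoc (refl _ a ha)]
    change refl _ a ha * refl _ a ha * _ * _ = _
    rw [refl_mul_self, one_mul]
    simp only [mul_assoc, Prod.mk_zero_zero]
  rw [e]
  refine mul_mem ?_ ?_
  · rw [← refl_inv ((0, 0), ((1, -1), 0))]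
    exact refl_div_mem_siegelGroup hQ hn _ _ ⟨1, by simp⟩
  · rw [← refl_inv ((0, 0), ((0, 0), 1))]
    exact refl_div_mem_siegelGroup hQ hn _ _ ⟨1, by simp⟩

/-- The involutions lie in the Siegel group. -/
theorem neg_refl_mem (h2 : (2 : F) ≠ 0) : ∀ (j : ℕ) (x : (otower F (j + 2)).W)
    (hx : (otower F (j + 2)).Q x ≠ 0), (otower F (j + 2)).Q x = (-1) ^ (j + 2) →
      negOne (otower F (j + 2)).Q * refl _ x hx ∈ siegelGroup (otower F (j + 2)).Q := by
  intro j
  induction j with
  | zero => exact neg_refl_mem_base h2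
  | succ j ih =>
    intro x hx hval
    have hQ := nondeg h2 (j + 3)
    have hn : 5 ≤ finrank F (otower F (j + 3)).W := by rw [finrank_eq]; omega
    set Q₁ := (otower F (j + 2)).Q with hQ₁
    change ((F × F) × (otower F (j + 2)).W) at x
    change hypSum Q₁ x ≠ 0 at hx
    change hypSum Q₁ x = _ at hval
    change negOne (hypSum Q₁) * refl (hypSum Q₁) x hx ∈ siegelGroup (hypSum Q₁)
    change Nondeg (hypSum Q₁) at hQ
    change 5 ≤ finrank F ((F × F) × (otower F (j + 2)).W) at hn
    set e : F := (-1) ^ (j + 2) with he'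
    have he : e = 1 ∨ e = -1 := neg_one_pow_eq_or F _
    have he0 : e ≠ 0 := by rcases he with h | h <;> simp [h]
    have hval' : hypSum Q₁ x = -e := by rw [hval, he', pow_succ]; ring
    let a : (otower F (j + 2)).W := (((1 : F), e), (0 : (otower F (j + 1)).W))
    have hQa : Q₁ a = e := by
      change hypSum (otower F (j + 1)).Q ((1, e), 0) = e
      simp
    have ha : Q₁ a ≠ 0 := by rw [hQa]; exact he0
    have hm := ih a ha hQa
    let b : (F × F) × (otower F (j + 2)).W := ((1, -e), 0)
    have hb : hypSum Q₁ b ≠ 0 := by simp [b, he0]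
    refine neg_refl_mem_of hQ hn hb hx ⟨1, by rw [hval']; simp [b, he0]⟩ ?_
    have e1 : negOne (hypSum Q₁) * refl (hypSum Q₁) b hb =
        refl (hypSum Q₁) ((1, e), 0) (by simp [he0]) * hypExt Q₁ (refl Q₁ a ha) *
          hypExt Q₁ (negOne Q₁ * refl Q₁ a ha) := by
      calc negOne (hypSum Q₁) * refl (hypSum Q₁) b hb
          = refl (hypSum Q₁) b hb * negOne (hypSum Q₁) := negOne_comm _
        _ = refl (hypSum Q₁) b hb * refl (hypSum Q₁) b hb *
              refl (hypSum Q₁) ((1, e), 0) (by simp [he0]) * hypExt Q₁ (negOne Q₁) := by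
            rw [negOne_hypSum' h2 Q₁ he]
            simp only [b, mul_assoc]
        _ = _ := by
            rw [refl_mul_self, one_mul, negOne_comm, mul_assoc, ← map_mul (hypExt Q₁),
              ← mul_assoc (refl Q₁ a ha), refl_mul_self, one_mul (negOne Q₁)]
    rw [e1]
    refine mul_mem ?_ (hypExt_mem hm)
    rw [hypExt_refl, ← refl_inv (((0 : F × F)), a)]
    exact refl_div_mem_siegelGroup hQ hn _ _ ⟨1, by simp [hQa, he0]⟩

end Membership

section Trace

variable (h2 : (2 : F) ≠ 0) (hu : u ≠ 0)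

include h2 hu

open scoped Classical in
/-- The sum over the characters fixed at one level. -/
theorem sum_fixed {i : ℕ} {V : Type} [AddCommGroup V] [Module ℂ V] [FiniteDimensional ℂ V]
    {ρ : Representation ℂ (siegelGroup (hypSum (otower F (i + 1)).Q)) V} {Φ : Module.End ℂ V}
    (hs : Full ρ) {lam : ℤ}
    (hmu : ∀ c, c ≠ 0 → (otower F (i + 1)).Q c = 0 →
      polar (otower F (i + 1)).Q c (wv F u i) = 0 →
      mu (PP (otower F (i + 1)).Q) (UU ρ) Φ c = (lam : ℂ)) :
    ∑ c ∈ Finset.univ.filter (fun c => c ≠ 0 ∧ (1 : F) • (RR hu i).1 c = c),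
        mu (PP (otower F (i + 1)).Q) (UU ρ) Φ c =
      ((lam * (q ^ (2 * i + 1) + theta u * (q ^ (i + 1) - q ^ i) - 1) : ℤ) : ℂ) := by
  set T := (Finset.univ.filter fun c : (otower F (i + 1)).W =>
    (otower F (i + 1)).Q c = 0 ∧ polar (otower F (i + 1)).Q c (wv F u i) = 0).erase 0 with hT
  have hfix : ∀ c, ((1 : F) • (RR hu i).1 c = c) ↔
      polar (otower F (i + 1)).Q c (wv F u i) = 0 := fun c => by
    rw [one_smul]; exact refl_fix_iff _ c
  rw [← Finset.sum_subset (s₁ := T)]
  · rw [Finset.sum_congr rfl (g := fun _ => (lam : ℂ)) fun c hc => ?_, Finset.sum_const,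
      nsmul_eq_mul]
    · have h1 := card_sing_perp h2 hu i
      rw [Nat.card_eq_fintype_card, Fintype.card_subtype] at h1
      rw [hT, Finset.card_erase_of_mem (by simp)]
      have h3 : 1 ≤ (Finset.univ.filter fun c : (otower F (i + 1)).W =>
          (otower F (i + 1)).Q c = 0 ∧ polar (otower F (i + 1)).Q c (wv F u i) = 0).card :=
        Finset.card_pos.2 ⟨0, by simp⟩
      rw [← h1]
      push_cast [Nat.cast_sub h3]
      ring
    · obtain ⟨hc0, hc'⟩ := Finset.mem_erase.1 hc
      obtain ⟨-, hQc, hp⟩ := Finset.mem_filter.1 hc'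
      exact hmu c hc0 hQc hp
  · intro c hc
    obtain ⟨hc0, hc'⟩ := Finset.mem_erase.1 hc
    exact Finset.mem_filter.2 ⟨Finset.mem_univ _, hc0, (hfix c).2 (Finset.mem_filter.1 hc').2.2⟩
  · intro c hc hnot
    obtain ⟨-, hc0, hcf⟩ := Finset.mem_filter.1 hc
    refine mu_eq_zero (setup ρ (nondeg h2 _)) Φ ?_
    rw [hs c hc0, if_neg]
    exact fun hQ => hnot (Finset.mem_erase.2
      ⟨hc0, Finset.mem_filter.2 ⟨Finset.mem_univ _, hQ, (hfix c).1 hcf⟩⟩)

set_option maxHeartbeats 800000 in
/-- The recursion for the trace. -/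
theorem trace_rec : ∀ (i : ℕ) (V : Type) [AddCommGroup V] [Module ℂ V] [FiniteDimensional ℂ V]
    (ρ : Representation ℂ (siegelGroup (hypSum (otower F (i + 1)).Q)) V) (Φ : Module.End ℂ V),
    Twist (conjS (RR hu (i + 1))) ρ Φ → Φ * Φ = 1 → Full ρ → ∀ lam : ℤ,
    (∀ c, c ≠ 0 → (otower F (i + 1)).Q c = 0 →
      polar (otower F (i + 1)).Q c (wv F u i) = 0 →
      mu (PP (otower F (i + 1)).Q) (UU ρ) Φ c = (lam : ℂ)) →
    ∃ m : ℤ, LinearMap.trace ℂ V Φ =
        ((lam * (q * S F i + theta u * (q ^ (i + 1) - 1) - (i + 1)) + m : ℤ) : ℂ) ∧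
      |m| ≤ (finrank ℂ V : ℤ) - (S F (i + 1) - (i + 2))
  | 0, V, _, _, _, ρ, Φ, hT, hsq, hs, lam, hmu => by
    classical
    have hR := RR_splits hu 0
    obtain ⟨r, hr, htr⟩ := trace_involution (res_sq hT hR hsq)
    have hN := finrank_full h2 hs
    refine ⟨2 * (r : ℤ) - finrank ℂ (eigc (Q₀ := (otower F 1).Q) ρ 0), ?_, ?_⟩
    · rw [trace_eq (nondeg h2 1) hT hR, htr, sum_fixed h2 hu hs hmu]
      simp only [S]
      push_cast
      ring
    · simp only [S, A] at hN ⊢
      rw [abs_le]
      constructor <;> push_cast at * <;> omega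
  | i + 1, V, _, _, _, ρ, Φ, hT, hsq, hs, lam, hmu => by
    classical
    have hR := RR_splits hu (i + 1)
    have hN := finrank_full h2 hs
    have hQ := nondeg h2 (i + 1)
    have hmu' : ∀ c, c ≠ 0 → (otower F (i + 1)).Q c = 0 →
        polar (otower F (i + 1)).Q c (wv F u i) = 0 →
        mu (PP (otower F (i + 1)).Q) (UU (sigma ρ)) (res hT hR) c = (lam : ℂ) := by
      intro c hc hQc hp
      have h1 := full_sigma h2 hs c hc
      rw [if_pos hQc] at h1
      obtain ⟨v, hv0, -⟩ := finrank_eq_one_iff'.1 h1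
      have hfix : (1 : F) • (RR hu (i + 1)).1 (((0, 0), c) : (otower F (i + 2)).W) =
          (((0, 0), c) : (otower F (i + 2)).W) := by
        rw [one_smul]
        refine (refl_fix_iff _ _).2 ?_
        change polar (hypSum (otower F (i + 1)).Q) ((0, 0), c) ((0, 0), wv F u i) = 0
        simp [polar_hypSum, hp]
      have hcomm : Φ * ρ (swapEl (otower F (i + 1)).Q)⁻¹ =
          ρ (swapEl (otower F (i + 1)).Q)⁻¹ * Φ := by
        refine (hT _).trans ?_
        congr 2
        apply Subtype.ext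
        change RR hu (i + 2) * _ * (RR hu (i + 2))⁻¹ = _
        refine refl_comm_of_fix _ ?_
        refine (swapEl_inv_apply (Q₁ := (otower F (i + 1)).Q) (0 : F) 0 0 0 (wv F u i)).trans ?_
        simp only [neg_zero]
        rfl
      have e := apply_eq_mu (setup (sigma ρ) hQ) h1 (g := res hT hR) (fun w hw => by
        have := (twist_res hT hR).mem_eig (RR_splits hu i) hw
        rwa [show (1 : F) • (RR hu i).1 c = c by
          rw [one_smul]; exact (refl_fix_iff _ _).2 hp] at this) v.2
      have e' : Φ v.1.1 = mu (PP (otower F (i + 1)).Q) (UU (sigma ρ)) (res hT hR) c • v.1.1 :=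
        congrArg Subtype.val e
      rw [mu_transfer (Q₁ := (otower F (i + 1)).Q) hQ hs.small hT hR hcomm hc hfix v.2
        (fun e0 => hv0 (Subtype.ext e0)) e']
      exact hmu _ (fun e0 => hc (congrArg Prod.snd e0))
        (by change hypSum (otower F (i + 1)).Q ((0, 0), c) = 0; simp [hQc])
        (by
          change polar (hypSum (otower F (i + 1)).Q) ((0, 0), c) ((0, 0), wv F u i) = 0
          simp [polar_hypSum, hp])
    obtain ⟨m, hm, hbd⟩ := trace_rec i (eigc (Q₀ := (otower F (i + 2)).Q) ρ 0) (sigma ρ)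
      (res hT hR) (twist_res hT hR) (res_sq hT hR hsq) (full_sigma h2 hs) lam hmu'
    refine ⟨m, ?_, ?_⟩
    · rw [trace_eq (nondeg h2 (i + 2)) hT hR, hm, sum_fixed h2 hu hs hmu]
      rw [show S F (i + 1) = A F (i + 1) + S F i + 1 from rfl, A]
      push_cast
      ring
    · rw [show S F (i + 1 + 1) = A F (i + 1 + 1) + S F (i + 1) + 1 from rfl]
      push_cast
      linarith

set_option maxHeartbeats 1600000 in
/-- The stabiliser of the vector makes the scalars equal. -/
theorem mu_const {i : ℕ} {V : Type} [AddCommGroup V] [Module ℂ V] [FiniteDimensional ℂ V]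
    {ρ : Representation ℂ (siegelGroup (hypSum (otower F (i + 2)).Q)) V} {Φ : Module.End ℂ V}
    (hT : Twist (conjS (RR hu (i + 2))) ρ Φ) (hs : Full ρ) {c : (otower F (i + 2)).W} (hc : c ≠ 0)
    (hQc : (otower F (i + 2)).Q c = 0)
    (hp : polar (otower F (i + 2)).Q c (wv F u (i + 1)) = 0) :
    mu (PP (otower F (i + 2)).Q) (UU ρ) Φ c =
      mu (PP (otower F (i + 2)).Q) (UU ρ) Φ (x₀ : (F × F) × (otower F (i + 1)).W) := by
  classical
  have hQ := nondeg h2 (i + 2)
  have hR := RR_splits hu (i + 1)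
  obtain ⟨g, hgw, hgc⟩ := trans_perp h2 (nondeg h2 (i + 1))
    (w := wv F u i) (by rw [wv_value]; exact hu) (fun a _ => perp_universal h2 hu i a) hQc hc hp
  set g' : siegelGroup (otower F (i + 2)).Q := g with hg'
  have hgc' : (g'.1 : (otower F (i + 2)).W ≃ₗ[F] (otower F (i + 2)).W) c =
      (x₀ : (F × F) × (otower F (i + 1)).W) := hgc
  have hcomm : Φ * ρ (levi (otower F (i + 2)).Q g') =
      ρ (levi (otower F (i + 2)).Q g') * Φ := by
    refine (hT _).trans ?_
    refine congrArg (fun x => ρ x * Φ) ((conjS_levi hR g').trans ?_)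
    congr 1
    exact Subtype.ext (refl_comm_of_fix _ hgw)
  have h1 := hs c hc
  rw [if_pos hQc] at h1
  obtain ⟨v, hv0, -⟩ := finrank_eq_one_iff'.1 h1
  have hfix : ∀ d, polar (otower F (i + 2)).Q d (wv F u (i + 1)) = 0 →
      ∀ w ∈ eigc ρ d, Φ w ∈ eigc ρ d := by
    intro d hd w hw
    have := hT.mem_eig hR hw
    rwa [show (1 : F) • (RR hu (i + 1)).1 d = d by
      rw [one_smul]; exact (refl_fix_iff _ _).2 hd] at this
  have hpx : polar (otower F (i + 2)).Q (x₀ : (F × F) × (otower F (i + 1)).W) (wv F u (i + 1)) = 0 := by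
    change polar (hypSum (otower F (i + 1)).Q) x₀ ((0, 0), wv F u i) = 0
    simp [x₀, polar_hypSum]
  have hgv := levi_mem ρ g' v.2
  rw [hgc'] at hgv
  have hx1 : finrank ℂ (eigc ρ (x₀ : (F × F) × (otower F (i + 1)).W)) = 1 := by
    refine (hs _ fun e => one_ne_zero
      (congrArg (fun x : (F × F) × (otower F (i + 1)).W => x.1.1) e)).trans (if_pos ?_)
    exact x₀_singular
  have e1 := apply_eq_mu (setup ρ hQ) h1 (hfix c hp) v.2
  have e3 := apply_eq_mu (setup ρ hQ) hx1 (hfix _ hpx) hgv
  have e4 : Φ (ρ (levi (otower F (i + 2)).Q g') v.1) =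
      mu (PP (otower F (i + 2)).Q) (UU ρ) Φ c • ρ (levi (otower F (i + 2)).Q g') v.1 := by
    have := LinearMap.congr_fun hcomm v.1
    rw [Module.End.mul_apply, Module.End.mul_apply, e1, map_smul] at this
    exact this
  rw [e3] at e4
  by_contra hne
  have e5 : (mu (PP (otower F (i + 2)).Q) (UU ρ) Φ c -
      mu (PP (otower F (i + 2)).Q) (UU ρ) Φ (x₀ : (F × F) × (otower F (i + 1)).W)) •
      ρ (levi (otower F (i + 2)).Q g') v.1 = 0 := by rw [sub_smul, e4, sub_self]
  have e6 := congrArg (ρ (levi (otower F (i + 2)).Q g')⁻¹)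
    ((smul_eq_zero.1 e5).resolve_left (sub_ne_zero.2 hne))
  rw [← Module.End.mul_apply, ← map_mul, inv_mul_cancel, map_one, Module.End.one_apply,
    map_zero] at e6
  exact hv0 (Subtype.ext e6)

end Trace

end CfsgLib.InvCentralizers.OrthOddInvolution
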