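import Cfsg.Agent.Lib.InvCentralizers.OrthOddInvolution

/-!
The exceptional candidate in dimension seven: traces of three commuting involutions on the fixed
space of the radical of a maximal totally singular subspace.
-/

set_option autoImplicit false
set_option linter.unusedSectionVars false
set_option linter.style.haveILetI false

namespace CfsgLib.InvCentralizers.OrthOddThree

open QuadraticMap Module CfsgLib.ClassicalForms
open CfsgLib.InvCentralizers.OrthParabolic
open CfsgLib.InvCentralizers.OrthSmall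
open CfsgLib.InvCentralizers.OrthOddTower
open CfsgLib.InvCentralizers.OrthOddSmall
open CfsgLib.InvCentralizers.OrthTwist
open CfsgLib.InvCentralizers.OrthInvolution
open CfsgLib.InvCentralizers.AbelianEigen

variable {F : Type*} [Field F]

local notation "W₁" => ((F × F) × F)
local notation "W₂" => ((F × F) × ((F × F) × F))
local notation "W₃" => ((F × F) × ((F × F) × ((F × F) × F)))
local notation "T₁" => hypSum (sqForm F)
local notation "T₂" => hypSum (hypSum (sqForm F))
local notation "T₃" => hypSum (hypSum (hypSum (sqForm F)))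

section Signs

variable {V₀ : Type*} [AddCommGroup V₀] [Module F V₀]

/-- Minus one on the first plane. -/
def pairNeg (Q₀ : QuadraticForm F V₀) : orth (hypSum Q₀) :=
  ⟨(LinearEquiv.neg F (M := F × F)).prodCongr (LinearEquiv.refl F V₀), fun v => by simp⟩

theorem pairNeg_apply (Q₀ : QuadraticForm F V₀) (p : F × F) (b : V₀) :
    (pairNeg Q₀).1 (p, b) = (-p, b) := rfl

theorem pairNeg_splits (Q₀ : QuadraticForm F V₀) :
    Splits (-1 : F) (pairNeg Q₀) (1 : orth Q₀) :=
  ⟨by norm_num, fun p b => by rw [pairNeg_apply, neg_one_smul]; rfl⟩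

theorem hypExt_splits (Q₀ : QuadraticForm F V₀) (R : orth Q₀) :
    Splits (1 : F) (hypExt Q₀ R) R :=
  ⟨one_mul 1, fun p b => by rw [hypExt_apply, one_smul]⟩

theorem eq_zero_of_neg (h2 : (2 : F) ≠ 0) {x : V₀} (h : -x = x) : x = 0 := by
  have h' : (2 : F) • x = 0 := by
    rw [two_smul]
    nth_rw 1 [← h]
    exact neg_add_cancel x
  exact (smul_eq_zero.1 h').resolve_left h2

end Signs

/-- Minus one on the first two planes. -/
def t12 (F : Type*) [Field F] : siegelGroup (hypSum (hypSum (hypSum (sqForm F)))) :=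
  swapEl (hypSum (sqForm F)) * swapEl (hypSum (sqForm F))

/-- Minus one on the last two planes of dimension five. -/
def x23 (F : Type*) [Field F] : siegelGroup (hypSum (hypSum (sqForm F))) :=
  swapEl (sqForm F) * swapEl (sqForm F)

/-- Minus one on the last two planes. -/
def t23 (F : Type*) [Field F] : siegelGroup (hypSum (hypSum (hypSum (sqForm F)))) :=
  levi _ (x23 F)

/-- Minus one on the first and the last plane. -/
def t13 (F : Type*) [Field F] : siegelGroup (hypSum (hypSum (hypSum (sqForm F)))) :=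
  (swapEl (hypSum (sqForm F)))⁻¹ * t23 F * swapEl (hypSum (sqForm F))

variable [Fintype F]

theorem t12_apply (p p' : F × F) (c : W₁) :
    (t12 F).1.1 ((p, (p', c)) : W₃) = ((-p, (-p', c)) : W₃) := by
  obtain ⟨s, t⟩ := p
  obtain ⟨s', t'⟩ := p'
  simp [t12, orth_mul_apply, swapEl_apply]

theorem x23_apply (p p' : F × F) (z : F) :
    (x23 F).1.1 ((p, (p', z)) : W₂) = ((-p, (-p', z)) : W₂) := by
  obtain ⟨s, t⟩ := p
  obtain ⟨s', t'⟩ := p'
  simp [x23, orth_mul_apply, swapEl_apply]

theorem t23_apply (p p' p'' : F × F) (z : F) :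
    (t23 F).1.1 ((p, (p', (p'', z))) : W₃) = ((p, (-p', (-p'', z))) : W₃) := by
  rw [t23, levi_apply, hypExt_apply, x23_apply]

theorem t13_apply (p p' p'' : F × F) (z : F) :
    (t13 F).1.1 ((p, (p', (p'', z))) : W₃) = ((-p, (p', (-p'', z))) : W₃) := by
  obtain ⟨s, t⟩ := p
  obtain ⟨s', t'⟩ := p'
  change (((swapEl (hypSum (sqForm F)))⁻¹).1 : W₃ ≃ₗ[F] W₃)
    ((t23 F).1.1 (((swapEl (hypSum (sqForm F))).1 : W₃ ≃ₗ[F] W₃) ((s, t), ((s', t'), (p'', z))))) = _
  rw [swapEl_apply, t23_apply, Prod.neg_mk, swapEl_inv_apply]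
  simp

theorem t12_splits : Splits (-1 : F) (t12 F).1 (pairNeg T₁) := by
  refine ⟨by norm_num, fun p b => ?_⟩
  obtain ⟨p', c⟩ := b
  rw [t12_apply, pairNeg_apply, neg_one_smul]

theorem t13_splits : Splits (-1 : F) (t13 F).1 (hypExt T₁ (pairNeg (sqForm F))) := by
  refine ⟨by norm_num, fun p b => ?_⟩
  obtain ⟨p', ⟨p'', z⟩⟩ := b
  rw [t13_apply, hypExt_apply, pairNeg_apply, neg_one_smul]

theorem t23_splits : Splits (1 : F) (t23 F).1 (x23 F).1 :=
  hypExt_splits _ _

theorem x23_splits : Splits (-1 : F) (x23 F).1 (pairNeg (sqForm F)) := by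
  refine ⟨by norm_num, fun p b => ?_⟩
  obtain ⟨p', z⟩ := b
  rw [x23_apply, pairNeg_apply, neg_one_smul]

theorem ext_three {g h : siegelGroup (hypSum (hypSum (hypSum (sqForm F))))}
    (e : ∀ (p p' p'' : F × F) (z : F),
      g.1.1 ((p, (p', (p'', z))) : W₃) = h.1.1 ((p, (p', (p'', z))) : W₃)) : g = h :=
  Subtype.ext (orth_ext fun ⟨p, p', p'', z⟩ => e p p' p'' z)

theorem t12_mul_t13 : t12 F * t13 F = t23 F :=
  ext_three fun p p' p'' z => by
    simp [Subgroup.coe_mul, orth_mul_apply, t12_apply, t13_apply, t23_apply]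

theorem t12_comm_t13 : t12 F * t13 F = t13 F * t12 F :=
  ext_three fun p p' p'' z => by
    simp [Subgroup.coe_mul, orth_mul_apply, t12_apply, t13_apply]

theorem t12_sq : t12 F * t12 F = 1 :=
  ext_three fun p p' p'' z => by
    simp [Subgroup.coe_mul, orth_mul_apply, t12_apply]

theorem t13_sq : t13 F * t13 F = 1 :=
  ext_three fun p p' p'' z => by
    simp [Subgroup.coe_mul, orth_mul_apply, t13_apply]

theorem t13_eq_conj : t13 F =
    levi _ (swapEl (sqForm F)) * t12 F * (levi _ (swapEl (sqForm F)))⁻¹ := by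
  rw [eq_mul_inv_iff_mul_eq]
  refine ext_three fun p p' p'' z => ?_
  obtain ⟨s', t'⟩ := p'
  obtain ⟨s'', t''⟩ := p''
  simp [Subgroup.coe_mul, orth_mul_apply, levi_apply, hypExt_apply, swapEl_apply, t13_apply,
    t12_apply]

theorem weyl_eq : weyl F = rad (1 : F) * (weyl F * rad (1 : F) * (weyl F)⁻¹) * rad (1 : F) := by
  apply Subtype.ext
  simp only [Subgroup.coe_mul, Subgroup.coe_inv, rad, conj_siegel]
  refine orth_ext fun x => ?_
  obtain ⟨⟨s, t⟩, z⟩ := x
  simp [orth_mul_apply, siegel_apply, weyl_apply, x₀, polar_hypSum, polar]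
  refine ⟨⟨?_, ?_⟩, ?_⟩ <;> ring

theorem sigma_weyl {V : Type} [AddCommGroup V] [Module ℂ V] [FiniteDimensional ℂ V]
    (h2 : (2 : F) ≠ 0) {ρ : Representation ℂ (siegelGroup (hypSum (sqForm F))) V} (hs : Full ρ) :
    ρ (weyl F) = 1 := by
  have hU : ∀ b : F, ρ (rad b) = 1 := by
    intro b
    by_contra hne
    obtain ⟨c, hc, w, hw, hw0⟩ := exists_eig (setup ρ (nondeg_sqForm h2)) ⟨b, hne⟩
    have h0 := (hs c hc).trans (if_neg fun e => hc (sqForm_eq_zero e))
    rw [Submodule.finrank_eq_zero] at h0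
    rw [show eig (PP (sqForm F)) (UU ρ) c = ⊥ from h0, Submodule.mem_bot] at hw
    exact hw0 hw
  rw [weyl_eq, map_mul, map_mul, map_mul, map_mul, hU, mul_one, one_mul, mul_one, ← map_mul,
    mul_inv_cancel, map_one]

/-- An involution of trace zero cannot be one of three commuting ones multiplying to one on a
plane. -/
theorem no_three {V : Type*} [AddCommGroup V] [Module ℂ V] [FiniteDimensional ℂ V]
    (hd : finrank ℂ V = 2) {a b : Module.End ℂ V} (ha : a * a = 1) (hb : b * b = 1)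
    (hab : a * b = b * a) (hta : LinearMap.trace ℂ V a = 0) (htb : LinearMap.trace ℂ V b = 0)
    (htab : LinearMap.trace ℂ V (a * b) = 0) : False := by
  set p : Module.End ℂ V := (4⁻¹ : ℂ) • ((1 + a) * (1 + b)) with hp
  have hidem : IsIdempotentElem p := by
    have e : ((1 + a) * (1 + b)) * ((1 + a) * (1 + b)) = (4 : ℂ) • ((1 + a) * (1 + b)) := by
      have h1 : Commute (1 + b) (1 + a) :=
        (Commute.one_left _).add_left ((Commute.one_right b).add_right hab.symm)
      calc ((1 + a) * (1 + b)) * ((1 + a) * (1 + b))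
          = (1 + a) * (1 + a) * ((1 + b) * (1 + b)) := by
            rw [mul_assoc, ← mul_assoc (1 + b), h1.eq, mul_assoc (1 + a) (1 + b), mul_assoc]
        _ = _ := by
            rw [mul_add (1 + a) 1 a, add_mul 1 a a, mul_add (1 + b) 1 b, add_mul 1 b b, ha, hb,
              mul_one, mul_one, one_mul, one_mul,
              show 1 + a + (a + 1) = (2 : ℂ) • (1 + a) by module,
              show 1 + b + (b + 1) = (2 : ℂ) • (1 + b) by module, smul_mul_smul_comm]
            norm_num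
    change p * p = p
    rw [hp, smul_mul_smul_comm, e, smul_smul]
    norm_num
  have h1 := (LinearMap.IsIdempotentElem.isProj_range p hidem).trace
  rw [hp] at h1
  simp only [mul_add, add_mul, mul_one, one_mul] at h1
  rw [map_smul, map_add, map_add, map_add,
    LinearMap.trace_one, hta, htb, htab, hd, smul_eq_mul] at h1
  have h3 : ((2 : ℕ) : ℂ) = ((4 * finrank ℂ (LinearMap.range p) : ℕ) : ℂ) := by
    push_cast at h1 ⊢
    linear_combination 4 * h1
  have h4 : 2 = 4 * finrank ℂ (LinearMap.range p) := by exact_mod_cast h3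
  omega

variable {V : Type} [AddCommGroup V] [Module ℂ V] [FiniteDimensional ℂ V]

open scoped Classical in
/-- Fixed non-singular characters do not contribute. -/
theorem sum_eq_zero {V₀ : Type*} [AddCommGroup V₀] [Module F V₀] [Fintype V₀]
    {Q₀ : QuadraticForm F V₀} {W : Type*} [AddCommGroup W] [Module ℂ W] [FiniteDimensional ℂ W]
    {ρ : Representation ℂ (siegelGroup (hypSum Q₀)) W} (hQ : Nondeg Q₀) (hs : Full ρ)
    (Φ : Module.End ℂ W) {π : V₀ → V₀} (h : ∀ c, c ≠ 0 → π c = c → Q₀ c ≠ 0) :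
    ∑ c ∈ Finset.univ.filter (fun c => c ≠ 0 ∧ π c = c), mu (PP Q₀) (UU ρ) Φ c = 0 := by
  refine Finset.sum_eq_zero fun c hc => ?_
  obtain ⟨-, hc0, hfix⟩ := Finset.mem_filter.1 hc
  exact mu_eq_zero (setup ρ hQ) Φ ((hs c hc0).trans (if_neg (h c hc0 hfix)))

set_option maxHeartbeats 1600000 in
open scoped Classical in
/-- The exceptional candidate does not exist. -/
theorem no_candidate (h2 : (2 : F) ≠ 0)
    (ρ : Representation ℂ (siegelGroup (hypSum (hypSum (hypSum (sqForm F))))) V)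
    (hs : Full ρ) (hs₁ : Full (Q₀ := T₁) (sigma ρ)) (hs₂ : Full (Q₀ := sqForm F) (sigma (sigma ρ)))
    (hns : ¬ IsSquare (-1 : F))
    (hf : finrank ℂ (eigc (Q₀ := T₁) (sigma ρ) 0) = 2)
    (g₀ : siegelGroup (hypSum (hypSum (hypSum (sqForm F)))))
    (R₁ : orth T₂) (R₂ : orth T₃) (hR : Splits (1 : F) R₂ R₁) (hR₂ : R₂ = hypExt T₂ R₁)
    (hR₁ : R₁ = hypExt T₁ (refl T₁ ((1, -1), 0) (by simp)))
    (hg₀ : g₀.1 = negOne T₃ * R₂)
    (hT : Twist (conjS R₂) ρ (ρ g₀))
    (hzero : LinearMap.trace ℂ _ (res hT hR) = 0) : False := by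
  subst hR₂
  have hQ₁ : Nondeg T₁ := (nondeg_sqForm h2).hypSum
  have hQ₂ : Nondeg T₂ := hQ₁.hypSum
  have T12 : Twist (conjS (t12 F).1) ρ (ρ (t12 F)) := twist_of_elem ρ _ _ fun g => rfl
  have T13 : Twist (conjS (t13 F).1) ρ (ρ (t13 F)) := twist_of_elem ρ _ _ fun g => rfl
  have T23 : Twist (conjS (t23 F).1) ρ (ρ (t23 F)) := twist_of_elem ρ _ _ fun g => rfl
  have S12 := pairNeg_splits T₁
  have S13 := hypExt_splits T₁ (pairNeg (sqForm F))
  have S23 := x23_splits (F := F)
  let A12 := res T12 t12_splits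
  let A13 := res T13 t13_splits
  let A23 := res T23 t23_splits
  have U12 := twist_res T12 t12_splits
  have U13 := twist_res T13 t13_splits
  have U23 := twist_res T23 t23_splits
  let a := res U12 S12
  let b := res U13 S13
  let c := res U23 S23
  -- the element g₀ is t12 up to an element acting trivially
  have hR₀ : Splits (1 : F) R₁ (refl T₁ ((1, -1), 0) (by simp)) := hR₁ ▸ hypExt_splits _ _
  let e₀ := res (twist_res hT hR) hR₀
  have hg : g₀ = t12 F * levi _ (levi _ (weyl F)) := by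
    refine ext_three fun p p' p'' z => ?_
    obtain ⟨s, t⟩ := p''
    simp [hg₀, hR₁, Subgroup.coe_mul, orth_mul_apply, negOne_apply, levi_apply, hypExt_apply,
      weyl_apply, t12_apply, refl_apply, polar_hypSum]
  have he : e₀ = a := by
    refine LinearMap.ext fun v => Subtype.ext (Subtype.ext ?_)
    change ρ g₀ v.1.1 = ρ (t12 F) v.1.1
    rw [hg, map_mul, Module.End.mul_apply]
    congr 1
    have h1 := LinearMap.congr_fun (sigma_weyl h2 hs₂) v
    exact congrArg (fun x : eigc (Q₀ := T₁) (sigma ρ) 0 => x.1.1) h1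
  have hta : LinearMap.trace ℂ _ a = 0 := by
    rw [← he]
    rw [trace_eq hQ₁ (twist_res hT hR) hR₀, sum_eq_zero hQ₁ hs₁, add_zero] at hzero
    · exact hzero
    intro c hc0 hfix hQc
    obtain ⟨⟨s, t⟩, z⟩ := c
    rw [one_smul, refl_fix_iff] at hfix
    simp [polar_hypSum] at hfix hQc
    have hts : t = s := by linear_combination hfix
    subst hts
    by_cases ht : t = 0
    · subst ht
      exact hc0 (by rw [sqForm_eq_zero (x := z) (by simpa using hQc)]; rfl)
    · exact hns ⟨z / t, by field_simp; linear_combination -hQc⟩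
  have h12 : LinearMap.trace ℂ _ A12 = LinearMap.trace ℂ _ a := by
    rw [trace_eq hQ₁ U12 S12, sum_eq_zero hQ₁ hs₁, add_zero]
    intro c hc0 hfix
    exact absurd (eq_zero_of_neg h2 (by simpa [orth_one_apply] using hfix)) hc0
  have h13 : LinearMap.trace ℂ _ A13 = LinearMap.trace ℂ _ b := by
    rw [trace_eq hQ₁ U13 S13, sum_eq_zero hQ₁ hs₁, add_zero]
    rintro ⟨p, z⟩ hc0 hfix hQc
    rw [one_smul, pairNeg_apply] at hfix
    have hp := eq_zero_of_neg h2 (congrArg Prod.fst hfix)
    subst hp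
    simp at hQc
    exact hc0 (by rw [hQc]; rfl)
  have hconj : LinearMap.trace ℂ _ A13 = LinearMap.trace ℂ _ A12 := by
    have e : A13 = sigma ρ (swapEl (sqForm F)) * A12 * sigma ρ (swapEl (sqForm F))⁻¹ := by
      refine LinearMap.ext fun v => Subtype.ext ?_
      change ρ (t13 F) v.1 = ρ (levi _ (swapEl (sqForm F))) (ρ (t12 F)
        (ρ (levi _ (swapEl (sqForm F))⁻¹) v.1))
      rw [t13_eq_conj, map_mul, map_mul, map_inv (levi _), Module.End.mul_apply,
        Module.End.mul_apply]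
    rw [e, LinearMap.trace_mul_comm, ← mul_assoc, ← map_mul, inv_mul_cancel, map_one, one_mul]
  have htb : LinearMap.trace ℂ _ b = 0 := by rw [← h13, hconj, h12, hta]
  have hchar : LinearMap.trace ℂ V (ρ (t13 F)) = LinearMap.trace ℂ V (ρ (t23 F)) := by
    rw [t13, map_mul ρ, map_mul ρ, LinearMap.trace_mul_comm, ← mul_assoc, ← map_mul, mul_inv_cancel,
      map_one, one_mul]
  rw [trace_eq hQ₂ T13 t13_splits, trace_eq hQ₂ T23 t23_splits] at hchar
  rw [sum_eq_zero hQ₂ hs (ρ (t23 F)) (π := fun c => (1 : F) • (x23 F).1.1 c), add_zero] at hchar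
  swap
  · rintro ⟨p, p', z⟩ hc0 hfix hQc
    rw [one_smul, x23_apply] at hfix
    have hp := eq_zero_of_neg h2 (congrArg Prod.fst hfix)
    have hp' := eq_zero_of_neg h2 (congrArg (fun x : W₂ => x.2.1) hfix)
    subst hp hp'
    simp at hQc
    exact hc0 (by rw [hQc]; rfl)
  have h23 : LinearMap.trace ℂ _ A23 = LinearMap.trace ℂ _ c +
      ∑ d ∈ Finset.univ.filter (fun d : W₁ => d ≠ 0 ∧
        (-1 : F) • (pairNeg (sqForm F)).1 d = d), mu (PP T₁) (UU (sigma ρ)) A23 d := by
    convert trace_eq hQ₁ U23 S23 using 4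
  have hsum : ∑ d ∈ Finset.univ.filter (fun d : W₁ => d ≠ 0 ∧
        (-1 : F) • (pairNeg (sqForm F)).1 d = d), mu (PP T₁) (UU (sigma ρ)) A23 d =
      ∑ B ∈ Finset.univ.filter (fun B : W₂ => B ≠ 0 ∧
        (-1 : F) • (hypExt T₁ (pairNeg (sqForm F))).1 B = B), mu (PP T₂) (UU ρ) (ρ (t13 F)) B := by
    refine Finset.sum_bij (fun d _ => (((0 : F × F), d) : W₂)) ?_ ?_ ?_ ?_
    · intro d hd
      obtain ⟨-, hd0, hfix⟩ := Finset.mem_filter.1 hd
      refine Finset.mem_filter.2 ⟨Finset.mem_univ _, fun e => hd0 (congrArg Prod.snd e), ?_⟩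
      rw [hypExt_apply, Prod.smul_mk, hfix, smul_zero]
    · exact fun d _ d' _ e => congrArg Prod.snd e
    · intro B hB
      obtain ⟨-, hB0, hfix⟩ := Finset.mem_filter.1 hB
      obtain ⟨p, d⟩ := B
      rw [hypExt_apply, Prod.smul_mk] at hfix
      have hp := eq_zero_of_neg h2 (x := p) (by
        simpa using congrArg Prod.fst hfix)
      subst hp
      exact ⟨d, Finset.mem_filter.2 ⟨Finset.mem_univ _, fun e => hB0 (by rw [e]; rfl),
        congrArg Prod.snd hfix⟩, rfl⟩
    intro d hd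
    obtain ⟨-, hd0, hfix⟩ := Finset.mem_filter.1 hd
    by_cases hQd : T₁ d = 0
    swap
    · rw [mu_eq_zero (setup (sigma ρ) hQ₁) A23 ((hs₁ d hd0).trans (if_neg hQd)),
        mu_eq_zero (setup ρ hQ₂) (ρ (t13 F))]
      exact (hs _ fun e => hd0 (congrArg Prod.snd e)).trans (if_neg (by simpa using hQd))
    have h1 := (hs₁ d hd0).trans (if_pos hQd)
    obtain ⟨v, hv0, -⟩ := finrank_eq_one_iff'.1 h1
    have e := apply_eq_mu (setup (sigma ρ) hQ₁) h1 (g := A23) (fun w hw => by
      have := U23.mem_eig S23 hw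
      rwa [hfix] at this) v.2
    refine mu_transfer (Q₁ := T₁) hQ₁ hs.small T13 t13_splits (Φ' := ρ (t23 F)) ?_ hd0 ?_ v.2
      (fun e0 => hv0 (Subtype.ext e0)) (congrArg Subtype.val e)
    · rw [t13, ← map_mul, ← map_mul, mul_inv_cancel_right]
    · rw [hypExt_apply, Prod.smul_mk, hfix]
      simp [Prod.mk_zero_zero]
  have htc : LinearMap.trace ℂ _ c = 0 := by
    have hchar' : LinearMap.trace ℂ _ A13 + ∑ B ∈ Finset.univ.filter (fun B : W₂ => B ≠ 0 ∧
        (-1 : F) • (hypExt T₁ (pairNeg (sqForm F))).1 B = B), mu (PP T₂) (UU ρ) (ρ (t13 F)) B =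
        LinearMap.trace ℂ _ A23 := by
      convert hchar using 4
    rw [← hsum, h23] at hchar'
    rw [← htb, ← h13]
    linear_combination -hchar'
  have hab : a * b = c := by
    refine LinearMap.ext fun v => Subtype.ext (Subtype.ext ?_)
    change ρ (t12 F) (ρ (t13 F) v.1.1) = ρ (t23 F) v.1.1
    rw [← t12_mul_t13, map_mul, Module.End.mul_apply]
  refine no_three hf (a := a) (b := b) ?_ ?_ ?_ hta htb (hab ▸ htc)
  · refine res_sq _ _ (res_sq _ _ ?_)
    rw [← map_mul, t12_sq, map_one]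
  · refine res_sq _ _ (res_sq _ _ ?_)
    rw [← map_mul, t13_sq, map_one]
  · refine LinearMap.ext fun v => Subtype.ext (Subtype.ext ?_)
    change ρ (t12 F) (ρ (t13 F) v.1.1) = ρ (t13 F) (ρ (t12 F) v.1.1)
    rw [← Module.End.mul_apply, ← map_mul, t12_comm_t13, map_mul, Module.End.mul_apply]

end CfsgLib.InvCentralizers.OrthOddThree
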