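import Cfsg.Agent.Lib.InvCentralizers.OrthMinusTower

/-!
The spaces `H^k ⊥ ⟨1⟩`: their numbers of vectors of given value and the action of the special
linear group on a maximal totally singular subspace.
-/

set_option autoImplicit false
set_option linter.unusedSectionVars false
set_option linter.style.haveILetI false

namespace CfsgLib.InvCentralizers.OrthOddTower

open QuadraticMap Module CfsgLib.ClassicalForms
open CfsgLib.InvCentralizers.OrthParabolic
open CfsgLib.InvCentralizers.OrthSmall
open CfsgLib.InvCentralizers.OrthMinusTower (QSpace Ecat_dd exists_pair_orth slLin slOrth slOrth_mem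
  slOrth_transvection polar_qH)
open Matrix

universe u

variable {F : Type u} [Field F] [Fintype F]

variable (F) in
open scoped Classical in
/-- `H^k ⊥ ⟨1⟩` with its maximal totally singular subspace. -/
noncomputable def otower : ℕ → QSpace F
  | 0 => ⟨F, sqForm F, ⊥⟩
  | k + 1 => ⟨(F × F) × (otower k).W, hypSum (otower k).Q, Ecat (otower k).E⟩

theorem nondeg (h2 : (2 : F) ≠ 0) : ∀ k, Nondeg (otower F k).Q
  | 0 => nondeg_sqForm h2
  | k + 1 => (nondeg h2 k).hypSum

theorem finrank_eq : ∀ k, finrank F (otower F k).W = 2 * k + 1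
  | 0 => by
    change finrank F F = _
    simp
  | k + 1 => by
    change finrank F ((F × F) × (otower F k).W) = _
    rw [finrank_prod, finrank_prod, finrank_self, finrank_eq k]
    ring

theorem card_eq : ∀ k, Nat.card (otower F k).W = Fintype.card F ^ (2 * k + 1)
  | 0 => by simp [otower, Nat.card_eq_fintype_card]
  | k + 1 => by
    change Nat.card ((F × F) × (otower F k).W) = _
    rw [Nat.card_prod, Nat.card_prod, card_eq k, Nat.card_eq_fintype_card]
    ring

local notation "q" => (Fintype.card F : ℤ)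

theorem card_succ (k : ℕ) (c : F) :
    (Nat.card {v // (otower F (k + 1)).Q v = c} : ℤ) =
      q * Nat.card {v // (otower F k).Q v = c} + (q - 1) * q ^ (2 * k + 1) := by
  change (Nat.card {v : (F × F) × (otower F k).W // hypSum (otower F k).Q v = c} : ℤ) = _
  rw [card_values_hypSum, card_eq k, Nat.card_eq_fintype_card (α := F)]
  push_cast [Nat.cast_sub (Fintype.card_pos (α := F))]
  ring

/-- Number of zeros. -/
theorem card_zeros : ∀ k, (Nat.card {v // (otower F k).Q v = 0} : ℤ) = q ^ (2 * k)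
  | 0 => by
    have h1 : Nat.card {v : F // sqForm F v = 0} = 1 := by
      rw [Nat.card_eq_one_iff_unique]
      exact ⟨⟨fun x y => Subtype.ext (by
        have hx := x.2; have hy := y.2
        simp only [sqForm_apply, mul_self_eq_zero] at hx hy
        rw [hx, hy])⟩, ⟨⟨0, by simp⟩⟩⟩
    change (Nat.card {v : F // sqForm F v = 0} : ℤ) = _
    rw [h1]; simp
  | k + 1 => by
    rw [card_succ, card_zeros k]
    ring

/-- A lower bound for the number of vectors of given value. -/
theorem le_card_level (c : F) : ∀ k, q ^ (2 * k) - q ^ k ≤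
    (Nat.card {v // (otower F k).Q v = c} : ℤ)
  | 0 => by simp
  | k + 1 => by
    rw [card_succ]
    have h := mul_le_mul_of_nonneg_left (le_card_level c k)
      (Int.natCast_nonneg (Fintype.card F))
    refine le_trans (le_of_eq ?_) (add_le_add_left h _)
    ring

open scoped Classical in
/-- The sign attached to a value. -/
noncomputable def theta (c : F) : ℤ := if IsSquare c then 1 else -1

open scoped Classical in
/-- The number of square roots. -/
theorem card_sqForm (h2 : (2 : F) ≠ 0) {c : F} (hc : c ≠ 0) :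
    (Nat.card {v : F // sqForm F v = c} : ℤ) = 1 + theta c := by
  by_cases hs : IsSquare c
  · obtain ⟨r, rfl⟩ := hs
    have hr : r ≠ 0 := left_ne_zero_of_mul hc
    have hne : r ≠ -r := fun e => hr ((mul_eq_zero.1 (show (2 : F) * r = 0 by
      linear_combination e)).resolve_left h2)
    have e : (Finset.univ.filter fun v : F => sqForm F v = r * r) = {r, -r} := by
      ext v
      simp [mul_self_eq_mul_self_iff]
    rw [Nat.card_eq_fintype_card, Fintype.card_subtype, e, Finset.card_pair hne, theta,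
      if_pos ⟨r, rfl⟩]
    rfl
  · haveI : IsEmpty {v : F // sqForm F v = c} := ⟨fun v => hs ⟨v.1, v.2.symm⟩⟩
    rw [Nat.card_of_isEmpty, theta, if_neg hs]
    rfl

/-- The number of vectors of a non-zero value. -/
theorem card_level (h2 : (2 : F) ≠ 0) {c : F} (hc : c ≠ 0) :
    ∀ k, (Nat.card {v // (otower F k).Q v = c} : ℤ) = q ^ (2 * k) + theta c * q ^ k
  | 0 => by
    change (Nat.card {v : F // sqForm F v = c} : ℤ) = _
    rw [card_sqForm h2 hc]; simp
  | k + 1 => by
    rw [card_succ, card_level h2 hc k]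
    ring

theorem bot_sing (x : F) (hx : x ∈ (⊥ : Submodule F F)) : sqForm F x = 0 := by
  rw [(Submodule.mem_bot F).1 hx]
  exact QuadraticMap.map_zero _

theorem sqForm_eq_zero {x : F} (hx : sqForm F x = 0) : x = 0 := mul_self_eq_zero.1 hx

theorem bot_core (h2 : (2 : F) ≠ 0) : ∃ y y' : F,
    (∀ e ∈ (⊥ : Submodule F F), polar (sqForm F) e y = 0) ∧
      (∀ e ∈ (⊥ : Submodule F F), polar (sqForm F) e y' = 0) ∧ polar (sqForm F) y y' = 1 := by
  refine ⟨1, 2⁻¹, fun e he => ?_, fun e he => ?_, ?_⟩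
  · rw [(Submodule.mem_bot F).1 he]; exact polar_zero_left _ _
  · rw [(Submodule.mem_bot F).1 he]; exact polar_zero_left _ _
  · simp only [polar, sqForm_apply]
    field_simp
    ring

theorem E_sing : ∀ k, ∀ x ∈ (otower F k).E, (otower F k).Q x = 0
  | 0 => bot_sing (F := F)
  | k + 1 => Ecat_sing (E_sing k)

theorem bot_dd (h2 : (2 : F) ≠ 0) (c : F)
    (hc : ∀ x : F, (∀ e ∈ (⊥ : Submodule F F), polar (sqForm F) e x = 0) →
      polar (sqForm F) x c = 0) : c ∈ (⊥ : Submodule F F) := by
  refine (Submodule.mem_bot F).2 (nondeg_sqForm h2 c fun x => ?_)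
  rw [polar_comm]
  exact hc x fun e he => by rw [(Submodule.mem_bot F).1 he]; exact polar_zero_left _ _

theorem E_dd (h2 : (2 : F) ≠ 0) : ∀ k, ∀ c : (otower F k).W,
    (∀ x, (∀ e ∈ (otower F k).E, polar (otower F k).Q e x = 0) →
      polar (otower F k).Q x c = 0) → c ∈ (otower F k).E
  | 0 => bot_dd (F := F) h2
  | k + 1 => Ecat_dd (E_dd h2 k)

theorem E_card : ∀ k, Nat.card (otower F k).E = Fintype.card F ^ k
  | 0 => by
    change Nat.card (⊥ : Submodule F F) = _
    simp
  | k + 1 => by
    let e : (otower F (k + 1)).E ≃ F × (otower F k).E :=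
      { toFun := fun x => (x.1.1.1, ⟨x.1.2, (mem_Ecat.1 x.2).2⟩)
        invFun := fun y => ⟨((y.1, 0), y.2.1), mem_Ecat.2 ⟨rfl, y.2.2⟩⟩
        left_inv := fun x => Subtype.ext (Prod.ext (Prod.ext rfl (mem_Ecat.1 x.2).1.symm) rfl)
        right_inv := fun y => rfl }
    rw [Nat.card_congr e, Nat.card_prod, E_card k, Nat.card_eq_fintype_card, pow_succ']

theorem exists_core (h2 : (2 : F) ≠ 0) : ∀ k, ∃ y y',
    (∀ e ∈ (otower F k).E, polar (otower F k).Q e y = 0) ∧
      (∀ e ∈ (otower F k).E, polar (otower F k).Q e y' = 0) ∧ polar (otower F k).Q y y' = 1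
  | 0 => bot_core (F := F) h2
  | k + 1 => by
    obtain ⟨y, y', hy, hy', hyy⟩ := exists_core h2 k
    refine ⟨((0, 0), y), ((0, 0), y'), fun e he => polar_Ecat he hy,
      fun e he => polar_Ecat he hy', ?_⟩
    change polar (hypSum (otower F k).Q) ((0, 0), y) ((0, 0), y') = 1
    simp [polar_hypSum, hyy]

/-- A pair with polar one, orthogonal to a singular vector. -/
theorem exists_pair (h2 : (2 : F) ≠ 0) (k : ℕ) (z : (otower F k).W)
    (hz : (otower F k).Q z = 0) :
    ∃ y y', polar (otower F k).Q z y = 0 ∧ polar (otower F k).Q z y' = 0 ∧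
      polar (otower F k).Q y y' = 1 := by
  rcases k with _ | k
  · obtain rfl : z = 0 := sqForm_eq_zero (F := F) hz
    obtain ⟨y, y', -, -, hyy⟩ := exists_core (F := F) h2 0
    exact ⟨y, y', polar_zero_left _ _, polar_zero_left _ _, hyy⟩
  · exact exists_pair_orth (nondeg h2 _) (by rw [finrank_eq]; omega) z
      (Or.inl (by rw [finrank_eq]; omega))

/-- The Siegel group is transitive on singular vectors. -/
theorem transitive (h2 : (2 : F) ≠ 0) (k : ℕ) (c c' : (otower F (k + 2)).W)
    (hc : (otower F (k + 2)).Q c = 0) (hc0 : c ≠ 0) (hc' : (otower F (k + 2)).Q c' = 0)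
    (hc'0 : c' ≠ 0) :
    ∃ g : siegelGroup (otower F (k + 2)).Q,
      (g.1 : (otower F (k + 2)).W ≃ₗ[F] (otower F (k + 2)).W) c = c' := by
  obtain ⟨g, hg, e⟩ := (Sec.top (otower F (k + 2)).Q).transitive_singular (nondeg h2 _)
    (by rw [finrank_eq]; omega) (Sec.mem_top c) (Sec.mem_top c') hc hc' hc0 hc'0
  exact ⟨⟨g, hg.1⟩, e⟩

section Coordinates

variable (F) in
/-- Coordinates. -/
noncomputable def oEquiv :
    ∀ n, (otower F n).W ≃ₗ[F] ((Fin n ⊕ Fin n → F) × F)
  | 0 => zeroEquiv
  | n + 1 => ((LinearEquiv.refl F (F × F)).prodCongr (oEquiv n)).trans (succEquiv n)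

theorem qH_oEquiv : ∀ (n : ℕ) (v : (otower F n).W),
    qH n (sqForm F) (oEquiv F n v) = (otower F n).Q v
  | 0, v => qH_zeroEquiv _ _
  | n + 1, v => by
    change qH (n + 1) (sqForm F) (succEquiv n (v.1, oEquiv F n v.2)) =
      hypSum (otower F n).Q v
    rw [qH_succEquiv]
    exact congrArg (v.1.1 * v.1.2 + ·) (qH_oEquiv n v.2)

theorem qH_oEquiv_symm (n : ℕ) (v : (Fin n ⊕ Fin n → F) × F) :
    (otower F n).Q ((oEquiv F n).symm v) = qH n (sqForm F) v := by
  rw [← qH_oEquiv, LinearEquiv.apply_symm_apply]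

theorem oEquiv_succ (n : ℕ) (s t : F) (y : (otower F n).W) :
    oEquiv F (n + 1) ((s, t), y) =
      (Sum.elim (Fin.cons s ((oEquiv F n y).1 ∘ Sum.inl))
        (Fin.cons t ((oEquiv F n y).1 ∘ Sum.inr)), (oEquiv F n y).2) := rfl

theorem oEquiv_fst (n : ℕ) (s t : F) :
    oEquiv F (n + 1) ((s, t), 0) = (Pi.single (.inl 0) s + Pi.single (.inr 0) t, 0) := by
  rw [oEquiv_succ, map_zero]
  refine Prod.ext (funext fun i => ?_) rfl
  rcases i with i | i <;> refine Fin.cases ?_ (fun j => ?_) i <;> simp [Fin.succ_ne_zero]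

theorem oEquiv_snd_inl {n : ℕ} {y : (otower F n).W} {i : Fin n} {s : F}
    (hy : oEquiv F n y = (Pi.single (.inl i) s, 0)) :
    oEquiv F (n + 1) ((0, 0), y) = (Pi.single (.inl i.succ) s, 0) := by
  rw [oEquiv_succ, hy]
  refine Prod.ext (funext fun l => ?_) rfl
  rcases l with l | l <;> refine Fin.cases ?_ (fun j => ?_) l <;>
    simp [Pi.single_apply, Fin.succ_inj, (Fin.succ_ne_zero _).symm]

theorem oEquiv_snd_inr {n : ℕ} {y : (otower F n).W} {i : Fin n} {s : F}
    (hy : oEquiv F n y = (Pi.single (.inr i) s, 0)) :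
    oEquiv F (n + 1) ((0, 0), y) = (Pi.single (.inr i.succ) s, 0) := by
  rw [oEquiv_succ, hy]
  refine Prod.ext (funext fun l => ?_) rfl
  rcases l with l | l <;> refine Fin.cases ?_ (fun j => ?_) l <;>
    simp [Pi.single_apply, Fin.succ_inj, (Fin.succ_ne_zero _).symm]

theorem bot_iff (x : F) : x ∈ (⊥ : Submodule F F) ↔
    (∀ i : Fin 0, (zeroEquiv (F := F) x).1 (.inr i) = 0) ∧ (zeroEquiv (F := F) x).2 = 0 := by
  rw [Submodule.mem_bot]
  exact ⟨fun h => ⟨fun i => i.elim0, h⟩, fun h => h.2⟩

theorem mem_E_iff : ∀ (n : ℕ) (x : (otower F n).W), x ∈ (otower F n).E ↔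
    (∀ i, (oEquiv F n x).1 (.inr i) = 0) ∧ (oEquiv F n x).2 = 0
  | 0, x => bot_iff (F := F) x
  | n + 1, x => by
    obtain ⟨⟨s, t⟩, y⟩ := x
    rw [oEquiv_succ, Fin.forall_fin_succ]
    refine (mem_Ecat (a := (((s, t), y) : (F × F) × (otower F n).W))).trans ?_
    simp only [mem_E_iff n y, Sum.elim_inr, Fin.cons_zero, Fin.cons_succ, Function.comp_apply,
      and_assoc]

variable (F) in
/-- The special linear group inside the Siegel group of the tower. -/
noncomputable def slTower (n : ℕ) :
    SpecialLinearGroup (Fin n) F →* siegelGroup (otower F n).Q :=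
  (OrthPlusDegree.siegelCongr (oEquiv F n).symm (qH_oEquiv_symm n)).toMonoidHom.comp
    ((slOrth (sqForm F)).codRestrict _ (slOrth_mem _))

theorem slTower_apply (n : ℕ) (A : SpecialLinearGroup (Fin n) F) (x : (otower F n).W) :
    ((slTower F n A).1 : (otower F n).W ≃ₗ[F] (otower F n).W) x =
      (oEquiv F n).symm (slLin A (oEquiv F n x)) := rfl

theorem slTower_E {n : ℕ} (A : SpecialLinearGroup (Fin n) F) {x : (otower F n).W}
    (hx : x ∈ (otower F n).E) :
    ((slTower F n A).1 : (otower F n).W ≃ₗ[F] (otower F n).W) x ∈ (otower F n).E := by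
  rw [mem_E_iff] at hx ⊢
  rw [slTower_apply, LinearEquiv.apply_symm_apply]
  refine ⟨fun i => ?_, hx.2⟩
  have h0 : (oEquiv F n x).1 ∘ Sum.inr = 0 := funext hx.1
  simp [slLin, h0]

/-- The images of transvections. -/
theorem slTower_transvection {n : ℕ} {i j : Fin n} (hij : i ≠ j) (c : F)
    {u w : (otower F n).W} (hu : oEquiv F n u = (Pi.single (.inl i) 1, 0))
    (hw : oEquiv F n w = (Pi.single (.inr j) (-c), 0)) (h₁ : (otower F n).Q u = 0)
    (h₂ : polar (otower F n).Q u w = 0) :
    slTower F n (SpecialLinearGroup.transvection hij c) =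
      ⟨siegel (otower F n).Q u w h₁ h₂, siegel_mem_siegelGroup _ _⟩ := by
  apply Subtype.ext
  change orthCongr (oEquiv F n).symm (qH_oEquiv_symm n)
    (slOrth (sqForm F) (SpecialLinearGroup.transvection hij c)) = _
  rw [slOrth_transvection, orthCongr_siegel]
  exact siegel_eq (hu' := h₁) (hw' := h₂) ((LinearEquiv.symm_apply_eq _).2 hu.symm)
    ((LinearEquiv.symm_apply_eq _).2 hw.symm)

end Coordinates

end CfsgLib.InvCentralizers.OrthOddTower
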