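import Mathlib
import Cfsg.Agent.Lib.ClassicalForms.Ortho.Omega

/-!
Diagonal isometries attached to hyperbolic pairs, and products of two of them lying in the
commutator subgroup.
-/

set_option autoImplicit false

namespace CfsgLib.InvCentralizers.OrthTorus

open QuadraticMap CfsgLib.ClassicalForms

variable {F V : Type*} [Field F] [AddCommGroup V] [Module F V]
variable (Q : QuadraticForm F V) {p p' : V × V}

/-- The map multiplying `p.1` by `t` and `p.2` by `t⁻¹`. -/
def torMap (p : V × V) (t : Fˣ) : V →ₗ[F] V where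
  toFun z := z + (((t : F) - 1) * polar Q z p.2) • p.1 + (((t⁻¹ : Fˣ) - 1 : F) * polar Q z p.1) • p.2
  map_add' z z' := by simp only [polar_add_left]; module
  map_smul' c z := by simp only [polar_smul_left, smul_eq_mul, RingHom.id_apply]; module

theorem torMap_apply (t : Fˣ) (z : V) :
    torMap Q p t z =
      z + (((t : F) - 1) * polar Q z p.2) • p.1 + (((t⁻¹ : Fˣ) - 1 : F) * polar Q z p.1) • p.2 :=
  rfl

theorem torMap_mul (h : IsHypPair Q p) (s t : Fˣ) (z : V) :
    torMap Q p s (torMap Q p t z) = torMap Q p (s * t) z := by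
  obtain ⟨h1, h2, h3⟩ := h
  have h4 : polar Q p.2 p.1 = 1 := by rw [polar_comm]; exact h3
  simp only [torMap_apply, polar_add_left, polar_smul_left, polar_self_mul, h1, h2, h3, h4,
    smul_eq_mul, mul_zero, mul_one, add_zero, mul_inv_rev, Units.val_mul]
  match_scalars <;> ring

theorem torMap_one (z : V) : torMap Q p 1 z = z := by
  simp [torMap_apply]

variable {Q}

/-- The torus element of a hyperbolic pair. -/
def tor (h : IsHypPair Q p) (t : Fˣ) : orth Q where
  val := LinearEquiv.ofLinearMap (torMap Q p t) (torMap Q p t⁻¹)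
    (LinearMap.ext fun z => by simp [torMap_mul Q h, torMap_one])
    (LinearMap.ext fun z => by simp [torMap_mul Q h, torMap_one])
  property := fun z => by
    change Q (torMap Q p t z) = Q z
    obtain ⟨h1, h2, h3⟩ := h
    simp only [torMap_apply, QuadraticMap.map_add ⇑Q, QuadraticMap.map_smul, h1, h2,
      polar_smul_right, polar_smul_left, polar_add_left, h3, smul_eq_mul]
    have ht : (t : F) * ((t⁻¹ : Fˣ) : F) = 1 := Units.mul_inv t
    linear_combination (polar Q z p.1 * polar Q z p.2) * ht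

theorem tor_apply (h : IsHypPair Q p) (t : Fˣ) (z : V) :
    (tor h t : V ≃ₗ[F] V) z =
      z + (((t : F) - 1) * polar Q z p.2) • p.1 + (((t⁻¹ : Fˣ) - 1 : F) * polar Q z p.1) • p.2 :=
  rfl

theorem tor_fst (h : IsHypPair Q p) (t : Fˣ) : (tor h t : V ≃ₗ[F] V) p.1 = (t : F) • p.1 := by
  rw [tor_apply, polar_self_mul, h.1, h.2.2]
  module

theorem tor_snd (h : IsHypPair Q p) (t : Fˣ) :
    (tor h t : V ≃ₗ[F] V) p.2 = ((t⁻¹ : Fˣ) : F) • p.2 := by
  rw [tor_apply, polar_self_mul, h.2.1, polar_comm, h.2.2]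
  module

theorem tor_of_orth (h : IsHypPair Q p) (t : Fˣ) {z : V} (h1 : polar Q z p.1 = 0)
    (h2 : polar Q z p.2 = 0) : (tor h t : V ≃ₗ[F] V) z = z := by
  rw [tor_apply, h1, h2]
  module

theorem tor_inv (h : IsHypPair Q p) (t : Fˣ) : (tor h t)⁻¹ = tor h t⁻¹ := by
  refine inv_eq_of_mul_eq_one_right (orth_ext fun z => ?_)
  rw [orth_mul_apply, orth_one_apply]
  change torMap Q p t (torMap Q p t⁻¹ z) = z
  rw [torMap_mul Q h, mul_inv_cancel, torMap_one]

theorem isHypPair_map (g : orth Q) (h : IsHypPair Q p) :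
    IsHypPair Q ((g : V ≃ₗ[F] V) p.1, (g : V ≃ₗ[F] V) p.2) :=
  ⟨by rw [orth_apply]; exact h.1, by rw [orth_apply]; exact h.2.1,
    by rw [polar_apply]; exact h.2.2⟩

theorem conj_tor (g : orth Q) (h : IsHypPair Q p) (t : Fˣ) :
    g * tor h t * g⁻¹ = tor (isHypPair_map g h) t := by
  refine orth_ext fun z => ?_
  simp only [orth_mul_apply, tor_apply, map_add, map_smul, orth_apply_inv]
  rw [← polar_apply g _ p.1, ← polar_apply g _ p.2, orth_apply_inv]

/-- `tor_p t * tor_p' t⁻¹` is a commutator. -/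
theorem tor_mul_tor_mem (hQ : Nondeg Q) (h : IsHypPair Q p) (h' : IsHypPair Q p') (t : Fˣ) :
    tor h t * tor h' t⁻¹ ∈ commutator (orth Q) := by
  obtain ⟨g, h1, h2⟩ := orth_transitive_hypPair hQ h h'
  have e : tor h' t⁻¹ = g * (tor h t)⁻¹ * g⁻¹ := by
    rw [tor_inv, conj_tor]
    refine orth_ext fun z => ?_
    simp only [tor_apply, h1, h2]
  rw [e, ← mul_assoc, ← mul_assoc]
  exact Subgroup.commutator_mem_commutator (Subgroup.mem_top (tor h t)) (Subgroup.mem_top g)

end CfsgLib.InvCentralizers.OrthTorus
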