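import Mathlib
import Cfsg.Agent.Lib.ClassicalForms.Ortho.Omega
import Cfsg.Agent.Lib.InvCentralizers.OrthTorus
import Cfsg.Agent.Lib.InvCentralizers.EigenTrace
import Cfsg.Agent.Lib.InvCentralizers.SympBound

/-!
Representations of the Siegel group of `H ⊥ Q₀` restricted to the stabiliser of a singular vector:
eigenspaces of the abelian normal subgroup and the value at a long root element.
-/

set_option autoImplicit false
set_option linter.unusedSectionVars false

namespace CfsgLib.InvCentralizers.OrthParabolic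

open QuadraticMap Module CfsgLib.ClassicalForms CfsgLib.InvCentralizers.OrthTorus
open CfsgLib.InvCentralizers.SympBound (psi exists_psi_ne psi_prim)
open CfsgLib.InvCentralizers.AbelianEigen

variable {F V₀ : Type*} [Field F] [AddCommGroup V₀] [Module F V₀] {Q₀ : QuadraticForm F V₀}

theorem siegel_eq {W : Type*} [AddCommGroup W] [Module F W] {Q : QuadraticForm F W} {u u' w w' : W}
    {hu : Q u = 0} {hw : polar Q u w = 0} {hu' : Q u' = 0} {hw' : polar Q u' w' = 0} (h₁ : u = u')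
    (h₂ : w = w') : siegel Q u w hu hw = siegel Q u' w' hu' hw' := by
  subst h₁; subst h₂; rfl

/-- The singular vector of the parabolic. -/
def x₀ : (F × F) × V₀ := ((1, 0), 0)

theorem x₀_singular : hypSum Q₀ (x₀ : (F × F) × V₀) = 0 := by simp [x₀]

theorem polar_x₀ (b : V₀) : polar (hypSum Q₀) (x₀ : (F × F) × V₀) (((0, 0), b)) = 0 := by
  simp [x₀, polar_hypSum]

/-- The element of the abelian normal subgroup attached to `b`. -/
def rad (b : V₀) : siegelGroup (hypSum Q₀) :=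
  ⟨siegel (hypSum Q₀) x₀ ((0, 0), b) x₀_singular (polar_x₀ b), siegel_mem_siegelGroup _ _⟩

theorem rad_zero : rad (Q₀ := Q₀) (0 : V₀) = 1 := by
  apply Subtype.ext
  simp only [rad, OneMemClass.coe_one]
  exact (siegel_eq (w' := 0) (hu' := x₀_singular) (hw' := polar_zero_right _ _) rfl rfl).trans
    (siegel_zero x₀_singular)

theorem rad_add (b b' : V₀) : rad (Q₀ := Q₀) (b + b') = rad b * rad b' := by
  apply Subtype.ext
  simp only [rad, Subgroup.coe_mul]
  rw [siegel_mul x₀_singular (polar_x₀ b) (polar_x₀ b')]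
  exact siegel_eq rfl (by simp)

theorem hypExt_siegel {u w : V₀} (hu : Q₀ u = 0) (hw : polar Q₀ u w = 0) :
    hypExt Q₀ (siegel Q₀ u w hu hw) =
      siegel (hypSum Q₀) ((0, 0), u) ((0, 0), w) (by simp [hu]) (by simp [polar_hypSum, hw]) := by
  refine orth_ext fun z => ?_
  rw [hypExt_apply, siegel_apply, siegel_apply]
  simp [polar_hypSum, Prod.ext_iff]

theorem hypExt_mem {g : orth Q₀} (hg : g ∈ siegelGroup Q₀) :
    hypExt Q₀ g ∈ siegelGroup (hypSum Q₀) := by
  refine Subgroup.closure_induction (p := fun x _ => hypExt Q₀ x ∈ siegelGroup (hypSum Q₀)) ?_ ?_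
    ?_ ?_ hg
  · rintro x ⟨u, w, hu, hw, rfl⟩
    rw [hypExt_siegel]
    exact siegel_mem_siegelGroup _ _
  · rw [map_one]; exact one_mem _
  · intro a b _ _ ha hb; rw [map_mul]; exact mul_mem ha hb
  · intro a _ ha; rw [map_inv]; exact inv_mem ha

/-- The Levi complement. -/
def levi (Q₀ : QuadraticForm F V₀) : siegelGroup Q₀ →* siegelGroup (hypSum Q₀) :=
  ((hypExt Q₀).comp (siegelGroup Q₀).subtype).codRestrict _ fun g => hypExt_mem g.2

theorem levi_apply (g : siegelGroup Q₀) :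
    ((levi Q₀ g : orth (hypSum Q₀))) = hypExt Q₀ g.1 := rfl

variable [Fintype F] [Fintype V₀] {V : Type*} [AddCommGroup V] [Module ℂ V]
  (ρ : Representation ℂ (siegelGroup (hypSum Q₀)) V)

/-- The pairing. -/
noncomputable def PP (Q₀ : QuadraticForm F V₀) (c b : V₀) : ℂ := psi F (polar Q₀ b c)

/-- The operators of the abelian normal subgroup. -/
def UU (b : V₀) : Module.End ℂ V := ρ (rad b)

theorem setup (hQ : Nondeg Q₀) : Setup (PP Q₀) (UU ρ) where
  addL c c' b := by simp [PP, polar_add_right, AddChar.map_add_eq_mul]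
  addR c b b' := by simp [PP, polar_add_left, AddChar.map_add_eq_mul]
  zeroL b := by simp [PP]
  zeroR c := by simp [PP]
  orth c hc := by
    let χ : AddChar V₀ ℂ :=
      { toFun := fun b => psi F (polar Q₀ b c)
        map_zero_eq_one' := by simp
        map_add_eq_mul' := fun a b => by simp [polar_add_left, AddChar.map_add_eq_mul] }
    refine AddChar.sum_eq_zero_of_ne_one (ψ := χ) fun h => ?_
    obtain ⟨b, hb⟩ := hQ.exists_polar_ne hc
    obtain ⟨t, ht⟩ := exists_psi_ne hb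
    refine ht ?_
    have := DFunLike.congr_fun h (t • b)
    simpa [χ, polar_comm _ b c, polar_smul_left, mul_comm] using this
  orth' b hb := by
    let χ : AddChar V₀ ℂ :=
      { toFun := fun c => psi F (polar Q₀ b c)
        map_zero_eq_one' := by simp
        map_add_eq_mul' := fun a c => by simp [polar_add_right, AddChar.map_add_eq_mul] }
    refine AddChar.sum_eq_zero_of_ne_one (ψ := χ) fun h => ?_
    obtain ⟨c, hc⟩ := hQ.exists_polar_ne hb
    obtain ⟨t, ht⟩ := exists_psi_ne hc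
    refine ht ?_
    have := DFunLike.congr_fun h (t • c)
    simpa [χ, polar_smul_right, mul_comm] using this
  map_zero := by simp [UU, rad_zero]
  map_add b b' := by simp [UU, rad_add]

/-- The eigenspace of a character. -/
noncomputable abbrev eigc (c : V₀) : Submodule ℂ V := eig (PP Q₀) (UU ρ) c

/-- Elements stabilising the line of the singular vector permute the eigenspaces. -/
theorem mem_eig_of_conj (g : siegelGroup (hypSum Q₀)) (t : Fˣ) (k : orth Q₀)
    (hx : ((g : orth (hypSum Q₀)) : ((F × F) × V₀) ≃ₗ[F] (F × F) × V₀) x₀ = (t : F) • x₀)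
    (hk : ∀ b, ((g : orth (hypSum Q₀)) : ((F × F) × V₀) ≃ₗ[F] (F × F) × V₀) ((0, 0), b) =
      ((0, 0), (k : V₀ ≃ₗ[F] V₀) b))
    {c : V₀} {w : V} (hw : w ∈ eigc ρ c) :
    ρ g w ∈ eigc ρ (((t⁻¹ : Fˣ) : F) • (k : V₀ ≃ₗ[F] V₀) c) := by
  intro b
  set b' : V₀ := ((t⁻¹ : Fˣ) : F) • ((k⁻¹ : orth Q₀) : V₀ ≃ₗ[F] V₀) b with hb'
  have hgb : rad b * g = g * rad b' := by
    suffices h : g * rad b' * g⁻¹ = rad b by rw [← h, inv_mul_cancel_right]
    apply Subtype.ext
    simp only [rad, Subgroup.coe_mul, Subgroup.coe_inv]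
    rw [conj_siegel]
    refine (siegel_eq (u' := (t : F) • x₀) (w' := ((0, 0), ((t⁻¹ : Fˣ) : F) • b))
      (hu' := by rw [QuadraticMap.map_smul, x₀_singular, smul_zero])
      (hw' := by rw [polar_smul_left, polar_x₀, smul_zero]) hx ?_).trans ?_
    · rw [hk, hb', map_smul, orth_apply_inv]
    · rw [siegel_smul x₀_singular (polar_x₀ _)]
      exact siegel_eq rfl (by simp [smul_smul])
  change ρ (rad b) (ρ g w) = _
  rw [← Module.End.mul_apply, ← map_mul, hgb, map_mul, Module.End.mul_apply]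
  change ρ g (UU ρ b' w) = _
  rw [hw b', map_smul]
  congr 1
  rw [PP, PP, hb', polar_smul_left, polar_smul_right, ← polar_apply k _ c, orth_apply_inv]

theorem levi_mem (g : siegelGroup Q₀) {c : V₀} {w : V} (hw : w ∈ eigc ρ c) :
    ρ (levi Q₀ g) w ∈ eigc ρ ((g.1 : V₀ ≃ₗ[F] V₀) c) := by
  have h := mem_eig_of_conj ρ (levi Q₀ g) 1 g.1 (by simp [levi_apply, hypExt_apply, x₀])
    (fun b => by simp [levi_apply, hypExt_apply]) hw
  simpa using h

theorem finrank_eig_le [FiniteDimensional ℂ V] (g : siegelGroup (hypSum Q₀)) (c c' : V₀)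
    (h : ∀ w ∈ eigc ρ c, ρ g w ∈ eigc ρ c') :
    finrank ℂ (eigc ρ c) ≤ finrank ℂ (eigc ρ c') := by
  refine LinearMap.finrank_le_finrank_of_injective (f := (ρ g).restrict h) ?_
  intro a b hab
  apply Subtype.ext
  have h' : ρ g a.1 = ρ g b.1 := congrArg Subtype.val hab
  have h2 := congrArg (ρ g⁻¹) h'
  simpa [← Module.End.mul_apply, ← map_mul] using h2

theorem finrank_eig_levi [FiniteDimensional ℂ V] (g : siegelGroup Q₀) (c : V₀) :
    finrank ℂ (eigc ρ ((g.1 : V₀ ≃ₗ[F] V₀) c)) = finrank ℂ (eigc ρ c) := by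
  refine le_antisymm (finrank_eig_le ρ (levi Q₀ g⁻¹) _ _ fun w hw => ?_)
    (finrank_eig_le ρ (levi Q₀ g) _ _ fun w hw => levi_mem ρ g hw)
  have h := levi_mem ρ g⁻¹ hw
  simpa [orth_inv_apply] using h

/-- The fixed space of the radical as a representation of the Levi complement. -/
noncomputable def sigma : Representation ℂ (siegelGroup Q₀) (eigc ρ 0) where
  toFun g := (ρ (levi Q₀ g)).restrict fun w hw => by simpa using levi_mem ρ g (c := 0) hw
  map_one' := by
    ext w : 1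
    apply Subtype.ext
    change ρ (levi Q₀ 1) w.1 = w.1
    rw [map_one, map_one, Module.End.one_apply]
  map_mul' a b := by
    ext w : 1
    apply Subtype.ext
    change ρ (levi Q₀ (a * b)) w.1 = ρ (levi Q₀ a) (ρ (levi Q₀ b) w.1)
    rw [map_mul, map_mul, Module.End.mul_apply]

theorem exists_orth_map_x₀ (hQ : Nondeg Q₀) (hn : 3 ≤ finrank F V₀) {u : (F × F) × V₀}
    (hu : hypSum Q₀ u = 0) (hu0 : u ≠ 0) :
    ∃ g : siegelGroup (hypSum Q₀),
      ((g : orth (hypSum Q₀)) : ((F × F) × V₀) ≃ₗ[F] (F × F) × V₀) x₀ = u := by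
  obtain ⟨g, hg, e⟩ := (Sec.top (hypSum Q₀)).transitive_singular hQ.hypSum
    (by rw [Module.finrank_prod, Module.finrank_prod, Module.finrank_self]; omega)
    (Sec.mem_top x₀) (Sec.mem_top u) x₀_singular hu (by simp [x₀]) hu0
  exact ⟨⟨g, hg.1⟩, e⟩

/-- A representation trivial on the radical is trivial. -/
theorem eq_one_of_rad (hQ : Nondeg Q₀) (hn : 3 ≤ finrank F V₀) (h : ∀ b, ρ (rad b) = 1)
    (g : siegelGroup (hypSum Q₀)) : ρ g = 1 := by
  obtain ⟨g, hg⟩ := g
  suffices ∀ hg : g ∈ siegelGroup (hypSum Q₀), ρ ⟨g, hg⟩ = 1 from this hg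
  refine Subgroup.closure_induction
    (p := fun x _ => ∀ hx : x ∈ siegelGroup (hypSum Q₀), ρ ⟨x, hx⟩ = 1) ?_ ?_ ?_ ?_ hg
  · rintro x ⟨u, w, hu, hw, rfl⟩ hx
    by_cases hu0 : u = 0
    · have : (⟨siegel (hypSum Q₀) u w hu hw, hx⟩ : siegelGroup (hypSum Q₀)) = 1 :=
        Subtype.ext (orth_ext fun z => by simp [siegel_apply, hu0])
      rw [this, map_one]
    obtain ⟨g, hg⟩ := exists_orth_map_x₀ hQ hn hu hu0
    set w' := (((g : orth (hypSum Q₀))⁻¹ : orth (hypSum Q₀)) :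
      ((F × F) × V₀) ≃ₗ[F] (F × F) × V₀) w with hw'
    have hp : polar (hypSum Q₀) x₀ w' = 0 := by
      have := polar_apply (g : orth (hypSum Q₀)) x₀ w'
      rw [hg, hw', orth_apply_inv, hw] at this
      exact this.symm
    have hsnd : w'.1.2 = 0 := by simpa [x₀, polar_hypSum] using hp
    have e : (⟨siegel (hypSum Q₀) u w hu hw, hx⟩ : siegelGroup (hypSum Q₀)) =
        g * rad w'.2 * g⁻¹ := by
      apply Subtype.ext
      simp only [rad, Subgroup.coe_mul, Subgroup.coe_inv, conj_siegel]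
      have e2 : w' = ((0, 0), w'.2) + w'.1.1 • x₀ := by
        refine Prod.ext (Prod.ext ?_ ?_) ?_ <;> simp [x₀, hsnd]
      refine (siegel_eq hg.symm ?_).trans
        (siegel_add_smul (by rw [orth_apply]; exact x₀_singular)
          (by rw [polar_apply]; exact polar_x₀ _) w'.1.1)
      rw [← map_smul, ← map_add, ← e2, hw', orth_apply_inv]
    rw [e, map_mul, map_mul, h, mul_one, ← map_mul, mul_inv_cancel, map_one]
  · intro hx; exact map_one ρ
  · intro a b ha hb iha ihb hx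
    rw [show (⟨a * b, hx⟩ : siegelGroup (hypSum Q₀)) = ⟨a, ha⟩ * ⟨b, hb⟩ from rfl, map_mul, iha ha,
      ihb hb, mul_one]
  · intro a ha iha hx
    have h1 : ρ (⟨a, ha⟩ : siegelGroup (hypSum Q₀)) * ρ (⟨a, ha⟩ : siegelGroup (hypSum Q₀))⁻¹ = 1 := by
      rw [← map_mul, mul_inv_cancel, map_one]
    rwa [iha ha, one_mul] at h1

/-- Transitivity on the singular characters. -/
theorem finrank_eig_singular [FiniteDimensional F V₀] [FiniteDimensional ℂ V] (hQ : Nondeg Q₀)
    (hn : 5 ≤ finrank F V₀) {c c' : V₀} (h : Q₀ c = 0) (h' : Q₀ c' = 0) (hc : c ≠ 0)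
    (hc' : c' ≠ 0) : finrank ℂ (eigc ρ c) = finrank ℂ (eigc ρ c') := by
  obtain ⟨g, hg, e⟩ := (Sec.top Q₀).transitive_singular hQ (by simpa using hn) (Sec.mem_top c)
    (Sec.mem_top c') h h' hc hc'
  rw [← e]
  exact (finrank_eig_levi ρ ⟨g, hg.1⟩ c).symm

/-- Two levels of non-singular characters occur together. -/
theorem two_levels [FiniteDimensional F V₀] [FiniteDimensional ℂ V] (hQ : Nondeg Q₀)
    (hn : 5 ≤ finrank F V₀)
    (hcom : commutator (orth (hypSum Q₀)) = siegelGroup (hypSum Q₀))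
    {c : V₀} (hc : Q₀ c ≠ 0) (hpos : 0 < finrank ℂ (eigc ρ c)) (t : Fˣ)
    {c' : V₀} (h' : Q₀ c' = (t : F) * t * Q₀ c ∨ Q₀ c' = Q₀ c) :
    0 < finrank ℂ (eigc ρ c') := by
  classical
  have same : ∀ a b : V₀, Q₀ a = Q₀ b → Q₀ a ≠ 0 → 0 < finrank ℂ (eigc ρ a) →
      0 < finrank ℂ (eigc ρ b) := by
    intro a b hab ha h
    obtain ⟨g, hg, e⟩ := (Sec.top Q₀).transitive_norm hQ (by simpa using hn) (Sec.mem_top a)
      (Sec.mem_top b) hab ha
    rwa [← e, finrank_eig_levi ρ ⟨g, hg.1⟩ a]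
  rcases h' with h' | h'
  swap
  · exact same c c' h'.symm hc hpos
  obtain ⟨e, f, hp⟩ := CfsgLib.ClassicalForms.exists_hypPair hQ (by omega)
  have hP : IsHypPair (hypSum Q₀) (((0, 0), e), ((0, 0), f)) :=
    ⟨by simp [hp.1], by simp [hp.2.1], by simp [polar_hypSum, hp.2.2]⟩
  have hX : IsHypPair (hypSum Q₀) ((((1 : F), (0 : F)), (0 : V₀)), (((0 : F), (1 : F)), (0 : V₀))) :=
    isHypPair_std
  have hmem := tor_mul_tor_mem hQ.hypSum hX hP t⁻¹
  rw [hcom, inv_inv] at hmem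
  let g : siegelGroup (hypSum Q₀) := ⟨_, hmem⟩
  let k : orth Q₀ := tor hp t
  have hk : ∀ b : V₀, ((g : orth (hypSum Q₀)) : ((F × F) × V₀) ≃ₗ[F] (F × F) × V₀) ((0, 0), b) =
      ((0, 0), (k : V₀ ≃ₗ[F] V₀) b) := by
    intro b
    change (tor hX t⁻¹ * tor hP t : orth (hypSum Q₀)).1 ((0, 0), b) = _
    rw [orth_mul_apply, tor_apply hP]
    rw [tor_of_orth hX]
    · simp [k, tor_apply, polar_hypSum]
    · simp [polar_hypSum]
    · simp [polar_hypSum]
  have hx : ((g : orth (hypSum Q₀)) : ((F × F) × V₀) ≃ₗ[F] (F × F) × V₀) x₀ =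
      ((t⁻¹ : Fˣ) : F) • x₀ := by
    change (tor hX t⁻¹ * tor hP t : orth (hypSum Q₀)).1 x₀ = _
    rw [orth_mul_apply, tor_of_orth hP (z := x₀) _ (by simp [x₀, polar_hypSum]) (by simp [x₀, polar_hypSum])]
    exact tor_fst hX t⁻¹
  have h1 := finrank_eig_le ρ g c _ fun w hw => mem_eig_of_conj ρ g t⁻¹ k hx hk hw
  refine same _ c' ?_ ?_ (lt_of_lt_of_le hpos h1)
  · rw [QuadraticMap.map_smul, orth_apply, inv_inv, smul_eq_mul, h']
  · rw [QuadraticMap.map_smul, orth_apply, inv_inv, smul_eq_mul]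
    exact mul_ne_zero (mul_ne_zero t.ne_zero t.ne_zero) hc

/-- A singular one dimensional eigenspace is fixed by long root elements orthogonal to it, in
favourable position. -/
theorem root_fix [FiniteDimensional ℂ V] (hQ : Nondeg Q₀)
    (hcom : commutator (orth Q₀) = siegelGroup Q₀) {l : Fˣ} (hl : (l : F) * l ≠ 1)
    {a a' f c : V₀} (ha : Q₀ a = 0) (haa : polar Q₀ a a' = 0)
    (hf : Q₀ f = 0) (haf : polar Q₀ a f = 1) (ha'f : polar Q₀ a' f = 0)
    (hca : polar Q₀ c a = 0) (hca' : polar Q₀ c a' = 0) (hcf : polar Q₀ c f = 0)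
    (h1 : finrank ℂ (eigc ρ c) = 1) {w : V} (hw : w ∈ eigc ρ c) :
    ρ (levi Q₀ ⟨siegel Q₀ a a' ha haa, siegel_mem_siegelGroup _ _⟩) w = w := by
  have hp : IsHypPair Q₀ (a, f) := ⟨ha, hf, haf⟩
  have hp' : IsHypPair Q₀ (f, a) := ⟨hf, ha, by rw [polar_comm]; exact haf⟩
  have hmem := tor_mul_tor_mem hQ hp hp' l
  rw [hcom] at hmem
  let k : siegelGroup Q₀ := ⟨_, hmem⟩
  have hkz : ∀ z, polar Q₀ z a = 0 → polar Q₀ z f = 0 → (k.1 : V₀ ≃ₗ[F] V₀) z = z := by
    intro z h h'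
    change (tor hp l * tor hp' l⁻¹ : orth Q₀).1 z = z
    rw [orth_mul_apply, tor_of_orth hp' _ h' h, tor_of_orth hp _ h h']
  have hkc : (k.1 : V₀ ≃ₗ[F] V₀) c = c := hkz c hca hcf
  have hka' : (k.1 : V₀ ≃ₗ[F] V₀) a' = a' := hkz a' (by rw [polar_comm]; exact haa) ha'f
  have hka : (k.1 : V₀ ≃ₗ[F] V₀) a = ((l : F) * l) • a := by
    change (tor hp l * tor hp' l⁻¹ : orth Q₀).1 a = _
    have e1 := tor_snd hp' l⁻¹
    simp only [inv_inv] at e1
    rw [orth_mul_apply, e1, map_smul, tor_fst hp, smul_smul]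
  let T : F → siegelGroup Q₀ := fun s =>
    ⟨siegel Q₀ a (s • a') ha (by rw [polar_smul_right, haa, smul_zero]), siegel_mem_siegelGroup _ _⟩
  have hTc : ∀ s, ((T s).1 : V₀ ≃ₗ[F] V₀) c = c := by
    intro s
    change (siegel Q₀ a (s • a') ha (by rw [polar_smul_right, haa, smul_zero]) : V₀ ≃ₗ[F] V₀) c = c
    rw [siegel_apply, hca, polar_smul_right, hca']
    module
  have hconj : ∀ s, k * T s * k⁻¹ = T ((l : F) * l * s) := by
    intro s
    apply Subtype.ext
    simp only [Subgroup.coe_mul, Subgroup.coe_inv, T, conj_siegel]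
    refine (siegel_eq (u' := ((l : F) * l) • a) (w' := s • a')
      (hu' := by simp [QuadraticMap.map_smul, ha])
      (hw' := by simp [polar_smul_left, polar_smul_right, haa]) hka (by rw [map_smul, hka'])).trans ?_
    rw [siegel_smul ha (by rw [polar_smul_right, haa, smul_zero])]
    exact siegel_eq rfl (smul_smul _ _ _)
  have hTadd : ∀ r s, T (r + s) = T r * T s := by
    intro r s
    apply Subtype.ext
    simp only [T, Subgroup.coe_mul]
    rw [siegel_mul ha (by rw [polar_smul_right, haa, smul_zero]) (by rw [polar_smul_right, haa, smul_zero])]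
    exact siegel_eq rfl (add_smul r s a')
  obtain ⟨w₀, -, hspan⟩ := finrank_eq_one_iff'.1 h1
  have key : ∀ g : siegelGroup Q₀, (g.1 : V₀ ≃ₗ[F] V₀) c = c →
      ∃ μ : ℂ, ∀ v ∈ eigc ρ c, ρ (levi Q₀ g) v = μ • v := by
    intro g hg
    have hm : ρ (levi Q₀ g) w₀.1 ∈ eigc ρ c := by simpa [hg] using levi_mem ρ g w₀.2
    obtain ⟨μ, hμ⟩ := hspan ⟨_, hm⟩
    refine ⟨μ, fun v hv => ?_⟩
    obtain ⟨b, hb⟩ := hspan ⟨v, hv⟩
    have hb' : b • w₀.1 = v := congrArg Subtype.val hb
    have ha' : μ • w₀.1 = ρ (levi Q₀ g) w₀.1 := congrArg Subtype.val hμ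
    rw [← hb', map_smul, ← ha', smul_comm]
  have hs : ∀ s, ρ (levi Q₀ (T ((l : F) * l * s))) w = ρ (levi Q₀ (T s)) w := by
    intro s
    obtain ⟨μ, hμ⟩ := key (T s) (hTc s)
    have hk' : ((k⁻¹ : siegelGroup Q₀).1 : V₀ ≃ₗ[F] V₀) c = c := by
      rw [Subgroup.coe_inv]
      conv_lhs => rw [← hkc]
      exact orth_inv_apply _ _
    have h2 : ρ (levi Q₀ k⁻¹) w ∈ eigc ρ c := by
      have h := levi_mem ρ k⁻¹ hw
      rwa [hk'] at h
    rw [← hconj, map_mul, map_mul, map_mul, map_mul, Module.End.mul_apply, Module.End.mul_apply,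
      hμ _ h2, map_smul, ← Module.End.mul_apply, ← map_mul, ← map_mul, mul_inv_cancel, map_one,
      map_one, Module.End.one_apply, hμ _ hw]
  obtain ⟨μ, hμ⟩ := key (T (1 / ((l : F) * l - 1))) (hTc _)
  have hne : (l : F) * l - 1 ≠ 0 := sub_ne_zero.2 hl
  have h3 := hs (1 / ((l : F) * l - 1))
  rw [show (l : F) * l * (1 / ((l : F) * l - 1)) = 1 + 1 / ((l : F) * l - 1) by
      linear_combination mul_one_div_cancel hne,
    hTadd, map_mul, map_mul, Module.End.mul_apply, hμ w hw, map_smul] at h3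
  have hT1 : T 1 = ⟨siegel Q₀ a a' ha haa, siegel_mem_siegelGroup _ _⟩ :=
    Subtype.ext (by simp only [T]; exact siegel_eq rfl (one_smul F a'))
  rw [hT1] at h3
  have hμ0 : μ ≠ 0 ∨ w = 0 := by
    by_cases h : μ = 0
    · right
      have h4 := hμ w hw
      rw [h, zero_smul] at h4
      have h5 := congrArg (ρ (levi Q₀ (T (1 / ((l : F) * l - 1))))⁻¹) h4
      rwa [← Module.End.mul_apply, ← map_mul, inv_mul_cancel, map_one, Module.End.one_apply,
        map_zero] at h5
    · exact Or.inl h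
  rcases hμ0 with h | h
  · exact smul_right_injective V h h3
  · rw [h, map_zero]

end CfsgLib.InvCentralizers.OrthParabolic
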