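import Mathlib
import Cfsg.Agent.Lib.InvCentralizers.OrthParabolic
import Cfsg.Agent.Lib.CharTheory.Degree

/-!
Integrality coming from the class function counting orthogonal pairs of singular vectors with a
given Siegel transformation.
-/

set_option autoImplicit false
set_option linter.unusedSectionVars false
set_option linter.style.haveILetI false

namespace CfsgLib.InvCentralizers.OrthPairs

open QuadraticMap Module CfsgLib.ClassicalForms
open CfsgLib.InvCentralizers.OrthParabolic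

variable {F V₀ : Type*} [Field F] [Fintype F] [AddCommGroup V₀] [Module F V₀] [Fintype V₀]
  {Q₀ : QuadraticForm F V₀}

theorem card_sing_ne_zero {W : Type*} [AddCommGroup W] [Module F W] [Fintype W]
    (Q : QuadraticForm F W) [Fintype {u : W // Q u = 0 ∧ u ≠ 0}] :
    Fintype.card {u : W // Q u = 0 ∧ u ≠ 0} = Nat.card {v // Q v = 0} - 1 := by
  classical
  rw [Nat.card_eq_fintype_card, Fintype.card_subtype, Fintype.card_subtype,
    ← Finset.card_erase_of_mem (a := (0 : W)) (by simp)]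
  congr 1
  ext v
  simp [and_comm]

variable (Q₀) in
/-- A pair of orthogonal, independent singular vectors. -/
def IsPair (p : ((F × F) × V₀) × ((F × F) × V₀)) : Prop :=
  (hypSum Q₀ p.1 = 0 ∧ p.1 ≠ 0) ∧ hypSum Q₀ p.2 = 0 ∧
    polar (hypSum Q₀) p.1 p.2 = 0 ∧ ∀ s : F, p.2 ≠ s • p.1

/-- The Siegel transformation of a pair. -/
def el (p : {p // IsPair Q₀ p}) : siegelGroup (hypSum Q₀) :=
  ⟨siegel (hypSum Q₀) p.1.1 p.1.2 p.2.1.1 p.2.2.2.1, siegel_mem_siegelGroup _ _⟩

theorem exists_split (hQ : Nondeg Q₀) (hn : 3 ≤ finrank F V₀) (p : {p // IsPair Q₀ p}) :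
    ∃ (g : siegelGroup (hypSum Q₀)) (b : V₀), Q₀ b = 0 ∧ b ≠ 0 ∧ el p = g * rad b * g⁻¹ := by
  obtain ⟨⟨u, w⟩, ⟨hu, hu0⟩, hw, huw, hind⟩ := p
  obtain ⟨g, hgu⟩ := exists_orth_map_x₀ hQ hn hu hu0
  simp only at hu hu0 hw huw hind hgu
  set w' := ((g.1⁻¹ : orth (hypSum Q₀)) : ((F × F) × V₀) ≃ₗ[F] (F × F) × V₀) w with hw'
  have h1 : w'.1.2 = 0 := by
    have := polar_apply g.1 x₀ w'
    rw [hgu, hw', orth_apply_inv, huw, ← hw'] at this
    clear_value w'
    simpa [x₀, polar_hypSum] using this.symm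
  have hwg : (g.1 : ((F × F) × V₀) ≃ₗ[F] (F × F) × V₀) w' = w := by rw [hw', orth_apply_inv]
  have e : w' = ((0, 0), w'.2) + w'.1.1 • x₀ := by
    refine Prod.ext (Prod.ext ?_ ?_) ?_ <;> simp [x₀, h1]
  refine ⟨g, w'.2, ?_, ?_, ?_⟩
  · have h2 : hypSum Q₀ w' = 0 := by rw [hw', orth_apply]; exact hw
    rw [hypSum_apply, h1, mul_zero, zero_add] at h2
    exact h2
  · intro h0
    refine hind w'.1.1 ?_
    rw [← hwg, ← hgu, ← map_smul]
    congr 1
    refine Prod.ext (Prod.ext ?_ ?_) ?_ <;> simp [x₀, h1, h0]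
  · apply Subtype.ext
    simp only [el, rad, Subgroup.coe_mul, Subgroup.coe_inv, conj_siegel]
    refine (siegel_eq hgu.symm ?_).trans
      (siegel_add_smul (by rw [orth_apply]; exact x₀_singular)
        (by rw [polar_apply]; exact polar_x₀ _) w'.1.1)
    rw [← map_smul, ← map_add, ← e, hwg]

open scoped Classical in
theorem card_pairs (hQ : Nondeg Q₀) (hn : 3 ≤ finrank F V₀) :
    Fintype.card {p // IsPair Q₀ p} = (Nat.card {v // hypSum Q₀ v = 0} - 1) *
      (Fintype.card F * (Nat.card {v // Q₀ v = 0} - 1)) := by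
  choose gx hgx using fun u : {u : (F × F) × V₀ // hypSum Q₀ u = 0 ∧ u ≠ 0} =>
    exists_orth_map_x₀ (Q₀ := Q₀) hQ hn u.2.1 u.2.2
  let Φ : {u : (F × F) × V₀ // hypSum Q₀ u = 0 ∧ u ≠ 0} × (F × {b : V₀ // Q₀ b = 0 ∧ b ≠ 0}) →
      {p // IsPair Q₀ p} := fun x =>
    ⟨(x.1.1, ((gx x.1).1 : ((F × F) × V₀) ≃ₗ[F] (F × F) × V₀) ((x.2.1, 0), x.2.2.1)),
      x.1.2, by rw [orth_apply]; simp [x.2.2.2.1], by
        rw [← hgx x.1, polar_apply]; simp [x₀, polar_hypSum], fun s hs => x.2.2.2.2 (by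
        simp only at hs
        rw [← hgx x.1, ← map_smul] at hs
        have h := congrArg Prod.snd (LinearEquiv.injective _ hs)
        simpa [x₀] using h)⟩
  have hΦ : Function.Bijective Φ := by
    refine ⟨fun x y h => ?_, ?_⟩
    · obtain ⟨u, s, b⟩ := x
      obtain ⟨u', s', b'⟩ := y
      have hu : u = u' := Subtype.ext (congrArg (fun p : {p // IsPair Q₀ p} => p.1.1) h)
      subst hu
      have h2 := LinearEquiv.injective _ (congrArg (fun p : {p // IsPair Q₀ p} => p.1.2) h)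
      simp only [Prod.mk.injEq, and_true] at h2
      exact Prod.ext rfl (Prod.ext h2.1 (Subtype.ext h2.2))
    · rintro ⟨⟨u, w⟩, ⟨hu, hu0⟩, hw, huw, hind⟩
      set g := gx ⟨u, hu, hu0⟩ with hgdef
      have hgu : (g.1 : ((F × F) × V₀) ≃ₗ[F] (F × F) × V₀) x₀ = u := hgx ⟨u, hu, hu0⟩
      simp only at hu hu0 hw huw hind hgu
      set w' := ((g.1⁻¹ : orth (hypSum Q₀)) : ((F × F) × V₀) ≃ₗ[F] (F × F) × V₀) w with hw'
      have h1 : w'.1.2 = 0 := by
        have := polar_apply g.1 x₀ w'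
        rw [hgu, hw', orth_apply_inv, huw, ← hw'] at this
        clear_value w'
        simpa [x₀, polar_hypSum] using this.symm
      have hwg : (g.1 : ((F × F) × V₀) ≃ₗ[F] (F × F) × V₀) w' = w := by rw [hw', orth_apply_inv]
      have hb : Q₀ w'.2 = 0 := by
        have h2 : hypSum Q₀ w' = 0 := by rw [hw', orth_apply]; exact hw
        rw [hypSum_apply, h1, mul_zero, zero_add] at h2
        exact h2
      have hb0 : w'.2 ≠ 0 := fun h0 => hind w'.1.1 (by
        rw [← hwg, ← hgu, ← map_smul]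
        congr 1
        refine Prod.ext (Prod.ext ?_ ?_) ?_ <;> simp [x₀, h1, h0])
      refine ⟨(⟨u, hu, hu0⟩, w'.1.1, ⟨w'.2, hb, hb0⟩), Subtype.ext (Prod.ext rfl ?_)⟩
      change (g.1 : ((F × F) × V₀) ≃ₗ[F] (F × F) × V₀) ((w'.1.1, 0), w'.2) = w
      rw [← hwg]
      congr 1
      exact Prod.ext (Prod.ext rfl h1.symm) rfl
  rw [← Fintype.card_congr (Equiv.ofBijective Φ hΦ), Fintype.card_prod, Fintype.card_prod,
    card_sing_ne_zero, card_sing_ne_zero]

open scoped Classical in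
/-- The degree divides the sum of the character over the pairs. -/
theorem finrank_dvd {V : Type*} [AddCommGroup V] [Module ℂ V] [FiniteDimensional ℂ V]
    (ρ : Representation ℂ (siegelGroup (hypSum Q₀)) V) [ρ.IsIrreducible] (X : ℤ)
    (hX : ∀ p, ρ.character (el p) = (X : ℂ)) :
    (finrank ℂ V : ℤ) ∣ (Fintype.card {p // IsPair Q₀ p} : ℤ) * X := by
  haveI : Finite (orth (hypSum Q₀)) := Finite.of_injective
    (fun g : orth (hypSum Q₀) => (⇑(g.1) : _ → _))
    fun a b h => Subtype.ext (DFunLike.coe_injective h)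
  letI : Fintype (siegelGroup (hypSum Q₀)) := Fintype.ofFinite _
  let a : siegelGroup (hypSum Q₀) → ℂ := fun g =>
    ((Finset.univ.filter fun p : {p // IsPair Q₀ p} => el p = g).card : ℂ)
  have hcl : Cfsg.IsClassFunction (siegelGroup (hypSum Q₀)) a := by
    intro g h
    simp only [a]
    congr 1
    let σp : {p // IsPair Q₀ p} → {p // IsPair Q₀ p} := fun p =>
      ⟨((h.1 : ((F × F) × V₀) ≃ₗ[F] (F × F) × V₀) p.1.1,
        (h.1 : ((F × F) × V₀) ≃ₗ[F] (F × F) × V₀) p.1.2),
        ⟨by rw [orth_apply]; exact p.2.1.1, fun h0 => p.2.1.2 ((LinearEquiv.map_eq_zero_iff _).1 h0)⟩,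
        by rw [orth_apply]; exact p.2.2.1, by rw [polar_apply]; exact p.2.2.2.1,
        fun s hs => p.2.2.2.2 s ((h.1 : ((F × F) × V₀) ≃ₗ[F] (F × F) × V₀).injective
          (by rw [map_smul]; exact hs))⟩
    have hσ : Function.Injective σp := fun p p' e => Subtype.ext (Prod.ext
      (LinearEquiv.injective _ (congrArg (fun p : {p // IsPair Q₀ p} => p.1.1) e))
      (LinearEquiv.injective _ (congrArg (fun p : {p // IsPair Q₀ p} => p.1.2) e)))
    have hel : ∀ p, el (σp p) = h * el p * h⁻¹ := fun p => by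
      apply Subtype.ext
      simp only [el, σp, Subgroup.coe_mul, Subgroup.coe_inv, conj_siegel]
    symm
    refine Finset.card_bij (fun p _ => σp p) (fun p hp => ?_) (fun p _ p' _ e => hσ e) fun p hp => ?_
    · simp only [Finset.mem_filter, Finset.mem_univ, true_and] at hp ⊢
      rw [hel, hp]
    · obtain ⟨p', rfl⟩ := (Finite.injective_iff_surjective.1 hσ) p
      refine ⟨p', ?_, rfl⟩
      simp only [Finset.mem_filter, Finset.mem_univ, true_and] at hp ⊢
      rw [hel] at hp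
      simpa using hp
  have hint := CfsgLib.CharTheory.isIntegral_sum_mul_character_div ρ hcl
    (fun g => isIntegral_natCast _)
  have hsum : ∑ g, a g * ρ.character g = (Fintype.card {p // IsPair Q₀ p} : ℂ) * X := by
    rw [← Finset.card_univ (α := {p // IsPair Q₀ p}), ← nsmul_eq_mul, ← Finset.sum_const,
      ← Finset.sum_fiberwise Finset.univ (el (Q₀ := Q₀))]
    refine Finset.sum_congr rfl fun g _ => ?_
    rw [Finset.sum_const, nsmul_eq_mul]
    rcases (Finset.univ.filter fun p : {p // IsPair Q₀ p} => el p = g).eq_empty_or_nonempty with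
      h | ⟨p, hp⟩
    · simp [a, h]
    · simp only [Finset.mem_filter, Finset.mem_univ, true_and] at hp
      rw [← hp, hX, hp]
  rw [hsum] at hint
  set Z : ℤ := (Fintype.card {p // IsPair Q₀ p} : ℤ) * X with hZ
  have hZ' : (Fintype.card {p // IsPair Q₀ p} : ℂ) * X = ((Z : ℤ) : ℂ) := by
    rw [hZ]; push_cast; ring
  rw [hZ'] at hint
  obtain ⟨z, hz⟩ := CfsgLib.CharTheory.exists_int_of_isIntegral_ratCast
    (q := (Z : ℚ) / (finrank ℂ V : ℚ)) (by push_cast; exact hint)
  rw [eq_div_iff (by exact_mod_cast (CfsgLib.CharTheory.finrank_pos_of_isIrreducible ρ).ne')] at hz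
  exact ⟨z, by
    have : ((Z : ℤ) : ℚ) = ((finrank ℂ V : ℤ) * z : ℤ) := by push_cast; linear_combination -hz
    exact_mod_cast this⟩

end CfsgLib.InvCentralizers.OrthPairs
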