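import Mathlib
import Cfsg.Agent.Lib.InvCentralizers.OrthParabolic
import Cfsg.Agent.Lib.InvCentralizers.OrthPairs

/-!
The induction step for the smallest degrees of the Siegel groups of forms of Witt index at least
three.
-/

set_option autoImplicit false
set_option linter.unusedSectionVars false
set_option linter.style.haveILetI false

namespace CfsgLib.InvCentralizers.OrthStep

open QuadraticMap Module CfsgLib.ClassicalForms
open CfsgLib.InvCentralizers.OrthParabolic
open CfsgLib.InvCentralizers.SympBound (psi psi_prim)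
open CfsgLib.InvCentralizers.AbelianEigen

variable {F V₂ : Type*} [Field F] [Fintype F] [AddCommGroup V₂] [Module F V₂] [Fintype V₂]
  {Q₂ : QuadraticForm F V₂}

/-- The first long root vector. -/
def ee : (F × F) × ((F × F) × V₂) := ((1, 0), 0)

/-- The second long root vector. -/
def ee' : (F × F) × ((F × F) × V₂) := ((0, 0), ((1, 0), 0))

variable (Q₂) in
/-- The form on the characters. -/
abbrev QQ : QuadraticForm F ((F × F) × ((F × F) × V₂)) := hypSum (hypSum Q₂)

theorem ee_sing : QQ Q₂ (ee : (F × F) × ((F × F) × V₂)) = 0 := by simp [ee]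

theorem ee'_sing : QQ Q₂ (ee' : (F × F) × ((F × F) × V₂)) = 0 := by simp [ee']

theorem ee_orth : polar (QQ Q₂) (ee : (F × F) × ((F × F) × V₂)) ee' = 0 := by
  simp [ee, ee', polar_hypSum]

variable (Q₂) in
/-- The long root element. -/
def rootEl : siegelGroup (QQ Q₂) :=
  ⟨siegel (QQ Q₂) ee ee' ee_sing ee_orth, siegel_mem_siegelGroup _ _⟩

theorem rootEl_apply (c : (F × F) × ((F × F) × V₂)) :
    ((rootEl Q₂).1 : ((F × F) × ((F × F) × V₂)) ≃ₗ[F] _) c =
      ((c.1.1 - c.2.1.2, c.1.2), ((c.2.1.1 + c.1.2, c.2.1.2), c.2.2)) := by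
  obtain ⟨⟨s, t⟩, ⟨⟨s', t'⟩, w⟩⟩ := c
  simp only [rootEl, siegel_apply]
  simp [ee, ee', polar_hypSum, polar_zero_right]

theorem rootEl_fix_iff (c : (F × F) × ((F × F) × V₂)) :
    ((rootEl Q₂).1 : ((F × F) × ((F × F) × V₂)) ≃ₗ[F] _) c = c ↔ c.1.2 = 0 ∧ c.2.1.2 = 0 := by
  rw [rootEl_apply]
  obtain ⟨⟨s, t⟩, ⟨⟨s', t'⟩, w⟩⟩ := c
  simp [Prod.ext_iff, and_comm]

/-- The sum of the additive character over the zeros, along the first coordinate pair. -/
theorem sum_psi_zeros {V₁ : Type*} [AddCommGroup V₁] [Module F V₁] [Fintype V₁] [DecidableEq V₁]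
    [DecidableEq F] (Q₁ : QuadraticForm F V₁) :
    ∑ c ∈ Finset.univ.filter (fun c : (F × F) × V₁ => hypSum Q₁ c = 0), psi F c.1.2 =
      (Fintype.card F : ℂ) * (Nat.card {w : V₁ // Q₁ w = 0} : ℂ) - (Fintype.card V₁ : ℂ) := by
  rw [Finset.sum_filter, Fintype.sum_prod_type, Fintype.sum_prod_type_right]
  have h : ∀ t : F, ∑ s : F, ∑ w : V₁, (if hypSum Q₁ ((s, t), w) = 0 then psi F t else 0) =
      psi F t * (if t = 0 then (Fintype.card F : ℂ) * (Nat.card {w : V₁ // Q₁ w = 0} : ℂ)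
        else (Fintype.card V₁ : ℂ)) := by
    intro t
    split_ifs with ht
    · subst ht
      simp [Nat.card_eq_fintype_card, Fintype.card_subtype]
    · rw [Finset.sum_comm]
      have h1 : ∀ w : V₁, ∑ s : F, (if hypSum Q₁ ((s, t), w) = 0 then psi F t else 0) = psi F t := by
        intro w
        rw [Finset.sum_eq_single (-Q₁ w / t)]
        · rw [if_pos]
          rw [hypSum_apply]
          field_simp
          ring
        · intro s _ hs
          rw [if_neg]
          intro h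
          apply hs
          rw [hypSum_apply] at h
          rw [eq_div_iff ht]
          linear_combination h
        · simp
      rw [Finset.sum_congr rfl fun w _ => h1 w, Finset.sum_const, Finset.card_univ, nsmul_eq_mul,
        mul_comm]
  rw [Finset.sum_congr rfl fun t _ => h t, ← Finset.add_sum_erase _ _ (Finset.mem_univ (0 : F)),
    if_pos rfl, AddChar.map_zero_eq_one, one_mul,
    Finset.sum_congr rfl fun t ht => by rw [if_neg (Finset.mem_erase.1 ht).1], ← Finset.sum_mul]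
  have h2 : ∑ t : F, psi F t = 0 := by
    refine AddChar.sum_eq_zero_of_ne_one fun hone => ?_
    exact psi_prim (one_ne_zero : (1 : F) ≠ 0)
      (DFunLike.ext _ _ fun x => by simp [hone])
  rw [← Finset.add_sum_erase _ _ (Finset.mem_univ (0 : F)), AddChar.map_zero_eq_one] at h2
  linear_combination (Fintype.card V₁ : ℂ) * h2

variable {V : Type*} [AddCommGroup V] [Module ℂ V] [FiniteDimensional ℂ V]
  (ρ : Representation ℂ (siegelGroup (hypSum (QQ Q₂))) V)

theorem rad_conj (g : siegelGroup (QQ Q₂)) (b : (F × F) × ((F × F) × V₂)) :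
    levi (QQ Q₂) g * rad b * (levi (QQ Q₂) g)⁻¹ =
      rad ((g.1 : ((F × F) × ((F × F) × V₂)) ≃ₗ[F] _) b) := by
  apply Subtype.ext
  simp only [rad, Subgroup.coe_mul, Subgroup.coe_inv, levi_apply, conj_siegel]
  exact siegel_eq (by simp [hypExt_apply, x₀]) (by simp [hypExt_apply])

set_option maxHeartbeats 400000 in
open scoped Classical in
/-- The induction step. -/
theorem step [ρ.IsIrreducible] (hQ₂ : Nondeg Q₂) (hn : 2 ≤ finrank F V₂)
    (hcomW : commutator (orth (hypSum (QQ Q₂))) = siegelGroup (hypSum (QQ Q₂)))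
    (hcom₀ : commutator (orth (QQ Q₂)) = siegelGroup (QQ Q₂))
    (l : Fˣ) (hl : (l : F) * l ≠ 1) (hρ : ∃ g, ρ g ≠ 1) :
    2 * (Nat.card {v // QQ Q₂ v = 0} - 1) ≤ finrank ℂ V ∨
      (∃ a : F, a ≠ 0 ∧ 2 * Nat.card {v // QQ Q₂ v = a} ≤ finrank ℂ V) ∨
      ((∃ g, sigma ρ g ≠ 1) ∧
        finrank ℂ V = Nat.card {v // QQ Q₂ v = 0} - 1 + finrank ℂ (eigc ρ 0) ∧
        (finrank ℂ V : ℤ) ∣
          (((Nat.card {v // hypSum (QQ Q₂) v = 0} - 1) *
              (Fintype.card F * (Nat.card {v // QQ Q₂ v = 0} - 1)) : ℕ) : ℤ) *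
            ((finrank ℂ (eigc ρ 0) : ℤ) + Fintype.card F * Nat.card {v // hypSum Q₂ v = 0} -
              Fintype.card ((F × F) × V₂) - 1)) := by
  have hQ1 : Nondeg (hypSum Q₂) := hQ₂.hypSum
  have hQ0 : Nondeg (QQ Q₂) := hQ1.hypSum
  have hn0 : 5 ≤ finrank F ((F × F) × ((F × F) × V₂)) := by
    simp only [finrank_prod, finrank_self]; omega
  set d := finrank ℂ (eigc ρ 0) with hd
  by_cases hns : ∃ c, QQ Q₂ c ≠ 0 ∧ 0 < finrank ℂ (eigc ρ c)
  · right; left
    obtain ⟨c, hc, hpos⟩ := hns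
    refine ⟨QQ Q₂ c, hc, ?_⟩
    let O : Finset ((F × F) × ((F × F) × V₂)) := Finset.univ.filter fun v =>
      QQ Q₂ v = QQ Q₂ c ∨ QQ Q₂ v = (l : F) * l * QQ Q₂ c
    have h1 : O.card ≤ finrank ℂ V := card_le_finrank (setup ρ hQ0) O fun v hv => by
      have h2 := two_levels ρ hQ0 hn0 hcomW hc hpos l (Finset.mem_filter.1 hv).2.symm
      haveI : Nontrivial (eigc ρ v) := Module.nontrivial_of_finrank_pos h2
      obtain ⟨w, hw⟩ := exists_ne (0 : eigc ρ v)
      exact ⟨w.1, w.2, fun h => hw (Subtype.ext h)⟩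
    have e : O = (Finset.univ.filter fun v => QQ Q₂ v = QQ Q₂ c) ∪
        (Finset.univ.filter fun v => QQ Q₂ v = (l : F) * l * QQ Q₂ c) := Finset.filter_or _ _ _
    have hdisj : Disjoint (Finset.univ.filter fun v => QQ Q₂ v = QQ Q₂ c)
        (Finset.univ.filter fun v => QQ Q₂ v = (l : F) * l * QQ Q₂ c) := by
      rw [Finset.disjoint_left]
      intro v hv hv'
      simp only [Finset.mem_filter, Finset.mem_univ, true_and] at hv hv'
      rw [hv] at hv'
      exact hl (mul_right_cancel₀ hc (hv'.symm.trans (one_mul _).symm))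
    have heq : (Finset.univ.filter fun v => QQ Q₂ v = QQ Q₂ c).card =
        (Finset.univ.filter fun v => QQ Q₂ v = (l : F) * l * QQ Q₂ c).card := by
      refine Finset.card_bij' (fun v _ => (l : F) • v) (fun v _ => ((l⁻¹ : Fˣ) : F) • v) ?_ ?_ ?_ ?_
      · intro v hv
        simp only [Finset.mem_filter, Finset.mem_univ, true_and] at hv ⊢
        rw [QuadraticMap.map_smul, hv, smul_eq_mul]
      · intro v hv
        simp only [Finset.mem_filter, Finset.mem_univ, true_and] at hv ⊢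
        rw [QuadraticMap.map_smul, hv, smul_eq_mul, ← mul_assoc,
          show ((l⁻¹ : Fˣ) : F) * ((l⁻¹ : Fˣ) : F) * ((l : F) * l) = 1 by
            have := Units.inv_mul l
            linear_combination (((l⁻¹ : Fˣ) : F) * l + 1) * this, one_mul]
      · intro v _; simp [smul_smul]
      · intro v _; simp [smul_smul]
    rw [e, Finset.card_union_of_disjoint hdisj, ← heq] at h1
    rw [Nat.card_eq_fintype_card, Fintype.card_subtype]
    omega
  push Not at hns
  have hee0 : (ee : (F × F) × ((F × F) × V₂)) ≠ 0 := by simp [ee]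
  set m := finrank ℂ (eigc ρ ee) with hm
  have hsing : ∀ c, QQ Q₂ c = 0 → c ≠ 0 → finrank ℂ (eigc ρ c) = m := fun c h h0 =>
    finrank_eig_singular ρ hQ0 hn0 h ee_sing h0 hee0
  have hns0 : ∀ c, QQ Q₂ c ≠ 0 → finrank ℂ (eigc ρ c) = 0 := fun c h => by
    have := hns c h; omega
  set Sg := Finset.univ.filter fun c : (F × F) × ((F × F) × V₂) => QQ Q₂ c = 0 with hSg
  have h0mem : (0 : (F × F) × ((F × F) × V₂)) ∈ Sg :=
    Finset.mem_filter.2 ⟨Finset.mem_univ _, map_zero _⟩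
  have hsum : ∀ f : (F × F) × ((F × F) × V₂) → ℂ,
      ∑ c, f c * (finrank ℂ (eigc ρ c) : ℂ) = f 0 * d + (m : ℂ) * ∑ c ∈ Sg.erase 0, f c := by
    intro f
    rw [← Finset.sum_filter_add_sum_filter_not Finset.univ (fun c => QQ Q₂ c = 0),
      Finset.sum_eq_zero (s := Finset.univ.filter fun c => ¬ QQ Q₂ c = 0) (fun c hc => by
        rw [hns0 c (Finset.mem_filter.1 hc).2, Nat.cast_zero, mul_zero]), add_zero,
      ← Finset.add_sum_erase _ _ h0mem, Finset.mul_sum]
    congr 1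
    refine Finset.sum_congr rfl fun c hc => ?_
    obtain ⟨hc0, hc1⟩ := Finset.mem_erase.1 hc
    rw [hsing c (Finset.mem_filter.1 hc1).2 hc0, mul_comm]
  have hdim : finrank ℂ V = d + m * (Sg.card - 1) := by
    have h1 := finrank_eq_sum (setup ρ hQ0)
    have h2 := hsum fun _ => 1
    simp only [one_mul, Finset.sum_const, nsmul_eq_mul, mul_one] at h2
    rw [← Finset.card_erase_of_mem h0mem]
    have : ((finrank ℂ V : ℕ) : ℂ) = ((d + m * (Sg.erase 0).card : ℕ) : ℂ) := by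
      rw [h1]; push_cast; rw [h2]
    exact_mod_cast this
  have hSgc : Sg.card = Nat.card {v // QQ Q₂ v = 0} := by
    rw [Nat.card_eq_fintype_card, Fintype.card_subtype]
  have hm1 : 1 ≤ m := by
    obtain ⟨g, hg⟩ := hρ
    have hne : ∃ b, UU ρ b ≠ 1 := by
      by_contra hcon
      push Not at hcon
      exact hg (eq_one_of_rad ρ hQ0 (by omega) hcon g)
    obtain ⟨c, hc, w, hw, hw0⟩ := exists_eig (setup ρ hQ0) hne
    have hpos : finrank ℂ (eigc ρ c) ≠ 0 := by
      intro h0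
      rw [Submodule.finrank_eq_zero] at h0
      rw [show eig (PP (QQ Q₂)) (UU ρ) c = ⊥ from h0, Submodule.mem_bot] at hw
      exact hw0 hw
    by_cases hQc : QQ Q₂ c = 0
    · rw [hsing c hQc hc] at hpos; omega
    · exact absurd (hns0 c hQc) hpos
  rcases Nat.lt_or_ge m 2 with hm2 | hm2
  swap
  · left
    rw [← hSgc, hdim]
    exact le_trans (Nat.mul_le_mul_right _ hm2) (Nat.le_add_left _ _)
  right; right
  have hm' : m = 1 := by omega
  clear hm2 hm1
  set X : ℂ := (d : ℂ) + Fintype.card F * (Nat.card {v // hypSum Q₂ v = 0} : ℂ) -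
    (Fintype.card ((F × F) × V₂) : ℂ) - 1 with hX
  have hchee : ρ.character (rad ee) = X := by
    have h1 : ρ.character (rad ee) = _ := trace_U (setup ρ hQ0) (ee : (F × F) × ((F × F) × V₂))
    rw [h1, hsum, hm', Nat.cast_one, one_mul, (setup ρ hQ0).zeroL, one_mul]
    have h2 : ∑ c ∈ Sg, PP (QQ Q₂) c ee = (Fintype.card F : ℂ) *
        (Nat.card {w : (F × F) × V₂ // hypSum Q₂ w = 0} : ℂ) - (Fintype.card ((F × F) × V₂) : ℂ) := by
      rw [← sum_psi_zeros (hypSum Q₂), hSg]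
      refine Finset.sum_congr rfl fun c _ => ?_
      simp [PP, ee, polar_hypSum]
    rw [← Finset.add_sum_erase _ _ h0mem, (setup ρ hQ0).zeroL] at h2
    rw [hX]
    linear_combination h2
  have hchb : ∀ b, QQ Q₂ b = 0 → b ≠ 0 → ρ.character (rad b) = X := by
    intro b hb hb0
    obtain ⟨g, hg, e⟩ := (Sec.top (QQ Q₂)).transitive_singular hQ0 (by simpa using hn0)
      (Sec.mem_top ee) (Sec.mem_top b) ee_sing hb hee0 hb0
    rw [← e, ← rad_conj ⟨g, hg.1⟩, Representation.char_conj, hchee]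
  have hn3 : 3 ≤ finrank F ((F × F) × ((F × F) × V₂)) := by omega
  have hchel : ∀ p : {p // OrthPairs.IsPair (QQ Q₂) p}, ρ.character (OrthPairs.el p) = X := by
    intro p
    obtain ⟨g, b, hb, hb0, e⟩ := OrthPairs.exists_split hQ0 hn3 p
    rw [e, Representation.char_conj, hchb b hb hb0]
  have hdvd := OrthPairs.finrank_dvd ρ ((d : ℤ) + Fintype.card F *
    Nat.card {v // hypSum Q₂ v = 0} - Fintype.card ((F × F) × V₂) - 1)
    (fun p => by rw [hchel p, hX]; push_cast; ring)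
  rw [OrthPairs.card_pairs hQ0 hn3] at hdvd
  refine ⟨?_, by rw [hdim, hm', one_mul, hSgc, add_comm], hdvd⟩
  -- the fixed space is not trivial
  by_contra hcon
  push Not at hcon
  have hfix : ∀ c, c ≠ 0 → ((rootEl Q₂).1 : ((F × F) × ((F × F) × V₂)) ≃ₗ[F] _) c = c →
      ∀ w ∈ eigc ρ c, ρ (levi (QQ Q₂) (rootEl Q₂)) w = w := by
    intro c hc hfx w hw
    by_cases hQc : QQ Q₂ c = 0
    swap
    · have h0 := hns0 c hQc
      rw [Submodule.finrank_eq_zero] at h0
      rw [show eigc ρ c = ⊥ from h0, Submodule.mem_bot] at hw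
      rw [hw, map_zero]
    have h1 : finrank ℂ (eigc ρ c) = 1 := by rw [hsing c hQc hc, hm']
    obtain ⟨⟨s, t⟩, ⟨⟨s', t'⟩, z⟩⟩ := c
    obtain ⟨ht, ht'⟩ := (rootEl_fix_iff _).1 hfx
    simp only at ht ht'
    subst ht ht'
    by_cases hz : z = 0 ∧ s ≠ 0
    · obtain ⟨rfl, hs⟩ := hz
      have e : rootEl Q₂ = ⟨siegel (QQ Q₂) ee' (-ee + (-(s' / s)) • ee') ee'_sing
          (by simp [ee, ee', polar_hypSum]), siegel_mem_siegelGroup _ _⟩ := by
        apply Subtype.ext
        exact ((siegel_swap ee_sing ee_orth ee'_sing).symm.trans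
          (siegel_add_smul ee'_sing _ (-(s' / s))).symm)
      rw [e]
      exact root_fix ρ hQ0 hcom₀ hl ee'_sing _ (f := ((0, -(s' / s)), ((0, 1), 0)))
        (by simp) (by simp [ee', polar_hypSum]) (by simp [ee, ee', polar_hypSum])
        (by simp [ee', polar_hypSum]) (by simp [ee, ee', polar_hypSum])
        (by simp [polar_hypSum]; field_simp; ring) h1 hw
    · obtain ⟨y, hy⟩ : ∃ y, polar Q₂ z y = -s := by
        by_cases hs : s = 0
        · exact ⟨0, by rw [hs, polar_zero_right, neg_zero]⟩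
        · obtain ⟨y, hy⟩ := hQ₂.exists_polar_ne (fun h => hz ⟨h, hs⟩)
          exact ⟨(-s / polar Q₂ z y) • y, by rw [polar_smul_right, smul_eq_mul, div_mul_cancel₀ _ hy]⟩
      exact root_fix ρ hQ0 hcom₀ hl ee_sing ee_orth (f := ((-Q₂ y, 1), ((0, 0), y)))
        (by simp) (by simp [ee, polar_hypSum]) (by simp [ee', polar_hypSum])
        (by simp [ee, polar_hypSum]) (by simp [ee', polar_hypSum])
        (by simp [polar_hypSum, hy]) h1 hw
  let π : (F × F) × ((F × F) × V₂) → (F × F) × ((F × F) × V₂) :=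
    fun c => ((rootEl Q₂).1 : ((F × F) × ((F × F) × V₂)) ≃ₗ[F] _) c
  have hπ0 : π 0 = 0 := map_zero _
  have hπ : ∀ B, ∀ w ∈ eig (PP (QQ Q₂)) (UU ρ) B,
      ρ (levi (QQ Q₂) (rootEl Q₂)) w ∈ eig (PP (QQ Q₂)) (UU ρ) (π B) :=
    fun c w hw => levi_mem ρ _ hw
  have hfix' : ∀ B, B ≠ 0 → π B = B → ∀ w ∈ eig (PP (QQ Q₂)) (UU ρ) B,
      ρ (levi (QQ Q₂) (rootEl Q₂)) w = w := hfix
  have htr := trace_perm (setup ρ hQ0) (ρ (levi (QQ Q₂) (rootEl Q₂))) π hπ0 hπ hfix'
  have hL : LinearMap.trace ℂ V (ρ (levi (QQ Q₂) (rootEl Q₂))) = X := by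
    have hp : (hypSum (QQ Q₂) (((0, 0), ee) : (F × F) × ((F × F) × ((F × F) × V₂))) = 0 ∧
        (((0, 0), ee) : (F × F) × ((F × F) × ((F × F) × V₂))) ≠ 0) ∧
        hypSum (QQ Q₂) (((0, 0), ee') : (F × F) × ((F × F) × ((F × F) × V₂))) = 0 ∧
        polar (hypSum (QQ Q₂)) (((0, 0), ee) : (F × F) × ((F × F) × ((F × F) × V₂))) ((0, 0), ee') = 0 ∧
        ∀ s : F, (((0, 0), ee') : (F × F) × ((F × F) × ((F × F) × V₂))) ≠ s • ((0, 0), ee) :=
      ⟨⟨by simp [ee], by simp [ee]⟩, by simp [ee'], by simp [ee, ee', polar_hypSum],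
        fun s hs => by simp [ee, ee', Prod.ext_iff] at hs⟩
    rw [← hchel ⟨(_, _), hp⟩]
    change LinearMap.trace ℂ V (ρ _) = LinearMap.trace ℂ V (ρ _)
    congr 2
    exact Subtype.ext ((levi_apply _).trans (hypExt_siegel ee_sing ee_orth))
  rw [hL] at htr
  have htr0 : LinearMap.trace ℂ (eigc ρ 0) (sigma ρ (rootEl Q₂)) = (d : ℂ) := by
    rw [hcon, LinearMap.trace_one]
  erw [htr0] at htr
  have hcount : ∑ c ∈ Finset.univ.filter (fun c : (F × F) × ((F × F) × V₂) => c ≠ 0 ∧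
      ((rootEl Q₂).1 : ((F × F) × ((F × F) × V₂)) ≃ₗ[F] _) c = c),
        (finrank ℂ (eigc ρ c) : ℂ) + 1 =
      (Fintype.card F : ℂ) ^ 2 * (Nat.card {w // Q₂ w = 0} : ℂ) := by
    have h1 : ∀ c ∈ Finset.univ.filter (fun c : (F × F) × ((F × F) × V₂) => c ≠ 0 ∧
        ((rootEl Q₂).1 : ((F × F) × ((F × F) × V₂)) ≃ₗ[F] _) c = c),
        (finrank ℂ (eigc ρ c) : ℂ) = if QQ Q₂ c = 0 then 1 else 0 := by
      intro c hc
      split_ifs with h
      · rw [hsing c h (Finset.mem_filter.1 hc).2.1, hm', Nat.cast_one]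
      · rw [hns0 c h, Nat.cast_zero]
    rw [Finset.sum_congr rfl h1, Finset.sum_boole, Finset.filter_filter]
    have h2 : (Finset.univ.filter fun c : (F × F) × ((F × F) × V₂) => (c ≠ 0 ∧
        ((rootEl Q₂).1 : ((F × F) × ((F × F) × V₂)) ≃ₗ[F] _) c = c) ∧ QQ Q₂ c = 0) =
        (Finset.univ.filter fun c : (F × F) × ((F × F) × V₂) =>
          (c.1.2 = 0 ∧ c.2.1.2 = 0) ∧ QQ Q₂ c = 0).erase 0 := by
      ext c
      simp [rootEl_fix_iff, and_assoc]
    have h3 : (Finset.univ.filter fun c : (F × F) × ((F × F) × V₂) =>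
          (c.1.2 = 0 ∧ c.2.1.2 = 0) ∧ QQ Q₂ c = 0).card =
        (Finset.univ ×ˢ (Finset.univ ×ˢ Finset.univ.filter fun w => Q₂ w = 0) :
          Finset (F × F × V₂)).card := by
      refine Finset.card_bij' (fun c _ => (c.1.1, c.2.1.1, c.2.2))
        (fun x _ => ((x.1, 0), ((x.2.1, 0), x.2.2))) ?_ ?_ ?_ ?_
      · rintro ⟨⟨s, t⟩, ⟨⟨s', t'⟩, w⟩⟩ hc
        simp only [Finset.mem_filter, Finset.mem_univ, true_and, Finset.mem_product] at hc ⊢
        obtain ⟨⟨rfl, rfl⟩, h⟩ := hc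
        simpa using h
      · rintro ⟨s, s', w⟩ hx
        simp only [Finset.mem_filter, Finset.mem_univ, true_and, Finset.mem_product] at hx ⊢
        simp [hx]
      · rintro ⟨⟨s, t⟩, ⟨⟨s', t'⟩, w⟩⟩ hc
        simp only [Finset.mem_filter, Finset.mem_univ, true_and] at hc
        obtain ⟨⟨rfl, rfl⟩, -⟩ := hc
        rfl
      · intro x _; rfl
    rw [h2, ← Nat.cast_add_one, Finset.card_erase_add_one
      (Finset.mem_filter.2 ⟨Finset.mem_univ _, ⟨rfl, rfl⟩, map_zero _⟩), h3, Finset.card_product,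
      Finset.card_product, Nat.card_eq_fintype_card, Fintype.card_subtype]
    push_cast
    rw [Finset.card_univ]
    ring
  have hZ1 : (Nat.card {v // hypSum Q₂ v = 0} : ℂ) =
      Fintype.card F * (Nat.card {w // Q₂ w = 0} : ℂ) +
        ((Fintype.card F : ℂ) - 1) * Fintype.card V₂ := by
    rw [card_zeros_hypSum, Nat.card_eq_fintype_card (α := F), Nat.card_eq_fintype_card (α := V₂)]
    push_cast [Nat.cast_sub (Fintype.card_pos (α := F))]
    ring
  rw [hX, hZ1, Fintype.card_prod, Fintype.card_prod] at htr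
  simp only [π] at htr
  push_cast at htr
  have : (Fintype.card F : ℂ) * Fintype.card V₂ = 0 := by linear_combination -htr - hcount
  rcases mul_eq_zero.1 this with h | h <;> simp [Fintype.card_ne_zero] at h

end CfsgLib.InvCentralizers.OrthStep
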