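import Mathlib
import Cfsg.Agent.Lib.InvCentralizers.OrthStep
import Cfsg.Agent.Lib.ClassicalForms.Ortho.Values

/-!
Representations of the Siegel group of `H ⊥ Q₀` whose non-trivial radical characters are singular
and occur once ("small" representations), and the subspace fixed by the radical of a maximal
totally singular subspace.
-/

set_option autoImplicit false
set_option linter.unusedSectionVars false
set_option linter.style.haveILetI false

namespace CfsgLib.InvCentralizers.OrthSmall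

open QuadraticMap Module CfsgLib.ClassicalForms
open CfsgLib.InvCentralizers.OrthParabolic
open CfsgLib.InvCentralizers.OrthStep (QQ ee ee' ee_sing ee'_sing ee_orth rootEl)
open CfsgLib.InvCentralizers.SympBound (psi exists_psi_ne psi_prim)
open CfsgLib.InvCentralizers.AbelianEigen

variable {F : Type*} [Field F] [Fintype F]
variable {V : Type*} [AddCommGroup V] [Module ℂ V] [FiniteDimensional ℂ V]

section Fixed

variable {V₀ : Type*} [AddCommGroup V₀] [Module F V₀] {Q : QuadraticForm F V₀}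

/-- The vectors fixed by every Siegel transformation with singular part in `E` and second part
orthogonal to `E`. -/
def Fixed (ρ : Representation ℂ (siegelGroup Q) V) (E : Submodule F V₀) : Submodule ℂ V where
  carrier := {v | ∀ a ∈ E, ∀ w, ∀ (ha : Q a = 0) (hw : polar Q a w = 0),
    (∀ x ∈ E, polar Q x w = 0) → ρ ⟨siegel Q a w ha hw, siegel_mem_siegelGroup _ _⟩ v = v}
  add_mem' {u v} hu hv := fun a haE w ha hw hwE => by
    rw [map_add, hu a haE w ha hw hwE, hv a haE w ha hw hwE]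
  zero_mem' := fun a _ w ha hw _ => map_zero _
  smul_mem' c {v} hv := fun a haE w ha hw hwE => by rw [map_smul, hv a haE w ha hw hwE]

theorem mem_Fixed {ρ : Representation ℂ (siegelGroup Q) V} {E : Submodule F V₀} {v : V} :
    v ∈ Fixed ρ E ↔ ∀ a ∈ E, ∀ w, ∀ (ha : Q a = 0) (hw : polar Q a w = 0),
      (∀ x ∈ E, polar Q x w = 0) → ρ ⟨siegel Q a w ha hw, siegel_mem_siegelGroup _ _⟩ v = v :=
  Iff.rfl

/-- Elements preserving `E` preserve `Fixed ρ E`. -/
theorem Fixed_invariant [Fintype V₀] (ρ : Representation ℂ (siegelGroup Q) V) (E : Submodule F V₀)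
    (g : siegelGroup Q) (hg : ∀ a ∈ E, (g.1 : V₀ ≃ₗ[F] V₀) a ∈ E) {v : V} (hv : v ∈ Fixed ρ E) :
    ρ g v ∈ Fixed ρ E := by
  have hinv : ∀ a ∈ E, ((g.1⁻¹ : orth Q) : V₀ ≃ₗ[F] V₀) a ∈ E := by
    intro a ha
    let f : E → E := fun x => ⟨(g.1 : V₀ ≃ₗ[F] V₀) x.1, hg _ x.2⟩
    have hf : Function.Surjective f := Finite.surjective_of_injective fun x y h =>
      Subtype.ext ((g.1 : V₀ ≃ₗ[F] V₀).injective (congrArg Subtype.val h))
    obtain ⟨x, hx⟩ := hf ⟨a, ha⟩
    rw [← show (g.1 : V₀ ≃ₗ[F] V₀) x.1 = a from congrArg Subtype.val hx, orth_inv_apply]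
    exact x.2
  intro a haE w ha hw hwE
  set k := g.1⁻¹ with hk
  have h1 : Q ((k : V₀ ≃ₗ[F] V₀) a) = 0 := by rw [orth_apply, ha]
  have h2 : polar Q ((k : V₀ ≃ₗ[F] V₀) a) ((k : V₀ ≃ₗ[F] V₀) w) = 0 := by rw [polar_apply, hw]
  have e : (⟨siegel Q a w ha hw, siegel_mem_siegelGroup _ _⟩ : siegelGroup Q) * g =
      g * ⟨siegel Q _ _ h1 h2, siegel_mem_siegelGroup _ _⟩ := by
    rw [eq_comm, ← mul_inv_eq_iff_eq_mul]
    apply Subtype.ext
    simp only [Subgroup.coe_mul, Subgroup.coe_inv, conj_siegel]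
    exact siegel_eq (by rw [hk, orth_apply_inv]) (by rw [hk, orth_apply_inv])
  rw [← Module.End.mul_apply, ← map_mul, e, map_mul, Module.End.mul_apply]
  congr 1
  refine hv _ (hinv a haE) _ h1 h2 fun x hx => ?_
  rw [← polar_apply g.1, hk, orth_apply_inv]
  exact hwE _ (hg x hx)

/-- The singular parts fixing a vector form a subspace. -/
theorem fix_of_span (ρ : Representation ℂ (siegelGroup Q) V) (E : Submodule F V₀)
    (hE : ∀ a ∈ E, Q a = 0) {v : V} (S : Set V₀) (hS : E ≤ Submodule.span F S) (hSE : S ⊆ E)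
    (h : ∀ a ∈ S, ∀ w, ∀ (ha : Q a = 0) (hw : polar Q a w = 0),
      (∀ x ∈ E, polar Q x w = 0) → ρ ⟨siegel Q a w ha hw, siegel_mem_siegelGroup _ _⟩ v = v) :
    v ∈ Fixed ρ E := by
  have key : ∀ a ∈ Submodule.span F S, a ∈ E ∧ ∀ w, ∀ (ha : Q a = 0) (hw : polar Q a w = 0),
      (∀ x ∈ E, polar Q x w = 0) → ρ ⟨siegel Q a w ha hw, siegel_mem_siegelGroup _ _⟩ v = v := by
    intro a ha
    induction ha using Submodule.span_induction with
    | mem x hx => exact ⟨hSE hx, h x hx⟩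
    | zero =>
      refine ⟨zero_mem _, fun w ha hw _ => ?_⟩
      have : (⟨siegel Q 0 w ha hw, siegel_mem_siegelGroup _ _⟩ : siegelGroup Q) = 1 :=
        Subtype.ext (orth_ext fun z => by simp [siegel_apply])
      rw [this, map_one, Module.End.one_apply]
    | add a b _ _ iha ihb =>
      refine ⟨add_mem iha.1 ihb.1, fun w hab hw hwE => ?_⟩
      have ha0 := hE a iha.1
      have hb0 := hE b ihb.1
      have hpab : polar Q a b = 0 := by
        simp [polar, hab, ha0, hb0]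
      have haw := hwE a iha.1
      have hbw := hwE b ihb.1
      have haz : polar Q a ((-Q w) • b) = 0 := by rw [polar_smul_right, hpab, smul_zero]
      have e : (⟨siegel Q (a + b) w hab hw, siegel_mem_siegelGroup _ _⟩ : siegelGroup Q) =
          ⟨siegel Q a w ha0 haw, siegel_mem_siegelGroup _ _⟩ *
            ⟨siegel Q b w hb0 hbw, siegel_mem_siegelGroup _ _⟩ *
            ⟨siegel Q a ((-Q w) • b) ha0 haz, siegel_mem_siegelGroup _ _⟩ := by
        apply Subtype.ext
        refine orth_ext fun x => ?_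
        simp only [Subgroup.coe_mul, LinearEquiv.mul_apply, siegel_apply, polar_add_right, polar_add_left,
          polar_sub_left, polar_smul_left, polar_smul_right, QuadraticMap.map_smul, hb0, ha0,
          polar_self_mul, hpab, polar_comm Q b a, polar_comm Q w a, polar_comm Q w b, haw, hbw,
          smul_eq_mul, mul_zero, zero_mul, add_zero, sub_zero, neg_mul, mul_neg]
        match_scalars <;> ring
      rw [e, map_mul, map_mul, Module.End.mul_apply, Module.End.mul_apply,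
        iha.2 _ ha0 haz (fun x hx => ?_), ihb.2 _ hb0 hbw hwE, iha.2 _ ha0 haw hwE]
      rw [polar_smul_right]
      have : polar Q x b = 0 := by
        simp [polar, hE _ (add_mem hx ihb.1), hE x hx, hb0]
      rw [this, smul_zero]
    | smul c a _ iha =>
      refine ⟨E.smul_mem c iha.1, fun w ha hw hwE => ?_⟩
      have ha0 := hE a iha.1
      have haw := hwE a iha.1
      have e : (⟨siegel Q (c • a) w ha hw, siegel_mem_siegelGroup _ _⟩ : siegelGroup Q) =
          ⟨siegel Q a (c • w) ha0 (by rw [polar_smul_right, haw, smul_zero]),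
            siegel_mem_siegelGroup _ _⟩ := Subtype.ext (siegel_smul ha0 haw c)
      rw [e]
      exact iha.2 _ _ _ fun x hx => by rw [polar_smul_right, hwE x hx, smul_zero]
  exact fun a haE => (key a (hS haE)).2

end Fixed

/-- The sum of the additive character over a level, along the first coordinate pair. -/
theorem sum_psi_level {V₁ : Type*} [AddCommGroup V₁] [Module F V₁] [Fintype V₁] [DecidableEq V₁]
    [DecidableEq F] (Q₁ : QuadraticForm F V₁) (ν : F) :
    ∑ c ∈ Finset.univ.filter (fun c : (F × F) × V₁ => hypSum Q₁ c = ν), psi F c.1.2 =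
      (Fintype.card F : ℂ) * (Nat.card {w : V₁ // Q₁ w = ν} : ℂ) - (Fintype.card V₁ : ℂ) := by
  rw [Finset.sum_filter, Fintype.sum_prod_type, Fintype.sum_prod_type_right]
  have h : ∀ t : F, ∑ s : F, ∑ w : V₁, (if hypSum Q₁ ((s, t), w) = ν then psi F t else 0) =
      psi F t * (if t = 0 then (Fintype.card F : ℂ) * (Nat.card {w : V₁ // Q₁ w = ν} : ℂ)
        else (Fintype.card V₁ : ℂ)) := by
    intro t
    split_ifs with ht
    · subst ht
      simp [Nat.card_eq_fintype_card, Fintype.card_subtype]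
    · rw [Finset.sum_comm]
      have h1 : ∀ w : V₁,
          ∑ s : F, (if hypSum Q₁ ((s, t), w) = ν then psi F t else 0) = psi F t := by
        intro w
        rw [Finset.sum_eq_single ((ν - Q₁ w) / t)]
        · rw [if_pos]
          rw [hypSum_apply]
          field_simp
          ring
        · intro s _ hs
          rw [if_neg]
          intro h
          apply hs
          rw [hypSum_apply] at h
          rw [eq_div_iff ht]
          linear_combination h
        · simp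
      rw [Finset.sum_congr rfl fun w _ => h1 w, Finset.sum_const, Finset.card_univ, nsmul_eq_mul,
        mul_comm]
  rw [Finset.sum_congr rfl fun t _ => h t, ← Finset.add_sum_erase _ _ (Finset.mem_univ (0 : F)),
    if_pos rfl, AddChar.map_zero_eq_one, one_mul,
    Finset.sum_congr rfl fun t ht => by rw [if_neg (Finset.mem_erase.1 ht).1], ← Finset.sum_mul]
  have h2 : ∑ t : F, psi F t = 0 := by
    refine AddChar.sum_eq_zero_of_ne_one fun hone => ?_
    exact psi_prim (one_ne_zero : (1 : F) ≠ 0)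
      (DFunLike.ext _ _ fun x => by simp [hone])
  rw [← Finset.add_sum_erase _ _ (Finset.mem_univ (0 : F)), AddChar.map_zero_eq_one] at h2
  linear_combination (Fintype.card V₁ : ℂ) * h2

section Base

variable {V₀ : Type*} [AddCommGroup V₀] [Module F V₀] [Fintype V₀] {Q₀ : QuadraticForm F V₀}
  (ρ : Representation ℂ (siegelGroup (hypSum Q₀)) V)

/-- The components of a vector transform with the element. -/
theorem eproj_levi (hQ : Nondeg Q₀) (k : siegelGroup Q₀) (c : V₀) (x : V) :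
    eproj (PP Q₀) (UU ρ) ((k.1 : V₀ ≃ₗ[F] V₀) c) (ρ (levi Q₀ k) x) =
      ρ (levi Q₀ k) (eproj (PP Q₀) (UU ρ) c x) := by
  classical
  have h := setup ρ hQ
  conv_lhs => rw [show x = (∑ B, eproj (PP Q₀) (UU ρ) B) x by rw [sum_eproj h]; rfl]
  rw [LinearMap.sum_apply, map_sum, map_sum, Finset.sum_eq_single c]
  · exact eproj_eig h (levi_mem ρ k (eproj_mem h c x))
  · intro B _ hB
    exact eproj_eig_ne h (fun e => hB ((k.1 : V₀ ≃ₗ[F] V₀).injective e))
      (levi_mem ρ k (eproj_mem h B x))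
  · simp

theorem eproj_UU (hQ : Nondeg Q₀) (c S : V₀) (x : V) :
    eproj (PP Q₀) (UU ρ) c (UU ρ S x) = PP Q₀ c S • eproj (PP Q₀) (UU ρ) c x := by
  classical
  have h := setup ρ hQ
  rw [U_eq_sum h S, LinearMap.sum_apply, map_sum, Finset.sum_eq_single c]
  · rw [LinearMap.smul_apply, map_smul, eproj_eig h (eproj_mem h c x)]
  · intro B _ hB
    rw [LinearMap.smul_apply, map_smul, eproj_eig_ne h hB (eproj_mem h B x), smul_zero]
  · simp

/-- The component vanishes if some radical element fixes the vector and moves the character. -/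
theorem eproj_eq_zero_of_psi (hQ : Nondeg Q₀) {c S : V₀} {x : V} {μ : ℂ}
    (hx : UU ρ S x = μ • x) (hne : PP Q₀ c S ≠ μ) : eproj (PP Q₀) (UU ρ) c x = 0 := by
  have h1 := eproj_UU ρ hQ c S x
  rw [hx, map_smul] at h1
  have h2 : (PP Q₀ c S - μ) • eproj (PP Q₀) (UU ρ) c x = 0 := by rw [sub_smul, ← h1, sub_self]
  exact (smul_eq_zero.1 h2).resolve_left (sub_ne_zero.2 hne)

/-- A one dimensional eigenspace is fixed by a root element which is a shift of another one by
an element of the stabiliser. -/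
theorem shift_fix {c : V₀} (h1 : finrank ℂ (eigc ρ c) = 1) {a y z : V₀} (ha : Q₀ a = 0)
    (hay : polar Q₀ a y = 0) (haz : polar Q₀ a z = 0) (hca : polar Q₀ c a = 0)
    (hcy : polar Q₀ c y = 0) (h : siegelGroup Q₀) (hc : (h.1 : V₀ ≃ₗ[F] V₀) c = c)
    (ha' : (h.1 : V₀ ≃ₗ[F] V₀) a = a) (hy : (h.1 : V₀ ≃ₗ[F] V₀) y = y + z)
    {w : V} (hw : w ∈ eigc ρ c) :
    ρ (levi Q₀ ⟨siegel Q₀ a z ha haz, siegel_mem_siegelGroup _ _⟩) w = w := by
  set Ty : siegelGroup Q₀ := ⟨siegel Q₀ a y ha hay, siegel_mem_siegelGroup _ _⟩ with hTy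
  set Tz : siegelGroup Q₀ := ⟨siegel Q₀ a z ha haz, siegel_mem_siegelGroup _ _⟩ with hTz
  have hcz : polar Q₀ c z = 0 := by
    have h2 := polar_apply h.1 c y
    rw [hc, hy, polar_add_right, hcy, zero_add] at h2
    exact h2
  have stab : ∀ u : V₀, ∀ hau : polar Q₀ a u = 0, polar Q₀ c u = 0 →
      (siegel Q₀ a u ha hau : V₀ ≃ₗ[F] V₀) c = c := by
    intro u hau hcu
    simp [siegel_apply, hca, hcu]
  obtain ⟨w₀, -, hspan⟩ := finrank_eq_one_iff'.1 h1
  have key : ∀ g : siegelGroup Q₀, (g.1 : V₀ ≃ₗ[F] V₀) c = c →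
      ∃ μ : ℂ, ∀ v ∈ eigc ρ c, ρ (levi Q₀ g) v = μ • v := by
    intro g hg
    have hm : ρ (levi Q₀ g) w₀.1 ∈ eigc ρ c := by simpa [hg] using levi_mem ρ g w₀.2
    obtain ⟨μ, hμ⟩ := hspan ⟨_, hm⟩
    refine ⟨μ, fun v hv => ?_⟩
    obtain ⟨b, hb⟩ := hspan ⟨v, hv⟩
    have hb' : b • w₀.1 = v := congrArg Subtype.val hb
    have ha' : μ • w₀.1 = ρ (levi Q₀ g) w₀.1 := congrArg Subtype.val hμ
    rw [← hb', map_smul, ← ha', smul_comm]
  have hTyc : (Ty.1 : V₀ ≃ₗ[F] V₀) c = c := stab y hay hcy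
  have hTzc : (Tz.1 : V₀ ≃ₗ[F] V₀) c = c := stab z haz hcz
  obtain ⟨μ, hμ⟩ := key Ty hTyc
  have e : h * Ty * h⁻¹ = Ty * Tz := by
    apply Subtype.ext
    simp only [Subgroup.coe_mul, Subgroup.coe_inv, hTy, hTz, conj_siegel, siegel_mul ha hay haz]
    exact siegel_eq ha' hy
  have hh : ((h⁻¹ : siegelGroup Q₀).1 : V₀ ≃ₗ[F] V₀) c = c := by
    conv_lhs => rw [← hc]
    exact orth_inv_apply _ _
  have hm1 : ρ (levi Q₀ h⁻¹) w ∈ eigc ρ c := by
    have h2 := levi_mem ρ h⁻¹ hw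
    rwa [hh] at h2
  have hm2 : ρ (levi Q₀ Tz) w ∈ eigc ρ c := by
    have h2 := levi_mem ρ Tz hw
    rwa [hTzc] at h2
  have h3 : μ • ρ (levi Q₀ Tz) w = μ • w := by
    have h4 : ρ (levi Q₀ (h * Ty * h⁻¹)) w = μ • w := by
      rw [map_mul, map_mul, map_mul, map_mul, Module.End.mul_apply, Module.End.mul_apply,
        hμ _ hm1, map_smul, ← Module.End.mul_apply, ← map_mul, ← map_mul, mul_inv_cancel, map_one,
        map_one, Module.End.one_apply]
    rw [e, map_mul, map_mul, Module.End.mul_apply, hμ _ hm2] at h4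
    exact h4
  by_cases hμ0 : μ = 0
  · have h4 := hμ w hw
    rw [hμ0, zero_smul] at h4
    have h5 := congrArg (ρ (levi Q₀ Ty)⁻¹) h4
    rw [← Module.End.mul_apply, ← map_mul, inv_mul_cancel, map_one, Module.End.one_apply,
      map_zero] at h5
    rw [h5, map_zero]
  · exact smul_right_injective V hμ0 h3

/-- Small representations: singular characters occur at most once, non-singular ones not at all. -/
def Small : Prop :=
  ∀ c : V₀, c ≠ 0 → finrank ℂ (eigc ρ c) ≤ 1 ∧ (Q₀ c ≠ 0 → finrank ℂ (eigc ρ c) = 0)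

variable {ρ}

open scoped Classical in
theorem Small.mult_eq (hs : Small ρ) (hQ : Nondeg Q₀)
    (htr : ∀ c c', Q₀ c = 0 → c ≠ 0 → Q₀ c' = 0 → c' ≠ 0 →
      ∃ g : siegelGroup Q₀, (g.1 : V₀ ≃ₗ[F] V₀) c = c')
    (hne : ∃ b, UU ρ b ≠ 1) (c : V₀) (hc : c ≠ 0) :
    finrank ℂ (eigc ρ c) = if Q₀ c = 0 then 1 else 0 := by
  obtain ⟨c₀, hc₀, w, hw, hw0⟩ := exists_eig (setup ρ hQ) hne
  have hpos : finrank ℂ (eigc ρ c₀) ≠ 0 := by
    intro h0
    rw [Submodule.finrank_eq_zero] at h0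
    rw [show eig (PP Q₀) (UU ρ) c₀ = ⊥ from h0, Submodule.mem_bot] at hw
    exact hw0 hw
  have hQc₀ : Q₀ c₀ = 0 := by
    by_contra h
    exact hpos ((hs c₀ hc₀).2 h)
  split_ifs with hQc
  · obtain ⟨g, hg⟩ := htr c₀ c hQc₀ hc₀ hQc hc
    rw [← hg, finrank_eig_levi ρ g c₀]
    have := (hs c₀ hc₀).1
    omega
  · exact (hs c hc).2 hQc

open scoped Classical in
/-- Sums over characters when one level occurs once. -/
theorem sum_level {ν : F}
    (hm : ∀ c, c ≠ 0 → finrank ℂ (eigc ρ c) = if Q₀ c = ν then 1 else 0) (f : V₀ → ℂ) :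
    ∑ c, f c * (finrank ℂ (eigc ρ c) : ℂ) = f 0 * finrank ℂ (eigc ρ 0) +
      (∑ c ∈ Finset.univ.filter (fun c => Q₀ c = ν), f c - if ν = 0 then f 0 else 0) := by
  have h1 : ∀ c, f c * (finrank ℂ (eigc ρ c) : ℂ) =
      (if Q₀ c = ν then f c else 0) +
        (if c = 0 then f 0 * finrank ℂ (eigc ρ 0) - (if ν = 0 then f 0 else 0) else 0) := by
    intro c
    by_cases hc : c = 0
    · subst hc
      rw [if_pos rfl, map_zero]
      by_cases hν : ν = 0
      · subst hν; simp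
      · rw [if_neg (Ne.symm hν), if_neg hν]; simp
    · rw [hm c hc, if_neg hc, add_zero]
      split_ifs <;> simp
  rw [Finset.sum_congr rfl fun c _ => h1 c, Finset.sum_add_distrib, ← Finset.sum_filter,
    Finset.sum_ite_eq' Finset.univ (0 : V₀), if_pos (Finset.mem_univ _)]
  ring

open scoped Classical in
theorem finrank_level (hQ : Nondeg Q₀) {ν : F}
    (hm : ∀ c, c ≠ 0 → finrank ℂ (eigc ρ c) = if Q₀ c = ν then 1 else 0) :
    finrank ℂ V + (if ν = 0 then 1 else 0) =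
      Nat.card {c // Q₀ c = ν} + finrank ℂ (eigc ρ 0) := by
  have h1 := finrank_eq_sum (setup ρ hQ)
  have h2 := sum_level hm (fun _ => 1)
  simp only [one_mul, Finset.sum_const, nsmul_eq_mul, mul_one] at h2
  have h3 : ((finrank ℂ V + (if ν = 0 then 1 else 0) : ℕ) : ℂ) =
      ((Nat.card {c // Q₀ c = ν} + finrank ℂ (eigc ρ 0) : ℕ) : ℂ) := by
    rw [h1, Nat.card_eq_fintype_card, Fintype.card_subtype]
    push_cast
    rw [h2]
    split_ifs <;> push_cast <;> ring
  exact_mod_cast h3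

open scoped Classical in
theorem character_rad (hQ : Nondeg Q₀) {ν : F}
    (hm : ∀ c, c ≠ 0 → finrank ℂ (eigc ρ c) = if Q₀ c = ν then 1 else 0) (b : V₀) :
    ρ.character (rad b) = (finrank ℂ (eigc ρ 0) : ℂ) +
      (∑ c ∈ Finset.univ.filter (fun c => Q₀ c = ν), psi F (polar Q₀ b c) -
        if ν = 0 then 1 else 0) := by
  have h1 : ρ.character (rad b) = _ := trace_U (setup ρ hQ) b
  rw [h1, sum_level hm]
  simp [PP]

end Base

section Cat

variable {V₀ : Type*} [AddCommGroup V₀] [Module F V₀] {Q₀ : QuadraticForm F V₀}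

/-- The totally singular subspace one step up. -/
def Ecat (E₀ : Submodule F V₀) : Submodule F ((F × F) × V₀) :=
  (LinearMap.ker (LinearMap.snd F F F)).prod E₀

theorem mem_Ecat {E₀ : Submodule F V₀} {a : (F × F) × V₀} :
    a ∈ Ecat E₀ ↔ a.1.2 = 0 ∧ a.2 ∈ E₀ := by
  simp [Ecat, Submodule.mem_prod]

theorem Ecat_sing {E₀ : Submodule F V₀} (h : ∀ a ∈ E₀, Q₀ a = 0) :
    ∀ a ∈ Ecat E₀, hypSum Q₀ a = 0 := by
  intro a ha
  rw [mem_Ecat] at ha
  simp [ha.1, h _ ha.2]

theorem polar_Ecat {E₀ : Submodule F V₀} {x : (F × F) × V₀} (hx : x ∈ Ecat E₀) {s : F} {w : V₀}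
    (hw : ∀ e ∈ E₀, polar Q₀ e w = 0) : polar (hypSum Q₀) x ((s, 0), w) = 0 := by
  rw [mem_Ecat] at hx
  simp [polar_hypSum, hx.1, hw _ hx.2]

theorem polar_eq_zero_of_sing {E₀ : Submodule F V₀} (h : ∀ a ∈ E₀, Q₀ a = 0) {a b : V₀}
    (ha : a ∈ E₀) (hb : b ∈ E₀) : polar Q₀ a b = 0 := by
  simp [polar, h _ (add_mem ha hb), h a ha, h b hb]

variable [Fintype V₀] (ρ : Representation ℂ (siegelGroup (hypSum Q₀)) V)

open scoped Classical in
/-- The dimension of the fixed space, one step. -/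
theorem finrank_Fixed_le (hQ : Nondeg Q₀) (hs : Small ρ) (E₀ : Submodule F V₀)
    (hdd : ∀ c, (∀ b, (∀ e ∈ E₀, polar Q₀ e b = 0) → polar Q₀ b c = 0) → c ∈ E₀) :
    finrank ℂ (Fixed ρ (Ecat E₀)) + 1 ≤
      finrank ℂ (Fixed (sigma ρ) E₀) + Fintype.card E₀ := by
  let S := Finset.univ.filter fun c : V₀ => c ∈ E₀ ∧ c ≠ 0
  have hcomp : ∀ v ∈ Fixed ρ (Ecat E₀), ∀ c, c ∉ E₀ → eproj (PP Q₀) (UU ρ) c v = 0 := by
    intro v hv c hc
    have : ∃ b, (∀ e ∈ E₀, polar Q₀ e b = 0) ∧ polar Q₀ b c ≠ 0 := by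
      by_contra h0
      push Not at h0
      exact hc (hdd c h0)
    obtain ⟨b, hb, hbc⟩ := this
    obtain ⟨t, ht⟩ := exists_psi_ne hbc
    refine eproj_eq_zero_of_psi ρ hQ (S := t • b) (μ := 1) ?_ ?_
    · rw [one_smul]
      exact hv x₀ (mem_Ecat.2 ⟨rfl, zero_mem _⟩) ((0, 0), t • b) x₀_singular (polar_x₀ _)
        fun x hx => polar_Ecat hx fun e he => by rw [polar_smul_right, hb e he, smul_zero]
    · simpa [PP, polar_smul_left, mul_comm] using ht
  have h0fix : ∀ v ∈ Fixed ρ (Ecat E₀),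
      (⟨eproj (PP Q₀) (UU ρ) 0 v, eproj_mem (setup ρ hQ) 0 v⟩ : eigc ρ 0) ∈ Fixed (sigma ρ) E₀ := by
    intro v hv a haE w ha hw hwE
    apply Subtype.ext
    change ρ (levi Q₀ _) (eproj (PP Q₀) (UU ρ) 0 v) = eproj (PP Q₀) (UU ρ) 0 v
    rw [← eproj_levi ρ hQ, map_zero]
    congr 1
    have e : levi Q₀ ⟨siegel Q₀ a w ha hw, siegel_mem_siegelGroup _ _⟩ =
        (⟨siegel (hypSum Q₀) ((0, 0), a) ((0, 0), w) (by simp [ha]) (by simp [polar_hypSum, hw]),
          siegel_mem_siegelGroup _ _⟩ : siegelGroup (hypSum Q₀)) :=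
      Subtype.ext (OrthParabolic.hypExt_siegel ha hw)
    rw [e]
    exact hv _ (mem_Ecat.2 ⟨rfl, haE⟩) _ _ _ fun x hx => polar_Ecat hx hwE
  let Φ : Fixed ρ (Ecat E₀) →ₗ[ℂ] Fixed (sigma ρ) E₀ × (∀ c : S, eigc ρ c.1) :=
    { toFun := fun v => (⟨_, h0fix v.1 v.2⟩,
        fun c => ⟨eproj (PP Q₀) (UU ρ) c.1 v.1, eproj_mem (setup ρ hQ) c.1 v.1⟩)
      map_add' := fun u v => Prod.ext (Subtype.ext (Subtype.ext (map_add _ _ _)))
        (funext fun c => Subtype.ext (map_add _ _ _))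
      map_smul' := fun r v => Prod.ext (Subtype.ext (Subtype.ext (map_smul _ _ _)))
        (funext fun c => Subtype.ext (map_smul _ _ _)) }
  have hΦ : Function.Injective Φ := by
    rw [injective_iff_map_eq_zero]
    intro v hv
    apply Subtype.ext
    rw [ZeroMemClass.coe_zero, show v.1 = (∑ B, eproj (PP Q₀) (UU ρ) B) v.1 by
      rw [sum_eproj (setup ρ hQ)]; rfl, LinearMap.sum_apply]
    refine Finset.sum_eq_zero fun c _ => ?_
    by_cases hc : c ∈ E₀
    · by_cases hc0 : c = 0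
      · subst hc0
        exact congrArg (fun p => ((p.1 : Fixed (sigma ρ) E₀).1 : eigc ρ 0).1) hv
      · exact congrArg (fun p => (p.2 ⟨c, by simp [S, hc, hc0]⟩ : eigc ρ c).1) hv
    · exact hcomp v.1 v.2 c hc
  have h1 := LinearMap.finrank_le_finrank_of_injective hΦ
  rw [Module.finrank_prod, Module.finrank_pi_fintype] at h1
  have h2 : ∑ c : S, finrank ℂ (eigc ρ c.1) ≤ S.card := by
    refine le_trans (Finset.sum_le_sum fun c _ => (hs c.1 (Finset.mem_filter.1 c.2).2.2).1) ?_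
    simp
  have h3 : S.card + 1 = Fintype.card E₀ := by
    rw [Fintype.card_subtype, ← Finset.card_erase_add_one (a := (0 : V₀))
      (s := Finset.univ.filter fun c => c ∈ E₀) (by simp)]
    congr 2
    ext c
    simp [S, and_comm]
  omega

end Cat

section Two

/-- The second singular vector, one level down. -/
def ee₁ {V₁ : Type*} [AddCommGroup V₁] [Module F V₁] : (F × F) × V₁ := ((1, 0), 0)

variable {V₁ : Type*} [AddCommGroup V₁] [Module F V₁] [Fintype V₁] {Q₁ : QuadraticForm F V₁}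

/-- A monomial element exchanging the two singular points. -/
def swapEl (Q₁ : QuadraticForm F V₁) : siegelGroup (hypSum (hypSum Q₁)) :=
  let a : siegelGroup (hypSum (hypSum Q₁)) :=
    ⟨siegel (hypSum (hypSum Q₁)) ((0, 0), ((1, 0), 0)) ((0, -1), ((0, 0), 0)) (by simp)
      (by simp [polar_hypSum]), siegel_mem_siegelGroup _ _⟩
  let b : siegelGroup (hypSum (hypSum Q₁)) :=
    ⟨siegel (hypSum (hypSum Q₁)) ((1, 0), ((0, 0), 0)) ((0, 0), ((0, 1), 0)) (by simp)
      (by simp [polar_hypSum]), siegel_mem_siegelGroup _ _⟩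
  a * b * a

theorem swapEl_apply (s t s' t' : F) (b : V₁) :
    ((swapEl Q₁).1 : ((F × F) × ((F × F) × V₁)) ≃ₗ[F] (F × F) × ((F × F) × V₁)) ((s, t), ((s', t'), b)) =
      ((-s', -t'), ((s, t), b)) := by
  simp [swapEl, orth_mul_apply, siegel_apply, polar_hypSum]

attribute [irreducible] swapEl

theorem swapEl_inv_apply (s t s' t' : F) (b : V₁) :
    (((swapEl Q₁)⁻¹).1 : ((F × F) × ((F × F) × V₁)) ≃ₗ[F] (F × F) × ((F × F) × V₁)) ((s, t), ((s', t'), b)) =
      ((s', t'), ((-s, -t), b)) := by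
  have h := swapEl_apply (Q₁ := Q₁) s' t' (-s) (-t) b
  rw [neg_neg, neg_neg] at h
  conv_lhs => rw [← h]
  exact orth_inv_apply _ _

theorem swapEl_fst :
    ((swapEl Q₁).1 : ((F × F) × ((F × F) × V₁)) ≃ₗ[F] (F × F) × ((F × F) × V₁)) x₀ =
      ((0, 0), x₀) := by
  refine (swapEl_apply (Q₁ := Q₁) (1 : F) 0 0 0 (0 : V₁)).trans ?_
  simp only [neg_zero]
  rfl

theorem swapEl_inv_fst :
    (((swapEl Q₁)⁻¹).1 : ((F × F) × ((F × F) × V₁)) ≃ₗ[F] (F × F) × ((F × F) × V₁)) x₀ =
      ((0, 0), -x₀) := by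
  refine (swapEl_inv_apply (Q₁ := Q₁) (1 : F) 0 0 0 (0 : V₁)).trans ?_
  simp only [x₀, neg_zero, Prod.neg_mk]

theorem levi_rad (b : V₁) :
    levi (hypSum Q₁) (rad b) = swapEl Q₁ * rad ((0, 0), b) * (swapEl Q₁)⁻¹ := by
  apply Subtype.ext
  simp only [rad, Subgroup.coe_mul, Subgroup.coe_inv, levi_apply, conj_siegel]
  refine (OrthParabolic.hypExt_siegel _ _).trans (siegel_eq ?_ ?_)
  · exact swapEl_fst.symm
  · simp [swapEl_apply]

variable (ρ : Representation ℂ (siegelGroup (hypSum (hypSum Q₁))) V)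

/-- The component in the parabolic of the second point. -/
noncomputable def comp (c' : V₁) (v : V) : V :=
  eproj (PP (hypSum Q₁)) (UU ρ) ((0, 0), c') (ρ (swapEl Q₁)⁻¹ v)

theorem swap_UU {c' : V₁} {v : eigc ρ 0} (hv : v ∈ eigc (sigma ρ) c') (s : F) (b : V₁) :
    UU ρ ((s, 0), b) (ρ (swapEl Q₁)⁻¹ v.1) = PP Q₁ c' b • ρ (swapEl Q₁)⁻¹ v.1 := by
  have hv1 : ρ (levi (hypSum Q₁) (rad b)) v.1 = PP Q₁ c' b • v.1 := congrArg Subtype.val (hv b)
  have hv0 : ∀ B, ρ (rad B) v.1 = v.1 := fun B => by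
    have := v.2 B
    simpa [UU, PP] using this
  have e1 : rad (Q₀ := hypSum Q₁) ((s, 0), b) = rad ((s, 0), 0) * rad ((0, 0), b) := by
    rw [← rad_add]; simp
  have e2 : swapEl Q₁ * rad ((s, 0), 0) * (swapEl Q₁)⁻¹ = rad ((s, 0), 0) := by
    apply Subtype.ext
    simp only [rad, Subgroup.coe_mul, Subgroup.coe_inv, conj_siegel]
    refine (siegel_eq (hu' := by simp [x₀]) (hw' := by simp [x₀, polar_hypSum]) swapEl_fst
      (swapEl_apply (0 : F) 0 s 0 (0 : V₁))).trans (orth_ext fun z => ?_)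
    obtain ⟨⟨z1, z2⟩, ⟨⟨z3, z4⟩, z5⟩⟩ := z
    simp [siegel_apply, x₀, polar_hypSum]
    ring
  have e3 : rad (Q₀ := hypSum Q₁) ((s, 0), b) * (swapEl Q₁)⁻¹ =
      (swapEl Q₁)⁻¹ * (rad ((s, 0), 0) * levi (hypSum Q₁) (rad b)) := by
    rw [e1, levi_rad]
    conv_rhs => rw [← e2]
    group
  change ρ (rad _) _ = _
  rw [← Module.End.mul_apply, ← map_mul, e3, map_mul, map_mul, Module.End.mul_apply,
    Module.End.mul_apply, hv1, map_smul, hv0, map_smul]

/-- Only the characters over `c'` occur. -/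
theorem comp_support (hQ : Nondeg Q₁) {c' : V₁} {v : eigc ρ 0} (hv : v ∈ eigc (sigma ρ) c')
    {c : (F × F) × V₁} (hne : eproj (PP (hypSum Q₁)) (UU ρ) c (ρ (swapEl Q₁)⁻¹ v.1) ≠ 0) :
    c.1.2 = 0 ∧ c.2 = c' := by
  obtain ⟨⟨s, t⟩, d⟩ := c
  refine ⟨?_, ?_⟩
  · by_contra ht
    simp only at ht
    obtain ⟨r, hr⟩ := exists_psi_ne ht
    refine hne (eproj_eq_zero_of_psi ρ hQ.hypSum (swap_UU ρ hv r 0) ?_)
    simpa [PP, polar_hypSum, mul_comm] using hr
  · by_contra hd
    simp only at hd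
    obtain ⟨y, hy⟩ := hQ.exists_polar_ne (sub_ne_zero.2 hd)
    obtain ⟨r, hr⟩ := exists_psi_ne hy
    refine hne (eproj_eq_zero_of_psi ρ hQ.hypSum (swap_UU ρ hv 0 (r • y)) ?_)
    intro h
    apply hr
    simp only [PP, polar_hypSum, polar_smul_left, zero_mul, mul_zero, add_zero, zero_add,
      smul_eq_mul] at h
    rw [polar_sub_left, sub_mul, sub_eq_add_neg, AddChar.map_add_eq_mul, polar_comm _ d y,
      polar_comm _ c' y, mul_comm _ r, h, mul_comm _ r, ← AddChar.map_add_eq_mul,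
      add_neg_cancel, AddChar.map_zero_eq_one]

/-- The component is injective on the characters of the inner radical. -/
theorem comp_injective (hQ : Nondeg Q₁) {c' : V₁} (hc' : c' ≠ 0) {v : eigc ρ 0}
    (hv : v ∈ eigc (sigma ρ) c') (h0 : comp ρ c' v.1 = 0) : v = 0 := by
  apply Subtype.ext
  set v' := ρ (swapEl Q₁)⁻¹ v.1 with hv'
  suffices h : v' = 0 by
    have h1 := congrArg (ρ (swapEl Q₁)) h
    rwa [hv', ← Module.End.mul_apply, ← map_mul, mul_inv_cancel, map_one, Module.End.one_apply,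
      map_zero] at h1
  have hzero : ∀ s : F, eproj (PP (hypSum Q₁)) (UU ρ) ((s, 0), c') v' = 0 := by
    intro s
    obtain ⟨y, hy⟩ := hQ.exists_polar_ne hc'
    set b : V₁ := (s / polar Q₁ c' y) • y with hb
    have hcb : polar Q₁ c' b = s := by
      rw [hb, polar_smul_right, smul_eq_mul, div_mul_cancel₀ _ hy]
    have hor : polar (hypSum Q₁) (-ee₁) ((0, 0), b) = 0 := by simp [ee₁, polar_hypSum]
    set k : siegelGroup (hypSum Q₁) :=
      ⟨siegel (hypSum Q₁) (-ee₁) ((0, 0), b) (by simp [ee₁]) hor, siegel_mem_siegelGroup _ _⟩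
    have hk : levi (hypSum Q₁) k =
        (swapEl Q₁)⁻¹ * rad ((0, 0), b) * ((swapEl Q₁)⁻¹)⁻¹ := by
      apply Subtype.ext
      simp only [k, rad, Subgroup.coe_mul, Subgroup.coe_inv, levi_apply, conj_siegel]
      refine (OrthParabolic.hypExt_siegel _ _).trans (siegel_eq ?_ ?_)
      · rw [← Subgroup.coe_inv]; exact (swapEl_inv_fst (Q₁ := Q₁)).symm
      · rw [← Subgroup.coe_inv]
        refine Eq.trans ?_ (swapEl_inv_apply (0 : F) 0 0 0 b).symm
        simp only [neg_zero]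
    have hfix : ρ (levi (hypSum Q₁) k) v' = v' := by
      have hv0 : ρ (rad ((0, 0), b)) v.1 = v.1 := by
        have := v.2 ((0, 0), b)
        simpa [UU, PP] using this
      rw [hk, hv', map_mul, map_mul, Module.End.mul_apply, Module.End.mul_apply,
        ← Module.End.mul_apply (ρ (swapEl Q₁)⁻¹⁻¹), ← map_mul, inv_mul_cancel, map_one,
        Module.End.one_apply, hv0]
    have hkc : (k.1 : ((F × F) × V₁) ≃ₗ[F] (F × F) × V₁) ((0, 0), c') = ((s, 0), c') := by
      simp [k, siegel_apply, ee₁, polar_hypSum, hcb]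
    rw [← hkc, ← hfix, eproj_levi ρ hQ.hypSum]
    change ρ _ (comp ρ c' v.1) = 0
    rw [h0, map_zero]
  rw [show v' = (∑ B, eproj (PP (hypSum Q₁)) (UU ρ) B) v' by
    rw [sum_eproj (setup ρ hQ.hypSum)]; rfl, LinearMap.sum_apply]
  refine Finset.sum_eq_zero fun c _ => ?_
  by_contra hne
  obtain ⟨h1, h2⟩ := comp_support ρ hQ hv hne
  obtain ⟨⟨s, t⟩, d⟩ := c
  simp only at h1 h2
  subst h1; subst h2
  exact hne (hzero s)

/-- The fixed space of the radical of a small representation is small. -/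
theorem small_sigma (hQ : Nondeg Q₁) (hs : Small ρ) : Small (sigma ρ) := by
  intro c' hc'
  have h := setup ρ hQ.hypSum
  let Φ : eigc (sigma ρ) c' →ₗ[ℂ] eigc ρ ((0, 0), c') :=
    (((eproj (PP (hypSum Q₁)) (UU ρ) ((0, 0), c')).comp (ρ (swapEl Q₁)⁻¹)).comp
      ((eigc ρ 0).subtype.comp (eigc (sigma ρ) c').subtype)).codRestrict _
      fun v => eproj_mem h _ _
  have hΦ : Function.Injective Φ := by
    rw [injective_iff_map_eq_zero]
    intro v hv
    exact Subtype.ext (comp_injective ρ hQ hc' v.2 (congrArg Subtype.val hv))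
  have hne : (((0, 0), c') : (F × F) × V₁) ≠ 0 := by simp [hc']
  have h1 := LinearMap.finrank_le_finrank_of_injective hΦ
  refine ⟨h1.trans (hs _ hne).1, fun hQc => ?_⟩
  have h2 := (hs _ hne).2 (by simpa using hQc)
  omega

end Two

section Root

variable {V₂ : Type*} [AddCommGroup V₂] [Module F V₂] [Fintype V₂] {Q₂ : QuadraticForm F V₂}
  (ρ : Representation ℂ (siegelGroup (hypSum (QQ Q₂))) V)

set_option maxHeartbeats 800000 in
open scoped Classical in
/-- If one level of characters occurs, once, the fixed space is a non-trivial representation. -/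
theorem sigma_ne_one (hQ₂ : Nondeg Q₂) {ν : F}
    (hm : ∀ c, c ≠ 0 → finrank ℂ (eigc ρ c) = if QQ Q₂ c = ν then 1 else 0)
    (hpair : ∀ z, Q₂ z = ν →
      ∃ y y', polar Q₂ z y = 0 ∧ polar Q₂ z y' = 0 ∧ polar Q₂ y y' = 1) :
    ∃ g, sigma ρ g ≠ 1 := by
  by_contra hcon
  push Not at hcon
  have hQ0 : Nondeg (QQ Q₂) := hQ₂.hypSum.hypSum
  set d := finrank ℂ (eigc ρ 0) with hd
  -- the value at the radical
  set g : siegelGroup (QQ Q₂) := swapEl Q₂ with hg
  have hgee : ((g.1 : ((F × F) × ((F × F) × V₂)) ≃ₗ[F] (F × F) × ((F × F) × V₂))) ee = ee' := by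
    exact swapEl_fst
  have hrad : ρ.character (rad ee') = ρ.character (rad ee) := by
    rw [← hgee, ← OrthStep.rad_conj, Representation.char_conj]
  -- the value at the root element of the Levi complement
  have hL : ρ.character (levi (QQ Q₂) (rootEl Q₂)) = ρ.character (rad ee') := by
    have e : levi (QQ Q₂) (rootEl Q₂) =
        swapEl (hypSum Q₂) * rad ee' * (swapEl (hypSum Q₂))⁻¹ := by
      apply Subtype.ext
      simp only [rad, rootEl, Subgroup.coe_mul, Subgroup.coe_inv, levi_apply, conj_siegel]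
      refine (OrthParabolic.hypExt_siegel _ _).trans (siegel_eq ?_ ?_)
      · exact (swapEl_fst (Q₁ := hypSum Q₂)).symm
      · refine Eq.trans ?_ (swapEl_apply (Q₁ := hypSum Q₂) (0 : F) 0 0 0 ((1, 0), 0)).symm
        simp only [neg_zero]
        rfl
    rw [e, Representation.char_conj]
  have hfix : ∀ c, c ≠ 0 →
      ((rootEl Q₂).1 : ((F × F) × ((F × F) × V₂)) ≃ₗ[F] (F × F) × ((F × F) × V₂)) c = c →
      ∀ w ∈ eigc ρ c, ρ (levi (QQ Q₂) (rootEl Q₂)) w = w := by
    intro c hc hfx w hw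
    by_cases hQc : QQ Q₂ c = ν
    swap
    · have h0 := hm c hc
      rw [if_neg hQc, Submodule.finrank_eq_zero] at h0
      rw [show eigc ρ c = ⊥ from h0, Submodule.mem_bot] at hw
      rw [hw, map_zero]
    have h1 : finrank ℂ (eigc ρ c) = 1 := by rw [hm c hc, if_pos hQc]
    obtain ⟨⟨s, t⟩, ⟨⟨s', t'⟩, z⟩⟩ := c
    obtain ⟨ht, ht'⟩ := (OrthStep.rootEl_fix_iff _).1 hfx
    simp only at ht ht'
    subst ht ht'
    obtain ⟨y, y', hzy, hzy', hyy'⟩ := hpair z (by simpa using hQc)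
    let h : siegelGroup (QQ Q₂) :=
      ⟨siegel (QQ Q₂) ee' ((0, 0), ((0, 0), -y')) ee'_sing (by simp [ee', polar_hypSum]),
        siegel_mem_siegelGroup _ _⟩
    exact shift_fix ρ h1 (y := ((0, 0), ((0, 0), y))) (z := ee') ee_sing
      (by simp [ee, polar_hypSum]) ee_orth (by simp [ee, polar_hypSum])
      (by simp [polar_hypSum, hzy]) h
      (by simp [h, siegel_apply, ee', polar_hypSum, hzy'])
      (by simp [h, siegel_apply, ee, ee', polar_hypSum])
      (by simp [h, siegel_apply, ee', polar_hypSum, hyy', Prod.mk_zero_zero]) hw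
  have htr := trace_perm (setup ρ hQ0) (ρ (levi (QQ Q₂) (rootEl Q₂)))
    (fun c => ((rootEl Q₂).1 : ((F × F) × ((F × F) × V₂)) ≃ₗ[F] (F × F) × ((F × F) × V₂)) c) (map_zero _)
    (fun c w hw => levi_mem ρ _ hw) hfix
  have htr0 : LinearMap.trace ℂ (eigc ρ 0) (sigma ρ (rootEl Q₂)) = (d : ℂ) := by
    rw [hcon, LinearMap.trace_one]
  erw [htr0] at htr
  change ρ.character (levi (QQ Q₂) (rootEl Q₂)) = _ at htr
  rw [hL, hrad, character_rad hQ0 hm, ← hd] at htr
  have hlhs : ∑ c ∈ Finset.univ.filter (fun c => QQ Q₂ c = ν), psi F (polar (QQ Q₂) ee c) =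
      (Fintype.card F : ℂ) * (Nat.card {w : (F × F) × V₂ // hypSum Q₂ w = ν} : ℂ) -
        (Fintype.card ((F × F) × V₂) : ℂ) := by
    rw [← sum_psi_level (hypSum Q₂) ν]
    refine Finset.sum_congr rfl fun c _ => ?_
    simp [ee, polar_hypSum]
  have hrhs : ∑ c ∈ Finset.univ.filter (fun c : (F × F) × ((F × F) × V₂) => c ≠ 0 ∧
      ((rootEl Q₂).1 : ((F × F) × ((F × F) × V₂)) ≃ₗ[F] (F × F) × ((F × F) × V₂)) c = c),
        (finrank ℂ (eigc ρ c) : ℂ) + (if ν = 0 then 1 else 0) =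
      (Fintype.card F : ℂ) ^ 2 * (Nat.card {w // Q₂ w = ν} : ℂ) := by
    have h1 : ∀ c, (if c ≠ 0 ∧ ((rootEl Q₂).1 : ((F × F) × ((F × F) × V₂)) ≃ₗ[F] (F × F) × ((F × F) × V₂)) c = c then
          (finrank ℂ (eigc ρ c) : ℂ) else 0) =
        (if (c.1.2 = 0 ∧ c.2.1.2 = 0) ∧ Q₂ c.2.2 = ν then (1 : ℂ) else 0) -
          (if c = 0 then (if ν = 0 then 1 else 0) else 0) := by
      intro c
      simp only [OrthStep.rootEl_fix_iff]
      by_cases hc : c = 0
      · subst hc; simp [eq_comm]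
      · rw [if_neg hc, sub_zero]
        by_cases ht : c.1.2 = 0 ∧ c.2.1.2 = 0
        · rw [if_pos ⟨hc, ht⟩, hm c hc]
          simp [ht.1, ht.2]
        · rw [if_neg (fun h => ht h.2), if_neg (fun h => ht h.1)]
    rw [Finset.sum_filter, Finset.sum_congr rfl fun c _ => h1 c, Finset.sum_sub_distrib,
      Finset.sum_ite_eq' Finset.univ (0 : (F × F) × ((F × F) × V₂)), if_pos (Finset.mem_univ _),
      sub_add_cancel, Finset.sum_boole]
    have h3 : (Finset.univ.filter fun c : (F × F) × ((F × F) × V₂) =>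
          (c.1.2 = 0 ∧ c.2.1.2 = 0) ∧ Q₂ c.2.2 = ν).card =
        (Finset.univ ×ˢ (Finset.univ ×ˢ Finset.univ.filter fun w => Q₂ w = ν) :
          Finset (F × F × V₂)).card := by
      refine Finset.card_bij' (fun c _ => (c.1.1, c.2.1.1, c.2.2))
        (fun x _ => ((x.1, 0), ((x.2.1, 0), x.2.2))) ?_ ?_ ?_ ?_
      · rintro ⟨⟨s, t⟩, ⟨⟨s', t'⟩, w⟩⟩ hc
        simp only [Finset.mem_filter, Finset.mem_univ, true_and, Finset.mem_product] at hc ⊢
        exact hc.2
      · rintro ⟨s, s', w⟩ hx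
        simpa using hx
      · rintro ⟨⟨s, t⟩, ⟨⟨s', t'⟩, w⟩⟩ hc
        simp only [Finset.mem_filter, Finset.mem_univ, true_and] at hc
        obtain ⟨⟨rfl, rfl⟩, -⟩ := hc
        rfl
      · intro x _; rfl
    rw [h3, Finset.card_product, Finset.card_product, Nat.card_eq_fintype_card,
      Fintype.card_subtype]
    push_cast
    rw [Finset.card_univ]
    ring
  have hZ1 : (Nat.card {v // hypSum Q₂ v = ν} : ℂ) =
      Fintype.card F * (Nat.card {w // Q₂ w = ν} : ℂ) +
        ((Fintype.card F : ℂ) - 1) * Fintype.card V₂ := by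
    rw [card_values_hypSum, Nat.card_eq_fintype_card (α := F), Nat.card_eq_fintype_card (α := V₂)]
    push_cast [Nat.cast_sub (Fintype.card_pos (α := F))]
    ring
  rw [hlhs, hZ1, Fintype.card_prod, Fintype.card_prod] at htr
  push_cast at htr
  have : (Fintype.card F : ℂ) * Fintype.card V₂ = 0 := by linear_combination -htr - hrhs
  rcases mul_eq_zero.1 this with h | h <;> simp [Fintype.card_ne_zero] at h

end Root

end CfsgLib.InvCentralizers.OrthSmall
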