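import Cfsg.Agent.Lib.InvCentralizers.OrthSmallFix

/-!
Operators intertwining a representation of the Siegel group of `H ⊥ Q₀` with its conjugate by an
isometry preserving the decomposition, and their traces.
-/

set_option autoImplicit false
set_option linter.unusedSectionVars false
set_option linter.style.haveILetI false

namespace CfsgLib.InvCentralizers.OrthTwist

open QuadraticMap Module CfsgLib.ClassicalForms
open CfsgLib.InvCentralizers.OrthParabolic
open CfsgLib.InvCentralizers.OrthSmall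
open CfsgLib.InvCentralizers.AbelianEigen

section Eigen

variable {M : Type*} [AddCommGroup M] [Fintype M] {V : Type*} [AddCommGroup V] [Module ℂ V]
variable (P : M → M → ℂ) (U : M → Module.End ℂ V)

/-- The part of the trace of an operator belonging to an eigenspace. -/
noncomputable def mu (g : Module.End ℂ V) (B : M) : ℂ :=
  LinearMap.trace ℂ V (g * eproj P U B)

variable {P U}

/-- Trace of an operator permuting the eigenspaces. -/
theorem trace_perm_mu [FiniteDimensional ℂ V] (h : Setup P U) [DecidableEq M] (g : Module.End ℂ V)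
    (π : M → M) (hπ0 : π 0 = 0) (hπ : ∀ B, ∀ w ∈ eig P U B, g w ∈ eig P U (π B)) :
    LinearMap.trace ℂ V g =
      LinearMap.trace ℂ (eig P U 0) (g.restrict fun w hw => hπ0 ▸ hπ 0 w hw) +
        ∑ B ∈ Finset.univ.filter (fun B => B ≠ 0 ∧ π B = B), mu P U g B := by
  have h1 : LinearMap.trace ℂ V g = ∑ B, mu P U g B := by
    simp only [mu]
    rw [← map_sum, ← Finset.mul_sum, sum_eproj h, mul_one]
  rw [h1, ← Finset.add_sum_erase _ _ (Finset.mem_univ (0 : M))]
  congr 1
  · let p : V →ₗ[ℂ] eig P U 0 := (eproj P U 0).codRestrict _ (eproj_mem h 0)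
    have e : g * eproj P U 0 = (g ∘ₗ (eig P U 0).subtype) ∘ₗ p := rfl
    rw [mu, e, LinearMap.trace_comp_comm']
    congr 1
    refine LinearMap.ext fun w => Subtype.ext ?_
    have h2 := hπ 0 _ w.2
    rw [hπ0] at h2
    exact eproj_eig h h2
  · rw [← Finset.sum_subset (s₁ := Finset.univ.filter fun B => B ≠ 0 ∧ π B = B)
      (s₂ := Finset.univ.erase 0)]
    · intro B hB
      exact Finset.mem_erase.2 ⟨(Finset.mem_filter.1 hB).2.1, Finset.mem_univ _⟩
    · intro B hB hnot
      have hB0 := (Finset.mem_erase.1 hB).1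
      have hB1 : π B ≠ B := fun e => hnot (Finset.mem_filter.2 ⟨Finset.mem_univ _, hB0, e⟩)
      have e : eproj P U B * eproj P U B = eproj P U B :=
        LinearMap.ext fun w => eproj_eig h (eproj_mem h B w)
      have e0 : eproj P U B * (g * eproj P U B) = 0 :=
        LinearMap.ext fun w => eproj_eig_ne h hB1 (hπ B _ (eproj_mem h B w))
      calc LinearMap.trace ℂ V (g * eproj P U B)
          = LinearMap.trace ℂ V ((g * eproj P U B) * eproj P U B) := by rw [mul_assoc, e]
        _ = LinearMap.trace ℂ V (eproj P U B * (g * eproj P U B)) := LinearMap.trace_mul_comm ℂ _ _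
        _ = 0 := by rw [e0, map_zero]

/-- On a one dimensional eigenspace an operator preserving it is the scalar `mu`. -/
theorem apply_eq_mu [FiniteDimensional ℂ V] (h : Setup P U) {g : Module.End ℂ V} {B : M}
    (hB : finrank ℂ (eig P U B) = 1) (hg : ∀ w ∈ eig P U B, g w ∈ eig P U B) {v : V}
    (hv : v ∈ eig P U B) : g v = mu P U g B • v := by
  obtain ⟨w₀, -, hspan⟩ := finrank_eq_one_iff'.1 hB
  obtain ⟨μ, hμ⟩ := hspan ⟨g w₀.1, hg _ w₀.2⟩
  have key : ∀ w ∈ eig P U B, g w = μ • w := fun w hw => by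
    obtain ⟨b, hb⟩ := hspan ⟨w, hw⟩
    have hb' : b • w₀.1 = w := congrArg Subtype.val hb
    have hμ' : μ • w₀.1 = g w₀.1 := congrArg Subtype.val hμ
    rw [← hb', map_smul, ← hμ', smul_comm]
  have e : g * eproj P U B = μ • eproj P U B :=
    LinearMap.ext fun w => key _ (eproj_mem h B w)
  rw [key v hv, mu, e, map_smul, trace_eproj h, hB, Nat.cast_one, smul_eq_mul, mul_one]

/-- An eigenspace without vectors does not contribute. -/
theorem mu_eq_zero [FiniteDimensional ℂ V] (h : Setup P U) (g : Module.End ℂ V) {B : M}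
    (hB : finrank ℂ (eig P U B) = 0) : mu P U g B = 0 := by
  have e : g * eproj P U B = 0 := LinearMap.ext fun w => by
    have h1 := eproj_mem h B w
    rw [Submodule.finrank_eq_zero] at hB
    rw [hB, Submodule.mem_bot] at h1
    change g (eproj P U B w) = 0
    rw [h1, map_zero]
  rw [mu, e, map_zero]

/-- A sign, for an involution. -/
theorem mu_sign [FiniteDimensional ℂ V] (h : Setup P U) {g : Module.End ℂ V} {B : M}
    (hB : finrank ℂ (eig P U B) = 1) (hg : ∀ w ∈ eig P U B, g w ∈ eig P U B) (h2 : g * g = 1) :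
    mu P U g B = 1 ∨ mu P U g B = -1 := by
  obtain ⟨w₀, hw₀, -⟩ := finrank_eq_one_iff'.1 hB
  have e := apply_eq_mu h hB hg w₀.2
  have e2 : g (g w₀.1) = w₀.1 := LinearMap.congr_fun h2 w₀.1
  rw [e, map_smul, e, smul_smul] at e2
  refine mul_self_eq_one_iff.1 ?_
  by_contra hne
  have e3 : (mu P U g B * mu P U g B - 1) • w₀.1 = 0 := by rw [sub_smul, one_smul, e2, sub_self]
  exact hw₀ (Subtype.ext ((smul_eq_zero.1 e3).resolve_left (sub_ne_zero.2 hne)))

end Eigen

variable {F V₀ : Type*} [Field F] [AddCommGroup V₀] [Module F V₀] {Q₀ : QuadraticForm F V₀}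

section Conj

/-- Conjugation of the Siegel group by an isometry. -/
def conjS {W : Type*} [AddCommGroup W] [Module F W] {Q : QuadraticForm F W} (R : orth Q)
    (g : siegelGroup Q) : siegelGroup Q :=
  ⟨R * g.1 * R⁻¹, siegelGroup_normal.conj_mem _ g.2 R⟩

variable {ε : F} {R : orth (hypSum Q₀)} {R₀ : orth Q₀}

/-- The isometry respects the decomposition. -/
def Splits (ε : F) (R : orth (hypSum Q₀)) (R₀ : orth Q₀) : Prop :=
  ε * ε = 1 ∧ ∀ (p : F × F) (b : V₀), R.1 (p, b) = (ε • p, R₀.1 b)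

theorem conjS_rad (hR : Splits ε R R₀) (b : V₀) : conjS R (rad b) = rad (ε • R₀.1 b) := by
  apply Subtype.ext
  simp only [conjS, rad, conj_siegel]
  refine (siegel_eq (u' := ε • (x₀ : (F × F) × V₀)) (w' := ((0, 0), R₀.1 b))
    (hu' := by rw [QuadraticMap.map_smul, x₀_singular, smul_zero])
    (hw' := by rw [polar_smul_left, polar_x₀, smul_zero]) ?_ ?_).trans ?_
  · refine (hR.2 _ _).trans ?_
    simp [x₀]
  · refine (hR.2 _ _).trans ?_
    simp
  · rw [siegel_smul x₀_singular (polar_x₀ _)]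
    exact siegel_eq rfl (by simp)

theorem conjS_levi (hR : Splits ε R R₀) (g : siegelGroup Q₀) :
    conjS R (levi Q₀ g) = levi Q₀ (conjS R₀ g) := by
  apply Subtype.ext
  change R * hypExt Q₀ g.1 * R⁻¹ = hypExt Q₀ (R₀ * g.1 * R₀⁻¹)
  rw [mul_inv_eq_iff_eq_mul]
  refine orth_ext fun z => ?_
  obtain ⟨p, b⟩ := z
  simp only [orth_mul_apply, hypExt_apply, hR.2, orth_inv_apply]

end Conj

variable [Fintype F] [Fintype V₀] {V : Type*} [AddCommGroup V] [Module ℂ V]
  {ρ : Representation ℂ (siegelGroup (hypSum Q₀)) V}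
  {ε : F} {R : orth (hypSum Q₀)} {R₀ : orth Q₀} {Φ : Module.End ℂ V}

/-- An operator intertwining the representation with its conjugate. -/
def Twist {G : Type*} [Group G] (c : G → G) (ρ : Representation ℂ G V) (Φ : Module.End ℂ V) :
    Prop :=
  ∀ g, Φ * ρ g = ρ (c g) * Φ

/-- The operator of an element of the group. -/
theorem twist_of_elem {W : Type*} [AddCommGroup W] [Module F W] {Q : QuadraticForm F W}
    (ρ : Representation ℂ (siegelGroup Q) V) (R : orth Q) (x : siegelGroup Q)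
    (h : ∀ g : siegelGroup Q, x.1 * g.1 * x.1⁻¹ = R * g.1 * R⁻¹) : Twist (conjS R) ρ (ρ x) := by
  intro g
  have e : conjS R g = x * g * x⁻¹ := Subtype.ext (h g).symm
  rw [e, ← map_mul, ← map_mul, inv_mul_cancel_right]

theorem Twist.mem_eig (hT : Twist (conjS R) ρ Φ) (hR : Splits ε R R₀) {c : V₀} {v : V}
    (hv : v ∈ eigc ρ c) : Φ v ∈ eigc ρ (ε • R₀.1 c) := by
  intro b
  set b' : V₀ := ε • (R₀⁻¹ : orth Q₀).1 b with hb'
  have e : b = ε • R₀.1 b' := by
    rw [hb', map_smul, orth_apply_inv, smul_smul, hR.1, one_smul]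
  have h1 := LinearMap.congr_fun (hT (rad b')) v
  rw [conjS_rad hR, ← e] at h1
  change ρ (rad b) (Φ v) = _
  change Φ (ρ (rad b') v) = ρ (rad b) (Φ v) at h1
  rw [← h1, show ρ (rad b') v = PP Q₀ c b' • v from hv b', map_smul]
  congr 1
  clear_value b'
  rw [PP, PP]
  congr 1
  conv_rhs => rw [e, polar_smul_left, polar_smul_right, polar_apply, smul_smul, hR.1, one_smul]

theorem Twist.mem_zero (hT : Twist (conjS R) ρ Φ) (hR : Splits ε R R₀) {v : V}
    (hv : v ∈ eigc ρ 0) : Φ v ∈ eigc ρ 0 := by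
  simpa using hT.mem_eig hR hv

/-- The restriction to the fixed space of the radical. -/
noncomputable def res (hT : Twist (conjS R) ρ Φ) (hR : Splits ε R R₀) :
    Module.End ℂ (eigc ρ 0) :=
  Φ.restrict fun _ hv => hT.mem_zero hR hv

theorem res_apply (hT : Twist (conjS R) ρ Φ) (hR : Splits ε R R₀) (v : eigc ρ 0) :
    (res hT hR v).1 = Φ v.1 := rfl

theorem twist_res (hT : Twist (conjS R) ρ Φ) (hR : Splits ε R R₀) :
    Twist (conjS R₀) (sigma ρ) (res hT hR) := by
  intro g
  refine LinearMap.ext fun v => Subtype.ext ?_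
  change Φ (ρ (levi Q₀ g) v.1) = ρ (levi Q₀ (conjS R₀ g)) (Φ v.1)
  rw [← conjS_levi hR]
  exact LinearMap.congr_fun (hT (levi Q₀ g)) v.1

theorem res_sq (hT : Twist (conjS R) ρ Φ) (hR : Splits ε R R₀) (h2 : Φ * Φ = 1) :
    res hT hR * res hT hR = 1 :=
  LinearMap.ext fun v => Subtype.ext (LinearMap.congr_fun h2 v.1)

variable [FiniteDimensional ℂ V]

open scoped Classical in
theorem trace_eq (hQ : Nondeg Q₀) (hT : Twist (conjS R) ρ Φ) (hR : Splits ε R R₀) :
    LinearMap.trace ℂ V Φ = LinearMap.trace ℂ (eigc ρ 0) (res hT hR) +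
      ∑ c ∈ Finset.univ.filter (fun c => c ≠ 0 ∧ ε • R₀.1 c = c), mu (PP Q₀) (UU ρ) Φ c :=
  trace_perm_mu (setup ρ hQ) Φ (fun c => ε • R₀.1 c) (by simp) fun _ _ hw => hT.mem_eig hR hw

/-- The components transform with the operator. -/
theorem Twist.eproj_comm (hT : Twist (conjS R) ρ Φ) (hR : Splits ε R R₀) (hQ : Nondeg Q₀) (c : V₀)
    (x : V) : eproj (PP Q₀) (UU ρ) (ε • R₀.1 c) (Φ x) = Φ (eproj (PP Q₀) (UU ρ) c x) := by
  classical
  have h := setup ρ hQ
  conv_lhs => rw [show x = (∑ B, eproj (PP Q₀) (UU ρ) B) x by rw [sum_eproj h]; rfl]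
  rw [LinearMap.sum_apply, map_sum, map_sum, Finset.sum_eq_single c]
  · exact eproj_eig h (hT.mem_eig hR (eproj_mem h c x))
  · intro B _ hB
    refine eproj_eig_ne h (fun e => hB ?_) (hT.mem_eig hR (eproj_mem h B x))
    have e' := congrArg (fun y => ε • y) e
    simp only [smul_smul, hR.1, one_smul] at e'
    exact R₀.1.injective e'
  · simp

section Two

variable {V₁ : Type*} [AddCommGroup V₁] [Module F V₁] [Fintype V₁] {Q₁ : QuadraticForm F V₁}
  {σ : Representation ℂ (siegelGroup (hypSum (hypSum Q₁))) V}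
  {S : orth (hypSum (hypSum Q₁))} {S₀ : orth (hypSum Q₁)} {δ : F} {Ψ : Module.End ℂ V}

/-- Scalars on the second radical are scalars on the first one. -/
theorem mu_transfer (hQ : Nondeg Q₁) (hs : Small σ) (hT : Twist (conjS S) σ Ψ)
    (hS : Splits δ S S₀) {Φ' : Module.End ℂ V}
    (hcomm : Ψ * σ (swapEl Q₁)⁻¹ = σ (swapEl Q₁)⁻¹ * Φ') {c' : V₁} (hc' : c' ≠ 0)
    (hfix : δ • S₀.1 ((0, 0), c') = ((0, 0), c')) {v : eigc σ 0} (hv : v ∈ eigc (sigma σ) c')
    (hv0 : v ≠ 0) {μ : ℂ} (hμ : Φ' v.1 = μ • v.1) :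
    μ = mu (PP (hypSum Q₁)) (UU σ) Ψ ((0, 0), c') := by
  have h := setup σ hQ.hypSum
  have hne : (((0, 0), c') : (F × F) × V₁) ≠ 0 := fun e => hc' (congrArg Prod.snd e)
  have hcomp : OrthSmall.comp σ c' v.1 ≠ 0 := fun e => hv0 (comp_injective σ hQ hc' hv e)
  have hmem : OrthSmall.comp σ c' v.1 ∈ eigc σ ((0, 0), c') := eproj_mem h _ _
  have h1 : finrank ℂ (eigc σ ((0, 0), c')) = 1 := by
    refine le_antisymm (hs _ hne).1 (Nat.one_le_iff_ne_zero.2 fun h0 => hcomp ?_)
    rw [Submodule.finrank_eq_zero] at h0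
    rwa [h0, Submodule.mem_bot] at hmem
  have e : Ψ (OrthSmall.comp σ c' v.1) = μ • OrthSmall.comp σ c' v.1 := by
    unfold OrthSmall.comp
    rw [← hT.eproj_comm hS hQ.hypSum, hfix]
    have e1 : Ψ (σ (swapEl Q₁)⁻¹ v.1) = σ (swapEl Q₁)⁻¹ (Φ' v.1) :=
      LinearMap.congr_fun hcomm v.1
    rw [e1, hμ, map_smul, map_smul]
  have e2 := apply_eq_mu h h1 (g := Ψ)
    (fun w hw => by have := hT.mem_eig hS hw; rwa [hfix] at this) hmem
  rw [e] at e2
  by_contra hμne
  have e3 : (μ - mu (PP (hypSum Q₁)) (UU σ) Ψ ((0, 0), c')) • OrthSmall.comp σ c' v.1 = 0 := by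
    rw [sub_smul, e2, sub_self]
  exact hcomp ((smul_eq_zero.1 e3).resolve_left (sub_ne_zero.2 hμne))

end Two

end CfsgLib.InvCentralizers.OrthTwist
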