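import Mathlib
import Cfsg.Agent.Lib.InvCentralizers.SympBound

/-!
Linear functionals on symmetric matrices in characteristic two as quadratic forms, and a lower
bound for their orbits under congruence.
-/

set_option autoImplicit false
set_option linter.unusedSectionVars false

namespace CfsgLib.InvCentralizers.QuadOrbit

open Matrix
open CfsgLib.InvCentralizers.SympBound (symMat congrSym psi exists_psi_ne symMat_apply)

variable {F : Type*} [Field F] {n : ℕ}

/-- Congruence as a linear map. -/
def congrLin (A : Matrix (Fin n) (Fin n) F) : symMat n F →ₗ[F] symMat n F where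
  toFun := congrSym A
  map_add' S T := by apply Subtype.ext; simp [congrSym, Matrix.mul_add, Matrix.add_mul]
  map_smul' c S := by apply Subtype.ext; simp [congrSym]

/-- A self-duality of the symmetric matrices. -/
noncomputable def Lam : symMat n F ≃ₗ[F] Module.Dual F (symMat n F) :=
  (Module.finBasis F (symMat n F)).toDualEquiv

/-- The contragredient action. -/
noncomputable def tau (A : Matrix (Fin n) (Fin n) F) (a : symMat n F) : symMat n F :=
  Lam.symm (Lam a ∘ₗ congrLin A)

theorem Lam_tau (A : Matrix (Fin n) (Fin n) F) (a S : symMat n F) :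
    Lam (tau A a) S = Lam a (congrSym A S) := by
  simp [tau, congrLin]

theorem tau_mul (A A' : Matrix (Fin n) (Fin n) F) (a : symMat n F) :
    tau (A * A') a = tau A' (tau A a) := by
  apply Lam.injective
  ext S : 1
  rw [Lam_tau, Lam_tau, Lam_tau, CfsgLib.InvCentralizers.SympBound.congrSym_mul]

theorem tau_one (a : symMat n F) : tau 1 a = a := by
  apply Lam.injective
  ext S : 1
  rw [Lam_tau]
  congr 1
  apply Subtype.ext
  simp [congrSym]

/-- The symmetric matrix of a pair of vectors. -/
def sym2 (x y : Fin n → F) : symMat n F :=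
  ⟨vecMulVec x y + vecMulVec y x, by
    change (vecMulVec x y + vecMulVec y x)ᵀ = _
    rw [transpose_add, transpose_vecMulVec, transpose_vecMulVec, add_comm]⟩

/-- The symmetric matrix of a vector. -/
def sym1 (x : Fin n → F) : symMat n F := ⟨vecMulVec x x, transpose_vecMulVec x x⟩

/-- The quadratic form of a functional. -/
noncomputable def qf (a : symMat n F) (x : Fin n → F) : F := Lam a (sym1 x)

/-- Its polar form. -/
noncomputable def bf (a : symMat n F) (x y : Fin n → F) : F := Lam a (sym2 x y)

theorem qf_add (a : symMat n F) (x y : Fin n → F) :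
    qf a (x + y) = qf a x + qf a y + bf a x y := by
  rw [qf, qf, qf, bf, ← map_add, ← map_add]
  congr 1
  apply Subtype.ext
  simp [sym1, sym2, add_vecMulVec, vecMulVec_add]
  abel

theorem qf_smul (a : symMat n F) (c : F) (x : Fin n → F) : qf a (c • x) = c * c * qf a x := by
  rw [qf, qf, ← smul_eq_mul, ← map_smul]
  congr 1
  apply Subtype.ext
  simp [sym1, smul_smul]

theorem bf_comm (a : symMat n F) (x y : Fin n → F) : bf a x y = bf a y x := by
  rw [bf, bf]; congr 1; exact Subtype.ext (add_comm _ _)

theorem bf_add_right (a : symMat n F) (x y z : Fin n → F) :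
    bf a x (y + z) = bf a x y + bf a x z := by
  rw [bf, bf, bf, ← map_add]
  congr 1
  apply Subtype.ext
  simp [sym2, add_vecMulVec, vecMulVec_add]
  abel

theorem bf_smul_right (a : symMat n F) (c : F) (x y : Fin n → F) :
    bf a x (c • y) = c * bf a x y := by
  rw [bf, bf, ← smul_eq_mul, ← map_smul]
  congr 1
  apply Subtype.ext
  simp [sym2]

theorem bf_add_left (a : symMat n F) (x y z : Fin n → F) :
    bf a (x + y) z = bf a x z + bf a y z := by
  rw [bf_comm, bf_add_right, bf_comm a z x, bf_comm a z y]

theorem bf_smul_left (a : symMat n F) (c : F) (x y : Fin n → F) :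
    bf a (c • x) y = c * bf a x y := by
  rw [bf_comm, bf_smul_right, bf_comm]

theorem bf_self (h2 : (2 : F) = 0) (a : symMat n F) (x : Fin n → F) : bf a x x = 0 := by
  have h := qf_add a x x
  rw [show x + x = (2 : F) • x from (two_smul F x).symm, qf_smul, h2] at h
  linear_combination -h - (qf a x) * h2

theorem qf_tau (A : Matrix (Fin n) (Fin n) F) (a : symMat n F) (x : Fin n → F) :
    qf (tau A a) x = qf a (A *ᵥ x) := by
  rw [qf, qf, Lam_tau]
  congr 1
  apply Subtype.ext
  simp [sym1, congrSym, mul_vecMulVec, vecMulVec_mul, vecMul_transpose]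

theorem bf_tau (A : Matrix (Fin n) (Fin n) F) (a : symMat n F) (x y : Fin n → F) :
    bf (tau A a) x y = bf a (A *ᵥ x) (A *ᵥ y) := by
  rw [bf, bf, Lam_tau]
  congr 1
  apply Subtype.ext
  simp [sym2, congrSym, Matrix.mul_add, Matrix.add_mul, mul_vecMulVec, vecMulVec_mul,
    vecMul_transpose]

/-- The matrix of a linear automorphism. -/
noncomputable def glOf (e : (Fin n → F) ≃ₗ[F] (Fin n → F)) : GL (Fin n) F :=
  GeneralLinearGroup.mkOfDetNeZero (LinearMap.toMatrix' e.toLinearMap) (by
    rw [LinearMap.det_toMatrix']; exact e.isUnit_det'.ne_zero)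

theorem glOf_mulVec (e : (Fin n → F) ≃ₗ[F] (Fin n → F)) (x : Fin n → F) :
    (glOf e).val *ᵥ x = e x :=
  LinearMap.toMatrix'_mulVec e.toLinearMap x

theorem exists_equiv_pair {u v u' v' : Fin n → F} (h : LinearIndependent F ![u, v])
    (h' : LinearIndependent F ![u', v']) :
    ∃ e : (Fin n → F) ≃ₗ[F] (Fin n → F), e u = u' ∧ e v = v' := by
  classical
  obtain ⟨W, hW⟩ := Submodule.exists_isCompl (Submodule.span F (Set.range ![u, v]))
  obtain ⟨W', hW'⟩ := Submodule.exists_isCompl (Submodule.span F (Set.range ![u', v']))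
  let b := Module.Basis.span h
  let b' := Module.Basis.span h'
  have hd : Module.finrank F W = Module.finrank F W' := by
    have h1 := Submodule.finrank_add_eq_of_isCompl hW
    have h2 := Submodule.finrank_add_eq_of_isCompl hW'
    rw [finrank_span_eq_card h] at h1
    rw [finrank_span_eq_card h'] at h2
    omega
  let e : (Fin n → F) ≃ₗ[F] (Fin n → F) :=
    (Submodule.prodEquivOfIsCompl _ _ hW).symm.trans
      (((b.equiv b' (Equiv.refl _)).prodCongr (LinearEquiv.ofFinrankEq _ _ hd)).trans
        (Submodule.prodEquivOfIsCompl _ _ hW'))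
  have he : ∀ i, e (![u, v] i) = ![u', v'] i := by
    intro i
    have h1 : (![u, v] i) = ((b i : Submodule.span F (Set.range ![u, v])) : Fin n → F) :=
      (Module.Basis.coe_span_apply h i).symm
    rw [h1]
    simp only [e, LinearEquiv.trans_apply, Submodule.prodEquivOfIsCompl_symm_apply_left,
      LinearEquiv.prodCongr_apply, map_zero, Module.Basis.equiv_apply, Equiv.refl_apply]
    rw [Submodule.coe_prodEquivOfIsCompl']
    simp [b', Module.Basis.coe_span_apply]
  exact ⟨e, he 0, he 1⟩

theorem li_of_bf_ne (h2 : (2 : F) = 0) (a : symMat n F) {u v : Fin n → F} (h : bf a u v ≠ 0) :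
    LinearIndependent F ![u, v] := by
  rw [LinearIndependent.pair_iff]
  intro s t hst
  have h0 : ∀ x, bf a x 0 = 0 := fun x => by
    have := bf_smul_right a 0 x x
    simpa using this
  have h1 := congrArg (bf a u) hst
  rw [bf_add_right, bf_smul_right, bf_smul_right, bf_self h2, h0, mul_zero, zero_add] at h1
  have ht : t = 0 := (mul_eq_zero.1 h1).resolve_right h
  subst ht
  rw [zero_smul, add_zero] at hst
  have h2' := congrArg (bf a v) hst
  rw [bf_smul_right, h0, bf_comm] at h2'
  exact ⟨(mul_eq_zero.1 h2').resolve_right h, rfl⟩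

variable [Fintype F] [DecidableEq F]

/-- A count through the lines parallel to a vector. -/
theorem card_mul_le (T S : Finset (Fin n → F)) (u : Fin n → F) (r : ℕ)
    (hS : ∀ v ∈ T, ∀ t : F, v + t • u ∈ S)
    (hr : ∀ w ∈ S, ∃ R : Finset F, R.card ≤ r ∧ ∀ t : F, w - t • u ∈ T → t ∈ R) :
    T.card * Fintype.card F ≤ r * S.card := by
  classical
  rw [← Finset.card_univ (α := F), ← Finset.card_product]
  refine Finset.card_le_mul_card_image_of_maps_to (f := fun p => p.1 + p.2 • u)
    (fun p hp => hS _ (Finset.mem_product.1 hp).1 _) r fun w hw => ?_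
  obtain ⟨R, hR, hmem⟩ := hr w hw
  refine le_trans (Finset.card_le_card_of_injOn (fun p => p.2) ?_ ?_) hR
  · intro p hp
    simp only [Finset.mem_coe, Finset.mem_filter, Finset.mem_product] at hp
    refine hmem _ ?_
    rw [← hp.2, add_sub_cancel_right]
    exact hp.1.1
  · intro p hp p' hp' h
    simp only [Finset.mem_coe, Finset.mem_filter] at hp hp'
    simp only at h
    refine Prod.ext ?_ h
    have := hp.2.trans hp'.2.symm
    rw [h] at this
    exact add_right_cancel this

theorem exists_quad_roots (a b c : F) (ha : a ≠ 0) :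
    ∃ R : Finset F, R.card ≤ 2 ∧ ∀ t, a * t * t + b * t + c = 0 → t ∈ R := by
  classical
  refine ⟨Finset.univ.filter fun t => a * t * t + b * t + c = 0, ?_, fun t ht => by simp [ht]⟩
  by_contra hcon
  push Not at hcon
  obtain ⟨x, hx, y, hy, z, hz, hxy, hxz, hyz⟩ := Finset.two_lt_card.1 hcon
  simp only [Finset.mem_filter, Finset.mem_univ, true_and] at hx hy hz
  have h1 : (x - y) * (a * (x + y) + b) = 0 := by linear_combination hx - hy
  have h2 : (x - z) * (a * (x + z) + b) = 0 := by linear_combination hx - hz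
  have e1 := (mul_eq_zero.1 h1).resolve_left (sub_ne_zero.2 hxy)
  have e2 := (mul_eq_zero.1 h2).resolve_left (sub_ne_zero.2 hxz)
  have h3 : a * (y - z) = 0 := by linear_combination e1 - e2
  exact sub_ne_zero.2 hyz ((mul_eq_zero.1 h3).resolve_left ha)

variable (a : symMat n F)

theorem card_zero_le (x₀ : Fin n → F) (hx : qf a x₀ ≠ 0) :
    (Finset.univ.filter fun v => qf a v = 0).card * Fintype.card F ≤ 2 * Fintype.card F ^ n := by
  have h := card_mul_le (Finset.univ.filter fun v => qf a v = 0) Finset.univ x₀ 2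
    (fun _ _ _ => Finset.mem_univ _) (fun w _ => by
      obtain ⟨R, hR, hm⟩ := exists_quad_roots (qf a x₀) (-bf a w x₀) (qf a w) hx
      refine ⟨R, hR, fun t ht => hm t ?_⟩
      simp only [Finset.mem_filter, Finset.mem_univ, true_and] at ht
      rw [sub_eq_add_neg, ← neg_smul, qf_add, qf_smul, bf_smul_right] at ht
      linear_combination ht)
  simpa using h

theorem card_affine (h2 : (2 : F) = 0) {u v₀ : Fin n → F} (h : bf a u v₀ = 1) :
    (Finset.univ.filter fun v => bf a u v = 1).card * Fintype.card F = Fintype.card F ^ n := by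
  rw [← Finset.card_univ (α := F), ← Finset.card_product]
  rw [Finset.card_bij (t := (Finset.univ : Finset (Fin n → F)))
    (fun p _ => p.1 + p.2 • v₀)]
  · simp
  · exact fun _ _ => Finset.mem_univ _
  · intro p hp p' hp' e
    simp only [Finset.mem_product, Finset.mem_filter] at hp hp'
    have h1 := congrArg (bf a u) e
    rw [bf_add_right, bf_add_right, bf_smul_right, bf_smul_right, hp.1.2, hp'.1.2, h, mul_one,
      mul_one, add_right_inj] at h1
    rw [h1] at e
    exact Prod.ext (add_right_cancel e) h1
  · intro w _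
    refine ⟨(w - (bf a u w - 1) • v₀, bf a u w - 1), ?_, by simp⟩
    simp only [Finset.mem_product, Finset.mem_filter, Finset.mem_univ, true_and, and_true]
    rw [sub_eq_add_neg, ← neg_smul, bf_add_right, bf_smul_right, h]
    ring

/-- The pairs of a given type. -/
noncomputable def pairs (al c : F) : Finset ((Fin n → F) × (Fin n → F)) :=
  Finset.univ.filter fun p => qf a p.1 = al ∧ qf a p.2 = c ∧ bf a p.1 p.2 = 1

theorem card_second_le (h2 : (2 : F) = 0) (u : Fin n → F) (c : F) (r : ℕ)
    (hroots : ∀ w, bf a u w = 1 → ∃ R : Finset F, R.card ≤ r ∧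
      ∀ t : F, qf a (w - t • u) = c → t ∈ R) :
    (Finset.univ.filter fun v => qf a v = c ∧ bf a u v = 1).card * Fintype.card F ^ 2 ≤
      r * Fintype.card F ^ n := by
  set T := Finset.univ.filter fun v => qf a v = c ∧ bf a u v = 1 with hT
  rcases T.eq_empty_or_nonempty with h | ⟨v₀, hv₀⟩
  · simp [h]
  have hv₀' : bf a u v₀ = 1 := by
    simp only [hT, Finset.mem_filter] at hv₀; exact hv₀.2.2
  have h1 := card_mul_le T (Finset.univ.filter fun v => bf a u v = 1) u r (fun v hv t => by
      simp only [hT, Finset.mem_filter, Finset.mem_univ, true_and] at hv ⊢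
      rw [bf_add_right, bf_smul_right, bf_self h2, mul_zero, add_zero, hv.2])
    (fun w hw => by
      simp only [Finset.mem_filter, Finset.mem_univ, true_and] at hw
      obtain ⟨R, hR, hm⟩ := hroots w hw
      refine ⟨R, hR, fun t ht => hm t ?_⟩
      simp only [hT, Finset.mem_filter] at ht
      exact ht.2.1)
  calc T.card * Fintype.card F ^ 2 = T.card * Fintype.card F * Fintype.card F := by ring
    _ ≤ r * (Finset.univ.filter fun v => bf a u v = 1).card * Fintype.card F :=
      Nat.mul_le_mul_right _ h1
    _ = _ := by rw [mul_assoc, card_affine a h2 hv₀']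

theorem card_pairs_le (al c : F) (r : ℕ) (h2 : (2 : F) = 0)
    (hroots : ∀ u w, qf a u = al → bf a u w = 1 → ∃ R : Finset F, R.card ≤ r ∧
      ∀ t : F, qf a (w - t • u) = c → t ∈ R) :
    (pairs a al c).card * Fintype.card F ^ 2 ≤
      (Finset.univ.filter fun u => qf a u = al).card * (r * Fintype.card F ^ n) := by
  classical
  have hp : pairs a al c = ((Finset.univ.filter fun u => qf a u = al) ×ˢ Finset.univ).filter
      fun p => qf a p.2 = c ∧ bf a p.1 p.2 = 1 := by
    ext p; simp [pairs]
  rw [hp, Finset.card_filter, Finset.sum_product, Finset.sum_mul]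
  refine (Finset.sum_le_card_nsmul _ _ (r * Fintype.card F ^ n) fun u hu => ?_).trans_eq (smul_eq_mul _ _)
  simp only [Finset.mem_filter, Finset.mem_univ, true_and] at hu
  rw [← Finset.card_filter]
  exact card_second_le a h2 u c r fun w hw => hroots u w hu hw

/-- A form with a singular pair, or none. -/
def Hyp : Prop := ∃ u v, qf a u = 0 ∧ bf a u v = 1

theorem card_pairs_hyp (h2 : (2 : F) = 0) (hne : ∃ u v, bf a u v ≠ 0) :
    (pairs a 0 0).card * Fintype.card F ^ 4 ≤
      2 * (Fintype.card F + 1) * Fintype.card F ^ (2 * n) := by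
  obtain ⟨u, v, huv⟩ := hne
  obtain ⟨x₀, hx₀⟩ : ∃ x, qf a x ≠ 0 := by
    by_contra hcon
    push Not at hcon
    have := qf_add a u v
    rw [hcon, hcon, hcon, zero_add, zero_add] at this
    exact huv this.symm
  have hz := card_zero_le a x₀ hx₀
  have hp := card_pairs_le a 0 0 1 h2 (fun u w hu hw => ⟨{qf a w}, by simp, fun t ht => by
    rw [sub_eq_add_neg, ← neg_smul, qf_add, qf_smul, bf_smul_right, hu, bf_comm, hw] at ht
    simp only [Finset.mem_singleton]
    linear_combination -ht⟩)
  set Z := (Finset.univ.filter fun v => qf a v = 0).card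
  set P := (pairs a 0 0).card
  set q := Fintype.card F
  calc P * q ^ 4 = P * q ^ 2 * q ^ 2 := by ring
    _ ≤ Z * (1 * q ^ n) * q ^ 2 := Nat.mul_le_mul_right _ hp
    _ = Z * q * (q ^ n * q) := by ring
    _ ≤ 2 * q ^ n * (q ^ n * q) := Nat.mul_le_mul_right _ hz
    _ = 2 * q * q ^ (2 * n) := by ring
    _ ≤ _ := Nat.mul_le_mul_right _ (by omega)

theorem card_pairs_ell (h2 : (2 : F) = 0) (hno : ¬ Hyp a) {u v : Fin n → F} (huv : bf a u v = 1)
    (c : F) :
    (pairs a 1 c).card * Fintype.card F ^ 4 ≤
      2 * (Fintype.card F + 1) * Fintype.card F ^ (2 * n) := by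
  classical
  set q := Fintype.card F with hq
  have hsurj : ∀ x : F, ∃ s, s * s = x := fun x => by
    obtain ⟨s, hs⟩ := FiniteField.isSquare_of_char_two (ringChar.eq_iff.2
      (CharTwo.of_one_ne_zero_of_two_eq_zero one_ne_zero h2)) x
    exact ⟨s, hs.symm⟩
  have hu : qf a u ≠ 0 := fun h => hno ⟨u, v, h, huv⟩
  -- the orthogonal space of the pair is totally singular
  have hW : ∀ w, bf a u w = 0 → bf a v w = 0 → qf a w = 0 := by
    intro w hw hw'
    by_contra hqw
    obtain ⟨s, hs⟩ := hsurj (qf a u / qf a w)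
    refine hno ⟨u + s • w, v, ?_, ?_⟩
    · rw [qf_add, qf_smul, bf_smul_right, hw, hs, div_mul_cancel₀ _ hqw]
      linear_combination (qf a u) * h2
    · rw [bf_add_left, bf_smul_left, bf_comm a w, hw', huv]
      ring
  have hZ : q ^ n ≤ (Finset.univ.filter fun x => qf a x = 0).card * q ^ 2 := by
    rw [show q ^ 2 = ((Finset.univ : Finset (F × F))).card by simp [hq, sq], ← Finset.card_product,
      show q ^ n = (Finset.univ : Finset (Fin n → F)).card by simp [hq]]
    refine Finset.card_le_card_of_injOn
      (fun x => (x + bf a v x • u + bf a u x • v, (bf a v x, bf a u x))) ?_ ?_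
    · intro x _
      simp only [Finset.mem_coe, Finset.mem_product, Finset.mem_filter, Finset.mem_univ, true_and,
        and_true]
      refine hW _ ?_ ?_
      · simp only [bf_add_right, bf_smul_right, bf_self h2, huv]
        linear_combination (bf a u x) * h2
      · simp only [bf_add_right, bf_smul_right, bf_self h2, bf_comm a v u, huv]
        linear_combination (bf a v x) * h2
    · intro x _ y _ e
      simp only [Prod.mk.injEq] at e
      obtain ⟨e1, e2, e3⟩ := e
      rw [e2, e3] at e1
      exact add_right_cancel (add_right_cancel e1)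
  have h1 : (Finset.univ.filter fun x => qf a x = 1).card * (q - 1) +
      (Finset.univ.filter fun x => qf a x = 0).card ≤ q ^ n := by
    rw [show q - 1 = (Finset.univ : Finset Fˣ).card by simp [hq, Fintype.card_units],
      ← Finset.card_product,
      show q ^ n = (Finset.univ : Finset (Fin n → F)).card by simp [hq],
      ← Finset.card_filter_add_card_filter_not (s := (Finset.univ : Finset (Fin n → F)))
        (fun x => qf a x = 0), add_comm]
    refine Nat.add_le_add_left (Finset.card_le_card_of_injOn (fun p => (p.2 : F) • p.1) ?_ ?_) _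
    · intro p hp
      simp only [Finset.mem_coe, Finset.mem_product, Finset.mem_filter, Finset.mem_univ, true_and,
        and_true] at hp ⊢
      rw [qf_smul, hp]
      simp
    · intro p hp p' hp' e
      simp only [Finset.mem_coe, Finset.mem_product, Finset.mem_filter, Finset.mem_univ, true_and,
        and_true] at hp hp'
      have h3 := congrArg (qf a) e
      simp only [qf_smul, hp, hp', mul_one] at h3
      have h4 : ((p.2 : F) - p'.2) * ((p.2 : F) - p'.2) = 0 := by
        linear_combination h3 + ((p'.2 : F) * p'.2 - p.2 * p'.2) * h2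
      have h5 : (p.2 : F) = p'.2 := sub_eq_zero.1 (mul_self_eq_zero.1 h4)
      refine Prod.ext ?_ (Units.ext h5)
      simp only [h5] at e
      exact smul_right_injective _ p'.2.ne_zero e
  have hp := card_pairs_le a 1 c 2 h2 (fun x w hx hw => by
    obtain ⟨R, hR, hm⟩ := exists_quad_roots (1 : F) (-1) (qf a w - c) one_ne_zero
    refine ⟨R, hR, fun t ht => hm t ?_⟩
    rw [sub_eq_add_neg, ← neg_smul, qf_add, qf_smul, bf_smul_right, hx, bf_comm, hw] at ht
    linear_combination ht)
  set U := (Finset.univ.filter fun x => qf a x = 1).card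
  set Z := (Finset.univ.filter fun x => qf a x = 0).card
  set P := (pairs a 1 c).card
  have hq1 : 1 < q := Fintype.one_lt_card
  have h3 : U * q ^ 2 ≤ (q + 1) * q ^ n := by
    refine Nat.le_of_mul_le_mul_left ?_ (show 0 < q - 1 by omega)
    obtain ⟨r, hr⟩ : ∃ r, q = r + 1 := ⟨q - 1, by omega⟩
    have h4 := Nat.mul_le_mul_right (q ^ 2) h1
    rw [hr, Nat.add_sub_cancel] at h4 ⊢
    rw [hr] at hZ
    nlinarith
  calc P * q ^ 4 = P * q ^ 2 * q ^ 2 := by ring
    _ ≤ U * (2 * q ^ n) * q ^ 2 := Nat.mul_le_mul_right _ hp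
    _ = U * q ^ 2 * (2 * q ^ n) := by ring
    _ ≤ (q + 1) * q ^ n * (2 * q ^ n) := Nat.mul_le_mul_right _ h3
    _ = _ := by ring

/-- Many orbit elements take prescribed values on an independent pair. -/
theorem card_fiber (h2 : (2 : F) = 0) (O : Finset (symMat n F))
    (hO : ∀ A : GL (Fin n) F, ∀ b ∈ O, tau A.val b ∈ O) (ha : a ∈ O) {u₀ v₀ : Fin n → F}
    (h₀ : bf a u₀ v₀ = 1) {u v : Fin n → F} (huv : LinearIndependent F ![u, v]) :
    Fintype.card F ^ (2 * n) ≤ Fintype.card F ^ 4 *
      (O.filter fun b => qf b u = qf a u₀ ∧ qf b v = qf a v₀ ∧ bf b u v = 1).card := by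
  classical
  obtain ⟨e, heu, hev⟩ := exists_equiv_pair huv (li_of_bf_ne h2 a (by rw [h₀]; exact one_ne_zero))
  let K := (Submodule.span F (Set.range ![u, v])).dualAnnihilator
  have hKu : ∀ f : K, f.1 u = 0 := fun f =>
    (Submodule.mem_dualAnnihilator f.1).1 f.2 u (Submodule.subset_span ⟨0, rfl⟩)
  have hKv : ∀ f : K, f.1 v = 0 := fun f =>
    (Submodule.mem_dualAnnihilator f.1).1 f.2 v (Submodule.subset_span ⟨1, rfl⟩)
  let sh : K × K → ((Fin n → F) ≃ₗ[F] (Fin n → F)) := fun p =>
    LinearEquiv.ofInvolutive
      (LinearMap.id + p.1.1.smulRight u + p.2.1.smulRight v) (fun x => by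
        simp only [LinearMap.add_apply, LinearMap.id_apply, LinearMap.smulRight_apply, map_add,
          map_smul, hKu, hKv, smul_eq_mul, mul_zero, add_zero]
        funext i
        simp only [Pi.add_apply, Pi.smul_apply, smul_eq_mul]
        linear_combination (p.1.1 x * u i + p.2.1 x * v i) * h2)
  have hsu : ∀ p, sh p u = u := fun p => by
    change u + p.1.1 u • u + p.2.1 u • v = u
    simp [hKu]
  have hsv : ∀ p, sh p v = v := fun p => by
    change v + p.1.1 v • u + p.2.1 v • v = v
    simp [hKv]
  let f : K × K → symMat n F := fun p => tau (glOf (sh p)).val (tau (glOf e).val a)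
  have hB : bf (tau (glOf e).val a) u v = 1 := by
    rw [bf_tau, glOf_mulVec, glOf_mulVec, heu, hev, h₀]
  have hinj : Function.Injective f := by
    intro p p' hpp
    set b := tau (glOf e).val a
    have key : ∀ (r : K × K) x, bf (f r) v x = bf b v x + r.1.1 x ∧
        bf (f r) u x = bf b u x + r.2.1 x := by
      intro r x
      change bf (tau (glOf (sh r)).val b) v x = _ ∧ bf (tau (glOf (sh r)).val b) u x = _
      rw [bf_tau (glOf (sh r)).val b, bf_tau (glOf (sh r)).val b, glOf_mulVec, glOf_mulVec, glOf_mulVec,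
        hsu, hsv]
      change bf b v (x + r.1.1 x • u + r.2.1 x • v) = _ ∧ bf b u (x + r.1.1 x • u + r.2.1 x • v) = _
      constructor
      · simp [bf_add_right, bf_smul_right, bf_self h2, bf_comm b v u, hB]
      · simp [bf_add_right, bf_smul_right, bf_self h2, hB]
    refine Prod.ext (Subtype.ext (LinearMap.ext fun x => ?_)) (Subtype.ext (LinearMap.ext fun x => ?_))
    · have h := (key p x).1
      rw [hpp, (key p' x).1, add_right_inj] at h
      exact h.symm
    · have h := (key p x).2
      rw [hpp, (key p' x).2, add_right_inj] at h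
      exact h.symm
  have hfr : Module.finrank F K + 2 = n := by
    have h1 := Subspace.finrank_add_finrank_dualAnnihilator_eq
      (Submodule.span F (Set.range ![u, v]))
    rw [finrank_span_eq_card huv, Module.finrank_fintype_fun_eq_card, Fintype.card_fin,
      Fintype.card_fin] at h1
    change Module.finrank F (Submodule.span F (Set.range ![u, v])).dualAnnihilator + 2 = n
    omega
  have : Finite K := Finite.of_injective (fun f : K => (⇑f.1 : (Fin n → F) → F))
    fun f g h => Subtype.ext (DFunLike.coe_injective h)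
  let : Fintype K := Fintype.ofFinite _
  calc Fintype.card F ^ (2 * n) = Fintype.card F ^ 4 * Fintype.card (K × K) := by
        rw [Fintype.card_prod, Module.card_eq_pow_finrank (K := F) (V := K), ← pow_add, ← pow_add]
        congr 1
        omega
    _ ≤ _ := by
        refine Nat.mul_le_mul_left _ (Finset.card_le_card_of_injOn f ?_ hinj.injOn)
        intro p _
        simp only [Finset.mem_coe, Finset.mem_filter, f]
        refine ⟨hO _ _ (hO _ _ ha), ?_⟩
        simp only [qf_tau, bf_tau, glOf_mulVec, hsu, hsv, heu, hev, h₀, and_self]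

/-- The orbit of a form with non-zero polar form is large. -/
theorem orbit_card (h2 : (2 : F) = 0) (O : Finset (symMat n F))
    (hO : ∀ A : GL (Fin n) F, ∀ b ∈ O, tau A.val b ∈ O)
    (hO' : ∀ b ∈ O, ∃ A : GL (Fin n) F, b = tau A.val a) (ha : a ∈ O)
    (hne : ∃ u v, bf a u v ≠ 0) :
    (Fintype.card F ^ n - 1) * (Fintype.card F ^ n - Fintype.card F) ≤
      O.card * (2 * (Fintype.card F + 1)) := by
  classical
  obtain ⟨u₀, v₀, h₀, hbound⟩ : ∃ u₀ v₀, bf a u₀ v₀ = 1 ∧ ∀ b ∈ O,
      (pairs b (qf a u₀) (qf a v₀)).card * Fintype.card F ^ 4 ≤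
        2 * (Fintype.card F + 1) * Fintype.card F ^ (2 * n) := by
    by_cases hh : Hyp a
    · obtain ⟨u, v, hu, huv⟩ := hh
      refine ⟨u, v + qf a v • u, ?_, fun b hb => ?_⟩
      · rw [bf_add_right, bf_smul_right, bf_self h2, mul_zero, add_zero, huv]
      · have hv : qf a (v + qf a v • u) = 0 := by
          rw [qf_add, qf_smul, bf_smul_right, hu, bf_comm, huv]
          linear_combination (qf a v) * h2
        rw [hu, hv]
        refine card_pairs_hyp b h2 ?_
        obtain ⟨A, rfl⟩ := hO' b hb
        refine ⟨(A⁻¹ : GL (Fin n) F).val *ᵥ u, (A⁻¹ : GL (Fin n) F).val *ᵥ v, ?_⟩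
        rw [bf_tau, mulVec_mulVec, mulVec_mulVec, Units.mul_inv, one_mulVec, one_mulVec, huv]
        exact one_ne_zero
    · obtain ⟨u, v, huv⟩ := hne
      have hu : qf a u ≠ 0 := fun h => hh ⟨u, (bf a u v)⁻¹ • v, h, by
        rw [bf_smul_right, inv_mul_cancel₀ huv]⟩
      obtain ⟨s, hs⟩ := FiniteField.isSquare_of_char_two (F := F) (ringChar.eq_iff.2
        (CharTwo.of_one_ne_zero_of_two_eq_zero one_ne_zero h2)) (qf a u)
      have hs0 : s ≠ 0 := by rintro rfl; exact hu (by simpa using hs)
      refine ⟨s⁻¹ • u, (s / bf a u v) • v, ?_, fun b hb => ?_⟩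
      · rw [bf_smul_left, bf_smul_right]
        field_simp
      · have h1 : qf a (s⁻¹ • u) = 1 := by rw [qf_smul, hs]; field_simp
        rw [h1]
        obtain ⟨A, rfl⟩ := hO' b hb
        refine card_pairs_ell (tau A.val a) h2 (fun ⟨x, y, hx, hxy⟩ => hh ⟨A.val *ᵥ x, A.val *ᵥ y,
          by rwa [← qf_tau], by rwa [← bf_tau]⟩)
          (u := (A⁻¹ : GL (Fin n) F).val *ᵥ (s⁻¹ • u))
          (v := (A⁻¹ : GL (Fin n) F).val *ᵥ ((s / bf a u v) • v)) ?_ _
        rw [bf_tau, mulVec_mulVec, mulVec_mulVec, Units.mul_inv, one_mulVec, one_mulVec,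
          bf_smul_left, bf_smul_right]
        field_simp
  set q := Fintype.card F with hq
  set L := (Finset.univ.filter fun p : (Fin n → F) × (Fin n → F) =>
    LinearIndependent F ![p.1, p.2]) with hL
  have hLcard : (q ^ n - 1) * (q ^ n - q) ≤ L.card := by
    have h1 : ((Finset.univ.erase (0 : Fin n → F)).sigma fun u =>
        (Finset.univ : Finset (Fin n → F)) \ (Finset.univ.image fun t : F => t • u)).card ≤
        L.card := by
      refine Finset.card_le_card_of_injOn (fun p => (p.1, p.2)) ?_ ?_
      · intro p hp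
        simp only [Finset.mem_coe, Finset.mem_sigma, Finset.mem_erase, Finset.mem_sdiff,
          Finset.mem_image, Finset.mem_univ, true_and, and_true, not_exists] at hp
        simp only [hL, Finset.mem_coe, Finset.mem_filter, Finset.mem_univ, true_and]
        exact (LinearIndependent.pair_iff' hp.1).2 hp.2
      · rintro ⟨x, y⟩ _ ⟨x', y'⟩ _ e
        simp only [Prod.mk.injEq] at e
        obtain ⟨rfl, rfl⟩ := e
        rfl
    refine le_trans ?_ h1
    rw [Finset.card_sigma]
    calc (q ^ n - 1) * (q ^ n - q)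
        = ∑ _u ∈ Finset.univ.erase (0 : Fin n → F), (q ^ n - q) := by simp [hq]
      _ ≤ _ := Finset.sum_le_sum fun u _ => by
        rw [Finset.card_sdiff_of_subset (Finset.subset_univ _)]
        have : (Finset.univ.image fun t : F => t • u).card ≤ q :=
          Finset.card_image_le.trans (by simp [hq])
        simp only [Finset.card_univ, Fintype.card_fun, Fintype.card_fin, ← hq]
        omega
  have hmain : L.card * q ^ (2 * n) ≤ O.card * (2 * (q + 1) * q ^ (2 * n)) := by
    calc L.card * q ^ (2 * n)
        ≤ ∑ p ∈ L, q ^ 4 *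
          (O.filter fun b => qf b p.1 = qf a u₀ ∧ qf b p.2 = qf a v₀ ∧ bf b p.1 p.2 = 1).card := by
          rw [← smul_eq_mul, ← Finset.sum_const]
          refine Finset.sum_le_sum fun p hp => ?_
          simp only [hL, Finset.mem_filter, Finset.mem_univ, true_and] at hp
          exact card_fiber a h2 O hO ha h₀ hp
      _ = ∑ b ∈ O, q ^ 4 * (L.filter fun p =>
            qf b p.1 = qf a u₀ ∧ qf b p.2 = qf a v₀ ∧ bf b p.1 p.2 = 1).card := by
          simp only [Finset.card_filter, Finset.mul_sum]
          exact Finset.sum_comm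
      _ ≤ ∑ _b ∈ O, 2 * (q + 1) * q ^ (2 * n) := by
          refine Finset.sum_le_sum fun b hb => ?_
          refine le_trans ?_ (hbound b hb)
          rw [mul_comm]
          exact Nat.mul_le_mul_right _ (Finset.card_le_card fun p hp => by
            simp only [Finset.mem_filter, hL] at hp
            simp only [pairs, Finset.mem_filter, Finset.mem_univ, true_and]
            exact hp.2)
      _ = _ := by rw [Finset.sum_const, smul_eq_mul]
  rw [← mul_assoc] at hmain
  exact hLcard.trans (Nat.le_of_mul_le_mul_right hmain (by positivity))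

end CfsgLib.InvCentralizers.QuadOrbit
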