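import Cfsg.Agent.Lib.InvCentralizers.SteinbergChar
import Mathlib.GroupTheory.Sylow

/-!
Steinberg's count of the elements of `p`-power order in a finite group with a split (B,N)-pair.
-/

set_option autoImplicit false
set_option linter.unusedSectionVars false
set_option linter.style.haveILetI false

namespace CfsgLib.InvCentralizers.SteinbergCount

open CfsgLib.BNPair CfsgLib.InvCentralizers.SteinbergChar
open MulAction

variable {G : Type*} [Group G] {P : Cfsg.BNPair G}

/-- All right descents in `K`. -/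
def Top (P : Cfsg.BNPair G) (K : Set G) (m : G) : Prop := ∀ s ∈ K, len P (m * s) < len P m

/-- A split (B,N)-pair in characteristic `p`: `B = U (B ⊓ N)` with `U` a Sylow `p`-subgroup, and
each standard parabolic subgroup has a normal subgroup `R` below `U` cut out by an element of `N`. -/
structure Split (P : Cfsg.BNPair G) (p : ℕ) where
  /-- the unipotent subgroup -/
  U : Subgroup G
  /-- the radicals -/
  R : Set G → Subgroup G
  U_le : U ≤ P.B
  pGroup : IsPGroup p U
  index : ¬ p ∣ U.index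
  exists_mul : ∀ b ∈ P.B, ∃ u ∈ U, ∃ h ∈ P.B ⊓ P.N, b = u * h
  R_le : ∀ J ⊆ P.S, R J ≤ U
  R_normal : ∀ J ⊆ P.S, ∀ g ∈ P.parabolic J, ∀ x ∈ R J, g * x * g⁻¹ ∈ R J
  stab : ∀ J ⊆ P.S, ∃ n ∈ P.N, n ∈ P.parabolic J ∧ ∀ x ∈ U, n⁻¹ * x * n ∈ P.B → x ∈ R J
  R_top : R P.S = ⊥

variable {J K : Set G}

theorem top_congr (hK : K ⊆ P.S) {m n : G} (hm : m ∈ P.N) (hn : n ∈ P.N) (h : Agree P m n)
    (ht : Top P K m) : Top P K n := fun s hs => by
  rw [← len_congr h, ← len_congr (h.right hm hn (s_mem_N (hK hs)))]; exact ht s hs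

theorem exists_word_parabolic (hK : K ⊆ P.S) {n : G} (hn : n ∈ P.N) (hnK : n ∈ P.parabolic K) :
    ∃ l, IsReduced P l ∧ Agree P l.prod n ∧ ∀ x ∈ l, x ∈ K := by
  obtain ⟨l, hl, hag⟩ := exists_isReduced hn
  refine ⟨l, hl, hag, fun x hx => mem_of_mem_parabolic hK (hl.1 x hx) ?_⟩
  refine letters_mem (B_le_parabolic K) hl ?_ x hx
  have := Subgroup.mul_mem _ hnK (B_le_parabolic K (Agree.symm hag))
  simpa using this

theorem exists_extension_of {w : G} (hw : w ∈ P.N) {u : List G} (hu : IsReduced P u)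
    (h : ∀ s ∈ u, len P (s * w) < len P w) :
    ∃ a, IsReduced P (u ++ a) ∧ Agree P (u ++ a).prod w := by
  induction u with
  | nil => exact exists_isReduced hw
  | cons s u ih =>
    obtain ⟨a, hua, hag⟩ := ih hu.tail fun x hx => h x (List.mem_cons_of_mem s hx)
    have hs := hu.1.head
    have hlt : len P (s * (u ++ a).prod) < (u ++ a).length := by
      rw [← hua.2, len_congr hag, len_congr (hag.left s)]; exact h s (by simp)
    obtain ⟨j, hj, hja⟩ := exchange hs hua.1 hlt hua.2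
    rcases lt_or_ge j u.length with hju | hju
    · exfalso
      rw [List.eraseIdx_append_of_lt_length hju, List.prod_append, List.prod_append] at hja
      have hwa : IsWord P a := hua.1.sublist (List.sublist_append_right _ _)
      have hwe : IsWord P (u.eraseIdx j) := hu.tail.1.sublist (List.eraseIdx_sublist ..)
      have := hja.right (P.N.mul_mem (s_mem_N hs) (P.N.mul_mem hu.tail.1.prod_mem hwa.prod_mem))
        (P.N.mul_mem hwe.prod_mem hwa.prod_mem) (P.N.inv_mem hwa.prod_mem)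
      have h1 : Agree P (u.eraseIdx j).prod (s :: u).prod := by simpa [mul_assoc] using this.symm
      have h2 := len_le (P := P) hwe h1
      have h3 := hu.2
      rw [List.length_eraseIdx_of_lt hju] at h2
      simp only [List.length_cons] at h3
      omega
    · refine ⟨a.eraseIdx (j - u.length), ?_⟩
      rw [List.eraseIdx_append_of_length_le hju] at hja
      have hsub : IsWord P (u ++ a.eraseIdx (j - u.length)) :=
        hua.1.sublist (List.Sublist.append_left (List.eraseIdx_sublist ..) _)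
      have hag' : Agree P (s :: u ++ a.eraseIdx (j - u.length)).prod w := by
        rw [List.cons_append, List.prod_cons]
        exact ((hja.symm.left s).trans (agree_s_s hs hua.1.prod_mem)).trans hag
      refine ⟨⟨hsub.cons hs, le_antisymm (len_le (hsub.cons hs) (Agree.refl _)) ?_⟩, hag'⟩
      rw [len_congr hag', ← len_congr hag, hua.2]
      simp only [List.length_append] at hj
      simp only [List.cons_append, List.length_cons, List.length_append]
      rw [List.length_eraseIdx_of_lt (by omega)]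
      omega

theorem leftTop_unique_in (hK : K ⊆ P.S) {v v' : G} (hv : v ∈ P.N) (hv' : v' ∈ P.N)
    (hvK : v ∈ P.parabolic K) (hvK' : v' ∈ P.parabolic K)
    (h : ∀ s ∈ K, len P (s * v) < len P v) (h' : ∀ s ∈ K, len P (s * v') < len P v') :
    Agree P v' v := by
  obtain ⟨u, hu, hag, huK⟩ := exists_word_parabolic hK hv' hvK'
  obtain ⟨a, hua, haga⟩ := exists_extension_of hv hu fun s hs => h s (huK s hs)
  obtain ⟨u', hu', hag', huK'⟩ := exists_word_parabolic hK hv hvK
  obtain ⟨b, hub, hagb⟩ := exists_extension_of hv' hu' fun s hs => h' s (huK' s hs)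
  have h1 := hua.2
  have h2 := hub.2
  have h3 := hu.2
  have h4 := hu'.2
  rw [len_congr haga] at h1
  rw [len_congr hagb] at h2
  rw [len_congr hag] at h3
  rw [len_congr hag'] at h4
  simp only [List.length_append] at h1 h2
  have : a = [] := List.length_eq_zero_iff.1 (by omega)
  subst this
  rw [List.append_nil] at haga
  exact hag.symm.trans haga

theorem top_unique_in (hK : K ⊆ P.S) {v v' : G} (hv : v ∈ P.N) (hv' : v' ∈ P.N)
    (hvK : v ∈ P.parabolic K) (hvK' : v' ∈ P.parabolic K) (h : Top P K v) (h' : Top P K v') :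
    Agree P v v' := by
  have hl : ∀ w ∈ P.N, Top P K w → ∀ s ∈ K, len P (s * w⁻¹) < len P w⁻¹ := fun w hw ht s hs => by
    rw [← len_mul_right (hK hs) hw, len_inv hw]; exact ht s hs
  have := leftTop_unique_in hK (P.N.inv_mem hv') (P.N.inv_mem hv) (Subgroup.inv_mem _ hvK')
    (Subgroup.inv_mem _ hvK) (hl v' hv' h') (hl v hv h)
  simpa using agree_inv this (P.N.inv_mem hv) (P.N.inv_mem hv')

variable [Finite G]

theorem exists_top_in (hK : K ⊆ P.S) : ∃ w ∈ P.N, w ∈ P.parabolic K ∧ Top P K w ∧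
    ∀ s ∈ K, len P (s * w) < len P w := by
  haveI : Nonempty {n : G // n ∈ P.N ∧ n ∈ P.parabolic K} := ⟨⟨1, P.N.one_mem, Subgroup.one_mem _⟩⟩
  obtain ⟨⟨w, hw, hwK⟩, hmax⟩ :=
    Finite.exists_max fun n : {n : G // n ∈ P.N ∧ n ∈ P.parabolic K} => len P (n : G)
  refine ⟨w, hw, hwK, fun s hs => ?_, fun s hs => ?_⟩
  · exact lt_of_le_of_ne (hmax ⟨_, P.N.mul_mem hw (s_mem_N (hK hs)),
      Subgroup.mul_mem _ hwK (subset_parabolic K hs)⟩) (len_mul_right_ne (hK hs) hw)
  · exact lt_of_le_of_ne (hmax ⟨_, P.N.mul_mem (s_mem_N (hK hs)) hw,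
      Subgroup.mul_mem _ (subset_parabolic K hs) hwK⟩) (len_mul_ne (hK hs) hw)

theorem rep_parabolic {q : G ⧸ P.B} (h : q.out ∈ P.parabolic K) : rep P q ∈ P.parabolic K :=
  mem_of_cell_meets (B_le_parabolic K) h (out_mem_cell q)

theorem out_mem_iff {H M : Subgroup G} (hH : H ≤ M) (x : G) : (x : G ⧸ H).out ∈ M ↔ x ∈ M := by
  have h : (x : G ⧸ H).out⁻¹ * x ∈ M := hH (QuotientGroup.eq.1 (Quotient.out_eq _))
  exact ⟨fun h1 => by simpa using M.mul_mem h1 h, fun h1 => by
    simpa using M.mul_mem h1 (M.inv_mem h)⟩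

/-- The stabilizer of a top coset meets `U` in the radical. -/
theorem mem_R {p : ℕ} (T : Split P p) (hJ : J ⊆ P.S) {w : G} (hw : w ∈ P.N)
    (hwJ : w ∈ P.parabolic J) (htop : Top P J w) {x : G} (hx : x ∈ T.U)
    (hxw : w⁻¹ * x * w ∈ P.B) : x ∈ T.R J := by
  obtain ⟨n, hn, hnJ, hstab⟩ := T.stab J hJ
  obtain ⟨w', hw', hwJ', htop', hl'⟩ := exists_top_in (P := P) hJ
  have hag0 := top_unique_in hJ hw hw' hwJ hwJ' htop htop'
  obtain ⟨u, hu, hag, huJ⟩ := exists_word_parabolic hJ hn hnJ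
  obtain ⟨a, hua, haga⟩ := exists_extension_of hw' hu fun s hs => hl' s (huJ s hs)
  refine hstab x hx ?_
  have h1 : (u ++ a).prod⁻¹ * x * (u ++ a).prod ∈ P.B := by
    have hb : Agree P (u ++ a).prod w := haga.trans hag0.symm
    set z := (u ++ a).prod
    rw [show z⁻¹ * x * z = (z⁻¹ * w) * (w⁻¹ * x * w) * (z⁻¹ * w)⁻¹ by group]
    exact P.B.mul_mem (P.B.mul_mem hb hxw) (P.B.inv_mem hb)
  have h2 := conj_mem_left hua (T.U_le hx) h1
  set z := u.prod
  rw [show n⁻¹ * x * n = (z⁻¹ * n)⁻¹ * (z⁻¹ * x * z) * (z⁻¹ * n) by group]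
  exact P.B.mul_mem (P.B.mul_mem (P.B.inv_mem hag) h2) hag

/-- The number of top cosets of a parabolic subgroup. -/
noncomputable def topCount (P : Cfsg.BNPair G) (K : Set G) : ℕ :=
  Nat.card {q : G ⧸ P.B // q.out ∈ P.parabolic K ∧ Top P K (rep P q)}

theorem card_R_mul_topCount {p : ℕ} (T : Split P p) (hJ : J ⊆ P.S) :
    Nat.card (T.R J) * topCount P J = Nat.card T.U := by
  obtain ⟨w, hw, hwJ, htop, -⟩ := exists_top_in (P := P) hJ
  rw [← Subgroup.card_mul_index ((T.R J).subgroupOf T.U),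
    Nat.card_congr (Subgroup.subgroupOfEquivOfLe (T.R_le J hJ)).toEquiv]
  congr 1
  symm
  have hcell : ∀ u : T.U, (u : G) * w ∈ cell P w := fun u =>
    left_mul_mem_cell (T.U_le u.2) (self_mem_cell w)
  have hlift : ∀ u u' : T.U, (u : T.U ⧸ (T.R J).subgroupOf T.U) = u' →
      (((u : G) * w : G) : G ⧸ P.B) = (((u' : G) * w : G) : G ⧸ P.B) := by
    intro u u' h
    rw [QuotientGroup.eq, Subgroup.mem_subgroupOf] at h
    rw [QuotientGroup.eq]
    have := T.U_le (T.R_le J hJ (T.R_normal J hJ _ (Subgroup.inv_mem _ hwJ) _ h))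
    simpa [mul_assoc] using this
  refine Nat.card_eq_of_bijective (fun c => ⟨(((c.out : T.U) : G) * w : G), ?_, ?_⟩) ⟨?_, ?_⟩
  · rw [out_mem_iff (B_le_parabolic J)]
    exact Subgroup.mul_mem _ (B_le_parabolic J (T.U_le (SetLike.coe_mem _))) hwJ
  · exact top_congr hJ hw (rep_mem _) (agree_of_mem_cell hw (rep_mem _) (hcell _) (mem_cell_rep _)) htop
  · intro c c' e
    have e' := QuotientGroup.eq.1 (Subtype.ext_iff.1 e)
    rw [← QuotientGroup.out_eq' c, ← QuotientGroup.out_eq' c', QuotientGroup.eq,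
      Subgroup.mem_subgroupOf]
    refine mem_R T hJ hw hwJ htop (SetLike.coe_mem _) ?_
    simpa [mul_assoc] using e'
  · rintro ⟨q, hqJ, hqt⟩
    have hag := top_unique_in hJ (rep_mem q) hw (rep_parabolic hqJ) hwJ hqt htop
    have hmem : q.out ∈ cell P w := cell_eq_of_agree hag ▸ out_mem_cell q
    obtain ⟨a, ha, c, hc, e⟩ := mem_cell.1 hmem
    obtain ⟨u, hu, t, ht, rfl⟩ := T.exists_mul a ha
    refine ⟨((⟨u, hu⟩ : T.U) : T.U ⧸ (T.R J).subgroupOf T.U), Subtype.ext ?_⟩
    refine (hlift _ ⟨u, hu⟩ (QuotientGroup.out_eq' _)).trans ?_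
    show ((u * w : G) : G ⧸ P.B) = q
    conv_rhs => rw [← QuotientGroup.out_eq' q, e]
    rw [QuotientGroup.eq]
    have := P.B.mul_mem (conj_inv_mem' hw ht.1 ht.2) hc
    simpa [mul_assoc] using this

theorem exists_red_in_coset (hK : K ⊆ P.S) (x : G) :
    ∃ y, y⁻¹ * x ∈ P.parabolic K ∧ ∃ m ∈ P.N, y ∈ cell P m ∧ Red P ∅ K m := by
  obtain ⟨n, hn, hx⟩ := exists_mem_cell (P := P) x
  obtain ⟨a, ha, c, hc, rfl⟩ := mem_cell.1 hx
  obtain ⟨m, hm, hd, hr, -⟩ := exists_red (J := (∅ : Set G)) (Set.empty_subset _) hK hn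
  obtain ⟨u, v, hu, hv, hag⟩ := InDC.symm (Set.empty_subset _) hK hn hm hd
  obtain rfl : u = [] := List.eq_nil_iff_forall_not_mem.2 fun y hy => Set.notMem_empty y (hu y hy)
  have hag' : (m * v.prod)⁻¹ * n ∈ P.B := by simpa [Agree] using hag
  refine ⟨a * m, ?_, m, hm, left_mul_mem_cell ha (self_mem_cell m), hr⟩
  rw [show (a * m)⁻¹ * (a * n * c) = v.prod * ((m * v.prod)⁻¹ * n) * c by group]
  exact Subgroup.mul_mem _ (Subgroup.mul_mem _
    (Subgroup.list_prod_mem _ fun y hy => subset_parabolic K (hv y hy))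
    (B_le_parabolic K hag')) (B_le_parabolic K hc)

/-- Descents in `K` behind a representative without descents in `K`. -/
theorem top_mul_iff (hK : K ⊆ P.S) {m y z : G} (hm : m ∈ P.N) (hr : Red P ∅ K m)
    (hy : y ∈ cell P m) (hz : z ∈ P.parabolic K) :
    Top P K (rep P ((y * z : G) : G ⧸ P.B)) ↔ Top P K (rep P (z : G ⧸ P.B)) := by
  obtain ⟨lm, hlm, hagm⟩ := exists_isReduced hm
  have hred : Red P ∅ K lm.prod := by
    refine ⟨by simp, fun s hs => ?_⟩
    rw [len_congr hagm, len_congr (hagm.right hlm.1.prod_mem hm (s_mem_N (hK hs)))]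
    exact hr.2 s hs
  rw [← cell_eq_of_agree hagm] at hy
  obtain ⟨a, ha, c, hc, rfl⟩ := mem_cell.1 hy
  set v := rep P (z : G ⧸ P.B)
  obtain ⟨lv, hlv, hagv, hvK⟩ := exists_word_parabolic hK (rep_mem (z : G ⧸ P.B))
    (mem_of_cell_meets (B_le_parabolic K) hz (mem_cell_rep z))
  have happ := reduced_append hK hlm hred hlv hvK
  have hz' : z ∈ cell P lv.prod := (cell_eq_of_agree hagv).symm ▸ mem_cell_rep z
  have hcz := left_mul_mem_cell ha (cell_mul_of_reduced happ (left_mul_mem_cell hc hz'))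
  rw [show a * (lm.prod * (c * z)) = a * lm.prod * c * z by group] at hcz
  have hag := agree_of_mem_cell (rep_mem _) happ.1.prod_mem (mem_cell_rep _) hcz
  have key : ∀ s ∈ K, (len P ((lm ++ lv).prod * s) < len P (lm ++ lv).prod ↔
      len P (lv.prod * s) < len P lv.prod) := by
    intro s hs
    obtain ⟨w, hsub, hw, hwag⟩ := exists_reduced_sublist
      (hlv.1.append (l₂ := [s]) (by simpa [IsWord] using hK hs))
    have hwK : ∀ x ∈ w, x ∈ K := fun x hx => by
      rcases List.mem_append.1 (hsub.subset hx) with hx' | hx'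
      · exact hvK x hx'
      · exact List.mem_singleton.1 hx' ▸ hs
    have h2 := (reduced_append hK hlm hred hw hwK).2
    have hag2 : Agree P (lm ++ w).prod ((lm ++ lv).prod * s) := by
      have := hwag.left lm.prod
      simpa [List.prod_append, mul_assoc] using this
    have h3 : len P (lv.prod * s) = w.length := by
      rw [← hw.2]
      exact (len_congr (by simpa [List.prod_append] using hwag)).symm
    rw [← len_congr hag2, h2, happ.2, h3, hlv.2, List.length_append, List.length_append]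
    omega
  constructor
  · intro h
    refine top_congr hK hlv.1.prod_mem (rep_mem _) hagv fun s hs => ?_
    exact (key s hs).1 (top_congr hK (rep_mem _) happ.1.prod_mem hag h s hs)
  · intro h
    refine top_congr hK happ.1.prod_mem (rep_mem _) hag.symm fun s hs => ?_
    exact (key s hs).2 (top_congr hK (rep_mem _) hlv.1.prod_mem hagv.symm h s hs)

/-- The cosets of `P_K` inside `P_J`. -/
noncomputable def cosetCount (P : Cfsg.BNPair G) (J K : Set G) : ℕ :=
  Nat.card {c : G ⧸ P.parabolic K // c.out ∈ P.parabolic J}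

theorem parabolic_mono (h : K ⊆ J) : P.parabolic K ≤ P.parabolic J :=
  sup_le_sup le_rfl (Subgroup.closure_mono h)

theorem card_desc (hK : K ⊆ P.S) (hKJ : K ⊆ J) :
    Nat.card {q : G ⧸ P.B // q.out ∈ P.parabolic J ∧ Top P K (rep P q)} =
      cosetCount P J K * topCount P K := by
  classical
  haveI := Fintype.ofFinite {c : G ⧸ P.parabolic K // c.out ∈ P.parabolic J}
  have hmono := parabolic_mono (P := P) hKJ
  let f : {q : G ⧸ P.B // q.out ∈ P.parabolic J ∧ Top P K (rep P q)} →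
      {c : G ⧸ P.parabolic K // c.out ∈ P.parabolic J} :=
    fun q => ⟨(q.1.out : G ⧸ P.parabolic K), (out_mem_iff hmono _).2 q.2.1⟩
  rw [← Nat.card_congr (Equiv.sigmaFiberEquiv f), Nat.card_sigma,
    Finset.sum_congr rfl (g := fun _ => topCount P K) (fun c _ => ?_)]
  · rw [Finset.sum_const, Finset.card_univ, smul_eq_mul, cosetCount, Nat.card_eq_fintype_card]
  · obtain ⟨y, hyc, m, hm, hym, hr⟩ := exists_red_in_coset hK c.1.out
    have hyJ : y ∈ P.parabolic J := by
      have := Subgroup.mul_mem _ c.2 (Subgroup.inv_mem _ (hmono hyc))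
      simpa [mul_assoc] using this
    have hyc' : (y : G ⧸ P.parabolic K) = c.1 := by
      conv_rhs => rw [← QuotientGroup.out_eq' c.1]
      exact QuotientGroup.eq.2 hyc
    symm
    refine Nat.card_eq_of_bijective (fun q => ⟨⟨((y * q.1.out : G) : G ⧸ P.B), ?_, ?_⟩, ?_⟩) ⟨?_, ?_⟩
    · exact (out_mem_iff (B_le_parabolic J) _).2 (Subgroup.mul_mem _ hyJ (hmono q.2.1))
    · rw [top_mul_iff hK hm hr hym q.2.1, QuotientGroup.out_eq']
      exact q.2.2
    · refine Subtype.ext ?_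
      show ((((y * q.1.out : G) : G ⧸ P.B).out : G) : G ⧸ P.parabolic K) = c.1
      rw [← hyc', eq_comm, QuotientGroup.eq]
      have h1 : (((y * q.1.out : G) : G ⧸ P.B).out)⁻¹ * (y * q.1.out) ∈ P.parabolic K :=
        B_le_parabolic K (QuotientGroup.eq.1 (Quotient.out_eq _))
      have := Subgroup.mul_mem _ q.2.1 (Subgroup.inv_mem _ h1)
      simpa [mul_assoc] using this
    · intro q q' e
      have e' : ((y * q.1.out : G) : G ⧸ P.B) = ((y * q'.1.out : G) : G ⧸ P.B) :=
        congrArg (fun z => z.1.1) e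
      rw [QuotientGroup.eq] at e'
      refine Subtype.ext ?_
      rw [← QuotientGroup.out_eq' q.1, ← QuotientGroup.out_eq' q'.1, QuotientGroup.eq]
      simpa [mul_assoc] using e'
    · rintro ⟨⟨q, hqJ, hqt⟩, hfq⟩
      have h1 : (q.out : G ⧸ P.parabolic K) = (y : G ⧸ P.parabolic K) :=
        (congrArg Subtype.val hfq).trans hyc'.symm
      have h2 : y⁻¹ * q.out ∈ P.parabolic K := QuotientGroup.eq.1 h1.symm
      have hq : ((y * (y⁻¹ * q.out) : G) : G ⧸ P.B) = q := by
        rw [mul_inv_cancel_left, QuotientGroup.out_eq']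
      refine ⟨⟨((y⁻¹ * q.out : G) : G ⧸ P.B), (out_mem_iff (B_le_parabolic K) _).2 h2, ?_⟩,
        Subtype.ext (Subtype.ext ?_)⟩
      · rw [← top_mul_iff hK hm hr hym h2, hq]; exact hqt
      · show ((y * ((y⁻¹ * q.out : G) : G ⧸ P.B).out : G) : G ⧸ P.B) = q
        conv_rhs => rw [← hq]
        rw [QuotientGroup.eq]
        have := QuotientGroup.eq.1 (Quotient.out_eq ((y⁻¹ * q.out : G) : G ⧸ P.B))
        simpa [mul_assoc] using this

theorem card_fixed_in (hK : K ⊆ P.S) (hKJ : K ⊆ J) {b : G} (hb : b ∈ P.B) :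
    Nat.card {c : G ⧸ P.parabolic K // c.out ∈ P.parabolic J ∧ b • c = c} =
      Nat.card {q : G ⧸ P.B // (q.out ∈ P.parabolic J ∧ b • q = q) ∧ Red P ∅ K (rep P q)} := by
  symm
  have hmono := parabolic_mono (P := P) hKJ
  refine Nat.card_eq_of_bijective
    (fun q => ⟨((q.1.out : G) : G ⧸ P.parabolic K), (out_mem_iff hmono _).2 q.2.1.1, ?_⟩) ⟨?_, ?_⟩
  · rw [smul_eq_iff]
    refine B_le_parabolic K ?_
    rw [← smul_eq_iff, QuotientGroup.out_eq']
    exact q.2.1.2
  · rintro ⟨q, hq, hr⟩ ⟨q', hq', hr'⟩ e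
    have e' : q.out⁻¹ * q'.out ∈ P.parabolic K := QuotientGroup.eq.1 (Subtype.ext_iff.1 e)
    have := QuotientGroup.eq.2
      (coset_inj hK (rep_mem q) (rep_mem q') hr hr' (out_mem_cell q) (out_mem_cell q') e').1
    rw [QuotientGroup.out_eq', QuotientGroup.out_eq'] at this
    exact Subtype.ext this
  · rintro ⟨c, hcJ, hc⟩
    obtain ⟨y, hyc, m, hm, hym, hr⟩ := exists_red_in_coset hK c.out
    have hyc' : (y : G ⧸ P.parabolic K) = c := by
      conv_rhs => rw [← QuotientGroup.out_eq' c]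
      exact QuotientGroup.eq.2 hyc
    rw [← hyc', smul_eq_iff] at hc
    have hB : y⁻¹ * (b * y) ∈ P.B :=
      (coset_inj hK hm hm hr hr hym (left_mul_mem_cell hb hym) (by rw [← mul_assoc]; exact hc)).1
    have hyJ : y ∈ P.parabolic J := by
      have := Subgroup.mul_mem _ hcJ (Subgroup.inv_mem _ (hmono hyc))
      simpa [mul_assoc] using this
    refine ⟨⟨(y : G ⧸ P.B), ⟨(out_mem_iff (B_le_parabolic J) _).2 hyJ,
      smul_eq_iff.2 (by rw [mul_assoc]; exact hB)⟩, (red_rep_iff hK hm hym).2 hr⟩, Subtype.ext ?_⟩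
    show (((y : G ⧸ P.B).out : G) : G ⧸ P.parabolic K) = c
    conv_rhs => rw [← hyc']
    exact QuotientGroup.eq.2 (B_le_parabolic K (QuotientGroup.eq.1 (Quotient.out_eq _)))

/-- The alternating sum over the subsets of a finite set. -/
theorem alt_count {X : Type*} [Finite X] (J : Finset G) (p : X → Prop) (E : X → G → Prop) :
    ∑ K ∈ J.powerset, (-1 : ℂ) ^ K.card * (Nat.card {x // p x ∧ ∀ s ∈ K, E x s} : ℂ) =
      (Nat.card {x // p x ∧ ∀ s ∈ J, ¬ E x s} : ℂ) := by
  classical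
  haveI := Fintype.ofFinite X
  simp only [Nat.card_eq_fintype_card, Fintype.card_subtype, Finset.natCast_card_filter,
    Finset.mul_sum]
  rw [Finset.sum_comm]
  refine Finset.sum_congr rfl fun x _ => ?_
  by_cases hx : p x
  · have e : ∀ K ∈ J.powerset, ((-1 : ℂ) ^ K.card * if p x ∧ ∀ s ∈ K, E x s then 1 else 0) =
        if K ∈ (J.filter (E x)).powerset then ((((-1 : ℤ) ^ K.card : ℤ)) : ℂ) else 0 := by
      intro K hK
      have hiff : (p x ∧ ∀ s ∈ K, E x s) ↔ K ∈ (J.filter (E x)).powerset := by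
        simp only [hx, true_and, Finset.mem_powerset, Finset.subset_iff, Finset.mem_filter]
        exact ⟨fun h s hs => ⟨Finset.mem_powerset.1 hK hs, h s hs⟩, fun h s hs => (h hs).2⟩
      simp only [hiff]
      split_ifs <;> simp
    rw [Finset.sum_congr rfl e, ← Finset.sum_filter,
      show J.powerset.filter (fun K => K ∈ (J.filter (E x)).powerset) = (J.filter (E x)).powerset by
        ext K
        simp only [Finset.mem_filter, Finset.mem_powerset, and_iff_right_iff_imp]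
        exact fun h => h.trans (Finset.filter_subset _ _),
      ← Int.cast_sum, Finset.sum_powerset_neg_one_pow_card]
    simp only [hx, true_and, Finset.filter_eq_empty_iff]
    split_ifs <;> simp
  · rw [Finset.sum_eq_zero, if_neg fun h => hx h.1]
    intro K hK
    rw [if_neg fun h => hx h.1, mul_zero]

variable (J₀ : Finset G)

/-- The dual identity. -/
theorem sum_cosetCount_topCount (hJ : ↑J₀ ⊆ P.S) :
    ∑ K ∈ J₀.powerset, (-1 : ℂ) ^ K.card *
      ((cosetCount P ↑J₀ ↑K * topCount P ↑K : ℕ) : ℂ) = 1 := by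
  classical
  rw [Finset.sum_congr rfl (g := fun K => (-1 : ℂ) ^ K.card * (Nat.card {q : G ⧸ P.B //
    q.out ∈ P.parabolic ↑J₀ ∧ ∀ s ∈ K, len P (rep P q * s) < len P (rep P q)} : ℂ)) (fun K hK => ?_),
    alt_count J₀, ← Nat.cast_one, Nat.cast_inj, Nat.card_eq_one_iff_unique]
  · refine ⟨⟨?_⟩, ⟨⟨((1 : G) : G ⧸ P.B), ?_, ?_⟩⟩⟩
    · rintro ⟨q, hq, hr⟩ ⟨q', hq', hr'⟩
      have hred : ∀ q : G ⧸ P.B, (∀ s ∈ J₀, ¬ len P (rep P q * s) < len P (rep P q)) →
          Red P ∅ ↑J₀ (rep P q) := fun q h => ⟨by simp, fun s hs =>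
        lt_of_le_of_ne (not_lt.1 (h s hs)) (len_mul_right_ne (hJ hs) (rep_mem q)).symm⟩
      have := QuotientGroup.eq.2 (coset_inj hJ (rep_mem q) (rep_mem q') (hred q hr) (hred q' hr')
        (out_mem_cell q) (out_mem_cell q') (Subgroup.mul_mem _ (Subgroup.inv_mem _ hq) hq')).1
      rw [QuotientGroup.out_eq', QuotientGroup.out_eq'] at this
      exact Subtype.ext this
    · exact (out_mem_iff (B_le_parabolic _) _).2 (Subgroup.one_mem _)
    · intro s hs
      have hag := agree_of_mem_cell (rep_mem _) P.N.one_mem (mem_cell_rep (1 : G)) (self_mem_cell 1)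
      rw [len_congr hag, (len_eq_zero P.N.one_mem).2 P.B.one_mem]
      exact Nat.not_lt_zero _
  · have hKJ : (↑K : Set G) ⊆ ↑J₀ := Finset.coe_subset.2 (Finset.mem_powerset.1 hK)
    rw [← card_desc (hKJ.trans hJ) hKJ]
    rfl

/-- Elements of `p`-power order. -/
def Unip (p : ℕ) (g : G) : Prop := ∃ k, orderOf g = p ^ k

omit [Finite G] in
theorem unip_conj {p : ℕ} (g x : G) : Unip p (x * g * x⁻¹) ↔ Unip p g := by
  have : orderOf (x * g * x⁻¹) = orderOf g := (MulAut.conj x).orderOf_eq g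
  simp only [Unip, this]

/-- The number of fixed cosets of `P_K` inside `P_J`, alternating. -/
noncomputable def stJ (P : Cfsg.BNPair G) (J₀ : Finset G) (g : G) : ℂ :=
  ∑ K ∈ J₀.powerset, (-1 : ℂ) ^ K.card *
    (Nat.card {c : G ⧸ P.parabolic (↑K : Set G) // c.out ∈ P.parabolic ↑J₀ ∧ g • c = c} : ℂ)

theorem stJ_conj {k g : G} (hk : k ∈ P.parabolic ↑J₀) : stJ P J₀ (k * g * k⁻¹) = stJ P J₀ g := by
  refine Finset.sum_congr rfl fun K hK => ?_
  congr 2
  have hmono := parabolic_mono (P := P) (Finset.coe_subset.2 (Finset.mem_powerset.1 hK))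
  refine Nat.card_congr ((MulAction.toPerm k).subtypeEquiv fun c => ?_).symm
  obtain ⟨x, rfl⟩ := QuotientGroup.mk_surjective c
  simp only [MulAction.toPerm_apply, MulAction.Quotient.smul_coe, smul_eq_mul, out_mem_iff hmono]
  refine and_congr ⟨fun h => Subgroup.mul_mem _ hk h, fun h => by
    simpa using Subgroup.mul_mem _ (Subgroup.inv_mem _ hk) h⟩ ?_
  rw [QuotientGroup.eq, QuotientGroup.eq]
  simp [mul_assoc]

theorem stJ_of_mem {p : ℕ} (T : Split P p) (hJ : ↑J₀ ⊆ P.S) {u : G} (hu : u ∈ T.U)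
    [Decidable (u ∈ T.R ↑J₀)] :
    stJ P J₀ u = if u ∈ T.R ↑J₀ then (topCount P ↑J₀ : ℂ) else 0 := by
  classical
  have h1 : stJ P J₀ u = (Nat.card {q : G ⧸ P.B //
      (q.out ∈ P.parabolic ↑J₀ ∧ u • q = q) ∧ Top P ↑J₀ (rep P q)} : ℂ) := by
    rw [stJ, Finset.sum_congr rfl (g := fun K => (-1 : ℂ) ^ K.card * (Nat.card {q : G ⧸ P.B //
      (q.out ∈ P.parabolic ↑J₀ ∧ u • q = q) ∧
        ∀ s ∈ K, len P (rep P q) < len P (rep P q * s)} : ℂ)) (fun K hK => ?_), alt_count J₀]
    · congr 1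
      refine Nat.card_congr (Equiv.subtypeEquivRight fun q => and_congr_right fun _ => ?_)
      exact ⟨fun h s hs => lt_of_le_of_ne (not_lt.1 (h s hs)) (len_mul_right_ne (hJ hs) (rep_mem q)),
        fun h s hs => not_lt.2 (h s hs).le⟩
    · have hKJ : (↑K : Set G) ⊆ ↑J₀ := Finset.coe_subset.2 (Finset.mem_powerset.1 hK)
      rw [card_fixed_in (hKJ.trans hJ) hKJ (T.U_le hu)]
      congr 2
      exact Nat.card_congr (Equiv.subtypeEquivRight fun q => and_congr_right fun _ =>
        ⟨fun h => h.2, fun h => ⟨fun s hs => absurd hs (Set.notMem_empty s), h⟩⟩)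
  rw [h1]
  split_ifs with hR
  · rw [Nat.cast_inj]
    refine Nat.card_congr (Equiv.subtypeEquivRight fun q =>
      ⟨fun h => ⟨h.1.1, h.2⟩, fun h => ⟨⟨h.1, ?_⟩, h.2⟩⟩)
    rw [← QuotientGroup.out_eq' q, smul_eq_iff]
    have := T.U_le (T.R_le _ hJ (T.R_normal _ hJ _ (Subgroup.inv_mem _ h.1) _ hR))
    simpa using this
  · rw [Nat.cast_eq_zero, Nat.card_eq_zero]
    refine Or.inl ⟨fun ⟨q, ⟨hqJ, hq⟩, hqt⟩ => hR ?_⟩
    obtain ⟨a, ha, c, hc, e⟩ := mem_cell.1 (out_mem_cell q)
    obtain ⟨v, hv, t, ht, rfl⟩ := T.exists_mul a ha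
    rw [← QuotientGroup.out_eq' q, smul_eq_iff, e] at hq
    set w := rep P q
    have hwt : w⁻¹ * t * w ∈ P.B := conj_inv_mem' (rep_mem q) ht.1 ht.2
    have h2 : w⁻¹ * (v⁻¹ * u * v) * w ∈ P.B := by
      have h3 := P.B.mul_mem (P.B.mul_mem (P.B.mul_mem hwt hc) hq)
        (P.B.inv_mem (P.B.mul_mem hwt hc))
      simpa [mul_assoc] using h3
    have h4 := mem_R T hJ (rep_mem q) (rep_parabolic hqJ) hqt
      (T.U.mul_mem (T.U.mul_mem (T.U.inv_mem hv) hu) hv) h2
    have := T.R_normal _ hJ v (B_le_parabolic _ (T.U_le hv)) _ h4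
    simpa [mul_assoc] using this

theorem sum_fixed_unip [Fintype G] {p : ℕ} [DecidablePred (Unip (G := G) p)] (hKJ : K ⊆ J)
    [DecidablePred (· ∈ P.parabolic J)] :
    ∑ g : G, (if g ∈ P.parabolic J ∧ Unip p g then
        Nat.card {c : G ⧸ P.parabolic K // c.out ∈ P.parabolic J ∧ g • c = c} else 0) =
      cosetCount P J K * Nat.card {g : G // g ∈ P.parabolic K ∧ Unip p g} := by
  classical
  haveI := Fintype.ofFinite (G ⧸ P.parabolic K)
  have hmono := parabolic_mono (P := P) hKJ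
  simp only [cosetCount, Nat.card_eq_fintype_card, Fintype.card_subtype]
  simp only [Finset.card_filter, Finset.sum_mul, ite_mul, one_mul, zero_mul]
  rw [Finset.sum_congr rfl (g := fun g => ∑ c : G ⧸ P.parabolic K,
    if (g ∈ P.parabolic J ∧ Unip p g) ∧ (c.out ∈ P.parabolic J ∧ g • c = c) then 1 else 0)
    (fun g _ => by by_cases hg : g ∈ P.parabolic J ∧ Unip p g <;> simp [hg]), Finset.sum_comm]
  refine Finset.sum_congr rfl fun c _ => ?_
  by_cases hc : c.out ∈ P.parabolic J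
  · rw [if_pos hc]
    refine Fintype.sum_equiv (MulAut.conj c.out⁻¹).toEquiv _ _ fun g => ?_
    have hfix : g • c = c ↔ c.out⁻¹ * g * c.out ∈ P.parabolic K := by
      conv_lhs => rw [← QuotientGroup.out_eq' c]
      exact smul_eq_iff
    have hu : Unip p (c.out⁻¹ * g * c.out) ↔ Unip p g := by
      have := unip_conj (p := p) g c.out⁻¹
      rwa [inv_inv] at this
    simp only [MulEquiv.toEquiv_eq_coe, EquivLike.coe_coe, MulAut.conj_apply, inv_inv, hu, hfix, hc,
      true_and]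
    congr 1
    refine propext ⟨fun h => ⟨h.2, h.1.2⟩, fun h => ⟨⟨?_, h.2⟩, h.1⟩⟩
    have := Subgroup.mul_mem _ (Subgroup.mul_mem _ hc (hmono h.1)) (Subgroup.inv_mem _ hc)
    simpa [mul_assoc] using this
  · rw [if_neg hc]
    exact Finset.sum_eq_zero fun g _ => if_neg fun h => hc h.2.1

theorem exists_conj_mem_U {p : ℕ} [Fact p.Prime] (T : Split P p) {g : G}
    (hgJ : g ∈ P.parabolic J) (hg : Unip p g) :
    ∃ k ∈ P.parabolic J, k⁻¹ * g * k ∈ T.U := by
  classical
  obtain ⟨e, he⟩ := hg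
  set M := P.parabolic J
  have hUM : T.U ≤ M := T.U_le.trans (B_le_parabolic J)
  have hnd : ¬ p ∣ (T.U.subgroupOf M).index := fun h =>
    T.index (h.trans (Subgroup.relIndex_dvd_index_of_le hUM))
  let S₀ : Sylow p M :=
    (T.pGroup.of_equiv (Subgroup.subgroupOfEquivOfLe hUM).symm).toSylow hnd
  have hz : IsPGroup p (Subgroup.zpowers (⟨g, hgJ⟩ : M)) :=
    IsPGroup.of_card (n := e) (by rw [Nat.card_zpowers, ← he, ← Subgroup.orderOf_coe])
  obtain ⟨S, hS⟩ := hz.exists_le_sylow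
  obtain ⟨k, hk⟩ := MulAction.exists_smul_eq M S₀ S
  refine ⟨(k : G), k.2, ?_⟩
  have h1 : (⟨g, hgJ⟩ : M) ∈ (S : Subgroup M) := hS (Subgroup.mem_zpowers _)
  rw [← hk, Sylow.coe_subgroup_smul, Subgroup.mem_pointwise_smul_iff_inv_smul_mem] at h1
  have h2 : (((MulAut.conj k)⁻¹ • (⟨g, hgJ⟩ : M) : M) : G) ∈ T.U := h1
  simpa [MulAut.smul_def, MulAut.conj_inv_apply] using h2

theorem sum_stJ [Fintype G] {p : ℕ} [Fact p.Prime] (T : Split P p) (hJ : ↑J₀ ⊆ P.S)
    [DecidablePred (Unip (G := G) p)] [DecidablePred (· ∈ P.parabolic (↑J₀ : Set G))] :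
    ∑ g : G, (if g ∈ P.parabolic ↑J₀ ∧ Unip p g then stJ P J₀ g else 0) = (Nat.card T.U : ℂ) := by
  classical
  haveI := Fintype.ofFinite (T.R ↑J₀)
  rw [Finset.sum_congr rfl (g := fun g => if g ∈ T.R ↑J₀ then (topCount P ↑J₀ : ℂ) else 0)
    (fun g _ => ?_)]
  · rw [← Finset.sum_filter, Finset.sum_const, nsmul_eq_mul, ← Fintype.card_subtype,
      ← Nat.card_eq_fintype_card, ← Nat.cast_mul]
    exact congrArg Nat.cast (card_R_mul_topCount T hJ)
  by_cases hg : g ∈ P.parabolic ↑J₀ ∧ Unip p g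
  · rw [if_pos hg]
    obtain ⟨k, hk, hu⟩ := exists_conj_mem_U T hg.1 hg.2
    conv_lhs => rw [show g = k * (k⁻¹ * g * k) * k⁻¹ by group]
    rw [stJ_conj J₀ hk, stJ_of_mem J₀ T hJ hu]
    refine if_congr ⟨fun h => ?_, fun h => ?_⟩ rfl rfl
    · have := T.R_normal _ hJ k hk _ h
      simpa [mul_assoc] using this
    · have := T.R_normal _ hJ k⁻¹ (Subgroup.inv_mem _ hk) _ h
      simpa [mul_assoc] using this
  · rw [if_neg hg, if_neg]
    intro h
    obtain ⟨e, he⟩ := T.pGroup ⟨g, T.R_le _ hJ h⟩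
    have he' : g ^ p ^ e = 1 := congrArg Subtype.val he
    obtain ⟨i, -, hi⟩ := (Nat.dvd_prime_pow Fact.out).1 (orderOf_dvd_of_pow_eq_one he')
    exact hg ⟨B_le_parabolic _ (T.U_le (T.R_le _ hJ h)), i, hi⟩

theorem cosetCount_self : cosetCount P J J = 1 := by
  rw [cosetCount, Nat.card_eq_one_iff_unique]
  refine ⟨⟨fun c c' => Subtype.ext ?_⟩,
    ⟨⟨((1 : G) : G ⧸ P.parabolic J), (out_mem_iff le_rfl _).2 (Subgroup.one_mem _)⟩⟩⟩
  rw [← QuotientGroup.out_eq' c.1, ← QuotientGroup.out_eq' c'.1, QuotientGroup.eq]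
  exact Subgroup.mul_mem _ (Subgroup.inv_mem _ c.2) c'.2

/-- The elements of `p`-power order of a standard parabolic subgroup. -/
theorem card_unip_parabolic {p : ℕ} [Fact p.Prime] (T : Split P p) (hJ : ↑J₀ ⊆ P.S) :
    Nat.card {g : G // g ∈ P.parabolic ↑J₀ ∧ Unip p g} = Nat.card T.U * topCount P ↑J₀ := by
  classical
  haveI := Fintype.ofFinite G
  induction J₀ using Finset.strongInduction with
  | _ J₀ ih =>
    have h1 := sum_stJ J₀ T hJ
    have h2 : ∑ g : G, (if g ∈ P.parabolic ↑J₀ ∧ Unip p g then stJ P J₀ g else 0) =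
        ∑ K ∈ J₀.powerset, (-1 : ℂ) ^ K.card *
          ((cosetCount P ↑J₀ ↑K * Nat.card {g : G // g ∈ P.parabolic ↑K ∧ Unip p g} : ℕ) : ℂ) := by
      rw [Finset.sum_congr rfl (g := fun g => ∑ K ∈ J₀.powerset, (-1 : ℂ) ^ K.card *
        (((if g ∈ P.parabolic ↑J₀ ∧ Unip p g then Nat.card {c : G ⧸ P.parabolic (↑K : Set G) //
          c.out ∈ P.parabolic ↑J₀ ∧ g • c = c} else 0) : ℕ) : ℂ)) (fun g _ => ?_), Finset.sum_comm]
      · refine Finset.sum_congr rfl fun K hK => ?_
        rw [← Finset.mul_sum, ← Nat.cast_sum,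
          sum_fixed_unip (Finset.coe_subset.2 (Finset.mem_powerset.1 hK))]
      · by_cases hg : g ∈ P.parabolic ↑J₀ ∧ Unip p g <;> simp [hg, stJ]
    rw [h2] at h1
    have h3 : ∑ K ∈ J₀.powerset, (-1 : ℂ) ^ K.card *
        ((cosetCount P ↑J₀ ↑K * (Nat.card T.U * topCount P ↑K) : ℕ) : ℂ) = (Nat.card T.U : ℂ) := by
      refine Eq.trans ?_ ((congrArg (fun z : ℂ => (Nat.card T.U : ℂ) * z)
        (sum_cosetCount_topCount J₀ hJ)).trans (mul_one _))
      simp only [Finset.mul_sum]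
      refine Finset.sum_congr rfl fun K _ => ?_
      push_cast
      ring
    rw [← h3, ← Finset.add_sum_erase _ _ (Finset.mem_powerset_self J₀),
      ← Finset.add_sum_erase (f := fun K : Finset G => (-1 : ℂ) ^ K.card *
        ((cosetCount P ↑J₀ ↑K * (Nat.card T.U * topCount P ↑K) : ℕ) : ℂ)) _
        (Finset.mem_powerset_self J₀), cosetCount_self, one_mul, one_mul,
      Finset.sum_congr rfl (g := fun K : Finset G => (-1 : ℂ) ^ K.card *
        ((cosetCount P ↑J₀ ↑K * (Nat.card T.U * topCount P ↑K) : ℕ) : ℂ)) (fun K hK => ?_)] at h1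
    · exact Nat.cast_injective (mul_left_cancel₀ (pow_ne_zero _ (by norm_num)) (add_right_cancel h1))
    · obtain ⟨hne, hK⟩ := Finset.mem_erase.1 hK
      rw [Finset.mem_powerset] at hK
      rw [ih K (Finset.ssubset_iff_subset_ne.2 ⟨hK, hne⟩) ((Finset.coe_subset.2 hK).trans hJ)]

/-- Steinberg's count. -/
theorem card_unip {p : ℕ} [Fact p.Prime] (T : Split P p) :
    Nat.card {g : G // ∃ k : ℕ, orderOf g = p ^ k} = Nat.card T.U ^ 2 := by
  classical
  haveI := Fintype.ofFinite G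
  obtain ⟨Sf, hSf⟩ : ∃ Sf : Finset G, (↑Sf : Set G) = P.S := ⟨_, Set.coe_toFinset P.S⟩
  have h := card_unip_parabolic Sf T hSf.le
  have hc := card_R_mul_topCount T (J := P.S) subset_rfl
  rw [T.R_top, Subgroup.card_bot, one_mul] at hc
  rw [hSf, hc, ← sq] at h
  rw [← h]
  have htop : P.parabolic P.S = ⊤ := by
    refine eq_top_iff.2 (P.sup_eq_top ▸ sup_le le_sup_left ?_)
    exact P.closure_sup ▸ sup_le le_sup_right (inf_le_left.trans le_sup_left)
  exact Nat.card_congr (Equiv.subtypeEquivRight fun g => by simp [htop, Unip])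

end CfsgLib.InvCentralizers.SteinbergCount
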