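import Mathlib
import Cfsg.Prelude.Def_Sz
import Cfsg.Agent.Lib.Laws.Suzuki

/-!
Lower bound `2 ^ m * (q - 1)` for the degree of a nontrivial irreducible representation of
`Sz(q)`, `q = 2 ^ (2 m + 1)`, from the root group of the centre of the Sylow 2-subgroup.
-/

set_option autoImplicit false

namespace CfsgLib.InvCentralizers.SuzukiDegree

open Cfsg.Lie CfsgLib.Laws Matrix

variable {F : Type*} [Field F]

/-- A non-central element of the Sylow 2-subgroup. -/
def xMat (e : ℕ) (a : F) : Matrix (Fin 4) (Fin 4) F :=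
  !![1, 0, 0, 0; a, 1, 0, 0; a ^ (e + 1), a ^ e, 1, 0; a ^ (e + 2), 0, a, 1]

theorem det_xMat (e : ℕ) (a : F) : (xMat e a).det = 1 := by
  rw [Matrix.det_of_isLowerTriangular]
  · simp [xMat, Fin.prod_univ_four]
  · intro i j h
    have h' : (i : ℕ) < j := h
    fin_cases i <;> fin_cases j <;> simp_all [xMat]

/-- `xMat` as a unit. -/
noncomputable def xU (e : ℕ) (a : F) : GL (Fin 4) F :=
  Matrix.GeneralLinearGroup.mk'' (xMat e a) (by rw [det_xMat]; exact isUnit_one)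

theorem xU_coe (e : ℕ) (a : F) : (xU e a : Matrix (Fin 4) (Fin 4) F) = xMat e a := rfl

variable [Fintype F] [CharP F 2] {m : ℕ}

theorem xU_mem (hF : Fintype.card F = 2 ^ (2 * m + 1)) (a : F) :
    xU (2 ^ (m + 1)) a ∈ Sz F (2 ^ (m + 1)) := by
  refine Subgroup.subset_closure ⟨?_, ?_⟩
  · intro u v
    have h2 : (2 : F) = 0 := CharTwo.two_eq_zero
    simp [xU_coe, xMat, altForm4, Matrix.mulVec, dotProduct, Fin.sum_univ_four]
    linear_combination (u 0 * v 0 * (a ^ (2 ^ (m + 1) + 2) + a * a ^ (2 ^ (m + 1) + 1)) +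
      (u 0 * v 1 + u 1 * v 0) * a ^ (2 ^ (m + 1) + 1) + (u 0 * v 2 + u 2 * v 0) * a +
      u 1 * v 1 * a ^ 2 ^ (m + 1)) * h2
  · have h1 := pow_ee hF a
    have hm : (2 : ℕ) ^ (m + 1) ≠ 0 := by positivity
    have h2 : (2 : F) = 0 := CharTwo.two_eq_zero
    generalize hE : (2 : ℕ) ^ (m + 1) = E at h1 hm ⊢
    ext i j
    fin_cases i <;> fin_cases j <;>
      simp [star4, pairOf, xU_coe, xMat, zero_pow hm, h1, pow_add, mul_pow, CharTwo.sub_eq_add] <;>
      ring_nf <;> simp [h1, h2, pow_mul, sq E, ← pow_two]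

theorem szU_commute_xU (e : ℕ) (b a : F) : Commute (szU e b) (xU e a) := by
  refine Units.ext ?_
  ext i j
  fin_cases i <;> fin_cases j <;>
    simp [szU, szUMat, xU_coe, xMat, Matrix.mul_apply, Fin.sum_univ_four] <;> ring

theorem xU_mul_xU (hF : Fintype.card F = 2 ^ (2 * m + 1)) (a b : F) :
    xU (2 ^ (m + 1)) a * xU (2 ^ (m + 1)) b =
      szU (2 ^ (m + 1)) (a * b ^ 2 ^ (m + 1) + b * a ^ 2 ^ (m + 1)) *
        (xU (2 ^ (m + 1)) b * xU (2 ^ (m + 1)) a) := by
  have h1 : (a * b ^ 2 ^ (m + 1) + b * a ^ 2 ^ (m + 1)) ^ 2 ^ (m + 1) =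
      a ^ 2 ^ (m + 1) * b ^ 2 + b ^ 2 ^ (m + 1) * a ^ 2 := by
    rw [add_pow_char_pow, mul_pow, mul_pow, pow_ee hF, pow_ee hF]
  have h2 : (2 : F) = 0 := CharTwo.two_eq_zero
  refine Units.ext ?_
  ext i j
  fin_cases i <;> fin_cases j <;>
    simp [szU, szUMat, xU_coe, xMat, Matrix.mul_apply, Fin.sum_univ_four, h1] <;>
    ring_nf <;> simp [h2]

theorem szU_mul (e : ℕ) (he : ∀ x y : F, (x + y) ^ e = x ^ e + y ^ e) (a b : F) :
    szU e a * szU e b = szU e (a + b) := by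
  refine Units.ext ?_
  ext i j
  fin_cases i <;> fin_cases j <;>
    simp [szU, szUMat, Matrix.mul_apply, Fin.sum_univ_four, he] <;> ring

theorem szU_mul_szT (hF : Fintype.card F = 2 ^ (2 * m + 1)) (b : F) (μ : Fˣ) :
    szU (2 ^ (m + 1)) b * szT (2 ^ m) μ =
      szT (2 ^ m) μ * szU (2 ^ (m + 1)) (b * (μ : F) ^ (2 ^ (m + 1) + 1)) := by
  have hμ : (μ : F) ≠ 0 := μ.ne_zero
  have e1 : (2 : ℕ) ^ (m + 1) = 2 ^ m + 2 ^ m := by rw [pow_succ]; ring
  have h1 : (b * (μ : F) ^ (2 ^ (m + 1) + 1)) ^ 2 ^ (m + 1) =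
      b ^ 2 ^ (m + 1) * ((μ : F) ^ (1 + 2 ^ m)) ^ 2 := by
    rw [mul_pow, pow_add (μ : F) (2 ^ (m + 1)) 1, pow_one, mul_pow, pow_ee hF, ← pow_mul,
      ← pow_add]
    congr 2
    omega
  refine Units.ext ?_
  ext i j
  fin_cases i <;> fin_cases j <;>
    simp [szU, szUMat, szT, Matrix.mul_diagonal, Matrix.diagonal_mul, h1] <;>
    simp only [e1, pow_add, pow_one] <;> field_simp <;> ring

/-- The absolute trace, as an element of the field. -/
def tr (m : ℕ) (x : F) : F := ∑ i ∈ Finset.range (2 * m + 1), x ^ 2 ^ i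

omit [Fintype F] in
theorem tr_add (m : ℕ) (x y : F) : tr m (x + y) = tr m x + tr m y := by
  simp [tr, ← Finset.sum_add_distrib, add_pow_char_pow]

theorem tr_one (m : ℕ) : tr m (1 : F) = 1 := by
  simp [tr, mul_two, two_mul, CharTwo.add_self_eq_zero]

theorem tr_sq_left (m : ℕ) (x : F) : tr m (x ^ 2) = tr m x ^ 2 := by
  rw [tr, tr, sum_pow_char 2]
  exact Finset.sum_congr rfl fun i _ => by rw [← pow_mul, ← pow_mul, mul_comm]

theorem tr_sq (hF : Fintype.card F = 2 ^ (2 * m + 1)) (x : F) : tr m (x ^ 2) = tr m x := by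
  have h1 : tr m (x ^ 2) = ∑ i ∈ Finset.range (2 * m + 1), x ^ 2 ^ (i + 1) :=
    Finset.sum_congr rfl fun i _ => by rw [← pow_mul, pow_succ']
  have h2 : ∑ i ∈ Finset.range (2 * m + 1 + 1), x ^ 2 ^ i = tr m x + x := by
    rw [Finset.sum_range_succ, ← hF, FiniteField.pow_card]; rfl
  rw [Finset.sum_range_succ', pow_zero, pow_one, add_left_inj, ← h1] at h2
  exact h2

theorem tr_pow_two_pow (hF : Fintype.card F = 2 ^ (2 * m + 1)) (x : F) :
    ∀ j : ℕ, tr m (x ^ 2 ^ j) = tr m x := by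
  intro j
  induction j with
  | zero => simp
  | succ j ih => rw [pow_succ, pow_mul, tr_sq hF, ih]

theorem tr_cases (hF : Fintype.card F = 2 ^ (2 * m + 1)) (x : F) : tr m x = 0 ∨ tr m x = 1 := by
  have h := tr_sq hF x
  rw [tr_sq_left] at h
  rcases eq_or_ne (tr m x) 0 with h0 | h0
  · exact Or.inl h0
  · exact Or.inr (mul_left_cancel₀ h0 (by rw [mul_one, ← sq, h]))

open Classical in
/-- The additive character `(-1) ^ tr`. -/
noncomputable def psi (m : ℕ) (x : F) : ℂ := if tr m x = 0 then 1 else -1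

theorem psi_add (hF : Fintype.card F = 2 ^ (2 * m + 1)) (x y : F) :
    psi m (x + y) = psi m x * psi m y := by
  rcases tr_cases hF x with h | h <;> rcases tr_cases hF y with h' | h' <;>
    simp [psi, tr_add, h, h', CharTwo.add_self_eq_zero]

theorem psi_zero (m : ℕ) : psi m (0 : F) = 1 := by
  simp [psi, tr]

theorem psi_one (m : ℕ) : psi m (1 : F) = -1 := by
  simp [psi, tr_one]

theorem psi_pow (hF : Fintype.card F = 2 ^ (2 * m + 1)) (x : F) (j : ℕ) :
    psi m (x ^ 2 ^ j) = psi m x := by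
  by_cases h : tr m x = 0 <;> simp [psi, h, tr_pow_two_pow hF x j]

theorem sum_psi (hF : Fintype.card F = 2 ^ (2 * m + 1)) (g : F → F)
    (hg : ∀ x y, g (x + y) = g x + g y) (b₀ : F) (hb₀ : psi m (g b₀) = -1) :
    ∑ b : F, psi m (g b) = 0 := by
  have h : ∑ b : F, psi m (g b) = ∑ b : F, psi m (g (b + b₀)) :=
    (Equiv.sum_comp (Equiv.addRight b₀) fun b => psi m (g b)).symm
  have h' : ∑ b : F, psi m (g (b + b₀)) = -∑ b : F, psi m (g b) := by
    rw [← Finset.sum_neg_distrib]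
    exact Finset.sum_congr rfl fun b _ => by rw [hg, psi_add hF, hb₀, mul_neg_one]
  linear_combination (h.trans h') / 2

theorem sum_psi_mul (hF : Fintype.card F = 2 ^ (2 * m + 1)) {c : F} (hc : c ≠ 0) :
    ∑ b : F, psi m (c * b) = 0 :=
  sum_psi hF (c * ·) (fun x y => mul_add c x y) c⁻¹ (by rw [mul_inv_cancel₀ hc, psi_one])

variable {V : Type*} [AddCommGroup V] [Module ℂ V]

/-- The eigenspace of the centre root group for the character `b ↦ psi (c b)`. -/
def eig (m : ℕ) (U : F → Module.End ℂ V) (c : F) : Submodule ℂ V where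
  carrier := {w | ∀ b, U b w = psi m (c * b) • w}
  add_mem' {v w} hv hw := fun b => by rw [map_add, hv b, hw b, smul_add]
  zero_mem' := fun b => by simp
  smul_mem' a {w} hw := fun b => by rw [map_smul, hw b, smul_comm]

/-- The main bound, for a representation with no invariant line behaviour assumed: some element
of the centre root group acts nontrivially. -/
theorem le_finrank [FiniteDimensional ℂ V] (hF : Fintype.card F = 2 ^ (2 * m + 1))
    (ρ : ↥(Sz F (2 ^ (m + 1))) →* Module.End ℂ V)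
    (hne : ∃ b : F, ρ ⟨szU (2 ^ (m + 1)) b, szU_mem hF b⟩ ≠ 1) :
    2 ^ m * (Fintype.card F - 1) ≤ Module.finrank ℂ V := by
  classical
  set U : F → Module.End ℂ V := fun b => ρ ⟨szU (2 ^ (m + 1)) b, szU_mem hF b⟩ with hU
  have hq : (Fintype.card F : ℂ) ≠ 0 := by exact_mod_cast Fintype.card_ne_zero
  have hUadd : ∀ a b, U (a + b) = U a * U b := by
    intro a b
    simp only [hU, ← map_mul]
    exact congrArg ρ (Subtype.ext (szU_mul (2 ^ (m + 1)) (fun x y => add_pow_char_pow ..) a b).symm)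
  set P : F → Module.End ℂ V := fun c => ∑ b : F, psi m (c * b) • U b with hP
  have hPe : ∀ c c' w, w ∈ eig m U c' → P c w = (∑ b : F, psi m ((c + c') * b)) • w := by
    intro c c' w hw
    simp only [hP, LinearMap.sum_apply, LinearMap.smul_apply, hw _, smul_smul, Finset.sum_smul]
    exact Finset.sum_congr rfl fun b _ => by rw [add_mul, psi_add hF]
  have hPmem : ∀ c w, P c w ∈ eig m U c := by
    intro c w b₀
    simp only [hP, LinearMap.sum_apply, LinearMap.smul_apply, map_sum, map_smul, Finset.smul_sum,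
      smul_smul]
    refine Fintype.sum_equiv (Equiv.addLeft b₀) _ _ fun b => ?_
    simp only [Equiv.coe_addLeft, hUadd, Module.End.mul_apply]
    congr 1
    rw [← psi_add hF, ← mul_add, ← add_assoc, CharTwo.add_self_eq_zero, zero_add]
  obtain ⟨c₀, hc₀, w₀, hw₀, hw₀0⟩ : ∃ c ≠ (0 : F), ∃ w ∈ eig m U c, w ≠ 0 := by
    by_contra hcon
    push Not at hcon
    obtain ⟨b₁, hb₁⟩ := hne
    refine hb₁ (LinearMap.ext fun w => ?_)
    have hsum : ∑ c : F, P c w = (Fintype.card F : ℂ) • w := by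
      simp only [hP, LinearMap.sum_apply, LinearMap.smul_apply]
      rw [Finset.sum_comm, Finset.sum_eq_single 0]
      · rw [← Finset.sum_smul]
        have h0 : U 0 = 1 := by
          have h : szU (2 ^ (m + 1)) (0 : F) = 1 := by
            refine Units.ext ?_
            ext i j
            fin_cases i <;> fin_cases j <;> simp [szU, szUMat]
          simp only [hU]
          rw [show (⟨szU (2 ^ (m + 1)) 0, szU_mem hF 0⟩ : ↥(Sz F (2 ^ (m + 1)))) = 1 from Subtype.ext h, map_one]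
        simp [psi_zero, h0]
      · intro b _ hb
        rw [← Finset.sum_smul]
        simp only [mul_comm _ b, sum_psi_mul hF hb, zero_smul]
      · simp
    rw [Finset.sum_eq_single 0 (fun c _ hc => hcon c hc _ (hPmem c w)) (by simp)] at hsum
    have h1 := hPmem 0 w b₁
    rw [zero_mul, psi_zero, one_smul, hsum, map_smul] at h1
    change U b₁ w = w
    exact smul_right_injective V hq (show (Fintype.card F : ℂ) • U b₁ w = (Fintype.card F : ℂ) • w from h1)
  set d := Module.finrank ℂ (eig m U (1 : F)) with hd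
  have hT : ∀ (μ : Fˣ) c w, w ∈ eig m U c →
      ρ ⟨szT (2 ^ m) μ, szT_mem hF μ⟩ w ∈ eig m U (c * (μ : F) ^ ((2 ^ (m + 1)) + 1)) := by
    intro μ c w hw b
    have h : (⟨szU (2 ^ (m + 1)) b, szU_mem hF b⟩ * ⟨szT (2 ^ m) μ, szT_mem hF μ⟩ : ↥(Sz F (2 ^ (m + 1)))) =
        ⟨szT (2 ^ m) μ, szT_mem hF μ⟩ * ⟨szU (2 ^ (m + 1)) (b * (μ : F) ^ ((2 ^ (m + 1)) + 1)), szU_mem hF _⟩ :=
      Subtype.ext (szU_mul_szT hF b μ)
    have h1 := congrArg (fun g => ρ g w) h
    simp only [map_mul, Module.End.mul_apply] at h1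
    change ρ ⟨szU (2 ^ (m + 1)) b, szU_mem hF b⟩ _ = _
    rw [h1, show ρ ⟨szU (2 ^ (m + 1)) (b * (μ : F) ^ ((2 ^ (m + 1)) + 1)), szU_mem hF _⟩ w = _ from hw _, map_smul]
    congr 1
    ring_nf
  have hTinj : ∀ μ : Fˣ, Function.Injective (ρ ⟨szT (2 ^ m) μ, szT_mem hF μ⟩) := by
    intro μ
    refine Function.LeftInverse.injective (g := ρ ⟨szT (2 ^ m) μ, szT_mem hF μ⟩⁻¹) fun w => ?_
    rw [← Module.End.mul_apply, ← map_mul, inv_mul_cancel, map_one]; rfl
  have hroot : ∀ c : F, c ≠ 0 → ∃ μ : Fˣ, (μ : F) ^ ((2 ^ (m + 1)) + 1) = c := by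
    intro c hc
    refine ⟨Units.mk0 (c ^ ((2 ^ (m + 1)) - 1)) (pow_ne_zero _ hc), ?_⟩
    rw [Units.val_mk0]
    refine mul_right_cancel₀ hc ?_
    have h1 : ((2 : ℕ) ^ (m + 1) - 1) * (2 ^ (m + 1) + 1) + 1 = 2 ^ (m + 1) * 2 ^ (m + 1) := by
      obtain ⟨r, hr⟩ : ∃ r, (2 : ℕ) ^ (m + 1) = r + 1 :=
        ⟨(2 ^ (m + 1)) - 1, by have := Nat.one_le_two_pow (n := m + 1); omega⟩
      rw [hr]; simp only [Nat.add_sub_cancel]; ring
    rw [← pow_mul, ← pow_succ, h1, pow_mul, pow_ee hF, sq]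
  have hdim : ∀ c : F, c ≠ 0 → d ≤ Module.finrank ℂ (eig m U c) := by
    intro c hc
    obtain ⟨μ, hμ⟩ := hroot c hc
    refine LinearMap.finrank_le_finrank_of_injective
      (f := (ρ ⟨szT (2 ^ m) μ, szT_mem hF μ⟩).restrict (p := eig m U 1) (q := eig m U c)
        (fun w hw => by simpa [hμ] using hT μ 1 w hw)) ?_
    intro v w h
    exact Subtype.ext (hTinj μ (congrArg Subtype.val h))
  obtain ⟨w₁, hw₁, hw₁0⟩ : ∃ w ∈ eig m U (1 : F), w ≠ 0 := by
    obtain ⟨μ, hμ⟩ := hroot c₀⁻¹ (inv_ne_zero hc₀)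
    refine ⟨_, by simpa [hμ, mul_inv_cancel₀ hc₀] using hT μ c₀ w₀ hw₀, fun h => hw₀0 ?_⟩
    exact hTinj μ (h.trans (map_zero _).symm)
  set R := {a : F // tr m a = 0} with hR
  have hRcard : Nat.card R = 2 ^ (2 * m) := by
    have e1 : {a : F // tr m a = 0} ≃ {a : F // ¬ tr m a = 0} :=
      Equiv.subtypeEquiv (Equiv.addRight 1) fun a => by
        simp only [Equiv.coe_addRight, tr_add, tr_one]
        rcases tr_cases hF a with h | h <;> simp [h, CharTwo.add_self_eq_zero]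
    have h2 : Fintype.card {a : F // tr m a = 0} + Fintype.card {a : F // ¬ tr m a = 0} =
        Fintype.card F := by
      rw [← Fintype.card_sum]
      exact Fintype.card_congr (Equiv.sumCompl fun a : F => tr m a = 0)
    rw [← Fintype.card_congr e1, hF, pow_succ] at h2
    rw [hR, Nat.card_eq_fintype_card]
    omega
  let X : F → Module.End ℂ (eig m U (1 : F)) := fun a =>
    (ρ ⟨xU (2 ^ (m + 1)) a, xU_mem hF a⟩).restrict fun w hw b => by
      change ρ ⟨szU (2 ^ (m + 1)) b, szU_mem hF b⟩ _ = _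
      rw [← Module.End.mul_apply, ← map_mul,
        show (⟨szU (2 ^ (m + 1)) b, szU_mem hF b⟩ * ⟨xU (2 ^ (m + 1)) a, xU_mem hF a⟩ : ↥(Sz F (2 ^ (m + 1)))) =
          ⟨xU (2 ^ (m + 1)) a, xU_mem hF a⟩ * ⟨szU (2 ^ (m + 1)) b, szU_mem hF b⟩ from
            Subtype.ext (szU_commute_xU (2 ^ (m + 1)) b a).eq,
        map_mul, Module.End.mul_apply, show ρ ⟨szU (2 ^ (m + 1)) b, szU_mem hF b⟩ w = _ from hw b, map_smul]
  have hXX : ∀ a b, X a * X b = psi m (a * b ^ (2 ^ (m + 1)) + b * a ^ (2 ^ (m + 1))) • (X b * X a) := by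
    intro a b
    refine LinearMap.ext fun w => Subtype.ext ?_
    change ρ ⟨xU (2 ^ (m + 1)) a, _⟩ (ρ ⟨xU (2 ^ (m + 1)) b, _⟩ (w : V)) =
      psi m (a * b ^ (2 ^ (m + 1)) + b * a ^ (2 ^ (m + 1))) • ρ ⟨xU (2 ^ (m + 1)) b, _⟩ (ρ ⟨xU (2 ^ (m + 1)) a, _⟩ (w : V))
    rw [← Module.End.mul_apply, ← map_mul,
      show (⟨xU (2 ^ (m + 1)) a, xU_mem hF a⟩ * ⟨xU (2 ^ (m + 1)) b, xU_mem hF b⟩ : ↥(Sz F (2 ^ (m + 1)))) =
        ⟨szU (2 ^ (m + 1)) (a * b ^ (2 ^ (m + 1)) + b * a ^ (2 ^ (m + 1))), szU_mem hF _⟩ *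
          (⟨xU (2 ^ (m + 1)) b, xU_mem hF b⟩ * ⟨xU (2 ^ (m + 1)) a, xU_mem hF a⟩) from Subtype.ext (xU_mul_xU hF a b),
      map_mul, map_mul, Module.End.mul_apply, Module.End.mul_apply]
    have hmem := ((X b) ((X a) w)).2 (a * b ^ (2 ^ (m + 1)) + b * a ^ (2 ^ (m + 1)))
    rw [one_mul] at hmem
    exact hmem
  have hXunit : ∀ a, Function.Injective (X a) := by
    intro a v w h
    refine Subtype.ext ?_
    have h1 : ρ ⟨xU (2 ^ (m + 1)) a, xU_mem hF a⟩ (v : V) = ρ ⟨xU (2 ^ (m + 1)) a, xU_mem hF a⟩ (w : V) :=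
      congrArg Subtype.val h
    have := congrArg (ρ ⟨xU (2 ^ (m + 1)) a, xU_mem hF a⟩⁻¹) h1
    rwa [← Module.End.mul_apply, ← map_mul, inv_mul_cancel, map_one, ← Module.End.mul_apply,
      ← map_mul, inv_mul_cancel, map_one] at this
  have hrad : ∀ a a' : R, a ≠ a' →
      ∑ b : F, psi m (b ^ 2 * (((a : F) + a') ^ (2 ^ (m + 1)) + ((a : F) + a') ^ (2 ^ (m + 1)) * ((a : F) + a') ^ (2 ^ (m + 1)))) = 0
      := by
    intro a a' hne'
    set s := (a : F) + a' with hs
    have hs0 : s ≠ 0 := by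
      intro h0
      exact hne' (Subtype.ext (by rw [hs, ← CharTwo.sub_eq_add, sub_eq_zero] at h0; exact h0))
    have hs1 : s ≠ 1 := by
      intro h1
      have := congrArg (tr m) h1
      rw [hs, tr_add, a.2, a'.2, tr_one, add_zero] at this
      exact zero_ne_one this
    have hse : s ^ (2 ^ (m + 1)) + s ^ (2 ^ (m + 1)) * s ^ (2 ^ (m + 1)) ≠ 0 := by
      intro h0
      have h3 : s ^ (2 ^ (m + 1)) * (1 + s ^ (2 ^ (m + 1))) = 0 := by linear_combination h0
      have h4 : s ^ (2 ^ (m + 1)) = 1 := by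
        rcases mul_eq_zero.1 h3 with h5 | h5
        · exact absurd h5 (pow_ne_zero _ hs0)
        · rw [← CharTwo.sub_eq_add, sub_eq_zero] at h5; exact h5.symm
      have h5 := pow_ee hF s
      rw [h4, one_pow] at h5
      rcases sq_eq_one_iff.1 h5.symm with h6 | h6
      · exact hs1 h6
      · exact hs1 (h6.trans (CharTwo.neg_eq 1))
    refine sum_psi hF (fun b => b ^ 2 * (s ^ (2 ^ (m + 1)) + s ^ (2 ^ (m + 1)) * s ^ (2 ^ (m + 1))))
      (fun x y => by rw [add_pow_char, add_mul]) (((s ^ (2 ^ (m + 1)) + s ^ (2 ^ (m + 1)) * s ^ (2 ^ (m + 1)))⁻¹) ^ 2 ^ (2 * m)) ?_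
    rw [← pow_mul, ← pow_succ, ← hF, FiniteField.pow_card, inv_mul_cancel₀ hse, psi_one]
  have hbil : ∀ s b : F, psi m (s * b ^ (2 ^ (m + 1)) + b * s ^ (2 ^ (m + 1))) =
      psi m (b ^ 2 * (s ^ (2 ^ (m + 1)) + s ^ (2 ^ (m + 1)) * s ^ (2 ^ (m + 1)))) := by
    intro s b
    rw [psi_add hF, ← psi_pow hF (s * b ^ (2 ^ (m + 1))) (m + 1), mul_pow, pow_ee hF,
      ← psi_pow hF (b * s ^ (2 ^ (m + 1))) 1, pow_one, ← psi_add hF]
    congr 1
    ring
  have hind : LinearIndependent ℂ (fun a : R => X a) := by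
    rw [Fintype.linearIndependent_iff]
    intro g hg a₀
    have hlinear : ∀ b, ∑ a : R, (g a * psi m (((a : F) + a₀) * b ^ (2 ^ (m + 1)) + b * ((a : F) + a₀) ^ (2 ^ (m + 1)))) •
        (X b * X a) = 0 := by
      intro b
      have h1 := congrArg (· * X b) hg
      simp only [Finset.sum_mul, smul_mul_assoc, zero_mul] at h1
      have h2 := congrArg (psi m ((a₀ : F) * b ^ (2 ^ (m + 1)) + b * (a₀ : F) ^ (2 ^ (m + 1))) • ·) h1
      simp only [Finset.smul_sum, smul_zero] at h2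
      rw [← h2]
      refine Finset.sum_congr rfl fun a _ => ?_
      rw [hXX, smul_smul, smul_smul]
      congr 1
      rw [mul_assoc, ← psi_add hF, add_pow_char_pow, mul_comm (psi m _) (g a)]
      congr 2
      linear_combination ((a : F) * b ^ 2 ^ (m + 1) + b * (a : F) ^ 2 ^ (m + 1)) *
        (CharTwo.two_eq_zero (R := F))
    have hcancel : ∀ b, ∑ a : R,
        (g a * psi m (b ^ 2 * (((a : F) + a₀) ^ (2 ^ (m + 1)) + ((a : F) + a₀) ^ (2 ^ (m + 1)) * ((a : F) + a₀) ^ (2 ^ (m + 1))))) •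
          X a = 0 := by
      intro b
      refine LinearMap.ext fun w => hXunit b ?_
      have h1 := congrArg (fun f => f w) (hlinear b)
      simp only [hbil, LinearMap.sum_apply, LinearMap.smul_apply, Module.End.mul_apply,
        LinearMap.zero_apply, map_sum, map_smul] at h1 ⊢
      rw [h1, map_zero]
    have h3 : ∑ b : F, ∑ a : R,
        (g a * psi m (b ^ 2 * (((a : F) + a₀) ^ (2 ^ (m + 1)) + ((a : F) + a₀) ^ (2 ^ (m + 1)) * ((a : F) + a₀) ^ (2 ^ (m + 1))))) •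
          X a = 0 := Finset.sum_eq_zero fun b _ => hcancel b
    rw [Finset.sum_comm, Finset.sum_eq_single a₀] at h3
    · rw [← Finset.sum_smul, ← Finset.mul_sum, CharTwo.add_self_eq_zero,
        zero_pow (by positivity), zero_mul, add_zero] at h3
      simp only [mul_zero, psi_zero, Finset.sum_const, Finset.card_univ, nsmul_eq_mul,
        mul_one] at h3
      by_contra hga
      have h4 : X a₀ = 0 := (smul_eq_zero.1 h3).resolve_left (mul_ne_zero hga hq)
      refine hw₁0 (congrArg Subtype.val (hXunit a₀ (a₁ := ⟨w₁, hw₁⟩) (a₂ := 0) ?_))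
      rw [h4]; simp
    · intro a _ ha
      rw [← Finset.sum_smul, ← Finset.mul_sum, hrad a a₀ ha, mul_zero, zero_smul]
    · simp
  have hd2 : 2 ^ m ≤ d := by
    have h1 := hind.fintype_card_le_finrank
    rw [Module.finrank_linearMap, ← Nat.card_eq_fintype_card, hRcard, ← hd] at h1
    refine (Nat.pow_le_pow_iff_left two_ne_zero).1 ?_
    rw [sq d, ← pow_mul, mul_comm m 2]
    exact h1
  let Φ : (∀ c : {c : F // c ≠ 0}, eig m U c) →ₗ[ℂ] V :=
    ∑ c : {c : F // c ≠ 0}, (eig m U (c : F)).subtype.comp (LinearMap.proj c)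
  have hΦ : Function.Injective Φ := by
    rw [← LinearMap.ker_eq_bot, LinearMap.ker_eq_bot']
    intro f hf
    funext c
    refine Subtype.ext (smul_right_injective V hq ?_)
    have h1 := congrArg (P (c : F)) hf
    simp only [Φ, LinearMap.sum_apply, LinearMap.comp_apply, LinearMap.proj_apply,
      Submodule.subtype_apply, map_sum, map_zero] at h1
    rw [Finset.sum_eq_single c] at h1
    · rw [hPe _ _ _ (f c).2, CharTwo.add_self_eq_zero] at h1
      simpa [psi_zero] using h1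
    · intro c' _ hc'
      rw [hPe _ _ _ (f c').2, sum_psi_mul hF, zero_smul]
      intro h0
      rw [← CharTwo.sub_eq_add, sub_eq_zero] at h0
      exact hc' (Subtype.ext h0.symm)
    · simp
  calc 2 ^ m * (Fintype.card F - 1)
      = ∑ _c : {c : F // c ≠ 0}, 2 ^ m := by
        simp [Fintype.card_subtype_compl, mul_comm]
    _ ≤ ∑ c : {c : F // c ≠ 0}, Module.finrank ℂ (eig m U (c : F)) :=
        Finset.sum_le_sum fun c _ => hd2.trans (hdim c c.2)
    _ = Module.finrank ℂ (∀ c : {c : F // c ≠ 0}, eig m U (c : F)) :=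
        (Module.finrank_pi_fintype ℂ).symm
    _ ≤ Module.finrank ℂ V := LinearMap.finrank_le_finrank_of_injective hΦ

theorem exists_ne_one_of_irreducible {G : Type*} [Group G] {k : ℕ}
    (ρ : Representation ℂ G (Fin k → ℂ)) (hρ : ρ.IsIrreducible) (hk : 2 ≤ k) :
    ∃ g : G, ρ g ≠ 1 := by
  by_contra hcon
  push Not at hcon
  let v : Fin k → ℂ := Pi.single ⟨0, by omega⟩ 1
  let W : Subrepresentation ρ :=
    ⟨Submodule.span ℂ {v}, fun g w hw => by rw [hcon g]; exact hw⟩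
  have hρ' : IsSimpleOrder (Subrepresentation ρ) := hρ
  rcases hρ'.eq_bot_or_eq_top W with h | h
  · have h1 : Submodule.span ℂ {v} = ⊥ := congrArg Subrepresentation.toSubmodule h
    rw [Submodule.span_singleton_eq_bot] at h1
    have := congrFun h1 ⟨0, by omega⟩
    simp [v] at this
  · have h1 : Submodule.span ℂ {v} = ⊤ := congrArg Subrepresentation.toSubmodule h
    have h2 : Module.finrank ℂ (Fin k → ℂ) ≤ 1 := by
      rw [← finrank_top ℂ (Fin k → ℂ), ← h1]
      exact (finrank_span_le_card _).trans (by simp)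
    simp at h2
    omega

/-- The bound, given that the Suzuki group is simple. -/
theorem degree_bound (hF : Fintype.card F = 2 ^ (2 * m + 1))
    (hs : IsSimpleGroup ↥(Sz F (2 ^ (m + 1)))) {k : ℕ}
    (ρ : Representation ℂ ↥(Sz F (2 ^ (m + 1))) (Fin k → ℂ)) (hρ : ρ.IsIrreducible) (hk : 2 ≤ k) :
    2 ^ m * (2 ^ (2 * m + 1) - 1) ≤ k := by
  have h := le_finrank hF ρ ?_
  · rwa [Module.finrank_fintype_fun_eq_card, Fintype.card_fin, hF] at h
  obtain ⟨g, hg⟩ := exists_ne_one_of_irreducible ρ hρ hk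
  refine ⟨1, fun h1 => hg ?_⟩
  rcases hs.eq_bot_or_eq_top_of_normal (MonoidHom.ker ρ) inferInstance with h | h
  · have h2 : (⟨szU (2 ^ (m + 1)) (1 : F), szU_mem hF 1⟩ : ↥(Sz F (2 ^ (m + 1)))) ∈
        MonoidHom.ker ρ := h1
    rw [h, Subgroup.mem_bot] at h2
    have h3 := congrArg (fun g : ↥(Sz F (2 ^ (m + 1))) =>
      ((g : GL (Fin 4) F) : Matrix (Fin 4) (Fin 4) F) 2 0) h2
    simp [szU, szUMat] at h3
  · have h2 : g ∈ MonoidHom.ker ρ := by rw [h]; trivial
    exact h2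

end CfsgLib.InvCentralizers.SuzukiDegree
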