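import Mathlib
import Cfsg.Agent.Lib.InvCentralizers.HermOrbit
import Cfsg.Agent.Lib.InvCentralizers.AbelianEigen
import Cfsg.Agent.Lib.InvCentralizers.SympBound

/-!
Small representations of the special unitary group of a hyperbolic Hermitian form: the Siegel
unipotent group acts trivially.
-/

set_option autoImplicit false

namespace CfsgLib.InvCentralizers.UnitaryBound

open Matrix CfsgLib.InvCentralizers.HermOrbit CfsgLib.InvCentralizers.AbelianEigen
open CfsgLib.InvCentralizers.SympBound (psi exists_psi_ne)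

variable {F : Type*} [Field F] (σ : F →+* F) {m r : ℕ}

/-- The hyperbolic form with an identity block. -/
def J0 (F : Type*) [Field F] (m r : ℕ) :
    Matrix ((Fin m ⊕ Fin m) ⊕ Fin r) ((Fin m ⊕ Fin m) ⊕ Fin r) F :=
  fromBlocks (fromBlocks 0 1 1 0) 0 0 1

/-- Determinant one isometries of `J0`. -/
def MU (m r : ℕ) : Submonoid (Matrix ((Fin m ⊕ Fin m) ⊕ Fin r) ((Fin m ⊕ Fin m) ⊕ Fin r) F) where
  carrier := {D | cj σ D * J0 F m r * D = J0 F m r ∧ D.det = 1}
  mul_mem' {D E} hD hE := by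
    refine ⟨?_, by rw [det_mul, hD.2, hE.2, mul_one]⟩
    calc cj σ (D * E) * J0 F m r * (D * E)
        = cj σ E * (cj σ D * J0 F m r * D) * E := by simp only [cj_mul, Matrix.mul_assoc]
      _ = J0 F m r := by rw [hD.1, hE.1]
  one_mem' := ⟨by simp [cj_one], det_one⟩

/-- Siegel unipotents. -/
def zMat (r : ℕ) (S : Matrix (Fin m) (Fin m) F) :
    Matrix ((Fin m ⊕ Fin m) ⊕ Fin r) ((Fin m ⊕ Fin m) ⊕ Fin r) F :=
  fromBlocks (fromBlocks 1 S 0 1) 0 0 1

theorem zMat_mem (S : skewMat σ m) : zMat r (S : Matrix (Fin m) (Fin m) F) ∈ MU σ m r := by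
  refine ⟨?_, by simp [zMat, det_fromBlocks_zero₂₁]⟩
  simp [zMat, J0, cj_fromBlocks, cj_zero, cj_one, fromBlocks_multiply, cj_coe]

/-- Siegel unipotents as elements of the isometry monoid. -/
def zEl (r : ℕ) (S : skewMat σ m) : MU σ m r := ⟨_, zMat_mem σ S⟩

theorem zEl_zero : zEl σ r (0 : skewMat σ m) = 1 := by
  apply Subtype.ext
  simp [zEl, zMat]

theorem zEl_add (S S' : skewMat σ m) : zEl σ r (S + S') = zEl σ r S * zEl σ r S' := by
  apply Subtype.ext
  simp [zEl, zMat, fromBlocks_multiply, add_comm]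

/-- Levi elements. -/
def lMat (r : ℕ) (A Ai : Matrix (Fin m) (Fin m) F) (μ : F) :
    Matrix ((Fin m ⊕ Fin m) ⊕ Fin r) ((Fin m ⊕ Fin m) ⊕ Fin r) F :=
  fromBlocks (fromBlocks A 0 0 (cj σ Ai)) 0 0 (μ • 1)

theorem lMat_mem (hσ : ∀ a, σ (σ a) = a) {A Ai : Matrix (Fin m) (Fin m) F} (h : A * Ai = 1)
    {μ : F} (hμ : r = 0 ∨ μ * σ μ = 1) (hd : A.det * σ Ai.det * μ ^ r = 1) :
    lMat σ r A Ai μ ∈ MU σ m r := by
  have h' : Ai * A = 1 := mul_eq_one_comm.1 h
  refine ⟨?_, ?_⟩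
  · have h3 : μ • σ μ • (1 : Matrix (Fin r) (Fin r) F) = 1 := by
      rcases hμ with rfl | hμ
      · exact Subsingleton.elim _ _
      · rw [smul_smul, hμ, one_smul]
    simp [lMat, J0, cj_fromBlocks, cj_zero, cj_one, cj_smul, cj_cj σ hσ, fromBlocks_multiply,
      ← cj_mul, h', h3]
  · rw [lMat, det_fromBlocks_zero₂₁, det_fromBlocks_zero₂₁, det_cj, det_smul, det_one, mul_one,
      Fintype.card_fin, hd]

/-- The Heisenberg elements (`r = 1`). -/
def uMat (a : Fin m → F) (T : Matrix (Fin m) (Fin m) F) :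
    Matrix ((Fin m ⊕ Fin m) ⊕ Fin 1) ((Fin m ⊕ Fin m) ⊕ Fin 1) F :=
  fromBlocks (fromBlocks 1 T 0 1) (fromRows (-replicateCol (Fin 1) a) 0)
    (fromCols 0 (replicateRow (Fin 1) (σ ∘ a))) 1

theorem cj_replicateCol (a : Fin m → F) :
    cj σ (replicateCol (Fin 1) a) = replicateRow (Fin 1) (σ ∘ a) := by
  ext i j; simp [cj_apply]

theorem cj_replicateRow (hσ : ∀ a, σ (σ a) = a) (a : Fin m → F) :
    cj σ (replicateRow (Fin 1) (σ ∘ a)) = replicateCol (Fin 1) a := by
  ext i j; simp [cj_apply, hσ]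

theorem cj_fromRows {k l o : Type*} (A : Matrix k o F) (B : Matrix l o F) :
    cj σ (fromRows A B) = fromCols (cj σ A) (cj σ B) := by
  simp [cj, fromRows_map, transpose_fromRows]

theorem cj_fromCols {k l o : Type*} (A : Matrix o k F) (B : Matrix o l F) :
    cj σ (fromCols A B) = fromRows (cj σ A) (cj σ B) := by
  simp [cj, fromCols_map, transpose_fromCols]

theorem uMat_mem (hσ : ∀ a, σ (σ a) = a) {a : Fin m → F} {T : Matrix (Fin m) (Fin m) F}
    (hT : T + cj σ T = -vecMulVec a (σ ∘ a)) : uMat σ a T ∈ MU σ m 1 := by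
  have hT' : T + cj σ T + replicateCol (Fin 1) a * replicateRow (Fin 1) (σ ∘ a) = 0 := by
    rw [hT, vecMulVec_eq (Fin 1)]
    exact neg_add_cancel _
  refine ⟨?_, ?_⟩
  · simp only [uMat, J0, cj_fromBlocks, cj_zero, cj_one, cj_fromRows, cj_fromCols, cj_neg,
      cj_replicateCol, cj_replicateRow σ hσ, fromBlocks_multiply, fromCols_mul_fromBlocks,
      fromBlocks_mul_fromRows, fromRows_mul, mul_fromCols, fromCols_mul_fromRows,
      Matrix.mul_one, Matrix.one_mul, Matrix.mul_zero, Matrix.zero_mul, add_zero, zero_add]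
    ext (i | i) (j | j)
    all_goals first
      | (rcases i with i | i <;> rcases j with j | j <;>
          simp [Matrix.neg_mul, Matrix.mul_neg, mul_apply] <;>
          first
            | done
            | (have := congrFun (congrFun hT' i) j
               simp [mul_apply] at this
               linear_combination this))
      | (rcases i with i | i <;> simp [mul_apply])
      | (rcases j with j | j <;> simp [mul_apply])
      | simp [mul_apply]
  · rw [uMat, det_fromBlocks_one₂₂, fromRows_mul_fromCols, Matrix.neg_mul, Matrix.zero_mul,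
      Matrix.zero_mul, Matrix.mul_zero, neg_zero, sub_eq_add_neg, fromBlocks_neg, fromBlocks_add]
    simp [det_fromBlocks_zero₂₁]

theorem uMat_mul (a b : Fin m → F) (T T' : Matrix (Fin m) (Fin m) F) :
    uMat σ a T * uMat σ b T' = uMat σ (a + b) (T + T' - vecMulVec a (σ ∘ b)) := by
  have e : σ ∘ (a + b) = σ ∘ a + σ ∘ b := by funext i; simp
  ext (i | i) (j | j)
  all_goals first
    | (rcases i with i | i <;> rcases j with j | j <;>
        simp [uMat, e, mul_apply, Fintype.sum_sum_type, Matrix.one_apply, vecMulVec] <;>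
        grind)
    | (rcases i with i | i <;>
        simp [uMat, e, mul_apply, Fintype.sum_sum_type, Matrix.one_apply, vecMulVec] <;> grind)
    | (rcases j with j | j <;>
        simp [uMat, e, mul_apply, Fintype.sum_sum_type, Matrix.one_apply, vecMulVec] <;> grind)
    | (simp [uMat, e, mul_apply, Fintype.sum_sum_type, Matrix.one_apply, vecMulVec] <;> grind)

theorem zMat_eq_uMat (S : Matrix (Fin m) (Fin m) F) : zMat 1 S = uMat σ 0 S := by
  have e : σ ∘ (0 : Fin m → F) = 0 := by funext i; simp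
  ext (i | i) (j | j)
  all_goals first
    | (rcases i with i | i <;> rcases j with j | j <;> simp [zMat, uMat, e])
    | (rcases i with i | i <;> simp [zMat, uMat, e])
    | (rcases j with j | j <;> simp [zMat, uMat, e])
    | simp [zMat, uMat, e]

section pairing

variable [Fintype F]

theorem trace_fixed (hσ : ∀ a, σ (σ a) = a) (B S : skewMat σ m) :
    σ (trace ((B : Matrix (Fin m) (Fin m) F) * (S : Matrix (Fin m) (Fin m) F))) =
      trace ((B : Matrix (Fin m) (Fin m) F) * (S : Matrix (Fin m) (Fin m) F)) := by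
  have h : trace (cj σ ((B : Matrix (Fin m) (Fin m) F) * (S : Matrix (Fin m) (Fin m) F))) =
      σ (trace ((B : Matrix (Fin m) (Fin m) F) * (S : Matrix (Fin m) (Fin m) F))) := by
    simp [trace, cj_apply, map_sum]
  rw [← h, cj_mul, cj_coe, cj_coe, Matrix.neg_mul, Matrix.mul_neg, neg_neg, trace_mul_comm]

/-- The pairing of skew-Hermitian matrices. -/
noncomputable def pairing (θ : F) (B S : skewMat σ m) : ℂ :=
  psi F (θ * trace ((B : Matrix (Fin m) (Fin m) F) * (S : Matrix (Fin m) (Fin m) F)))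

theorem pairing_comm (θ : F) (B S : skewMat σ m) : pairing σ θ B S = pairing σ θ S B := by
  rw [pairing, pairing, trace_mul_comm]

theorem pairing_addR (θ : F) (B S S' : skewMat σ m) :
    pairing σ θ B (S + S') = pairing σ θ B S * pairing σ θ B S' := by
  simp only [pairing, AddSubgroup.coe_add, Matrix.mul_add, trace_add, mul_add,
    AddChar.map_add_eq_mul]

theorem pairing_zeroR (θ : F) (B : skewMat σ m) : pairing σ θ B 0 = 1 := by
  simp [pairing]

theorem exists_theta : ∃ θ : F, psi F θ ≠ 1 := by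
  obtain ⟨c, hc⟩ := exists_psi_ne (F := F) one_ne_zero
  exact ⟨c, by rwa [one_mul] at hc⟩

theorem qval_skew (hσ : ∀ a, σ (σ a) = a) (B : skewMat σ m) (v : Fin m → F) :
    σ (qval σ B v) = -qval σ B v := by
  have hB : ∀ i j, σ ((B : Matrix (Fin m) (Fin m) F) j i) =
      -((B : Matrix (Fin m) (Fin m) F) i j) := fun i j => congrFun (congrFun (cj_coe σ B) i) j
  simp only [qval, dotProduct, mulVec, Function.comp_apply, map_sum, map_mul, hσ, hB,
    Finset.mul_sum]
  rw [Finset.sum_comm, ← Finset.sum_neg_distrib]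
  refine Finset.sum_congr rfl fun i _ => ?_
  rw [← Finset.sum_neg_distrib]
  refine Finset.sum_congr rfl fun j _ => ?_
  ring

theorem pairing_orth [Fintype (skewMat σ m)] (hσ : ∀ a, σ (σ a) = a) (hne : σ ≠ RingHom.id F)
    {θ : F} (hθ : psi F θ ≠ 1) {B : skewMat σ m} (hB : B ≠ 0) :
    ∑ S, pairing σ θ B S = 0 := by
  let χ : AddChar (skewMat σ m) ℂ :=
    { toFun := pairing σ θ B
      map_zero_eq_one' := pairing_zeroR σ θ B
      map_add_eq_mul' := pairing_addR σ θ B }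
  refine AddChar.sum_eq_zero_of_ne_one (ψ := χ) fun h => ?_
  obtain ⟨v, hv⟩ := exists_qval_ne σ hσ hne hB
  have hmem : (qval σ B v)⁻¹ • vecMulVec v (σ ∘ v) ∈ skewMat σ m := by
    have e1 : σ ∘ σ ∘ v = v := funext fun i => hσ _
    change cj σ ((qval σ B v)⁻¹ • vecMulVec v (σ ∘ v)) = _
    rw [cj_smul, cj_vecMulVec, e1, map_inv₀, qval_skew σ hσ, inv_neg, neg_smul]
  refine hθ ?_
  have h1 : pairing σ θ B ⟨_, hmem⟩ = 1 := DFunLike.congr_fun h _
  rwa [pairing, Matrix.mul_smul, trace_smul, mul_vecMulVec, trace_vecMulVec, smul_eq_mul,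
    dotProduct_comm, show (σ ∘ v) ⬝ᵥ ((B : Matrix (Fin m) (Fin m) F) *ᵥ v) = qval σ B v from rfl,
    inv_mul_cancel₀ hv, mul_one] at h1

theorem pairing_cg (hσ : ∀ a, σ (σ a) = a) (θ : F) (K : Matrix (Fin m) (Fin m) F)
    (B S : skewMat σ m) :
    pairing σ θ B (cg σ hσ (cj σ K) S) = pairing σ θ (cg σ hσ K B) S := by
  simp only [pairing, coe_cg, cj_cj σ hσ]
  congr 2
  rw [← Matrix.mul_assoc (B : Matrix (Fin m) (Fin m) F), trace_mul_comm, ← Matrix.mul_assoc,
    ← Matrix.mul_assoc]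

end pairing

section action

variable [Fintype F] {G : Type*} [Group G] (Φ : MU σ m r →* G) {V : Type*} [AddCommGroup V]
  [Module ℂ V] (ρ : Representation ℂ G V)

/-- The Siegel operators. -/
def zOp (S : skewMat σ m) : Module.End ℂ V := ρ (Φ (zEl σ r S))

theorem setup [Fintype (skewMat σ m)] (hσ : ∀ a, σ (σ a) = a) (hne : σ ≠ RingHom.id F) {θ : F}
    (hθ : psi F θ ≠ 1) : Setup (pairing (m := m) σ θ) (zOp σ Φ ρ) where
  addL B B' S := by
    rw [pairing_comm, pairing_addR, pairing_comm σ θ S B, pairing_comm σ θ S B']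
  addR := pairing_addR σ θ
  zeroL S := by rw [pairing_comm, pairing_zeroR]
  zeroR := pairing_zeroR σ θ
  orth B hB := pairing_orth σ hσ hne hθ hB
  orth' S hS := by simpa only [pairing_comm σ θ _ S] using pairing_orth σ hσ hne hθ hS
  map_zero := by simp [zOp, zEl_zero]
  map_add S S' := by simp [zOp, zEl_add]

theorem apply_injective (g : G) : Function.Injective (ρ g) := by
  intro x y h
  have := congrArg (ρ g⁻¹) h
  rwa [← Module.End.mul_apply, ← Module.End.mul_apply, ← map_mul, inv_mul_cancel, map_one,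
    Module.End.one_apply, Module.End.one_apply] at this

theorem levi_mem_eig (hσ : ∀ a, σ (σ a) = a) {θ : F} {K Ki : Matrix (Fin m) (Fin m) F}
    (hKi : Ki * K = 1) {μ : F} (hl : lMat σ r (cj σ Ki) (cj σ K) μ ∈ MU σ m r)
    {B : skewMat σ m} {w : V} (hw : w ∈ eig (pairing σ θ) (zOp σ Φ ρ) B) :
    ρ (Φ ⟨_, hl⟩) w ∈ eig (pairing σ θ) (zOp σ Φ ρ) (cg σ hσ K B) := by
  intro S
  have key : zEl σ r S * (⟨_, hl⟩ : MU σ m r) = ⟨_, hl⟩ * zEl σ r (cg σ hσ (cj σ K) S) := by
    apply Subtype.ext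
    have h1 : cj σ Ki * cj σ K = 1 := by rw [← cj_mul, mul_eq_one_comm.1 hKi, cj_one]
    simp [zEl, zMat, lMat, coe_cg, cj_cj σ hσ, fromBlocks_multiply, ← Matrix.mul_assoc, h1]
  change ρ (Φ (zEl σ r S)) (ρ (Φ ⟨_, hl⟩) w) = _ • ρ (Φ ⟨_, hl⟩) w
  rw [← Module.End.mul_apply, ← map_mul, ← map_mul, key, map_mul, map_mul, Module.End.mul_apply]
  have h2 : ρ (Φ (zEl σ r (cg σ hσ (cj σ K) S))) w = _ • w := hw _
  rw [h2, LinearMap.map_smul, pairing_cg]

end action

section heisenberg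

variable [Fintype F] {G : Type*} [Group G] (Φ : MU σ m 1 →* G) {V : Type*} [AddCommGroup V]
  [Module ℂ V] (ρ : Representation ℂ G V)

/-- A non-zero eigenspace has dimension at least `q`. -/
theorem exists_li_eig [FiniteDimensional ℂ V] (hσ : ∀ a, σ (σ a) = a)
    (hne : σ ≠ RingHom.id F) {q : ℕ} (hF : Fintype.card F = q ^ 2) {θ : F} (hθ : psi F θ ≠ 1)
    {B : skewMat σ m} (hB : B ≠ 0) {w₀ : V} (hw₀ : w₀ ∈ eig (pairing σ θ) (zOp σ Φ ρ) B)
    (hw₀0 : w₀ ≠ 0) :
    ∃ w : Fin q → V, LinearIndependent ℂ w ∧ ∀ i, w i ∈ eig (pairing σ θ) (zOp σ Φ ρ) B := by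
  classical
  set W := eig (pairing σ θ) (zOp σ Φ ρ) B
  obtain ⟨v, hv⟩ := exists_qval_ne σ hσ hne hB
  obtain ⟨t₀, ht₀⟩ : ∃ t₀ : F, t₀ + σ t₀ = 1 := by
    obtain ⟨a, ha⟩ : ∃ a, σ a ≠ a := by
      by_contra h
      push Not at h
      exact hne (RingHom.ext h)
    refine ⟨a / (a - σ a), ?_⟩
    have h1 : a - σ a ≠ 0 := sub_ne_zero.2 (Ne.symm ha)
    rw [map_div₀, map_sub, hσ, ← neg_sub a (σ a), div_neg, ← sub_eq_add_neg, ← sub_div, div_self h1]
  let T : F → Matrix (Fin m) (Fin m) F := fun t => -(t₀ • vecMulVec (t • v) (σ ∘ (t • v)))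
  have hT : ∀ t, T t + cj σ (T t) = -vecMulVec (t • v) (σ ∘ (t • v)) := by
    intro t
    have e1 : σ ∘ σ ∘ (t • v) = t • v := funext fun i => hσ _
    simp only [T, cj_neg, cj_smul, cj_vecMulVec, e1]
    rw [← neg_add, ← add_smul, ht₀, one_smul]
  let u : F → MU σ m 1 := fun t => ⟨_, uMat_mem σ hσ (hT t)⟩
  have hcomm : ∀ (S : skewMat σ m) t, zEl σ 1 S * u t = u t * zEl σ 1 S := by
    intro S t
    apply Subtype.ext
    change zMat 1 (S : Matrix (Fin m) (Fin m) F) * uMat σ _ _ = uMat σ _ _ * zMat 1 _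
    have e : σ ∘ (0 : Fin m → F) = 0 := by funext i; simp
    rw [zMat_eq_uMat σ, uMat_mul, uMat_mul, e, zero_add, add_zero]
    congr 1
    simp [add_comm]
  have hinv : ∀ t, ∀ w ∈ W, ρ (Φ (u t)) w ∈ W := by
    intro t w hw S
    change ρ (Φ (zEl σ 1 S)) (ρ (Φ (u t)) w) = _ • ρ (Φ (u t)) w
    rw [← Module.End.mul_apply, ← map_mul, ← map_mul, hcomm, map_mul, map_mul,
      Module.End.mul_apply]
    have h2 : ρ (Φ (zEl σ 1 S)) w = _ • w := hw _
    rw [h2, LinearMap.map_smul]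
  let X : F → Module.End ℂ W := fun t => (ρ (Φ (u t))).restrict (hinv t)
  have hXinj : ∀ t, Function.Injective (X t) := fun t x y h =>
    Subtype.ext (apply_injective ρ (Φ (u t)) (congrArg Subtype.val h))
  let χ : F → F → ℂ := fun s t => psi F (θ * ((s * σ t - t * σ s) * qval σ B v))
  have hχadd : ∀ s s' t, χ (s + s') t = χ s t * χ s' t := fun s s' t => by
    simp only [χ, ← AddChar.map_add_eq_mul, map_add]; congr 1; ring
  have hχaddR : ∀ s t t', χ s (t + t') = χ s t * χ s t' := fun s t t' => by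
    simp only [χ, ← AddChar.map_add_eq_mul, map_add]; congr 1; ring
  have hXX : ∀ t s, X t * X s = χ s t • (X s * X t) := by
    intro t s
    refine LinearMap.ext fun x => Subtype.ext ?_
    change ρ (Φ (u t)) (ρ (Φ (u s)) (x : V)) = χ s t • ρ (Φ (u s)) (ρ (Φ (u t)) (x : V))
    have e1 : σ ∘ σ ∘ (t • v) = t • v := funext fun i => hσ _
    have e2 : σ ∘ σ ∘ (s • v) = s • v := funext fun i => hσ _
    have hmem : vecMulVec (s • v) (σ ∘ (t • v)) - vecMulVec (t • v) (σ ∘ (s • v)) ∈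
        skewMat σ m := by
      change cj σ (vecMulVec (s • v) (σ ∘ (t • v)) - vecMulVec (t • v) (σ ∘ (s • v))) = _
      rw [sub_eq_add_neg, cj_add, cj_neg, cj_vecMulVec, cj_vecMulVec, e1, e2, neg_add, neg_neg,
        add_comm]
    have key : u t * u s = zEl σ 1 ⟨_, hmem⟩ * (u s * u t) := by
      apply Subtype.ext
      change uMat σ _ _ * uMat σ _ _ = zMat 1 _ * (uMat σ _ _ * uMat σ _ _)
      have e : σ ∘ (s • v + t • v) = σ ∘ (s • v) + σ ∘ (t • v) := by funext i; simp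
      rw [uMat_mul, uMat_mul, zMat_eq_uMat σ, uMat_mul, e, zero_add]
      congr 1
      · exact add_comm _ _
      · simp only [zero_vecMulVec, sub_zero]
        abel
    have hy : ρ (Φ (u s)) (ρ (Φ (u t)) (x : V)) ∈ W := hinv s _ (hinv t _ x.2)
    have h3 : ρ (Φ (zEl σ 1 ⟨_, hmem⟩)) (ρ (Φ (u s)) (ρ (Φ (u t)) (x : V))) =
        pairing σ θ B ⟨_, hmem⟩ • ρ (Φ (u s)) (ρ (Φ (u t)) (x : V)) := hy _
    have h4 : pairing σ θ B ⟨_, hmem⟩ = χ s t := by
      simp only [pairing, χ]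
      congr 2
      have e3 : ∀ r : F, σ ∘ (r • v) = σ r • (σ ∘ v) := fun r => by funext i; simp
      simp only [e3, smul_vecMulVec, vecMulVec_smul, smul_smul, Matrix.mul_sub, Matrix.mul_smul,
        trace_sub, trace_smul, mul_vecMulVec, trace_vecMulVec, smul_eq_mul, qval]
      rw [dotProduct_comm]
      ring
    calc ρ (Φ (u t)) (ρ (Φ (u s)) (x : V)) = ρ (Φ (u t * u s)) (x : V) := by
          rw [map_mul, map_mul, Module.End.mul_apply]
      _ = ρ (Φ (zEl σ 1 ⟨_, hmem⟩)) (ρ (Φ (u s)) (ρ (Φ (u t)) (x : V))) := by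
          rw [key, map_mul, map_mul, map_mul, map_mul, Module.End.mul_apply, Module.End.mul_apply]
      _ = _ := by rw [h3, h4]
  have hχ0 : ∀ t, t ≠ 0 → ∑ s, χ s t = 0 := by
    intro t ht
    let ψ' : AddChar F ℂ :=
      { toFun := fun s => χ s t
        map_zero_eq_one' := by simp [χ]
        map_add_eq_mul' := fun s s' => hχadd s s' t }
    refine AddChar.sum_eq_zero_of_ne_one (ψ := ψ') fun h => hθ ?_
    have hts : σ t ≠ 0 := (map_ne_zero σ).2 ht
    have h1 : χ (t₀ / (σ t * qval σ B v)) t = 1 := DFunLike.congr_fun h _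
    simp only [χ, map_div₀, map_mul, hσ, qval_skew σ hσ] at h1
    rwa [show (t₀ / (σ t * qval σ B v) * σ t - t * (σ t₀ / (t * -qval σ B v))) * qval σ B v =
      t₀ + σ t₀ by field_simp; ring, ht₀, mul_one] at h1
  have hLI : LinearIndependent ℂ X := by
    rw [Fintype.linearIndependent_iff]
    intro g hg t₁
    have h1 : ∀ s, ∑ t, (g t * χ s t) • X t = 0 := by
      intro s
      have h2 : X s * ∑ t, (g t * χ s t) • X t = 0 := by
        have h3 := congrArg (fun Y => Y * X s) hg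
        simp only [Finset.sum_mul, smul_mul_assoc, zero_mul] at h3
        rw [Finset.mul_sum]
        refine (Finset.sum_congr rfl fun t _ => ?_).trans h3
        rw [hXX t s, smul_smul, mul_smul_comm]
      refine LinearMap.ext fun x => hXinj s ?_
      rw [LinearMap.zero_apply, map_zero]
      exact LinearMap.congr_fun h2 x
    have h4 : ∑ s, χ s (-t₁) • ∑ t, (g t * χ s t) • X t = 0 := by simp [h1]
    simp only [Finset.smul_sum, smul_smul] at h4
    rw [Finset.sum_comm, Finset.sum_eq_single t₁] at h4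
    · simp only [← mul_assoc, mul_comm (χ _ (-t₁)) (g t₁)] at h4
      simp only [mul_assoc, ← hχaddR, neg_add_cancel] at h4
      have e : ∀ s, χ s 0 = 1 := fun s => by simp [χ]
      simp only [e, mul_one, Finset.sum_const, Finset.card_univ] at h4
      rw [← Nat.cast_smul_eq_nsmul ℂ, smul_smul] at h4
      rcases smul_eq_zero.1 h4 with h | h
      · exact (mul_eq_zero.1 h).resolve_left (by exact_mod_cast Fintype.card_ne_zero)
      · exfalso
        have h5 : X t₁ ⟨w₀, hw₀⟩ = 0 := by rw [h]; rfl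
        exact hw₀0 (congrArg Subtype.val (hXinj t₁ (h5.trans (map_zero _).symm)))
    · intro t _ ht
      rw [← Finset.sum_smul]
      have : ∑ s, χ s (-t₁) * (g t * χ s t) = g t * ∑ s, χ s (-t₁ + t) := by
        rw [Finset.mul_sum]
        exact Finset.sum_congr rfl fun s _ => by rw [hχaddR]; ring
      rw [this, hχ0 _ (fun h => ht (neg_add_eq_zero.1 h).symm), mul_zero, zero_smul]
    · simp
  have hcard := hLI.fintype_card_le_finrank
  rw [Module.finrank_linearMap, hF, sq] at hcard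
  have hq : q ≤ Module.finrank ℂ W := Nat.mul_self_le_mul_self_iff.1 hcard
  let b := Module.finBasis ℂ W
  exact ⟨fun i => (b (Fin.castLE hq i) : V),
    (b.linearIndependent.comp _ (Fin.castLE_injective hq)).map' W.subtype (Submodule.ker_subtype W),
    fun i => (b (Fin.castLE hq i)).2⟩

end heisenberg

section bound

variable [Fintype F] {q : ℕ} {G : Type*} [Group G] (Φ : MU σ m r →* G) {V : Type*}
  [AddCommGroup V] [Module ℂ V] (ρ : Representation ℂ G V)

/-- The orbit of an eigencharacter. -/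
theorem exists_eig_family (hσ : ∀ a, σ (σ a) = a) (hne : σ ≠ RingHom.id F)
    (hσq : ∀ x, σ x = x ^ q) (hq : 2 ≤ q) (hF : Fintype.card F = q ^ 2)
    (hcase : 2 ≤ m ∨ r = 1) [Fintype (skewMat σ m)] {θ : F} {B : skewMat σ m} (hB : B ≠ 0)
    {d : ℕ} {w : Fin d → V} (hli : LinearIndependent ℂ w)
    (hw : ∀ i, w i ∈ eig (pairing σ θ) (zOp σ Φ ρ) B) :
    ∃ O : Finset (skewMat σ m), q ^ (2 * m) - 1 ≤ (q + 1) * O.card ∧
      ∀ C ∈ O, ∃ w : Fin d → V, LinearIndependent ℂ w ∧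
        ∀ i, w i ∈ eig (pairing σ θ) (zOp σ Φ ρ) C := by
  classical
  let adm : Matrix (Fin m) (Fin m) F → Prop := fun K =>
    K.det ≠ 0 ∧ ∃ μ : F, (r = 0 ∨ μ * σ μ = 1) ∧ σ K⁻¹.det * K.det * μ ^ r = 1
  have adm_of : ∀ K : Matrix (Fin m) (Fin m) F, K.det ≠ 0 → (2 ≤ m → K.det = 1) → adm K := by
    intro K hK hK1
    refine ⟨hK, ?_⟩
    rcases hcase with hm | hr
    · refine ⟨1, Or.inr (by simp), ?_⟩
      simp [det_nonsing_inv, hK1 hm]
    · have hs : σ K.det ≠ 0 := (map_ne_zero σ).2 hK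
      refine ⟨σ K.det / K.det, Or.inr (by rw [map_div₀, hσ]; field_simp), ?_⟩
      rw [hr, pow_one, det_nonsing_inv, Ring.inverse_eq_inv', map_inv₀]
      field_simp
  let O : Finset (skewMat σ m) := Finset.univ.filter fun C => ∃ K, adm K ∧ C = cg σ hσ K B
  obtain ⟨v₀, hv₀⟩ := exists_qval_ne σ hσ hne hB
  have hv₀0 : v₀ ≠ 0 := fun h => hv₀ (by simp [h, qval])
  refine ⟨O, orbit_card σ hσ hne hσq hq hF O (fun C hC => ?_) (fun C hC L hL => ?_) _ hv₀
    (fun v hv => ?_), fun C hC => ?_⟩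
  · obtain ⟨K, hK, rfl⟩ := (Finset.mem_filter.1 hC).2
    exact cg_ne_zero σ hσ hK.1 hB
  · obtain ⟨K, ⟨hK0, μ, hμ, hμd⟩, rfl⟩ := (Finset.mem_filter.1 hC).2
    refine Finset.mem_filter.2 ⟨Finset.mem_univ _, L * K,
      ⟨by rw [det_mul, hL, one_mul]; exact hK0, μ, hμ, ?_⟩, cg_cg σ hσ L K B⟩
    simpa [det_nonsing_inv, det_mul, hL] using hμd
  · obtain ⟨M, hM0, hM1, hMv⟩ := exists_move hv hv₀0
    refine ⟨cg σ hσ (cj σ M) B, Finset.mem_filter.2 ⟨Finset.mem_univ _, cj σ M, adm_of _ ?_ ?_,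
      rfl⟩, ?_⟩
    · rw [det_cj]; exact (map_ne_zero σ).2 hM0
    · intro h; rw [det_cj, hM1 h, map_one]
    · rw [qval_cg, cj_cj σ hσ, hMv]
  · obtain ⟨K, ⟨hK0, μ, hμ, hμd⟩, rfl⟩ := (Finset.mem_filter.1 hC).2
    have hKu : IsUnit K.det := isUnit_iff_ne_zero.2 hK0
    have hl : lMat σ r (cj σ K⁻¹) (cj σ K) μ ∈ MU σ m r := by
      refine lMat_mem σ hσ ?_ hμ ?_
      · rw [← cj_mul, mul_nonsing_inv _ hKu, cj_one]
      · rw [det_cj, det_cj, hσ]; exact hμd
    exact ⟨fun i => ρ (Φ ⟨_, hl⟩) (w i),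
      hli.map' _ (LinearMap.ker_eq_bot.2 (apply_injective ρ _)),
      fun i => levi_mem_eig σ Φ ρ hσ (nonsing_inv_mul _ hKu) hl (hw i)⟩

/-- `r = 0`: below degree `(q^(2m) - 1)/(q + 1)` the Siegel group acts trivially. -/
theorem zOp_eq_one_even [FiniteDimensional ℂ V] (hσ : ∀ a, σ (σ a) = a)
    (hne : σ ≠ RingHom.id F) (hσq : ∀ x, σ x = x ^ q) (hq : 2 ≤ q) (hF : Fintype.card F = q ^ 2)
    (hm : 2 ≤ m) (h : (q + 1) * Module.finrank ℂ V < q ^ (2 * m) - 1) :
    ∀ S, zOp σ Φ ρ S = 1 := by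
  classical
  have : Fintype (skewMat σ m) := Fintype.ofFinite _
  obtain ⟨θ, hθ⟩ := exists_theta (F := F)
  by_contra hcon
  push Not at hcon
  obtain ⟨B, hB, w, hw, hw0⟩ := exists_eig (setup σ Φ ρ hσ hne hθ) hcon
  obtain ⟨O, hO, hOw⟩ := exists_eig_family σ Φ ρ hσ hne hσq hq hF (Or.inl hm) hB (d := 1)
    (w := fun _ => w) (linearIndependent_unique_iff.2 hw0) (fun _ => hw)
  have h3 := mul_card_le_finrank (setup σ Φ ρ hσ hne hθ) O 1 hOw
  have := Nat.mul_le_mul_left (q + 1) h3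
  rw [mul_one] at this
  omega

end bound

section odd

variable [Fintype F] {q : ℕ} {G : Type*} [Group G] (Φ : MU σ m 1 →* G) {V : Type*}
  [AddCommGroup V] [Module ℂ V] (ρ : Representation ℂ G V)

/-- `r = 1`: below degree `q (q^(2m) - 1)/(q + 1)` the Siegel group acts trivially. -/
theorem zOp_eq_one_odd [FiniteDimensional ℂ V] (hσ : ∀ a, σ (σ a) = a)
    (hne : σ ≠ RingHom.id F) (hσq : ∀ x, σ x = x ^ q) (hq : 2 ≤ q) (hF : Fintype.card F = q ^ 2)
    (h : (q + 1) * Module.finrank ℂ V < q * (q ^ (2 * m) - 1)) :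
    ∀ S, zOp σ Φ ρ S = 1 := by
  classical
  have : Fintype (skewMat σ m) := Fintype.ofFinite _
  obtain ⟨θ, hθ⟩ := exists_theta (F := F)
  by_contra hcon
  push Not at hcon
  obtain ⟨B, hB, w₀, hw₀, hw₀0⟩ := exists_eig (setup σ Φ ρ hσ hne hθ) hcon
  obtain ⟨w, hli, hw⟩ := exists_li_eig σ Φ ρ hσ hne hF hθ hB hw₀ hw₀0
  obtain ⟨O, hO, hOw⟩ := exists_eig_family σ Φ ρ hσ hne hσq hq hF (Or.inr rfl) hB hli hw
  have h3 := Nat.mul_le_mul_left (q + 1) (mul_card_le_finrank (setup σ Φ ρ hσ hne hθ) O q hOw)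
  have h4 := Nat.mul_le_mul_left q hO
  have : (q + 1) * (O.card * q) = q * ((q + 1) * O.card) := by ring
  omega

end odd

end CfsgLib.InvCentralizers.UnitaryBound
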