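import Cfsg.Agent.Lib.InvCentralizers.UnitaryBound
import Cfsg.Agent.Lib.Forms.UnitaryForm
import Cfsg.Agent.Lib.Forms.WittHermitian
import Cfsg.Agent.Lib.Generators.Hermitian
import Cfsg.Agent.S0780

/-!
Representations of `SU_n(q)` of small degree are trivial.
-/

set_option autoImplicit false

namespace CfsgLib.InvCentralizers.UnitaryTrivial

open Matrix CfsgLib.InvCentralizers.HermOrbit CfsgLib.InvCentralizers.UnitaryBound

variable {F : Type*} [Field F] (σ : F →+* F) {n m r q : ℕ}

theorem J0_mul_J0 : J0 F m r * J0 F m r = 1 := by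
  simp [J0, fromBlocks_multiply]

theorem cj_J0 : cj σ (J0 F m r) = J0 F m r := by
  simp [J0, cj_fromBlocks, cj_zero, cj_one]

theorem hermForm_eq (hσq : ∀ x, σ x = x ^ q) (u v : Fin n → F) :
    Cfsg.hermForm n F q u v = (σ ∘ v) ⬝ᵥ u := by
  simp [Cfsg.hermForm, dotProduct, hσq, mul_comm]

theorem isometry_of_cj (hσq : ∀ x, σ x = x ^ q) {A : Matrix (Fin n) (Fin n) F}
    (hA : cj σ A * A = 1) (u v : Fin n → F) :
    Cfsg.hermForm n F q (A *ᵥ u) (A *ᵥ v) = Cfsg.hermForm n F q u v := by
  rw [hermForm_eq σ hσq, hermForm_eq σ hσq]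
  have h : σ ∘ (A *ᵥ v) = (σ ∘ v) ᵥ* cj σ A := by
    funext i
    simp [mulVec, vecMul, dotProduct, cj_apply, map_sum, mul_comm]
  rw [h, ← dotProduct_mulVec, mulVec_mulVec, hA, one_mulVec]

/-- A hyperbolic frame starting at a given isotropic vector. -/
theorem exists_frame [Fintype F] (hσq : ∀ x, σ x = x ^ q) (hσ : ∀ a, σ (σ a) = a)
    (hne : σ ≠ RingHom.id F) (hF : Fintype.card F = q ^ 2) (hn : n = (m + m) + r) (i₀ : Fin m)
    {v : Fin n → F} (hv : Cfsg.hermForm n F q v v = 0) (hv0 : v ≠ 0) :
    ∃ B : Matrix (Fin n) ((Fin m ⊕ Fin m) ⊕ Fin r) F,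
      cj σ B * B = J0 F m r ∧ B.col (Sum.inl (Sum.inl i₀)) = v := by
  classical
  have hqa : ∀ {k l : Type} (X : Matrix k l F), CfsgLib.Generators.qAdjoint q X = cj σ X := by
    intro k l X; ext i j; simp [CfsgLib.Generators.qAdjoint, cj_apply, hσq]
  obtain ⟨x, hx, hxx, -⟩ := CfsgLib.Generators.exists_qAdjoint_mul_eq (h := J0 F m r) hF
    (IsUnit.of_mul_eq_one _ J0_mul_J0) (by rw [hqa, cj_J0])
  rw [hqa] at hxx
  let e : Fin n ≃ (Fin m ⊕ Fin m) ⊕ Fin r :=
    (finCongr hn).trans (finSumFinEquiv.symm.trans (Equiv.sumCongr finSumFinEquiv.symm (Equiv.refl _)))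
  let B := x.submatrix e id
  have hB : cj σ B * B = J0 F m r := by
    rw [← hxx]
    change (cj σ x).submatrix id e * x.submatrix e id = _
    rw [submatrix_mul_equiv]; simp
  set c₀ := B.col (Sum.inl (Sum.inl i₀)) with hc₀
  have hc00 : c₀ ≠ 0 := by
    intro h
    have hcol : x.col (Sum.inl (Sum.inl i₀)) = 0 := funext fun i => by
      have := congrFun h (e.symm i)
      simpa [c₀, B] using this
    have hdet := det_eq_zero_of_column_eq_zero (A := x) (Sum.inl (Sum.inl i₀))
      (fun i => congrFun hcol i)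
    exact ((Matrix.isUnit_iff_isUnit_det _).1 hx).ne_zero hdet
  have hc0iso : Cfsg.hermForm n F q c₀ c₀ = 0 := by
    have h1 := congrFun (congrFun hB (Sum.inl (Sum.inl i₀))) (Sum.inl (Sum.inl i₀))
    rw [hermForm_eq σ hσq]
    simpa [J0, mul_apply, cj_apply, c₀, dotProduct] using h1
  let eX := LinearEquiv.toSpanNonzeroSingleton F (Fin n → F) c₀ hc00
  let f : (Submodule.span F {c₀}) →ₗ[F] (Fin n → F) :=
    (LinearMap.toSpanSingleton F (Fin n → F) v).comp eX.symm.toLinearMap
  have hfinj : Function.Injective f :=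
    (smul_left_injective F hv0).comp eX.symm.injective
  obtain ⟨g, hg, hgX⟩ := CfsgLib.Forms.witt_extension_hermitian σ hne hσ
    (CfsgLib.Forms.hermBundled n σ) (CfsgLib.Forms.hermBundled_isSymm hσ)
    (CfsgLib.Forms.hermBundled_nondegenerate hσ) _ f hfinj fun a b => by
      obtain ⟨s, hs⟩ := Submodule.mem_span_singleton.1 a.2
      obtain ⟨t, ht⟩ := Submodule.mem_span_singleton.1 b.2
      rw [← hs, ← ht]
      simp only [map_smulₛₗ, LinearMap.smul_apply, RingHom.id_apply,
        CfsgLib.Forms.hermBundled_apply hσq, hc0iso]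
      have ea : ∀ (a : Submodule.span F {c₀}) (s : F), s • c₀ = a → f a = s • v := by
        intro a s hs
        have : a = eX s := Subtype.ext hs.symm
        rw [this]
        simp [f]
      have hsc : ∀ (s t : F) (w : Fin n → F), Cfsg.hermForm n F q w w = 0 →
          Cfsg.hermForm n F q (t • w) (s • w) = 0 := by
        intro s t w hw
        have e1 : Cfsg.hermForm n F q (t • w) (s • w) = t * s ^ q * Cfsg.hermForm n F q w w := by
          simp only [Cfsg.hermForm, Pi.smul_apply, smul_eq_mul, mul_pow, Finset.mul_sum]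
          exact Finset.sum_congr rfl fun i _ => by ring
        rw [e1, hw, mul_zero]
      simp [ea a s hs, ea b t ht, CfsgLib.Forms.hermBundled_apply hσq, hsc s t v hv]
  have hG : cj σ (LinearMap.toMatrix' g.toLinearMap) * LinearMap.toMatrix' g.toLinearMap = 1 := by
    ext i j
    have h1 := hg (Pi.single i 1) (Pi.single j 1)
    simp only [CfsgLib.Forms.hermBundled_apply hσq, hermForm_eq σ hσq] at h1
    rw [mul_apply, Matrix.one_apply]
    simp only [cj_apply, LinearMap.toMatrix'_apply]
    refine h1.trans ?_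
    rcases eq_or_ne i j with rfl | hij
    · simp [dotProduct, Pi.single_apply]
    · simp [dotProduct, Pi.single_apply, hij, Ne.symm hij]
  refine ⟨LinearMap.toMatrix' g.toLinearMap * B, ?_, ?_⟩
  · rw [cj_mul, Matrix.mul_assoc, ← Matrix.mul_assoc _ (LinearMap.toMatrix' g.toLinearMap), hG,
      Matrix.one_mul, hB]
  · have h1 := hgX ⟨c₀, Submodule.mem_span_singleton_self c₀⟩
    have h2 : f ⟨c₀, Submodule.mem_span_singleton_self c₀⟩ = v := by
      have : (⟨c₀, Submodule.mem_span_singleton_self c₀⟩ : Submodule.span F {c₀}) = eX 1 :=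
        Subtype.ext (one_smul F c₀).symm
      rw [this]; simp [f]
    funext i
    rw [← h2, ← h1]
    change _ = g.toLinearMap c₀ i
    rw [← LinearMap.toMatrix'_mulVec]
    simp [mul_apply, mulVec, dotProduct, c₀]

set_option maxHeartbeats 800000 in
/-- Small representations of `SU` kill every transvection. -/
theorem eq_one_of_small [Fintype F] [DecidableEq F] (hσq : ∀ x, σ x = x ^ q)
    (hσ : ∀ a, σ (σ a) = a) (hne : σ ≠ RingHom.id F) (hF : Fintype.card F = q ^ 2)
    (hn : n = (m + m) + r) (hn3 : 3 ≤ n) (h32 : ¬ (n = 3 ∧ q = 2))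
    {V : Type*} [AddCommGroup V] [Module ℂ V] (ρ : Representation ℂ (Cfsg.SU n F q) V)
    (hsmall : ∀ Φ : MU σ m r →* Cfsg.SU n F q, ∀ S, zOp σ Φ ρ S = 1) (hm : 0 < m) :
    ∀ g, ρ g = 1 := by
  classical
  intro g
  have hg : g ∈ Subgroup.closure {A : ↥(Cfsg.SU n F q) | ∃ (v : Fin n → F) (c : F),
      Cfsg.hermForm n F q v v = 0 ∧
      ((A : Matrix.SpecialLinearGroup (Fin n) F) : Matrix (Fin n) (Fin n) F) =
        Cfsg.unitaryTransvection n q v c} := by
    rw [Cfsg.Agent.S0780.result hF n hn3 h32]; trivial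
  induction hg using Subgroup.closure_induction with
  | one => exact map_one ρ
  | mul x y _ _ hx hy => rw [map_mul, hx, hy, one_mul]
  | inv x _ hx =>
    have h1 : ρ x * ρ x⁻¹ = 1 := by rw [← map_mul, mul_inv_cancel, map_one]
    rwa [hx, one_mul] at h1
  | mem A hA =>
    obtain ⟨v, c, hv, hA⟩ := hA
    by_cases hA1 : A = 1
    · rw [hA1, map_one]
    have hv0 : v ≠ 0 := by
      rintro rfl
      refine hA1 (Subtype.ext (Subtype.ext (hA.trans ?_)))
      simp [Cfsg.unitaryTransvection]
    have hc0 : c ≠ 0 := by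
      rintro rfl
      refine hA1 (Subtype.ext (Subtype.ext (hA.trans ?_)))
      simp [Cfsg.unitaryTransvection]
    let i₀ : Fin m := ⟨0, hm⟩
    obtain ⟨B, hB, hBv⟩ := exists_frame σ hσq hσ hne hF hn i₀ hv hv0
    set Bi := J0 F m r * cj σ B with hBi
    have hl : Bi * B = 1 := by rw [hBi, Matrix.mul_assoc, hB, J0_mul_J0]
    let e : Fin n ≃ (Fin m ⊕ Fin m) ⊕ Fin r := (Fintype.equivFinOfCardEq (by simp [hn])).symm
    have hr : B * Bi = 1 := (mul_eq_one_comm_of_equiv e.symm).1 hl
    have hmem : ∀ D ∈ MU σ m r, cj σ (B * D * Bi) * (B * D * Bi) = 1 ∧ (B * D * Bi).det = 1 := by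
      intro D hD
      refine ⟨?_, by rw [det_conj_of_mul_eq_one hr hl, hD.2]⟩
      calc cj σ (B * D * Bi) * (B * D * Bi)
          = cj σ Bi * (cj σ D * (cj σ B * B) * D) * Bi := by simp only [cj_mul, Matrix.mul_assoc]
        _ = cj σ Bi * (J0 F m r * Bi) := by rw [hB, hD.1, Matrix.mul_assoc]
        _ = 1 := by
          rw [hBi, ← Matrix.mul_assoc (J0 F m r), J0_mul_J0, Matrix.one_mul, ← cj_mul, ← hBi, hr,
            cj_one]
    let Φ : MU σ m r →* Cfsg.SU n F q :=
      { toFun := fun D => ⟨(⟨B * D.1 * Bi, (hmem D.1 D.2).2⟩ :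
            Matrix.SpecialLinearGroup (Fin n) F),
          fun u w => isometry_of_cj σ hσq (hmem D.1 D.2).1 u w⟩
        map_one' := by
          apply Subtype.ext; apply Subtype.ext
          simp [hr]
        map_mul' := fun D E => by
          apply Subtype.ext; apply Subtype.ext
          change B * (D.1 * E.1) * Bi = B * D.1 * Bi * (B * E.1 * Bi)
          simp only [Matrix.mul_assoc]
          rw [← Matrix.mul_assoc Bi, hl, Matrix.one_mul] }
    -- the transvection is the image of a Siegel element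
    have hiso : cj σ ((A : Matrix.SpecialLinearGroup (Fin n) F) : Matrix (Fin n) (Fin n) F) *
        ((A : Matrix.SpecialLinearGroup (Fin n) F) : Matrix (Fin n) (Fin n) F) = 1 := by
      ext i j
      have h1 := A.2 (Pi.single j 1) (Pi.single i 1)
      rw [hermForm_eq σ hσq, hermForm_eq σ hσq] at h1
      simpa [mul_apply, cj_apply, dotProduct, Pi.single_apply, Matrix.one_apply, mulVec, eq_comm]
        using h1
    have hskew : c + σ c = 0 := by
      have e1 : σ ∘ σ ∘ v = v := funext fun i => hσ _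
      rw [hA, Cfsg.unitaryTransvection, show (fun j => v j ^ q) = σ ∘ v from funext fun j => (hσq _).symm,
        cj_add, cj_one, cj_smul, cj_vecMulVec, e1] at hiso
      simp only [Matrix.mul_add, Matrix.add_mul, Matrix.one_mul, Matrix.mul_one, Matrix.smul_mul,
        Matrix.mul_smul, vecMulVec_mul_vecMulVec,
        show (σ ∘ v) ⬝ᵥ v = 0 from by rw [← hermForm_eq σ hσq]; exact hv,
        smul_zero, zero_smul, add_zero, vecMulVec_zero] at hiso
      have h2 : (c + σ c) • vecMulVec v (σ ∘ v) = 0 := by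
        rw [add_smul]
        linear_combination (norm := abel) hiso
      rcases smul_eq_zero.1 h2 with h | h
      · exact h
      · exfalso
        obtain ⟨k, hk⟩ := Function.ne_iff.1 hv0
        have := congrFun (congrFun h k) k
        simp [vecMulVec] at this
        exact hk this
    have hS : c • Matrix.single i₀ i₀ (1 : F) ∈ skewMat σ m := by
      change cj σ (c • Matrix.single i₀ i₀ (1 : F)) = _
      ext i j
      by_cases h : i₀ = i ∧ i₀ = j
      · obtain ⟨rfl, rfl⟩ := h
        simp [cj_apply]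
        linear_combination hskew
      · have h' : ¬ (i₀ = j ∧ i₀ = i) := fun ⟨a, b⟩ => h ⟨b, a⟩
        simp [cj_apply, Matrix.single_apply, h, h']
    have key : A = Φ (zEl σ r ⟨_, hS⟩) := by
      apply Subtype.ext; apply Subtype.ext
      change _ = B * zMat r (c • Matrix.single i₀ i₀ (1 : F)) * Bi
      have hz : zMat r (c • Matrix.single i₀ i₀ (1 : F)) =
          1 + Matrix.single (Sum.inl (Sum.inl i₀)) (Sum.inl (Sum.inr i₀)) c := by
        ext (i | i) (j | j)
        all_goals first
          | (rcases i with i | i <;> rcases j with j | j <;>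
              simp [zMat, Matrix.one_apply, Matrix.single_apply])
          | (rcases i with i | i <;> simp [zMat, Matrix.one_apply, Matrix.single_apply])
          | (rcases j with j | j <;> simp [zMat, Matrix.one_apply, Matrix.single_apply])
          | simp [zMat, Matrix.one_apply, Matrix.single_apply]
      rw [hA, hz, Matrix.mul_add, Matrix.add_mul, Matrix.mul_one, hr, Cfsg.unitaryTransvection]
      congr 1
      have hrow : Bi (Sum.inl (Sum.inr i₀)) = fun j => v j ^ q := by
        funext j
        rw [← hσq, ← hBv]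
        simp [hBi, mul_apply, J0, Fintype.sum_sum_type, cj_apply, Matrix.one_apply]
      ext i j
      rw [Matrix.mul_apply, Finset.sum_eq_single (Sum.inl (Sum.inr i₀))]
      · simp [hrow, ← hBv, vecMulVec_apply]; ring
      · intro k _ hk
        simp [Matrix.mul_apply, Matrix.single_apply, Ne.symm hk]
      · simp
    rw [key]
    exact hsmall Φ ⟨_, hS⟩

/-- A trivial representation of degree at least two is not irreducible. -/
theorem not_isIrreducible_of_trivial {G : Type*} [Group G] {k : ℕ} (hk : 2 ≤ k)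
    (ρ : Representation ℂ G (Fin k → ℂ)) (htriv : ∀ g, ρ g = 1) : ¬ ρ.IsIrreducible := by
  intro hρ
  let S : Subrepresentation ρ :=
    { toSubmodule := Submodule.span ℂ {Pi.single ⟨0, by omega⟩ 1}
      apply_mem_toSubmodule := fun g v hv => by rw [htriv g]; exact hv }
  rcases hρ.eq_bot_or_eq_top S with h | h
  · have h' : S.toSubmodule = ⊥ := by rw [h]; rfl
    have := congrFun (Submodule.span_singleton_eq_bot.1 h') ⟨0, by omega⟩
    simp at this
  · have h' : S.toSubmodule = ⊤ := by rw [h]; rfl
    have hf := congrArg (fun K : Submodule ℂ (Fin k → ℂ) => Module.finrank ℂ K) h'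
    simp only [S, finrank_top, Module.finrank_fin_fun] at hf
    rw [finrank_span_singleton (by simp)] at hf
    omega

end CfsgLib.InvCentralizers.UnitaryTrivial
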